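/-
Counting elements of each order.
-/
import Cfsg.Agent.Lib.SchurExt.Frobenius
import Mathlib

set_option autoImplicit false

namespace CfsgLib.Spectrum

variable (G : Type*) [Group G]

/-- The number of elements of order `m`. -/
noncomputable def orderCount (m : ℕ) : ℕ := Nat.card {g : G // orderOf g = m}

variable {G} [Finite G]

theorem orderCount_ne_zero_iff {m : ℕ} : orderCount G m ≠ 0 ↔ ∃ g : G, orderOf g = m := by
  rw [orderCount, ← Nat.pos_iff_ne_zero, Nat.card_pos_iff]
  constructor
  · rintro ⟨⟨g, hg⟩, -⟩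
    exact ⟨g, hg⟩
  · rintro ⟨g, hg⟩
    exact ⟨⟨⟨g, hg⟩⟩, inferInstance⟩

theorem orderCount_one : orderCount G 1 = 1 := by
  rw [orderCount, Nat.card_eq_one_iff_unique]
  exact ⟨⟨fun a b => Subtype.ext ((orderOf_eq_one_iff.1 a.2).trans (orderOf_eq_one_iff.1 b.2).symm)⟩,
    ⟨⟨1, orderOf_one⟩⟩⟩

theorem orderCount_ne_zero_of_dvd {m d : ℕ} (hm : orderCount G m ≠ 0) (hd : d ∣ m) :
    orderCount G d ≠ 0 := by
  obtain ⟨g, rfl⟩ := orderCount_ne_zero_iff.1 hm
  exact orderCount_ne_zero_iff.2 ⟨g ^ (orderOf g / d), orderOf_pow_orderOf_div (orderOf_pos g).ne' hd⟩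

theorem orderCount_eq_zero_of_dvd {m d : ℕ} (hd : orderCount G d = 0) (h : d ∣ m) :
    orderCount G m = 0 :=
  by_contra fun hm => orderCount_ne_zero_of_dvd hm h hd

theorem orderCount_ne_zero_of_prime_dvd {p : ℕ} (hp : p.Prime) (h : p ∣ Nat.card G) :
    orderCount G p ≠ 0 := by
  have : Fact p.Prime := ⟨hp⟩
  obtain ⟨g, hg⟩ := exists_prime_orderOf_dvd_card' p h
  exact orderCount_ne_zero_iff.2 ⟨g, hg⟩

theorem dvd_card_of_orderCount_ne_zero {m : ℕ} (hm : orderCount G m ≠ 0) : m ∣ Nat.card G := by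
  obtain ⟨g, rfl⟩ := orderCount_ne_zero_iff.1 hm
  exact orderOf_dvd_natCard g

theorem totient_dvd_orderCount (m : ℕ) : m.totient ∣ orderCount G m :=
  CfsgLib.SchurExt.totient_dvd_card_orderOf m

theorem even_orderCount {m : ℕ} (hm : 3 ≤ m) : Even (orderCount G m) :=
  (Nat.totient_even hm).trans_dvd (totient_dvd_orderCount m)

/-- Frobenius' divisibility in terms of the order counts. -/
theorem dvd_sum_orderCount {m : ℕ} (hm : m ∣ Nat.card G) :
    m ∣ ∑ d ∈ m.divisors, orderCount G d := by
  classical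
  let _ := Fintype.ofFinite G
  have hm0 : m ≠ 0 := fun h => Nat.card_pos.ne' (Nat.eq_zero_of_zero_dvd (h ▸ hm))
  have h := CfsgLib.SchurExt.dvd_card_pow_eq_one_of_dvd hm
  rw [Nat.card_eq_fintype_card, Fintype.card_subtype] at h
  refine h.trans (dvd_of_eq (Eq.trans ((sum_card_orderOf_eq_card_pow_eq_one hm0).trans
    (by convert rfl using 3)).symm (Finset.sum_congr ?_ fun d _ => ?_)))
  · ext d; simp [Nat.mem_divisors, hm0]
  · rw [orderCount, Nat.card_eq_fintype_card, Fintype.card_subtype]

/-- Divisibility for elements of order `m`. -/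
theorem dvd_sum_orderCount' {m : ℕ} (hm : orderCount G m ≠ 0) :
    m ∣ ∑ d ∈ m.divisors, orderCount G d :=
  dvd_sum_orderCount (dvd_card_of_orderCount_ne_zero hm)

theorem card_eq_sum_orderCount {A : Finset ℕ} (hA : ∀ m, orderCount G m ≠ 0 → m ∈ A) :
    Nat.card G = ∑ m ∈ A, orderCount G m := by
  classical
  let _ := Fintype.ofFinite G
  rw [Nat.card_eq_fintype_card, ← Finset.card_univ,
    Finset.card_eq_sum_card_fiberwise (f := fun g : G => orderOf g) (t := A)
      (fun g _ => hA _ (orderCount_ne_zero_iff.2 ⟨g, rfl⟩))]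
  refine Finset.sum_congr rfl fun d _ => ?_
  rw [orderCount, Nat.card_eq_fintype_card, Fintype.card_subtype]

/-- A set of element orders stable under products with the possible primes is all. -/
theorem mem_of_closed {A π : Finset ℕ} (hπ : ∀ p : ℕ, p.Prime → orderCount G p ≠ 0 → p ∈ π)
    (hone : 1 ∈ A) (hstep : ∀ a ∈ A, ∀ p ∈ π, orderCount G (p * a) ≠ 0 → p * a ∈ A) :
    ∀ m, orderCount G m ≠ 0 → m ∈ A := by
  intro m
  induction m using Nat.strong_induction_on with
  | _ m ih =>
  intro hm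
  by_cases h1 : m = 1
  · exact h1 ▸ hone
  obtain ⟨p, hp, a, rfl⟩ := Nat.exists_prime_and_dvd h1
  have ha0 : 0 < p * a := by
    obtain ⟨g, hg⟩ := orderCount_ne_zero_iff.1 hm
    exact hg ▸ orderOf_pos g
  have ha : a < p * a := lt_mul_of_one_lt_left (Nat.pos_of_mul_pos_left ha0) hp.one_lt
  exact hstep a (ih a ha (orderCount_ne_zero_of_dvd hm (dvd_mul_left a p))) p
    (hπ p hp (orderCount_ne_zero_of_dvd hm (dvd_mul_right p a))) hm

/-- An upper bound on the order from a centralizer. -/
theorem card_le_centralizer_mul_orderCount (y : G) :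
    Nat.card G ≤ Nat.card (Subgroup.centralizer ({y} : Set G)) * orderCount G (orderOf y) := by
  set C := Subgroup.centralizer ({y} : Set G)
  rw [← C.card_mul_index]
  refine Nat.mul_le_mul_left _ ?_
  rw [Subgroup.index_eq_card, orderCount]
  refine Nat.card_le_card_of_injective (fun q : G ⧸ C => (⟨q.out * y * q.out⁻¹,
    MulEquiv.orderOf_eq (MulAut.conj q.out) y⟩ : {g : G // orderOf g = orderOf y})) ?_
  intro q r hqr
  have h'' : q.out * y * q.out⁻¹ = r.out * y * r.out⁻¹ := congrArg Subtype.val hqr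
  refine (q.out_eq.symm.trans (QuotientGroup.eq.2 ?_)).trans r.out_eq
  refine Subgroup.mem_centralizer_singleton_iff.2 ?_
  calc q.out⁻¹ * r.out * y = q.out⁻¹ * (r.out * y * r.out⁻¹) * r.out := by group
    _ = q.out⁻¹ * (q.out * y * q.out⁻¹) * r.out := by rw [h'']
    _ = y * (q.out⁻¹ * r.out) := by group

variable {p : ℕ} [hp : Fact p.Prime]

/-- If no product of `p` with another prime is an element order and the Sylow subgroups have order
`p`, then elements of order `p` are self-centralizing and bound the group order. -/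
theorem card_le_mul_orderCount (hp2 : ¬ p ^ 2 ∣ Nat.card G) (hy : orderCount G p ≠ 0)
    (hq : ∀ q : ℕ, q.Prime → q ≠ p → orderCount G (p * q) = 0) :
    Nat.card G ≤ p * orderCount G p := by
  obtain ⟨y, hy⟩ := orderCount_ne_zero_iff.1 hy
  have h := card_le_centralizer_mul_orderCount y
  rw [hy] at h
  refine h.trans (Nat.mul_le_mul_right _ ?_)
  set C := Subgroup.centralizer ({y} : Set G)
  have hCp : IsPGroup p C := by
    rw [IsPGroup.iff_orderOf]
    intro c
    refine ⟨_, Nat.eq_prime_pow_of_unique_prime_dvd (orderOf_pos c).ne' fun {q} hq' hqc => ?_⟩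
    by_contra hne
    have h1 : orderOf ((c : G) ^ (orderOf c / q)) = q := by
      rw [← Subgroup.orderOf_coe]
      exact orderOf_pow_orderOf_div (orderOf_pos (c : G)).ne' (by rwa [Subgroup.orderOf_coe])
    have hcomm : Commute y ((c : G) ^ (orderOf c / q)) :=
      (Commute.pow_right (Subgroup.mem_centralizer_singleton_iff.1 c.2).symm _)
    have h2 := hcomm.orderOf_mul_eq_mul_orderOf_of_coprime
      (by rw [hy, h1]; exact (Nat.coprime_primes hp.out hq').2 (Ne.symm hne))
    rw [hy, h1] at h2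
    exact orderCount_ne_zero_iff.2 ⟨_, h2⟩ (hq q hq' hne)
  obtain ⟨k, hk⟩ := hCp.exists_card_eq
  rw [hk]
  calc p ^ k ≤ p ^ 1 := by
        refine Nat.pow_le_pow_right hp.out.pos ?_
        by_contra hk2
        exact hp2 ((pow_dvd_pow p (show 2 ≤ k by omega)).trans (hk ▸ C.card_subgroup_dvd_card))
    _ = p := pow_one p

theorem sylow_eq_zpowers (hp2 : ¬ p ^ 2 ∣ Nat.card G) {x : G} (hx : orderOf x = p) (P : Sylow p G)
    (hxP : x ∈ (P : Subgroup G)) : (P : Subgroup G) = Subgroup.zpowers x := by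
  refine (Subgroup.eq_of_le_of_card_ge (Subgroup.zpowers_le.2 hxP) ?_).symm
  obtain ⟨k, hk⟩ := P.2.exists_card_eq
  rw [Nat.card_zpowers, hx, hk]
  calc p ^ k ≤ p ^ 1 := by
        refine Nat.pow_le_pow_right hp.out.pos ?_
        by_contra hk2
        exact hp2 ((pow_dvd_pow p (show 2 ≤ k by omega)).trans (hk ▸ Subgroup.card_subgroup_dvd_card _))
    _ = p := pow_one p

/-- The count of elements of order `p` for Sylow subgroups of order `p`. -/
theorem orderCount_eq_pred_mul_card_sylow (hp2 : ¬ p ^ 2 ∣ Nat.card G) (hdvd : p ∣ Nat.card G) :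
    orderCount G p = (p - 1) * Nat.card (Sylow p G) ∧ Nat.card (Sylow p G) ∣ Nat.card G := by
  classical
  let _ := Fintype.ofFinite G
  refine ⟨?_, ?_⟩
  · let _ := Fintype.ofFinite (Sylow p G)
    have hcard : ∀ P : Sylow p G, Nat.card {x : (P : Subgroup G) // x ≠ 1} = p - 1 := by
      intro P
      obtain ⟨x, hx⟩ : ∃ x : (P : Subgroup G), orderOf x = p :=
        exists_prime_orderOf_dvd_card' p (P.dvd_card_of_dvd_card hdvd)
      have hc : Nat.card (P : Subgroup G) = p := by
        rw [sylow_eq_zpowers hp2 (x := (x : G)) (by rwa [Subgroup.orderOf_coe]) P x.2,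
          Nat.card_zpowers, Subgroup.orderOf_coe, hx]
      rw [Nat.card_eq_fintype_card, Fintype.card_subtype_compl, Fintype.card_subtype_eq,
        ← Nat.card_eq_fintype_card, hc]
    have he : Nat.card (Σ P : Sylow p G, {x : (P : Subgroup G) // x ≠ 1}) = orderCount G p := by
      have hord : ∀ (P : Sylow p G) (x : (P : Subgroup G)), x ≠ 1 → orderOf (x : G) = p := by
        intro P x hx
        obtain ⟨k, hk⟩ := IsPGroup.iff_orderOf.1 P.2 x
        rw [Subgroup.orderOf_coe, hk]
        rcases k with _ | _ | k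
        · exact absurd (orderOf_eq_one_iff.1 hk) hx
        · exact pow_one p
        · exact absurd ((pow_dvd_pow p (show 2 ≤ k + 2 by omega)).trans
            (hk ▸ (Subgroup.orderOf_coe x ▸ orderOf_dvd_natCard (x : G)))) hp2
      refine Nat.card_congr (Equiv.ofBijective
        (fun z => (⟨((z.2 : (z.1 : Subgroup G)) : G), hord z.1 z.2 z.2.2⟩ :
          {g : G // orderOf g = p})) ⟨?_, ?_⟩)
      · rintro ⟨P, x, hx⟩ ⟨Q, y, hy⟩ h
        have hxy : (x : G) = y := congrArg Subtype.val h
        obtain rfl : P = Q := Sylow.ext (by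
          rw [sylow_eq_zpowers hp2 (hord P x hx) P x.2, hxy,
            ← sylow_eq_zpowers hp2 (hord Q y hy) Q y.2])
        obtain rfl : x = y := Subtype.ext hxy
        rfl
      · rintro ⟨g, hg⟩
        obtain ⟨P, hP⟩ := (IsPGroup.of_card (n := 1) (G := Subgroup.zpowers g)
          (by rw [Nat.card_zpowers, hg, pow_one])).exists_le_sylow
        refine ⟨⟨P, ⟨g, hP (Subgroup.mem_zpowers g)⟩, fun h => hp.out.ne_one ?_⟩, rfl⟩
        rw [← hg, orderOf_eq_one_iff]
        exact congrArg Subtype.val h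
    rw [← he, Nat.card_sigma, Finset.sum_congr rfl fun P _ => hcard P, Finset.sum_const,
      Finset.card_univ, smul_eq_mul, mul_comm, Nat.card_eq_fintype_card]
  · rw [(Classical.arbitrary (Sylow p G)).card_eq_index_normalizer]
    exact Subgroup.index_dvd_card _

/-- With Sylow subgroups of order `p` the number of elements of order `p` divides that of order
`p * q`. -/
theorem orderCount_dvd_orderCount_mul (hp2 : ¬ p ^ 2 ∣ Nat.card G) {q : ℕ} (hq : q.Prime)
    (hne : q ≠ p) : orderCount G p ∣ orderCount G (p * q) := by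
  classical
  let Y := {y : G // orderOf y = p}
  let Z : Y → Type _ := fun y => {z : G // Commute (y : G) z ∧ orderOf z = q}
  have hcop : Nat.Coprime p q := (Nat.coprime_primes hp.out hq).2 (Ne.symm hne)
  have hle : ∀ y y' : Y, Nat.card (Z y) ≤ Nat.card (Z y') := by
    intro y y'
    obtain ⟨P, hP⟩ := (IsPGroup.of_card (n := 1) (G := Subgroup.zpowers (y : G))
      (by rw [Nat.card_zpowers, y.2, pow_one])).exists_le_sylow
    obtain ⟨Q, hQ⟩ := (IsPGroup.of_card (n := 1) (G := Subgroup.zpowers (y' : G))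
      (by rw [Nat.card_zpowers, y'.2, pow_one])).exists_le_sylow
    obtain ⟨g, hg⟩ := MulAction.exists_smul_eq G P Q
    have hmem : (y' : G) ∈ (g • P : Sylow p G) := by rw [hg]; exact hQ (Subgroup.mem_zpowers _)
    have hmem' : g⁻¹ * (y' : G) * g ∈ Subgroup.zpowers (y : G) := by
      rw [← sylow_eq_zpowers hp2 y.2 P (hP (Subgroup.mem_zpowers _))]
      obtain ⟨k, hk, he⟩ := hmem
      change g * k * g⁻¹ = (y' : G) at he
      rw [← he]
      have : g⁻¹ * (g * k * g⁻¹) * g = k := by group
      rw [this]; exact hk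
    obtain ⟨i, hi⟩ := Subgroup.mem_zpowers_iff.1 hmem'
    refine Nat.card_le_card_of_injective (fun z : Z y => (⟨g * z.1 * g⁻¹, ?_, ?_⟩ : Z y')) ?_
    · have he : (y' : G) = g * (y : G) ^ i * g⁻¹ := by rw [hi]; group
      rw [he]
      exact (z.2.1.zpow_left i).map (MulAut.conj g).toMonoidHom
    · exact (MulEquiv.orderOf_eq (MulAut.conj g) z.1).trans z.2.2
    · intro a b h
      exact Subtype.ext (mul_left_cancel (mul_right_cancel (congrArg Subtype.val h)))
  have hsig : Nat.card (Σ y : Y, Z y) = orderCount G (p * q) := by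
    refine Nat.card_congr (Equiv.ofBijective (fun w => (⟨(w.1 : G) * w.2.1, by
      rw [w.2.2.1.orderOf_mul_eq_mul_orderOf_of_coprime (by rw [w.1.2, w.2.2.2]; exact hcop),
        w.1.2, w.2.2.2]⟩ : {x : G // orderOf x = p * q})) ⟨?_, ?_⟩)
    · rintro ⟨y, z, hz, hzo⟩ ⟨y', z', hz', hzo'⟩ h
      have he : (y : G) * z = y' * z' := congrArg Subtype.val h
      have h1 : ((y : G) * z) ^ q = ((y' : G) * z') ^ q := by rw [he]
      have hzq : z ^ q = 1 := hzo ▸ pow_orderOf_eq_one z
      have hzq' : z' ^ q = 1 := hzo' ▸ pow_orderOf_eq_one z'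
      rw [hz.mul_pow, hz'.mul_pow, hzq, hzq', mul_one, mul_one] at h1
      obtain ⟨u, hu⟩ := exists_pow_eq_self_of_coprime
        (show Nat.Coprime q (orderOf (y : G)) by rw [y.2]; exact hcop.symm)
      obtain ⟨v, hv⟩ := exists_pow_eq_self_of_coprime
        (show Nat.Coprime q (orderOf (y' : G)) by rw [y'.2]; exact hcop.symm)
      have hyy : (y : G) = y' := by
        have e1 : ((y' : G)⁻¹ * y) ^ q.gcd p = 1 := pow_gcd_eq_one.2 ⟨?_, ?_⟩
        · rw [Nat.Coprime.gcd_eq_one hcop.symm, pow_one, inv_mul_eq_one] at e1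
          exact e1.symm
        · have hc : Commute ((y' : G)⁻¹) y := by
            rw [Commute.inv_left_iff]
            have hy : (y : G) ∈ Subgroup.zpowers ((y : G) ^ q) :=
              ⟨(u : ℤ), by simpa only [zpow_natCast] using hu⟩
            rw [h1] at hy
            obtain ⟨j, hj⟩ := hy
            rw [← hj]
            exact ((Commute.refl (y' : G)).pow_right q).zpow_right j
          rw [hc.mul_pow, inv_pow, h1, inv_mul_cancel]
        · have hc : Commute ((y' : G)⁻¹) y := by
            rw [Commute.inv_left_iff]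
            have hy : (y : G) ∈ Subgroup.zpowers ((y : G) ^ q) :=
              ⟨(u : ℤ), by simpa only [zpow_natCast] using hu⟩
            rw [h1] at hy
            obtain ⟨j, hj⟩ := hy
            rw [← hj]
            exact ((Commute.refl (y' : G)).pow_right q).zpow_right j
          have k1 : (y : G) ^ p = 1 := by
            have := pow_orderOf_eq_one (y : G); rwa [y.2] at this
          have k2 : (y' : G) ^ p = 1 := by
            have := pow_orderOf_eq_one (y' : G); rwa [y'.2] at this
          rw [hc.mul_pow, inv_pow, k1, k2, inv_one, one_mul]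
      obtain rfl : y = y' := Subtype.ext hyy
      obtain rfl : z = z' := mul_left_cancel he
      rfl
    · rintro ⟨x, hx⟩
      have hb := Nat.gcd_eq_gcd_ab p q
      rw [hcop.gcd_eq_one] at hb
      push_cast at hb
      set a := Nat.gcdA p q
      set b := Nat.gcdB p q
      have hy : orderOf (x ^ ((q : ℤ) * b)) = p := by
        refine orderOf_eq_prime ?_ fun h => ?_
        · rw [← zpow_natCast, ← zpow_mul, ← orderOf_dvd_iff_zpow_eq_one, hx]
          exact ⟨b, by push_cast; ring⟩
        · rw [← orderOf_dvd_iff_zpow_eq_one, hx] at h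
          push_cast at h
          rw [mul_comm (p : ℤ), Int.mul_dvd_mul_iff_left (by exact_mod_cast hq.ne_zero)] at h
          have h1 : (p : ℤ) ∣ 1 := by rw [hb]; exact dvd_add (dvd_mul_right _ _) (h.mul_left _)
          exact hp.out.ne_one (Nat.dvd_one.1 (by exact_mod_cast h1))
      have hz : orderOf (x ^ ((p : ℤ) * a)) = q := by
        have : Fact q.Prime := ⟨hq⟩
        refine orderOf_eq_prime ?_ fun h => ?_
        · rw [← zpow_natCast, ← zpow_mul, ← orderOf_dvd_iff_zpow_eq_one, hx]
          exact ⟨a, by push_cast; ring⟩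
        · rw [← orderOf_dvd_iff_zpow_eq_one, hx] at h
          push_cast at h
          rw [Int.mul_dvd_mul_iff_left (by exact_mod_cast hp.out.ne_zero)] at h
          have h1 : (q : ℤ) ∣ 1 := by rw [hb]; exact dvd_add (h.mul_left _) (dvd_mul_right _ _)
          exact hq.ne_one (Nat.dvd_one.1 (by exact_mod_cast h1))
      refine ⟨⟨⟨_, hy⟩, ⟨_, (Commute.refl x).zpow_zpow _ _, hz⟩⟩, Subtype.ext ?_⟩
      change x ^ ((q : ℤ) * b) * x ^ ((p : ℤ) * a) = x
      rw [← zpow_add, add_comm, ← hb, zpow_one]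
  rw [← hsig]
  let _ := Fintype.ofFinite Y
  rw [Nat.card_sigma]
  rcases isEmpty_or_nonempty Y with hE | hN
  · simp
  obtain ⟨y₀⟩ := hN
  rw [Finset.sum_congr rfl fun y _ => le_antisymm (hle y y₀) (hle y₀ y), Finset.sum_const,
    Finset.card_univ, smul_eq_mul, ← Nat.card_eq_fintype_card]
  exact dvd_mul_right _ _

/-- In a cyclic Sylow situation the count of the larger order is at least `p` times the smaller. -/
theorem mul_orderCount_le_of_cyclic {k : ℕ} (hk : 1 ≤ k) (hmax : ¬ p ^ (k + 2) ∣ Nat.card G)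
    (hex : orderCount G (p ^ (k + 1)) ≠ 0) :
    p * orderCount G (p ^ k) ≤ orderCount G (p ^ (k + 1)) := by
  classical
  obtain ⟨g, hg⟩ := orderCount_ne_zero_iff.1 hex
  obtain ⟨P, hP⟩ := (IsPGroup.of_card (n := k + 1) (G := Subgroup.zpowers g)
    (by rw [Nat.card_zpowers, hg])).exists_le_sylow
  have hPg : (P : Subgroup G) = Subgroup.zpowers g := by
    refine (Subgroup.eq_of_le_of_card_ge hP ?_).symm
    obtain ⟨j, hj⟩ := P.2.exists_card_eq
    rw [Nat.card_zpowers, hg, hj]
    refine Nat.pow_le_pow_right hp.out.pos ?_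
    by_contra h
    exact hmax ((pow_dvd_pow p (show k + 2 ≤ j by omega)).trans
      (hj ▸ Subgroup.card_subgroup_dvd_card _))
  have hroot : ∀ y : {y : G // orderOf y = p ^ k}, ∃ x : G, x ^ p = y := by
    intro y
    obtain ⟨Q, hQ⟩ := (IsPGroup.of_card (n := k) (G := Subgroup.zpowers (y : G))
      (by rw [Nat.card_zpowers, y.2])).exists_le_sylow
    obtain ⟨t, ht⟩ := MulAction.exists_smul_eq G P Q
    have hyQ : (y : G) ∈ (t • P : Sylow p G) := by rw [ht]; exact hQ (Subgroup.mem_zpowers _)
    obtain ⟨w, hw, hwy⟩ := hyQ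
    change t * w * t⁻¹ = (y : G) at hwy
    change w ∈ (P : Subgroup G) at hw
    rw [hPg] at hw
    obtain ⟨i, rfl⟩ := Subgroup.mem_zpowers_iff.1 hw
    by_cases hi : (p : ℤ) ∣ i
    · obtain ⟨j, rfl⟩ := hi
      refine ⟨t * g ^ j * t⁻¹, ?_⟩
      rw [conj_pow, ← zpow_natCast, ← zpow_mul, mul_comm, hwy]
    · exfalso
      have h1 : orderOf (g ^ i) = p ^ k := by
        rw [← y.2, ← hwy]; exact (MulEquiv.orderOf_eq (MulAut.conj t) _).symm
      have h2 : (g ^ i) ^ ((p : ℤ) ^ k) = 1 := by
        have := pow_orderOf_eq_one (g ^ i)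
        rw [h1, ← zpow_natCast] at this
        push_cast at this
        exact this
      rw [← zpow_mul, ← orderOf_dvd_iff_zpow_eq_one, hg] at h2
      push_cast at h2
      rw [pow_succ, mul_comm i, Int.mul_dvd_mul_iff_left (by simp [hp.out.ne_zero])] at h2
      exact hi h2
  choose x hx using hroot
  have hordx : ∀ (y : {y : G // orderOf y = p ^ k}) (w : G), w ^ p = y → orderOf w = p ^ (k + 1) := by
    intro y w hw
    refine orderOf_eq_prime_pow ?_ ?_
    · intro h
      obtain ⟨j, rfl⟩ : ∃ j, k = j + 1 := ⟨k - 1, by omega⟩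
      have h1 : (y : G) ^ (p ^ j) = 1 := by rw [← hw, ← pow_mul, ← pow_succ']; exact h
      have h2 := orderOf_dvd_of_pow_eq_one h1
      rw [y.2, Nat.pow_dvd_pow_iff_le_right hp.out.one_lt] at h2
      omega
    · rw [pow_succ', pow_mul, hw]
      exact (congrArg ((y : G) ^ ·) y.2.symm).trans (pow_orderOf_eq_one (y : G))
  let z : {y : G // orderOf y = p ^ k} → G := fun y => (y : G) ^ (p ^ (k - 1))
  have hz : ∀ y, orderOf (z y) = p := by
    intro y
    rw [orderOf_pow, y.2, Nat.gcd_eq_right (pow_dvd_pow p (Nat.sub_le k 1)),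
      Nat.pow_div (Nat.sub_le k 1) hp.out.pos, show k - (k - 1) = 1 by omega, pow_one]
  have hf : ∀ (y : {y : G // orderOf y = p ^ k}) (j : Fin p), (x y * z y ^ (j : ℕ)) ^ p = y := by
    intro y j
    have hc : Commute (x y) (z y) := by
      show Commute (x y) ((y : G) ^ (p ^ (k - 1)))
      rw [← hx y]
      exact ((Commute.refl (x y)).pow_right p).pow_right _
    have hzp : z y ^ p = 1 := by
      have := pow_orderOf_eq_one (z y); rwa [hz y] at this
    rw [(hc.pow_right _).mul_pow, ← pow_mul, mul_comm (j : ℕ) p, pow_mul, hzp, one_pow, mul_one, hx]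
  have hle := Nat.card_le_card_of_injective
    (fun w : Fin p × {y : G // orderOf y = p ^ k} =>
      (⟨x w.2 * z w.2 ^ (w.1 : ℕ), hordx w.2 _ (hf w.2 w.1)⟩ : {g : G // orderOf g = p ^ (k + 1)})) ?_
  · rwa [Nat.card_prod, Nat.card_fin] at hle
  rintro ⟨i, y⟩ ⟨j, y'⟩ h
  have he : x y * z y ^ (i : ℕ) = x y' * z y' ^ (j : ℕ) := congrArg Subtype.val h
  obtain rfl : y = y' := Subtype.ext (by
    have := congrArg (· ^ p) he
    simpa only [hf] using this)
  have h1 := mul_left_cancel he
  have h2 : (i : ℕ) = j := pow_injOn_Iio_orderOf (by rw [hz]; exact i.2) (by rw [hz]; exact j.2) h1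
  rw [Fin.ext h2]

end CfsgLib.Spectrum

namespace CfsgLib.Spectrum

variable {G : Type*} [Group G] [Finite G]

/-- An element of prime order centralizes some member of an invariant set of order prime to it. -/
theorem exists_commute_of_invariant {p : ℕ} [Fact p.Prime] {y : G} (hy : orderOf y = p) (T : Set G)
    (hT : ∀ g : G, ∀ x ∈ T, g * x * g⁻¹ ∈ T) (hcard : ¬ p ∣ Nat.card T) :
    ∃ x ∈ T, Commute y x := by
  letI : MulAction (Subgroup.zpowers y) T :=
    { smul := fun k x => ⟨(k : G) * x * (k : G)⁻¹, hT _ _ x.2⟩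
      one_smul := fun x => Subtype.ext (by show (1 : G) * x * (1 : G)⁻¹ = x; simp)
      mul_smul := fun a b x => Subtype.ext (by
        show ((a : G) * b) * x * ((a : G) * b)⁻¹ = (a : G) * ((b : G) * x * (b : G)⁻¹) * (a : G)⁻¹
        group) }
  obtain ⟨x, hx⟩ := (IsPGroup.of_card (n := 1) (G := Subgroup.zpowers y)
    (by rw [Nat.card_zpowers, hy, pow_one])).nonempty_fixed_point_of_prime_not_dvd_card T hcard
  refine ⟨x, x.2, ?_⟩
  have h : y * (x : G) * y⁻¹ = x := congrArg Subtype.val (hx ⟨y, Subgroup.mem_zpowers y⟩)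
  exact mul_inv_eq_iff_eq_mul.1 h

/-- Elements of order prime to the index lie in a normal subgroup. -/
theorem orderCount_eq_of_coprime_index (N : Subgroup G) [N.Normal] {m : ℕ}
    (hm : Nat.Coprime m N.index) : orderCount N m = orderCount G m := by
  refine Nat.card_congr (Equiv.ofBijective (fun x => (⟨(x.1 : G), by
    rw [Subgroup.orderOf_coe]; exact x.2⟩ : {g : G // orderOf g = m})) ⟨?_, ?_⟩)
  · intro a b h
    have h' : ((a.1 : N) : G) = (b.1 : G) := congrArg (fun z : {g : G // orderOf g = m} => z.1) h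
    exact Subtype.ext (Subtype.ext h')
  · rintro ⟨g, hg⟩
    have h1 : orderOf (g : G ⧸ N) ∣ m := hg ▸ orderOf_map_dvd (QuotientGroup.mk' N) g
    have h2 : orderOf (g : G ⧸ N) ∣ N.index := by
      rw [Subgroup.index_eq_card]; exact orderOf_dvd_natCard _
    have h3 : g ∈ N := (QuotientGroup.eq_one_iff g).1 (orderOf_eq_one_iff.1
      (Nat.eq_one_of_dvd_coprimes hm h1 h2))
    exact ⟨⟨⟨g, h3⟩, by rw [Subgroup.orderOf_mk]; exact hg⟩, rfl⟩

theorem one_add_orderCount_le {a : ℕ} (ha : a ≠ 1) : 1 + orderCount G a ≤ Nat.card G := by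
  classical
  let _ := Fintype.ofFinite G
  rw [orderCount, Nat.card_eq_fintype_card, Nat.card_eq_fintype_card, Fintype.card_subtype]
  have h1 : (1 : G) ∉ Finset.univ.filter (fun g : G => orderOf g = a) := by
    simpa using ha.symm
  calc 1 + _ = (insert 1 (Finset.univ.filter (fun g : G => orderOf g = a))).card := by
        rw [Finset.card_insert_of_notMem h1, add_comm]
    _ ≤ _ := Finset.card_le_univ _

theorem orderCount_add_le {A : Finset ℕ} : ∑ m ∈ A, orderCount G m ≤ Nat.card G := by
  classical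
  let _ := Fintype.ofFinite G
  rw [card_eq_sum_orderCount (A := A ∪ Finset.univ.image (fun g : G => orderOf g)) (fun m hm => by
    obtain ⟨g, rfl⟩ := orderCount_ne_zero_iff.1 hm
    exact Finset.mem_union_right _ (Finset.mem_image.2 ⟨g, Finset.mem_univ _, rfl⟩))]
  exact Finset.sum_le_sum_of_subset Finset.subset_union_left

end CfsgLib.Spectrum
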