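import Mathlib

/-!
Element orders of alternating groups at large primes, and elements of order `p * q` from normalisers.
-/

namespace CfsgLib.Spectrum

/-- No permutation of `Fin n` has order `p * q` for primes `p ≠ q` with `n < p + q`. -/
lemma orderOf_perm_ne {n p q : ℕ} (hp : p.Prime) (hq : q.Prime) (hpq : p ≠ q) (hn : n < p + q)
    (σ : Equiv.Perm (Fin n)) : orderOf σ ≠ p * q := by
  intro h
  have hlcm : σ.cycleType.lcm = p * q := by rw [Equiv.Perm.lcm_cycleType, h]
  have key : ∀ r : ℕ, r.Prime → r ∣ σ.cycleType.lcm → ∃ m ∈ σ.cycleType, r ∣ m := by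
    intro r hr
    induction σ.cycleType using Multiset.induction with
    | empty => intro h; simp [hr.ne_one] at h
    | cons a s ih =>
      intro h
      rw [Multiset.lcm_cons] at h
      rcases (hr.dvd_mul.mp (h.trans (Nat.lcm_dvd_mul a s.lcm))) with h' | h'
      · exact ⟨a, Multiset.mem_cons_self a s, h'⟩
      · obtain ⟨m, hm, hm'⟩ := ih h'
        exact ⟨m, Multiset.mem_cons_of_mem hm, hm'⟩
  obtain ⟨a, ha, hpa⟩ := key p hp (hlcm ▸ dvd_mul_right p q)
  obtain ⟨b, hb, hqb⟩ := key q hq (hlcm ▸ dvd_mul_left q p)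
  have hsum : σ.cycleType.sum ≤ n := σ.sum_cycleType_le.trans (le_of_eq (Fintype.card_fin n))
  have hpos : ∀ m ∈ σ.cycleType, 2 ≤ m := fun m hm => Equiv.Perm.two_le_of_mem_cycleType hm
  by_cases hab : a = b
  · subst hab
    have h1 := Multiset.single_le_sum (fun x _ => Nat.zero_le x) a ha
    have h2 : p * q ≤ a := Nat.le_of_dvd (by have := hpos a ha; omega)
      (((Nat.coprime_primes hp hq).mpr hpq).mul_dvd_of_dvd_of_dvd hpa hqb)
    have := hp.two_le
    have := hq.two_le
    have : p + q ≤ p * q := by nlinarith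
    omega
  · obtain ⟨t, ht⟩ := Multiset.exists_cons_of_mem ha
    have hb' : b ∈ t := by
      rw [ht, Multiset.mem_cons] at hb
      exact hb.resolve_left (Ne.symm hab)
    have h1 := Multiset.single_le_sum (fun x _ => Nat.zero_le x) b hb'
    have h2 := hsum
    rw [ht, Multiset.sum_cons] at h2
    have := Nat.le_of_dvd (by have := hpos a ha; omega) hpa
    have := Nat.le_of_dvd (by have := hpos b hb; omega) hqb
    omega

/-- A `q`-element normalising a subgroup of order `p` with `q ∤ p - 1` yields an element of order `p * q`. -/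
lemma exists_orderOf_mul {G : Type*} [Group G] [Finite G] {p q : ℕ} (hp : p.Prime) (hq : q.Prime)
    (hpq : p ≠ q) (hdiv : ¬ q ∣ p - 1) (P : Subgroup G) (hP : Nat.card P = p) (y : G)
    (hy : orderOf y = q) (hn : y ∈ Subgroup.normalizer (P : Set G)) : ∃ g : G, orderOf g = p * q := by
  haveI := Fact.mk hp
  haveI : IsCyclic P := isCyclic_of_prime_card (p := p) hP
  have hone : P.normalizerMonoidHom ⟨y, hn⟩ = 1 := by
    apply orderOf_eq_one_iff.mp
    have h1 : orderOf (P.normalizerMonoidHom ⟨y, hn⟩) ∣ q := by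
      refine (orderOf_map_dvd _ _).trans ?_
      rw [Subgroup.orderOf_mk, hy]
    have h2 : orderOf (P.normalizerMonoidHom ⟨y, hn⟩) ∣ p - 1 := by
      refine (orderOf_dvd_natCard _).trans ?_
      rw [IsCyclic.card_mulAut, hP, Nat.totient_prime hp]
    rcases (Nat.dvd_prime hq).mp h1 with e | e
    · exact e
    · exact absurd (e ▸ h2) hdiv
  obtain ⟨x, hx⟩ := exists_prime_orderOf_dvd_card' p (G := P) (by rw [hP])
  have hc : (x : G) * y = y * x := by
    have := congrArg (fun f : MulAut P => ((f x : P) : G)) hone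
    simp [Subgroup.normalizerMonoidHom] at this
    have e : y * (x : G) * y⁻¹ = x := congrArg Subtype.val this
    calc (x : G) * y = (y * x * y⁻¹) * y := by rw [e]
      _ = y * x := by group
  refine ⟨(x : G) * y, ?_⟩
  rw [Commute.orderOf_mul_eq_mul_orderOf_of_coprime hc, Subgroup.orderOf_coe, hx, hy]
  rw [Subgroup.orderOf_coe, hx, hy]
  exact (Nat.coprime_primes hp hq).mpr hpq

/-- `q ^ 2 ∤ n!` for a prime `q` with `n < 2 q`. -/
lemma sq_dvd_factorial {q : ℕ} (hq : q.Prime) : ∀ k : ℕ, q ^ 2 ∣ k.factorial → 2 * q ≤ k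
  | 0, h => by
    rw [Nat.factorial_zero] at h
    have := Nat.le_of_dvd (by norm_num) h
    have := hq.two_le
    nlinarith
  | k + 1, h => by
    rw [Nat.factorial_succ] at h
    by_cases hd : q ∣ k + 1
    · obtain ⟨c, hc⟩ := hd
      rcases c with _ | _ | c
      · omega
      · exfalso
        rw [hc, sq, zero_add, mul_one] at h
        rw [zero_add, mul_one] at hc
        have := hq.dvd_factorial.mp (Nat.dvd_of_mul_dvd_mul_left hq.pos h)
        omega
      · rw [hc]
        calc 2 * q = q * 2 := mul_comm _ _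
          _ ≤ q * (c + 1 + 1) := Nat.mul_le_mul_left _ (by omega)
    · have hcop : Nat.Coprime (q ^ 2) (k + 1) := Nat.Coprime.pow_left 2 (hq.coprime_iff_not_dvd.mpr hd)
      have := sq_dvd_factorial hq k (hcop.dvd_of_dvd_mul_left h)
      omega

/-- A prime in `(n / 2, n]` divides the order of `A_n` exactly once. -/
lemma card_alternating_prime {n q : ℕ} (hn : 2 ≤ n) (hq : q.Prime) (hq2 : 2 < q) (h1 : n < 2 * q) (h2 : q ≤ n) :
    q ∣ Nat.card (alternatingGroup (Fin n)) ∧ ¬ q ^ 2 ∣ Nat.card (alternatingGroup (Fin n)) := by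
  haveI : Nontrivial (Fin n) := Fin.nontrivial_iff_two_le.mpr hn
  have h := two_mul_card_alternatingGroup (α := Fin n)
  rw [Fintype.card_perm, Fintype.card_fin] at h
  rw [Nat.card_eq_fintype_card]
  refine ⟨?_, fun hd => ?_⟩
  · have : q ∣ 2 * Fintype.card (alternatingGroup (Fin n)) := h ▸ hq.dvd_factorial.mpr h2
    refine (hq.dvd_mul.mp this).resolve_left fun e => ?_
    have := Nat.le_of_dvd (by norm_num) e
    omega
  · have : q ^ 2 ∣ n.factorial := h ▸ hd.mul_left 2
    have := sq_dvd_factorial hq n this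
    omega

/-- No group isospectral to `A_n` has an element of order `p * q` when `n < p + q`. -/
lemma no_element {G : Type*} [Group G] {n p q : ℕ}
    (hspec : Set.range (orderOf : G → ℕ) = Set.range (orderOf : alternatingGroup (Fin n) → ℕ))
    (hp : p.Prime) (hq : q.Prime) (hpq : p ≠ q) (hn : n < p + q) (g : G) : orderOf g ≠ p * q := by
  intro h
  obtain ⟨σ, hσ⟩ : p * q ∈ Set.range (orderOf : alternatingGroup (Fin n) → ℕ) := hspec ▸ ⟨g, h⟩
  exact orderOf_perm_ne hp hq hpq hn (σ : Equiv.Perm (Fin n)) (by rw [Subgroup.orderOf_coe, hσ])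

end CfsgLib.Spectrum
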