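import Cfsg.Agent.Lib.Spectrum.CITStructure

/-!
A normal subgroup in a group with 2-group involution centralisers whose Sylow normaliser is transitive on
the involutions of the Sylow subgroup is the whole group.
-/

set_option autoImplicit false

open Cfsg
open scoped Pointwise

namespace CfsgLib.Spectrum.CITSocleTop

open CfsgLib.CIT

variable {X : Type*} [Group X] [Finite X]

/-- The Sylow normaliser of a normal subgroup is the whole Sylow normaliser, so the subgroup is `⊤`. -/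
theorem eq_top (cit : IsCIT X) {T : Subgroup X} [T.Normal] (P : Sylow 2 T) {q f e : ℕ} (hq : q = 2 ^ e)
    (hq8 : 8 ≤ q) (hP : Nat.card (P : Subgroup T) = 2 ^ f)
    (hinv : Nat.card {v : (P : Subgroup T) // v * v = 1} = q)
    (hcen : ∀ v w : (P : Subgroup T), v * v = 1 → v * w = w * v)
    (hnor : Nat.card (Subgroup.normalizer ((P : Subgroup T) : Set T)) = 2 ^ f * (q - 1)) : T = ⊤ := by
  classical
  haveI : Fact (Nat.Prime 2) := ⟨Nat.prime_two⟩
  have hf : 1 ≤ f := by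
    have h := Nat.card_le_card_of_injective (fun v : {v : (P : Subgroup T) // v * v = 1} => (v : (P : Subgroup T)))
      Subtype.val_injective
    rw [hinv, hP] at h
    rcases f with _ | f
    · simp at h; omega
    · omega
  set Q₀ := 2 ^ f with hQ₀
  set S := (P : Subgroup T).map T.subtype with hS
  have hScard : Nat.card S = Q₀ := by
    rw [hS, Subgroup.card_map_of_injective T.subtype_injective]; exact hP
  have hSp : IsPGroup 2 S := P.2.map _
  have hmem : ∀ w : T, (w : X) ∈ S ↔ w ∈ (P : Subgroup T) := fun w =>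
    ⟨fun ⟨w', hw', h⟩ => (Subtype.ext h : w' = w) ▸ hw', fun hw => ⟨w, hw, rfl⟩⟩
  -- the subgroup of involutions
  have hcomm : ∀ v ∈ S, v * v = 1 → ∀ w ∈ S, v * w = w * v := by
    rintro _ ⟨v, hv, rfl⟩ h1 _ ⟨w, hw, rfl⟩
    exact congrArg (fun z : (P : Subgroup T) => ((z : T) : X))
      (hcen ⟨v, hv⟩ ⟨w, hw⟩ (Subtype.ext (Subtype.ext h1)))
  let V : Subgroup X :=
    { carrier := {v | v ∈ S ∧ v * v = 1}
      one_mem' := ⟨S.one_mem, one_mul 1⟩
      mul_mem' := fun {v w} hv hw => ⟨S.mul_mem hv.1 hw.1, by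
        calc v * w * (v * w) = v * (w * v) * w := by group
          _ = v * (v * w) * w := by rw [hcomm v hv.1 hv.2 w hw.1]
          _ = v * v * (w * w) := by group
          _ = 1 := by rw [hv.2, hw.2, one_mul]⟩
      inv_mem' := fun {v} hv => ⟨S.inv_mem hv.1, by rw [← mul_inv_rev, hv.2, inv_one]⟩ }
  have hVS : V ≤ S := fun v hv => hv.1
  have hVcard : Nat.card V = q := by
    rw [← hinv]
    refine (Nat.card_congr (Equiv.ofBijective
      (fun v : {v : (P : Subgroup T) // v * v = 1} => (⟨((v.1 : T) : X), ⟨⟨v.1, v.1.2, rfl⟩,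
        congrArg (fun z : (P : Subgroup T) => ((z : T) : X)) v.2⟩⟩ : V)) ⟨?_, ?_⟩)).symm
    · intro v w h
      have h' := congrArg (fun z : V => (z : X)) h
      exact Subtype.ext (Subtype.ext (Subtype.ext h'))
    · rintro ⟨_, ⟨w, hw, rfl⟩, h2⟩
      exact ⟨⟨⟨w, hw⟩, Subtype.ext (Subtype.ext h2)⟩, rfl⟩
  set N := Subgroup.normalizer (S : Set X) with hN
  set NT := N ⊓ T with hNT
  have hSN : S ≤ N := Subgroup.le_normalizer
  have hST : S ≤ T := Subgroup.map_subtype_le _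
  have hVN : ∀ g ∈ N, ∀ v ∈ V, g * v * g⁻¹ ∈ V := fun g hg v hv =>
    ⟨(Subgroup.mem_normalizer_iff.1 hg v).1 hv.1, by
      rw [show g * v * g⁻¹ * (g * v * g⁻¹) = g * (v * v) * g⁻¹ by group, hv.2]; group⟩
  have hnorm : ∀ v : T, (v : X) ∈ N ↔ v ∈ Subgroup.normalizer ((P : Subgroup T) : Set T) := by
    intro v
    rw [hN, Subgroup.mem_normalizer_iff, Subgroup.mem_normalizer_iff]
    constructor
    · intro h w
      rw [← hmem, ← hmem, h (w : X)]
      simp
    · intro h w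
      constructor
      · intro hw
        obtain ⟨w', hw', rfl⟩ := hw
        exact ⟨v * w' * v⁻¹, (h w').1 hw', rfl⟩
      · intro hw
        have hwT : w ∈ T := by
          have := T.mul_mem (T.mul_mem (T.inv_mem v.2) (hST hw)) v.2
          simpa [mul_assoc] using this
        exact (hmem ⟨w, hwT⟩).2 ((h ⟨w, hwT⟩).2 ((hmem (v * ⟨w, hwT⟩ * v⁻¹)).1 hw))
  have hNTcard : Nat.card NT = Q₀ * (q - 1) := by
    rw [← hnor, ← Subgroup.card_map_of_injective (K := Subgroup.normalizer ((P : Subgroup T) : Set T))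
        (f := T.subtype) T.subtype_injective]
    congr 2
    ext w
    constructor
    · rintro ⟨hwN, hwT⟩
      exact ⟨⟨w, hwT⟩, (hnorm ⟨w, hwT⟩).1 hwN, rfl⟩
    · rintro ⟨w', hw', rfl⟩
      exact ⟨(hnorm w').2 hw', w'.2⟩
  -- a 2-element of `N ⊓ T` lies in `S`
  have htwo : ∀ g ∈ NT, ∀ j : ℕ, g ^ 2 ^ j = 1 → g ∈ S := by
    intro g hg j hj
    have hz : IsPGroup 2 (Subgroup.zpowers (⟨g, hg.2⟩ : T)) := by
      obtain ⟨i, -, hi⟩ := (Nat.dvd_prime_pow Nat.prime_two).1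
        (orderOf_dvd_of_pow_eq_one (x := (⟨g, hg.2⟩ : T)) (n := 2 ^ j) (Subtype.ext hj))
      exact IsPGroup.of_card (n := i) (by rw [Nat.card_zpowers, hi])
    have h1 : (⟨g, hg.2⟩ : T) ∈ Subgroup.zpowers (⟨g, hg.2⟩ : T) ⊓
        Subgroup.normalizer (P : Set T) := ⟨Subgroup.mem_zpowers _, (hnorm ⟨g, hg.2⟩).1 hg.1⟩
    rw [hz.inf_normalizer_sylow P] at h1
    exact ⟨_, h1.2, rfl⟩
  have hcent : ∀ v ∈ V, v ≠ 1 → ∀ g ∈ NT, Commute g v → g ∈ S := by
    intro v hv hv1 g hg hc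
    obtain ⟨j, hj⟩ := cit.isPGroup_centralizer (two_dvd_orderOf_of_mem hSp (hVS hv) hv1)
      ⟨g, Subgroup.mem_centralizer_singleton_iff.2 hc.eq⟩
    exact htwo g hg j (congrArg Subtype.val hj)
  obtain ⟨⟨v₀, hv₀⟩, hv₀1⟩ : ∃ v : V, v ≠ 1 := by
    haveI : Nontrivial V := Finite.one_lt_card_iff_nontrivial.1 (by omega)
    exact exists_ne 1
  have hv₀1' : v₀ ≠ 1 := fun h => hv₀1 (Subtype.ext h)
  have hSNT : S ≤ NT := le_inf hSN hST
  haveI : Fintype V := Fintype.ofFinite V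
  have hV1 : Nat.card {w : V // w ≠ 1} = q - 1 := by
    rw [Nat.card_eq_fintype_card, Fintype.card_subtype_compl, Fintype.card_subtype_eq,
      ← Nat.card_eq_fintype_card, hVcard]
  -- transitivity on the involutions of `S`
  have htrans : ∀ w ∈ V, w ≠ 1 → ∃ k ∈ NT, k * v₀ * k⁻¹ = w := by
    let f' : NT ⧸ S.subgroupOf NT → {w : V // w ≠ 1} := Quotient.lift
      (fun k => ⟨⟨(k : X) * v₀ * (k : X)⁻¹, hVN k k.2.1 v₀ hv₀⟩,
        fun h => hv₀1' (conj_eq_one_iff.1 (congrArg Subtype.val h))⟩)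
      (fun k k' hkk => by
        have h1 : (k : X)⁻¹ * k' ∈ S := by
          have h0 := QuotientGroup.leftRel_apply.1 hkk
          exact h0
        have h2 := hcomm v₀ hv₀.1 hv₀.2 _ h1
        refine Subtype.ext (Subtype.ext ?_)
        show (k : X) * v₀ * (k : X)⁻¹ = (k' : X) * v₀ * (k' : X)⁻¹
        calc (k : X) * v₀ * (k : X)⁻¹ = (k : X) * (v₀ * ((k : X)⁻¹ * k')) * (k' : X)⁻¹ := by group
          _ = (k : X) * (((k : X)⁻¹ * k') * v₀) * (k' : X)⁻¹ := by rw [h2]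
          _ = (k' : X) * v₀ * (k' : X)⁻¹ := by group)
    have hf' : Function.Injective f' := by
      rintro ⟨k⟩ ⟨k'⟩ h
      have h1 : (k : X) * v₀ * (k : X)⁻¹ = (k' : X) * v₀ * (k' : X)⁻¹ :=
        congrArg (fun z => ((z.1 : V) : X)) h
      refine Quotient.sound (QuotientGroup.leftRel_apply.2 (hcent v₀ hv₀ hv₀1' _ (k⁻¹ * k').2 ?_))
      show (k : X)⁻¹ * k' * v₀ = v₀ * ((k : X)⁻¹ * k')
      calc (k : X)⁻¹ * k' * v₀ = (k : X)⁻¹ * ((k' : X) * v₀ * (k' : X)⁻¹) * k' := by group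
        _ = (k : X)⁻¹ * ((k : X) * v₀ * (k : X)⁻¹) * k' := by rw [h1]
        _ = v₀ * ((k : X)⁻¹ * k') := by group
    have hc : Nat.card (NT ⧸ S.subgroupOf NT) = q - 1 := by
      have h := Subgroup.card_eq_card_quotient_mul_card_subgroup (S.subgroupOf NT)
      rw [Nat.card_congr (Subgroup.subgroupOfEquivOfLe hSNT).toEquiv, hScard, hNTcard, mul_comm] at h
      exact (Nat.eq_of_mul_eq_mul_right (Nat.two_pow_pos f) h).symm
    intro w hw hw1
    obtain ⟨⟨k⟩, hk⟩ := ((Nat.bijective_iff_injective_and_card f').2 ⟨hf', by rw [hc, hV1]⟩).2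
      ⟨⟨w, hw⟩, fun h => hw1 (congrArg Subtype.val h)⟩
    exact ⟨k, k.2, congrArg (fun z => ((z.1 : V) : X)) hk⟩
  set Q := N ⊓ Subgroup.centralizer ({v₀} : Set X) with hQ
  have hQp : IsPGroup 2 Q :=
    (cit.isPGroup_centralizer (two_dvd_orderOf_of_mem hSp hv₀.1 hv₀1')).to_le inf_le_right
  have hSQ : S ≤ Q := le_inf hSN fun s hs =>
    Subgroup.mem_centralizer_singleton_iff.2 (hcomm v₀ hv₀.1 hv₀.2 s hs).symm
  -- the point stabiliser is `S`
  have hQS : Q = S := by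
    refine le_antisymm ?_ hSQ
    by_contra hle
    haveI hnQ : (S.subgroupOf Q).Normal := ⟨fun v hv g => (Subgroup.mem_normalizer_iff.1 g.2.1 (v : X)).1 hv⟩
    have hnt : Nontrivial (Q ⧸ S.subgroupOf Q) := by
      obtain ⟨g, hg, hgS⟩ := Set.not_subset.1 hle
      refine ⟨⟨QuotientGroup.mk' _ ⟨g, hg⟩, 1, fun h => hgS ?_⟩⟩
      rw [QuotientGroup.mk'_apply, QuotientGroup.eq_one_iff] at h
      exact h
    have h2 : 2 ∣ Nat.card (Q ⧸ S.subgroupOf Q) := by
      obtain ⟨j, hj, hcard⟩ := ((hQp.to_quotient (S.subgroupOf Q)).nontrivial_iff_card).1 hnt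
      exact hcard ▸ dvd_pow_self 2 hj.ne'
    obtain ⟨z', hz'⟩ := exists_prime_orderOf_dvd_card' 2 h2
    obtain ⟨⟨z, hzQ⟩, rfl⟩ := QuotientGroup.mk'_surjective (S.subgroupOf Q) z'
    have hzS : z ∉ S := fun h => by
      rw [QuotientGroup.mk'_apply, (QuotientGroup.eq_one_iff _).2 (show (⟨z, hzQ⟩ : Q) ∈ S.subgroupOf Q from h),
        orderOf_one] at hz'
      omega
    have hz2 : z * z ∈ S := by
      have h := pow_orderOf_eq_one (QuotientGroup.mk' (S.subgroupOf Q) ⟨z, hzQ⟩)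
      rw [hz', ← map_pow, QuotientGroup.mk'_apply, QuotientGroup.eq_one_iff, pow_two] at h
      exact h
    have hzn : ∀ v ∈ V, z * v * z⁻¹ ∈ V := hVN z hzQ.1
    have hVc : ∀ v ∈ V, ∀ w ∈ V, v * w = w * v := fun v hv w hw => hcomm v hv.1 hv.2 w hw.1
    -- fixed points of `z` on `V`
    let φ : V →* V := MonoidHom.mk' (fun v => v * ⟨z * v * z⁻¹, hzn v v.2⟩) fun v w => Subtype.ext (by
      show (v : X) * w * (z * (v * w) * z⁻¹) = v * (z * v * z⁻¹) * (w * (z * w * z⁻¹))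
      calc (v : X) * w * (z * (v * w) * z⁻¹)
          = (v : X) * ((w : X) * (z * v * z⁻¹)) * (z * w * z⁻¹) := by group
        _ = (v : X) * ((z * v * z⁻¹) * w) * (z * w * z⁻¹) := by rw [hVc _ w.2 _ (hzn v v.2)]
        _ = v * (z * v * z⁻¹) * (w * (z * w * z⁻¹)) := by group)
    set V₀ := (V ⊓ Subgroup.centralizer ({z} : Set X)).subgroupOf V with hV₀
    have hrange : φ.range ≤ V₀ := by
      rintro _ ⟨v, rfl⟩
      refine Subgroup.mem_subgroupOf.2 ⟨(φ v).2, Subgroup.mem_centralizer_singleton_iff.2 ?_⟩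
      show (v : X) * (z * v * z⁻¹) * z = z * ((v : X) * (z * v * z⁻¹))
      have hc : z * z * (v : X) = v * (z * z) := (hcomm _ v.2.1 v.2.2 _ hz2).symm
      calc (v : X) * (z * v * z⁻¹) * z = (z * v * z⁻¹) * v * z := by rw [hVc _ v.2 _ (hzn v v.2)]
        _ = z * v * z⁻¹ * (v * (z * z)) * z⁻¹ := by group
        _ = z * v * z⁻¹ * (z * z * v) * z⁻¹ := by rw [hc]
        _ = z * ((v : X) * (z * v * z⁻¹)) := by group
    have hker : φ.ker ≤ V₀ := by
      intro v hv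
      refine Subgroup.mem_subgroupOf.2 ⟨v.2, Subgroup.mem_centralizer_singleton_iff.2 ?_⟩
      have h1 : (v : X) * (z * v * z⁻¹) = 1 := congrArg Subtype.val hv
      have h2 : z * (v : X) * z⁻¹ = v := by
        rw [← inv_eq_of_mul_eq_one_right h1, inv_eq_of_mul_eq_one_right v.2.2]
      exact (mul_inv_eq_iff_eq_mul.1 h2).symm
    have hV3 : 3 ≤ Nat.card V₀ := by
      have h := φ.ker.card_mul_index
      rw [Subgroup.index_ker, hVcard] at h
      have h1 := Subgroup.card_le_of_le hker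
      have h2 := Subgroup.card_le_of_le hrange
      have := Nat.mul_le_mul h1 h2
      nlinarith
    obtain ⟨w, hw, hw1, hw0⟩ : ∃ w : V, w ∈ V₀ ∧ w ≠ 1 ∧ (w : X) ≠ v₀ := by
      by_contra! hall
      have hsub : ∀ w : V₀, (w : V) = 1 ∨ (w : V) = ⟨v₀, hv₀⟩ := fun w => by
        by_cases h : (w : V) = 1
        · exact Or.inl h
        · exact Or.inr (Subtype.ext (hall w w.2 h))
      let g : V₀ → Bool := fun w => decide ((w : V) = 1)
      have hg : Function.Injective g := fun w w' h => by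
        apply Subtype.ext
        simp only [g, decide_eq_decide] at h
        rcases hsub w with e | e <;> rcases hsub w' with e' | e'
        · rw [e, e']
        · rw [e, h.1 e]
        · rw [e', h.2 e']
        · rw [e, e']
      have := Nat.card_le_card_of_injective g hg
      rw [Nat.card_eq_fintype_card (α := Bool), Fintype.card_bool] at this
      omega
    obtain ⟨k, hk, hkw⟩ := htrans w w.2 fun h => hw1 (Subtype.ext h)
    have hwz : z * (w : X) = w * z :=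
      (Subgroup.mem_centralizer_singleton_iff.1 (Subgroup.mem_subgroupOf.1 hw).2).symm
    have hv₀z : z * v₀ = v₀ * z := Subgroup.mem_centralizer_singleton_iff.1 hzQ.2
    have hkS : k ∉ S := fun h => hw0 (by
      rw [← hkw, ← hcomm v₀ hv₀.1 hv₀.2 k h, mul_inv_cancel_right])
    -- `z` commutes with `k` modulo `S`
    have hzk : k⁻¹ * (z * k * z⁻¹) ∈ S := by
      refine hcent v₀ hv₀ hv₀1' _ ⟨N.mul_mem (N.inv_mem hk.1)
        (N.mul_mem (N.mul_mem hzQ.1 hk.1) (N.inv_mem hzQ.1)),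
        T.mul_mem (T.inv_mem hk.2) ((inferInstance : T.Normal).conj_mem k hk.2 z)⟩ ?_
      have e1 : z⁻¹ * v₀ * z = v₀ := by rw [mul_assoc, ← hv₀z, inv_mul_cancel_left]
      have e2 : z * (w : X) * z⁻¹ = w := by rw [hwz, mul_inv_cancel_right]
      have h : (k⁻¹ * (z * k * z⁻¹)) * v₀ * (k⁻¹ * (z * k * z⁻¹))⁻¹ = v₀ := by
        calc _ = k⁻¹ * (z * (k * (z⁻¹ * v₀ * z) * k⁻¹) * z⁻¹) * k := by group
          _ = k⁻¹ * (z * w * z⁻¹) * k := by rw [e1, hkw]
          _ = k⁻¹ * (k * v₀ * k⁻¹) * k := by rw [e2, hkw]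
          _ = v₀ := by group
      exact mul_inv_eq_iff_eq_mul.1 h
    set k₁ := k ^ Q₀ with hk₁
    have hkq : k ^ (Q₀ * (q - 1)) = 1 := by
      rw [← hNTcard, ← orderOf_dvd_iff_pow_eq_one, ← Subgroup.orderOf_mk k hk]
      exact orderOf_dvd_natCard _
    have hodd' : Odd (q - 1) := by
      obtain ⟨j, hj⟩ : 2 ∣ q := hq ▸ dvd_pow_self 2 (by rintro rfl; simp at hq; omega)
      exact ⟨j - 1, by omega⟩
    have hk₁odd : Odd (orderOf k₁) := by
      refine Odd.of_dvd_nat hodd' (orderOf_dvd_of_pow_eq_one ?_)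
      rw [hk₁, ← pow_mul, hkq]
    have hk₁S : k₁ ∉ S := fun h => by
      apply hkS
      -- `k` is a 2-element
      obtain ⟨i, hi⟩ := hSp ⟨k₁, h⟩
      refine htwo k hk (f + i) ?_
      rw [pow_add, pow_mul]
      exact congrArg Subtype.val hi
    haveI hnN : (S.subgroupOf N).Normal := Subgroup.normal_in_normalizer
    have hzk₁ : k₁⁻¹ * (z * k₁ * z⁻¹) ∈ S := by
      let kN : N := ⟨k, hk.1⟩
      let zN : N := ⟨z, hzQ.1⟩
      have h1 : QuotientGroup.mk' (S.subgroupOf N) (zN * kN * zN⁻¹) =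
          QuotientGroup.mk' (S.subgroupOf N) kN :=
        (QuotientGroup.eq.2 (show kN⁻¹ * (zN * kN * zN⁻¹) ∈ S.subgroupOf N from hzk)).symm
      have h2 : QuotientGroup.mk' (S.subgroupOf N) ((zN * kN * zN⁻¹) ^ Q₀) =
          QuotientGroup.mk' (S.subgroupOf N) (kN ^ Q₀) := by rw [map_pow, h1, ← map_pow]
      rw [conj_pow] at h2
      have h3 := QuotientGroup.eq.1 h2.symm
      exact h3
    -- all of the coset `k₁ S` is one `S`-class
    have hk₁N : k₁ ∈ N := pow_mem hk.1 Q₀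
    have hk₁1 : k₁ ≠ 1 := fun h => hk₁S (h ▸ S.one_mem)
    let g : S → S := fun s => ⟨k₁⁻¹ * s * k₁ * (s : X)⁻¹,
      mul_mem ((Subgroup.mem_normalizer_iff''.1 hk₁N _).1 s.2) (inv_mem s.2)⟩
    have hg : Function.Injective g := by
      intro s s' h
      have h1 : k₁⁻¹ * s * k₁ * (s : X)⁻¹ = k₁⁻¹ * s' * k₁ * (s' : X)⁻¹ := congrArg Subtype.val h
      have h2 : Commute ((s' : X)⁻¹ * s) k₁ := by
        show (s' : X)⁻¹ * s * k₁ = k₁ * ((s' : X)⁻¹ * s)
        calc (s' : X)⁻¹ * s * k₁ = (s' : X)⁻¹ * k₁ * (k₁⁻¹ * s * k₁ * (s : X)⁻¹) * s := by group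
          _ = (s' : X)⁻¹ * k₁ * (k₁⁻¹ * s' * k₁ * (s' : X)⁻¹) * s := by rw [h1]
          _ = k₁ * ((s' : X)⁻¹ * s) := by group
      have h3 := cit.fpf hSp (mul_mem (inv_mem s'.2) s.2) hk₁odd hk₁1 h2
      exact Subtype.ext (inv_mul_eq_one.1 h3).symm
    obtain ⟨s, hs⟩ := (Finite.injective_iff_surjective.1 hg) ⟨_, hzk₁⟩
    have hs' : k₁⁻¹ * s * k₁ * (s : X)⁻¹ = k₁⁻¹ * (z * k₁ * z⁻¹) := congrArg Subtype.val hs
    have hc : Commute ((s : X)⁻¹ * z) k₁ := by
      show (s : X)⁻¹ * z * k₁ = k₁ * ((s : X)⁻¹ * z)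
      calc (s : X)⁻¹ * z * k₁ = (s : X)⁻¹ * k₁ * (k₁⁻¹ * (z * k₁ * z⁻¹)) * z := by group
        _ = (s : X)⁻¹ * k₁ * (k₁⁻¹ * s * k₁ * (s : X)⁻¹) * z := by rw [hs']
        _ = k₁ * ((s : X)⁻¹ * z) := by group
    have hne : (s : X)⁻¹ * z ≠ 1 := fun h => hzS (by rw [inv_mul_eq_one] at h; exact h ▸ s.2)
    exact hk₁1 (cit.eq_one_of_commute
      (two_dvd_orderOf_of_mem hQp (mul_mem (inv_mem (hSQ s.2)) hzQ) hne) hk₁odd hc)
  -- the normaliser lies in `T`
  have hNcard : Nat.card N ≤ Q₀ * (q - 1) := by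
    let f' : N ⧸ Q.subgroupOf N → {w : V // w ≠ 1} := Quotient.lift
      (fun k => ⟨⟨(k : X) * v₀ * (k : X)⁻¹, hVN k k.2 v₀ hv₀⟩,
        fun h => hv₀1' (conj_eq_one_iff.1 (congrArg Subtype.val h))⟩)
      (fun k k' hkk => by
        have h1 : (k : X)⁻¹ * k' ∈ Q := by
          have h0 := QuotientGroup.leftRel_apply.1 hkk
          exact h0
        have h2 := Subgroup.mem_centralizer_singleton_iff.1 h1.2
        refine Subtype.ext (Subtype.ext ?_)
        show (k : X) * v₀ * (k : X)⁻¹ = (k' : X) * v₀ * (k' : X)⁻¹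
        calc (k : X) * v₀ * (k : X)⁻¹ = (k : X) * (v₀ * ((k : X)⁻¹ * k')) * (k' : X)⁻¹ := by group
          _ = (k : X) * (((k : X)⁻¹ * k') * v₀) * (k' : X)⁻¹ := by rw [h2]
          _ = (k' : X) * v₀ * (k' : X)⁻¹ := by group)
    have hf' : Function.Injective f' := by
      rintro ⟨k⟩ ⟨k'⟩ h
      have h1 : (k : X) * v₀ * (k : X)⁻¹ = (k' : X) * v₀ * (k' : X)⁻¹ :=
        congrArg (fun z => ((z.1 : V) : X)) h
      refine Quotient.sound (QuotientGroup.leftRel_apply.2 ⟨(k⁻¹ * k').2,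
        Subgroup.mem_centralizer_singleton_iff.2 ?_⟩)
      show (k : X)⁻¹ * k' * v₀ = v₀ * ((k : X)⁻¹ * k')
      calc (k : X)⁻¹ * k' * v₀ = (k : X)⁻¹ * ((k' : X) * v₀ * (k' : X)⁻¹) * k' := by group
        _ = (k : X)⁻¹ * ((k : X) * v₀ * (k : X)⁻¹) * k' := by rw [h1]
        _ = v₀ * ((k : X)⁻¹ * k') := by group
    have h := Subgroup.card_eq_card_quotient_mul_card_subgroup (Q.subgroupOf N)
    rw [Nat.card_congr (Subgroup.subgroupOfEquivOfLe (inf_le_left : Q ≤ N)).toEquiv,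
      show Nat.card Q = Q₀ by rw [hQS]; exact hScard] at h
    have h1 := Nat.card_le_card_of_injective f' hf'
    rw [hV1] at h1
    rw [h, mul_comm Q₀]
    exact Nat.mul_le_mul_right Q₀ h1
  have hNle : N ≤ T := by
    have := Subgroup.eq_of_le_of_card_ge (inf_le_left : NT ≤ N) (by rw [hNTcard]; exact hNcard)
    rw [← this]
    exact inf_le_right
  have h := Sylow.normalizer_sup_eq_top P
  rw [← hS] at h
  rw [eq_top_iff, ← h]
  exact sup_le hNle le_rfl

end CfsgLib.Spectrum.CITSocleTop
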