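/-
Groups of fixity at most four: basic facts about fixed point sets, orbits and signs.
-/
import Cfsg.Agent.Lib.Spectrum.FixityTwoSylow
import Cfsg.Prelude.Def_Involutions
import Mathlib

set_option autoImplicit false
open MulAction
open scoped Pointwise

namespace CfsgLib.Spectrum.FixFour

section Action

variable {G Ω : Type*} [Group G] [MulAction G Ω]

theorem fixedBy_subset_pow (g : G) (m : ℕ) : fixedBy Ω g ⊆ fixedBy Ω (g ^ m) := by
  intro x hx
  induction m with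
  | zero => simp
  | succ m ih =>
    change g ^ (m + 1) • x = x
    rw [pow_succ, mul_smul, show g • x = x from hx]
    exact ih

theorem fixedBy_conj (g h : G) : fixedBy Ω (g * h * g⁻¹) = g • fixedBy Ω h :=
  (MulAction.smul_fixedBy Ω h g).symm

theorem commute_mem_stabilizer {g h : G} (hc : g * h = h * g) :
    g ∈ stabilizer G (fixedBy Ω h) := by
  rw [mem_stabilizer_iff, ← fixedBy_conj, hc, mul_inv_cancel_right]

theorem centralizer_le_stabilizer (h : G) :
    Subgroup.centralizer ({h} : Set G) ≤ stabilizer G (fixedBy Ω h) := fun g hg => by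
  rw [Subgroup.mem_centralizer_singleton_iff] at hg
  exact commute_mem_stabilizer hg

theorem smul_mem_iff_of_stab {Φ : Set Ω} {g : G} (hg : g ∈ stabilizer G Φ) (x : Ω) :
    g • x ∈ Φ ↔ x ∈ Φ := by
  conv_lhs => rw [← mem_stabilizer_iff.1 hg, Set.smul_mem_smul_set_iff]

theorem fixing_le_stabilizer (Φ : Set Ω) : fixingSubgroup G Φ ≤ stabilizer G Φ := by
  intro g hg
  rw [mem_stabilizer_iff]
  rw [mem_fixingSubgroup_iff] at hg
  ext x
  constructor
  · rintro ⟨y, hy, rfl⟩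
    show g • y ∈ Φ
    rwa [hg y hy]
  · intro hx
    exact ⟨x, hx, hg x hx⟩

theorem subset_fixedBy_of_fixing {Φ : Set Ω} {g : G} (hg : g ∈ fixingSubgroup G Φ) :
    Φ ⊆ fixedBy Ω g := (mem_fixingSubgroup_iff_subset_fixedBy G).1 hg

theorem conj_mem_fixing {Φ : Set Ω} {g h : G} (hg : g ∈ stabilizer G Φ)
    (hh : h ∈ fixingSubgroup G Φ) : g * h * g⁻¹ ∈ fixingSubgroup G Φ := by
  rw [mem_fixingSubgroup_iff] at hh ⊢
  intro x hx
  have : g⁻¹ • x ∈ Φ := (smul_mem_iff_of_stab (inv_mem hg) x).2 hx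
  rw [mul_smul, mul_smul, hh _ this, smul_inv_smul]

/-- The action of the setwise stabilizer on the set. -/
noncomputable def permOn (Φ : Set Ω) : ↥(stabilizer G Φ) →* Equiv.Perm Φ where
  toFun h :=
    { toFun := fun x => ⟨(h : G) • (x : Ω), (smul_mem_iff_of_stab h.2 _).2 x.2⟩
      invFun := fun x => ⟨(h : G)⁻¹ • (x : Ω), (smul_mem_iff_of_stab (inv_mem h.2) _).2 x.2⟩
      left_inv := fun x => Subtype.ext (inv_smul_smul (h : G) (x : Ω))
      right_inv := fun x => Subtype.ext (smul_inv_smul (h : G) (x : Ω)) }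
  map_one' := Equiv.ext fun x => Subtype.ext (one_smul G (x : Ω))
  map_mul' a b := Equiv.ext fun x => Subtype.ext (mul_smul (a : G) (b : G) (x : Ω))

@[simp]
theorem permOn_apply (Φ : Set Ω) (h : ↥(stabilizer G Φ)) (x : Φ) :
    ((permOn Φ h x : Φ) : Ω) = (h : G) • (x : Ω) := rfl

theorem permOn_eq_one_iff (Φ : Set Ω) (h : ↥(stabilizer G Φ)) :
    permOn Φ h = 1 ↔ (h : G) ∈ fixingSubgroup G Φ := by
  rw [mem_fixingSubgroup_iff]
  constructor
  · intro e x hx
    exact congrArg Subtype.val (Equiv.ext_iff.1 e ⟨x, hx⟩)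
  · intro e
    exact Equiv.ext fun x => Subtype.ext (e _ x.2)

/-- A subgroup of the setwise stabilizer modulo its pointwise part embeds in a symmetric group. -/
theorem card_dvd_fixing_mul [Finite G] [Finite Ω] (Φ : Set Ω) {N : Subgroup G}
    (hN : N ≤ stabilizer G Φ) :
    Nat.card N ∣ Nat.card ↥(N ⊓ fixingSubgroup G Φ) * Φ.ncard.factorial := by
  classical
  let f : N →* Equiv.Perm Φ := (permOn Φ).comp (Subgroup.inclusion hN)
  have h1 := f.ker.card_mul_index
  rw [Subgroup.index_ker] at h1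
  have hk : f.ker = (N ⊓ fixingSubgroup G Φ).subgroupOf N := by
    ext x
    rw [MonoidHom.mem_ker, MonoidHom.comp_apply, permOn_eq_one_iff, Subgroup.mem_subgroupOf,
      Subgroup.mem_inf]
    exact ⟨fun h => ⟨x.2, h⟩, fun h => h.2⟩
  rw [hk, Nat.card_congr (Subgroup.subgroupOfEquivOfLe inf_le_left).toEquiv] at h1
  rw [← h1]
  refine Nat.mul_dvd_mul_left _ ?_
  rw [← Nat.card_coe_set_eq Φ, ← Nat.card_perm]
  exact Subgroup.card_subgroup_dvd_card _

end Action

section Pgroups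

variable {G : Type*} [Group G] [Finite G] {p : ℕ} [Fact p.Prime]

theorem exists_pow_orderOf {g : G} (hg : ∃ k : ℕ, orderOf g = p ^ k) (h1 : g ≠ 1) :
    ∃ m : ℕ, orderOf (g ^ m) = p := by
  obtain ⟨k, hk⟩ := hg
  rcases k with _ | k
  · exact absurd (orderOf_eq_one_iff.1 (by rw [hk, pow_zero])) h1
  refine ⟨p ^ k, ?_⟩
  rw [orderOf_pow, hk, Nat.gcd_eq_right (pow_dvd_pow _ (Nat.le_succ k)),
    Nat.pow_div (Nat.le_succ k) (Fact.out : p.Prime).pos]
  simp

theorem mem_orderOf_pow {Q : Subgroup G} (hQ : IsPGroup p Q) {g : G} (hg : g ∈ Q) :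
    ∃ k : ℕ, orderOf g = p ^ k := by
  obtain ⟨k, hk⟩ := IsPGroup.iff_orderOf.1 hQ ⟨g, hg⟩
  exact ⟨k, by rw [← hk, Subgroup.orderOf_mk]⟩

theorem exists_central_orderOf {Q : Subgroup G} (hQ : IsPGroup p Q) (hne : Q ≠ ⊥) :
    ∃ z ∈ Q, orderOf z = p ∧ ∀ y ∈ Q, y * z = z * y := by
  have : Nontrivial Q := (Subgroup.nontrivial_iff_ne_bot Q).2 hne
  have := hQ.center_nontrivial
  obtain ⟨z, hz⟩ := exists_ne (1 : ↥(Subgroup.center Q))
  obtain ⟨m, hm⟩ := exists_pow_orderOf (g := ((z : Q) : G)) (mem_orderOf_pow hQ (z : Q).2)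
    (fun h => hz (Subtype.ext (Subtype.ext h)))
  refine ⟨_, Q.pow_mem (z : Q).2 m, hm, fun y hy => ?_⟩
  have h := Subgroup.mem_center_iff.1 ((Subgroup.center Q).pow_mem z.2 m) ⟨y, hy⟩
  simpa using congrArg Subtype.val h

theorem exists_orderOf {Q : Subgroup G} (hQ : IsPGroup p Q) (hne : Q ≠ ⊥) :
    ∃ z ∈ Q, orderOf z = p :=
  (exists_central_orderOf hQ hne).imp fun _ h => ⟨h.1, h.2.1⟩

/-- A `p`-element of `H` is conjugate in `H` into a Sylow `p`-subgroup of `H`. -/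
theorem exists_conj_mem_of_sylow_le (H : Subgroup G) (N : Sylow p H) {x : G} (hxH : x ∈ H)
    (hx : ∃ k : ℕ, orderOf x = p ^ k) :
    ∃ h ∈ H, h * x * h⁻¹ ∈ (N : Subgroup H).map H.subtype := by
  obtain ⟨k, hk⟩ := hx
  have hpg : IsPGroup p (Subgroup.zpowers (⟨x, hxH⟩ : H)) :=
    IsPGroup.of_card (n := k) (by rw [Nat.card_zpowers, Subgroup.orderOf_mk, hk])
  obtain ⟨N', hN'⟩ := hpg.exists_le_sylow
  obtain ⟨h, hh⟩ := MulAction.exists_smul_eq H N' N
  refine ⟨h, h.2, ⟨h * ⟨x, hxH⟩ * h⁻¹, ?_, by simp⟩⟩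
  rw [← hh]
  exact ⟨_, hN' (Subgroup.mem_zpowers _), rfl⟩

/-- For every subgroup there is a Sylow subgroup meeting it in a Sylow subgroup. -/
theorem exists_sylow_inf (H : Subgroup G) :
    ∃ P : Sylow p G, ∃ N : Sylow p H, (N : Subgroup H).map H.subtype = (P : Subgroup G) ⊓ H := by
  obtain ⟨P, hP⟩ := IsPGroup.exists_le_sylow ((default : Sylow p H).2.map H.subtype)
  refine ⟨P, default, le_antisymm (le_inf hP (Subgroup.map_subtype_le _)) ?_⟩
  have hpg : IsPGroup p (((P : Subgroup G) ⊓ H).subgroupOf H) :=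
    (P.2.to_le inf_le_left).comap_of_injective H.subtype H.subtype_injective
  have hle : ((default : Sylow p H) : Subgroup H) ≤ ((P : Subgroup G) ⊓ H).subgroupOf H := by
    intro x hx
    exact ⟨hP ⟨x, hx, rfl⟩, x.2⟩
  rw [← (default : Sylow p H).3 hpg hle, Subgroup.map_subgroupOf_eq_of_le inf_le_right]

/-- Every `p`-subgroup of `H` is at most as large as a Sylow subgroup of `H`. -/
theorem card_le_of_sylow (H : Subgroup G) (N : Sylow p H) {D : Subgroup G} (hDH : D ≤ H)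
    (hD : IsPGroup p D) : Nat.card D ∣ Nat.card ((N : Subgroup H).map H.subtype) := by
  obtain ⟨N', hN'⟩ := (hD.comap_of_injective H.subtype H.subtype_injective).exists_le_sylow
  have h1 := Subgroup.card_dvd_of_le hN'
  change Nat.card ↥(D.subgroupOf H) ∣ _ at h1
  rw [Nat.card_congr (Subgroup.subgroupOfEquivOfLe hDH).toEquiv, N'.card_eq_multiplicity,
    ← N.card_eq_multiplicity] at h1
  rwa [Subgroup.card_map_of_injective H.subtype_injective]

/-- A nontrivial normalised subgroup of a `p`-group contains a central element of order `p`. -/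
theorem exists_central_in {Q R : Subgroup G} (hQ : IsPGroup p Q) (hRQ : R ≤ Q) (hne : R ≠ ⊥)
    (hnorm : ∀ y ∈ Q, ∀ r ∈ R, y * r * y⁻¹ ∈ R) :
    ∃ z ∈ R, orderOf z = p ∧ ∀ y ∈ Q, y * z = z * y := by
  classical
  let T : Subgroup Q := R.subgroupOf Q
  have : T.Normal := ⟨fun n hn g => hnorm g g.2 n hn⟩
  have hT1 : Nat.card T ≠ 1 := by
    rw [Nat.card_congr (Subgroup.subgroupOfEquivOfLe hRQ).toEquiv]
    exact fun h => hne (Subgroup.card_eq_one.1 h)
  obtain ⟨k, hk⟩ := IsPGroup.iff_card.1 (hQ.to_subgroup T)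
  have hpd : p ∣ Nat.card T := by
    rw [hk]
    exact dvd_pow_self p fun e => hT1 (by rw [hk, e, pow_zero])
  have h1 : (1 : T) ∈ MulAction.fixedPoints (ConjAct Q) T := fun x => smul_one x
  obtain ⟨b, hb, hb1⟩ := IsPGroup.exists_fixed_point_of_prime_dvd_card_of_fixed_point
    (G := ConjAct Q) (p := p) (fun x => hQ (ConjAct.ofConjAct x)) T hpd h1
  have hbne : ((b : Q) : G) ≠ 1 := fun e => hb1 (Subtype.ext (Subtype.ext e.symm))
  obtain ⟨m, hm⟩ := exists_pow_orderOf (g := ((b : Q) : G)) (mem_orderOf_pow hQ (b : Q).2) hbne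
  refine ⟨((b : Q) : G) ^ m, R.pow_mem b.2 m, hm, fun y hy => ?_⟩
  have h := congrArg Subtype.val (hb (ConjAct.toConjAct ⟨y, hy⟩))
  change (⟨y, hy⟩ : Q) * (b : Q) * (⟨y, hy⟩ : Q)⁻¹ = b at h
  have h' : y * ((b : Q) : G) * y⁻¹ = ((b : Q) : G) := congrArg Subtype.val h
  have hc : Commute y ((b : Q) : G) := mul_inv_eq_iff_eq_mul.1 h'
  exact hc.pow_right m

end Pgroups

section Strong

variable {G Ω : Type*} [Group G] [Finite G] [MulAction G Ω]

theorem stabilizer_ne_top [IsPretransitive G Ω] {Φ : Set Ω} (hne : Φ.Nonempty)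
    (hun : Φ ≠ Set.univ) : stabilizer G Φ ≠ ⊤ := by
  intro h
  apply hun
  obtain ⟨x, hx⟩ := hne
  rw [Set.eq_univ_iff_forall]
  intro y
  obtain ⟨g, rfl⟩ := exists_smul_eq G x y
  exact (smul_mem_iff_of_stab (h ▸ Subgroup.mem_top g) x).2 hx

/-- If all elements of order `p` of a Sylow `p`-subgroup fix the same set, the stabilizer of that
set is strongly `p`-embedded. -/
theorem strongly_embedded_of_fixed [IsPretransitive G Ω] (p : ℕ) [Fact p.Prime] (Q : Sylow p G)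
    (hQ : (Q : Subgroup G) ≠ ⊥) {Φ : Set Ω} (hne : Φ.Nonempty) (hun : Φ ≠ Set.univ)
    (hfix : ∀ x ∈ (Q : Subgroup G), orderOf x = p → fixedBy Ω x = Φ) :
    ∃ H : Subgroup G, H ≠ ⊤ ∧ p ∣ Nat.card H ∧
      ∀ g : G, g ∉ H → ¬ p ∣ Nat.card ↥(H ⊓ H.map (MulAut.conj g).toMonoidHom) := by
  obtain ⟨z, hz, hzo, hzc⟩ := exists_central_orderOf Q.2 hQ
  have hQH : (Q : Subgroup G) ≤ stabilizer G Φ := fun y hy =>
    hfix z hz hzo ▸ commute_mem_stabilizer (hzc y hy)
  have hkey : ∀ x ∈ stabilizer G Φ, orderOf x = p → fixedBy Ω x = Φ := by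
    intro x hx hxo
    obtain ⟨h, hh, hhx⟩ :=
      exists_conj_mem_of_sylow_le (stabilizer G Φ) (Q.subtype hQH) hx ⟨1, by rw [hxo, pow_one]⟩
    rw [Sylow.coe_subtype, Subgroup.map_subgroupOf_eq_of_le hQH] at hhx
    have h1 := hfix _ hhx (by
      rw [← hxo]
      exact orderOf_injective (MulAut.conj h).toMonoidHom (MulAut.conj h).injective x)
    rw [fixedBy_conj] at h1
    calc fixedBy Ω x = h⁻¹ • h • fixedBy Ω x := (inv_smul_smul _ _).symm
      _ = Φ := by rw [h1]; exact mem_stabilizer_iff.1 (inv_mem hh)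
  refine ⟨stabilizer G Φ, stabilizer_ne_top hne hun, ?_, fun g hg hdvd => hg ?_⟩
  · rw [← hzo, ← Subgroup.orderOf_mk z (hQH hz)]
    exact orderOf_dvd_natCard _
  obtain ⟨x, hx⟩ := exists_prime_orderOf_dvd_card' p hdvd
  have hxo : orderOf (x : G) = p := by rw [Subgroup.orderOf_coe, hx]
  obtain ⟨hxH, y, hy, hyx⟩ := x.2
  have hyo : orderOf y = p := by
    rw [← hxo, ← hyx]
    exact (orderOf_injective _ (MulAut.conj g).injective y).symm
  rw [mem_stabilizer_iff]
  calc g • Φ = g • fixedBy Ω y := by rw [hkey y hy hyo]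
    _ = fixedBy Ω (g * y * g⁻¹) := (fixedBy_conj g y).symm
    _ = fixedBy Ω (x : G) := by rw [← hyx]; rfl
    _ = Φ := hkey _ hxH hxo

theorem isStronglyEmbedded_of_fixed [IsPretransitive G Ω] (Q : Sylow 2 G)
    (hQ : (Q : Subgroup G) ≠ ⊥) {Φ : Set Ω} (hne : Φ.Nonempty) (hun : Φ ≠ Set.univ)
    (hfix : ∀ x ∈ (Q : Subgroup G), orderOf x = 2 → fixedBy Ω x = Φ) :
    ∃ H : Subgroup G, Cfsg.IsStronglyEmbedded H := by
  have : Fact (Nat.Prime 2) := ⟨Nat.prime_two⟩
  obtain ⟨H, h1, h2, h3⟩ := strongly_embedded_of_fixed 2 Q hQ hne hun hfix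
  exact ⟨H, h1, even_iff_two_dvd.2 h2, fun g hg =>
    Nat.not_even_iff_odd.1 fun h => h3 g hg (even_iff_two_dvd.1 h)⟩

end Strong

section Orbits

variable {P Ω : Type*} [Group P] [Finite P] [MulAction P Ω] [Finite Ω]

/-- Orbit sizes: if a prime power does not divide the size of an invariant set then some point of
the set has a smaller orbit. -/
theorem exists_small_orbit {p : ℕ} [Fact p.Prime] (hP : IsPGroup p P) (Y : Set Ω)
    (hY : ∀ g : P, ∀ y ∈ Y, g • y ∈ Y) (j : ℕ) (hj : ¬ p ^ j ∣ Y.ncard) :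
    ∃ y ∈ Y, (stabilizer P y).index < p ^ j := by
  classical
  by_contra hcon
  push_neg at hcon
  apply hj
  let _ := Fintype.ofFinite Ω
  let _ := Fintype.ofFinite (Quotient (orbitRel P Ω))
  have hmem : ∀ (y : Ω), y ∈ Y ↔ (Quotient.mk (orbitRel P Ω) y).out ∈ Y := by
    intro y
    obtain ⟨g, hg⟩ := Quotient.exact (Quotient.mk (orbitRel P Ω) y).out_eq
    change g • y = _ at hg
    rw [← hg]
    exact ⟨hY g y, fun h => inv_smul_smul g y ▸ hY g⁻¹ _ h⟩
  have hc : Y.ncard = ∑ q ∈ (Finset.univ : Finset (Quotient (orbitRel P Ω))).filter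
      (fun q => q.out ∈ Y), (stabilizer P q.out).index := by
    rw [Set.ncard_eq_toFinset_card', Finset.card_eq_sum_card_fiberwise
      (f := Quotient.mk (orbitRel P Ω))
      (t := Finset.univ.filter (fun q : Quotient (orbitRel P Ω) => q.out ∈ Y))]
    · refine Finset.sum_congr rfl fun q hq => ?_
      rw [Finset.mem_filter] at hq
      rw [index_stabilizer, ← Set.ncard_coe_finset]
      congr 1
      ext y
      rw [Finset.mem_coe, Finset.mem_filter, Set.mem_toFinset]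
      constructor
      · rintro ⟨-, rfl⟩
        exact (Quotient.exact (Quotient.out_eq (Quotient.mk (orbitRel P Ω) y)).symm : _)
      · intro hy
        have e : Quotient.mk (orbitRel P Ω) y = q := by
          rw [← q.out_eq]
          exact Quotient.sound hy
        exact ⟨(hmem y).2 (e ▸ hq.2), e⟩
    · intro y hy
      rw [Finset.mem_coe, Set.mem_toFinset] at hy
      exact Finset.mem_coe.2 (Finset.mem_filter.2 ⟨Finset.mem_univ _, (hmem y).1 hy⟩)
  rw [hc]
  refine Finset.dvd_sum fun q hq => ?_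
  have h1 := hcon q.out (Finset.mem_filter.1 hq).2
  obtain ⟨i, hi⟩ := hP.index (stabilizer P q.out)
  rw [hi] at h1 ⊢
  exact pow_dvd_pow p ((Nat.pow_le_pow_iff_right (Fact.out : p.Prime).one_lt).1 h1)

/-- A `p`-group acting semiregularly on an invariant set has order dividing its size. -/
theorem card_dvd_of_free {p : ℕ} [Fact p.Prime] (hP : IsPGroup p P) (Y : Set Ω)
    (hY : ∀ g : P, ∀ y ∈ Y, g • y ∈ Y) (hfree : ∀ g : P, ∀ y ∈ Y, g • y = y → g = 1) :
    Nat.card P ∣ Y.ncard := by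
  obtain ⟨j, hj⟩ := hP.exists_card_eq
  rw [hj]
  by_contra h
  obtain ⟨y, hy, hlt⟩ := exists_small_orbit hP Y hY j h
  have : stabilizer P y = ⊥ := (Subgroup.eq_bot_iff_forall _).2 fun g hg => hfree g y hy hg
  rw [this, Subgroup.index_bot, hj] at hlt
  exact lt_irrefl _ hlt

theorem card_le_of_free {p : ℕ} [Fact p.Prime] (hP : IsPGroup p P) (Y : Set Ω)
    (hY : ∀ g : P, ∀ y ∈ Y, g • y ∈ Y) (hfree : ∀ g : P, ∀ y ∈ Y, g • y = y → g = 1)
    (hne : Y.Nonempty) : Nat.card P ≤ Y.ncard :=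
  Nat.le_of_dvd ((Set.ncard_pos (Set.toFinite _)).2 hne) (card_dvd_of_free hP Y hY hfree)

end Orbits

section Sign

/-- The sign of a permutation with uniform cycles outside an invariant set. -/
theorem sign_split {α : Type*} [Fintype α] [DecidableEq α] (σ : Equiv.Perm α) (Φ : Finset α)
    (hΦ : ∀ a, σ a ∈ Φ ↔ a ∈ Φ) (n : ℕ) (hn : Even n) (hn0 : 0 < n) (hσ : σ ^ n = 1)
    (hfree : ∀ a, a ∉ Φ → ∀ m : ℕ, (σ ^ m) a = a → n ∣ m) :
    n ∣ Fintype.card α - Φ.card ∧
      Equiv.Perm.sign σ = Equiv.Perm.sign (σ.subtypePerm hΦ) *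
        (-1) ^ ((Fintype.card α - Φ.card) / n) := by
  set t : Equiv.Perm α := Equiv.Perm.ofSubtype (σ.subtypePerm hΦ) with ht
  set ρ : Equiv.Perm α := σ * t⁻¹ with hρ
  have htin : ∀ a, a ∈ Φ → t⁻¹ a = σ⁻¹ a ∧ σ⁻¹ a ∈ Φ := by
    intro a ha
    have hm : σ⁻¹ a ∈ Φ := (hΦ _).1 (by simpa using ha)
    refine ⟨?_, hm⟩
    rw [Equiv.Perm.inv_eq_iff_eq, ht, Equiv.Perm.ofSubtype_subtypePerm_of_mem hΦ hm]
    simp
  have htout : ∀ a, a ∉ Φ → t⁻¹ a = a := by
    intro a ha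
    rw [Equiv.Perm.inv_eq_iff_eq, ht, Equiv.Perm.ofSubtype_subtypePerm_of_not_mem hΦ ha]
  have hρin : ∀ a, a ∈ Φ → ρ a = a := fun a ha => by
    rw [hρ, Equiv.Perm.mul_apply, (htin a ha).1]; simp
  have hρout : ∀ a, a ∉ Φ → ρ a = σ a := fun a ha => by
    rw [hρ, Equiv.Perm.mul_apply, htout a ha]
  have hmem : ∀ (m : ℕ) a, a ∉ Φ → (ρ ^ m) a = (σ ^ m) a ∧ (σ ^ m) a ∉ Φ := by
    intro m
    induction m with
    | zero => exact fun a ha => ⟨rfl, ha⟩
    | succ m ih =>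
      intro a ha
      obtain ⟨h1, h2⟩ := ih a ha
      have h3 : (ρ ^ (m + 1)) a = ρ ((ρ ^ m) a) := by rw [pow_succ']; rfl
      have h4 : (σ ^ (m + 1)) a = σ ((σ ^ m) a) := by rw [pow_succ']; rfl
      rw [h3, h4, h1, hρout _ h2]
      exact ⟨rfl, fun h => h2 ((hΦ _).1 h)⟩
  have hρn : ρ ^ n = 1 := by
    ext a
    by_cases ha : a ∈ Φ
    · rw [Equiv.Perm.pow_apply_eq_self_of_apply_eq_self (hρin a ha), Equiv.Perm.one_apply]
    · rw [(hmem n a ha).1, hσ]
  have hsupp : ρ.support = Φᶜ := by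
    ext a
    rw [Equiv.Perm.mem_support, Finset.mem_compl]
    constructor
    · exact fun h ha => h (hρin a ha)
    · intro ha h
      rw [hρout a ha] at h
      have h1 := Nat.le_of_dvd one_pos (hfree a ha 1 (by rw [pow_one]; exact h))
      obtain ⟨k, hk⟩ := hn
      omega
  obtain ⟨h1, h2⟩ := CfsgLib.Spectrum.sign_eq_of_free ρ n hρn hn (fun a ha m hm => by
    have haΦ : a ∉ Φ := fun h => ha (hρin a h)
    exact hfree a haΦ m ((hmem m a haΦ).1.symm.trans hm))
  rw [hsupp, Finset.card_compl] at h1 h2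
  refine ⟨h1, ?_⟩
  have e : σ = ρ * t := by rw [hρ, inv_mul_cancel_right]
  conv_lhs => rw [e]
  rw [map_mul, h2, mul_comm, ht, Equiv.Perm.sign_ofSubtype]

end Sign

end CfsgLib.Spectrum.FixFour
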