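/-
Simple groups of fixity four in which involutions fix at most three points.
-/
import Cfsg.Agent.Lib.Spectrum.FixityFourBasic
import Cfsg.Agent.Lib.Components2.TwentyTwo.Setup
import Cfsg.Agent.Lib.SectRank.Transfer
import Cfsg.Agent.S0204
import Mathlib

set_option autoImplicit false
open MulAction
open scoped Pointwise

namespace CfsgLib.Spectrum.FixFour

section TwoGroups

variable {G : Type*} [Group G] [Finite G]

/-- A `2`-subgroup is conjugate into any Sylow 2-subgroup. -/
theorem exists_conj_le_sylow (S : Sylow 2 G) {D : Subgroup G} (hD : IsPGroup 2 D) :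
    ∃ g : G, ∀ x ∈ D, g * x * g⁻¹ ∈ (S : Subgroup G) := by
  have : Fact (Nat.Prime 2) := ⟨Nat.prime_two⟩
  obtain ⟨S', hS'⟩ := hD.exists_le_sylow
  obtain ⟨g, hg⟩ := MulAction.exists_smul_eq G S' S
  exact ⟨g, fun x hx => by rw [← hg]; exact ⟨x, hS' hx, rfl⟩⟩

theorem exists_conj_mem_sylow (S : Sylow 2 G) {x : G} (hx : ∃ k : ℕ, orderOf x = 2 ^ k) :
    ∃ g : G, g * x * g⁻¹ ∈ (S : Subgroup G) := by
  obtain ⟨k, hk⟩ := hx
  obtain ⟨g, hg⟩ := exists_conj_le_sylow S (IsPGroup.of_card (n := k)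
    (by rw [Nat.card_zpowers, hk]) : IsPGroup 2 (Subgroup.zpowers x))
  exact ⟨g, hg x (Subgroup.mem_zpowers x)⟩

theorem orderOf_conj_eq (g x : G) : orderOf (g * x * g⁻¹) = orderOf x :=
  orderOf_injective (MulAut.conj g).toMonoidHom (MulAut.conj g).injective x

theorem orderOf_two_iff {x : G} : orderOf x = 2 ↔ x * x = 1 ∧ x ≠ 1 := by
  have : Fact (Nat.Prime 2) := ⟨Nat.prime_two⟩
  rw [orderOf_eq_prime_iff, pow_two]

theorem index_ne_two [IsSimpleGroup G] (hna : ¬ IsMulCommutative G) (K : Subgroup G) :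
    K.index ≠ 2 := by
  intro h
  have := Subgroup.normal_of_index_eq_two h
  rcases IsSimpleGroup.eq_bot_or_eq_top_of_normal K this with e | e
  · subst e
    rw [Subgroup.index_bot] at h
    have : Fact (Nat.Prime 2) := ⟨Nat.prime_two⟩
    have := isCyclic_of_prime_card h
    exact hna IsCyclic.isMulCommutative
  · subst e; simp at h

theorem not_isCyclic_of_not_comm (hna : ¬ IsMulCommutative G) : ¬ IsCyclic G :=
  fun _ => hna IsCyclic.isMulCommutative

/-- A Sylow 2-subgroup of a simple group has two distinct involutions. -/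
theorem exists_two_involutions [IsSimpleGroup G] (hna : ¬ IsMulCommutative G) (S : Sylow 2 G) :
    ¬ ∀ a b : (S : Subgroup G), a * a = 1 → a ≠ 1 → b * b = 1 → b ≠ 1 → a = b := by
  intro h
  obtain ⟨E, hE⟩ := Cfsg.Agent.S0204.result (not_isCyclic_of_not_comm hna)
  have hE4 : Nat.card E = 4 := IsKleinFour.card_four
  obtain ⟨g, hg⟩ := exists_conj_le_sylow S
    (IsPGroup.of_card (n := 2) (by rw [hE4]; norm_num) : IsPGroup 2 E)
  let f : E → (S : Subgroup G) := fun e => ⟨g * e * g⁻¹, hg e e.2⟩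
  have hf : Function.Injective f := fun a b e =>
    Subtype.ext ((MulAut.conj g).injective (congrArg Subtype.val e : _))
  have hsq : ∀ e : E, f e * f e = 1 := fun e => Subtype.ext (by
    show g * e * g⁻¹ * (g * e * g⁻¹) = 1
    have he : (e : G) * e = 1 := congrArg Subtype.val (IsKleinFour.mul_self e)
    calc g * e * g⁻¹ * (g * e * g⁻¹) = g * ((e : G) * e) * g⁻¹ := by group
      _ = 1 := by rw [he, mul_one, mul_inv_cancel])
  have h1 : ∀ e : E, e ≠ 1 → f e ≠ 1 := fun e he hfe => he (hf (hfe.trans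
    (Subtype.ext (by simp [f]) : (1 : (S : Subgroup G)) = f 1)))
  classical
  let _ := Fintype.ofFinite E
  obtain ⟨a, b, hab, ha, hb⟩ : ∃ a b : E, a ≠ b ∧ a ≠ 1 ∧ b ≠ 1 := by
    have hc : 1 < (Finset.univ.erase (1 : E)).card := by
      rw [Finset.card_erase_of_mem (Finset.mem_univ _), Finset.card_univ,
        ← Nat.card_eq_fintype_card, hE4]
      norm_num
    obtain ⟨a, ha, b, hb, hab⟩ := Finset.one_lt_card.1 hc
    exact ⟨a, b, hab, Finset.ne_of_mem_erase ha, Finset.ne_of_mem_erase hb⟩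
  exact hab (hf (h (f a) (f b) (hsq a) (h1 a ha) (hsq b) (h1 b hb)))

end TwoGroups

section Parity

variable {G Ω : Type*} [Group G] [MulAction G Ω] [Finite Ω]

theorem ncard_fixed_parity {t : G} (ht : t * t = 1) {Y : Set Ω}
    (hY : ∀ y ∈ Y, t • y ∈ Y) : Y.ncard % 2 = (fixedBy Ω t ∩ Y).ncard % 2 := by
  have : Fact (Nat.Prime 2) := ⟨Nat.prime_two⟩
  have h := CfsgLib.Components2.TwentyTwo.modEq_fixed (MulAction.toPerm t : Equiv.Perm Ω) 2
    (by rw [← MulAction.toPermHom_apply, ← map_pow, pow_two, ht, map_one]) Y hY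
  refine h.trans ?_
  congr 2
  ext y
  simp [MulAction.mem_fixedBy, and_comm]

theorem card_parity {t : G} (ht : t * t = 1) :
    Nat.card Ω % 2 = (fixedBy Ω t).ncard % 2 := by
  have h := ncard_fixed_parity (Ω := Ω) ht (Y := Set.univ) (fun _ _ => trivial)
  rwa [Set.ncard_univ, Set.inter_univ] at h

end Parity

section Low

variable {G Ω : Type*} [Group G] [Finite G] [MulAction G Ω] [FaithfulSMul G Ω] [Finite Ω]

theorem ne_univ_of_fixed {x : G} (hx : x ≠ 1) : fixedBy Ω x ≠ Set.univ := fun h =>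
  hx (eq_of_smul_eq_smul (α := Ω) fun b => by
    rw [one_smul]; exact (h ▸ Set.mem_univ b : b ∈ fixedBy Ω x))

/-- Involutions fix at most three points: strongly embedded subgroup or dihedral or semidihedral
Sylow 2-subgroups. -/
theorem low_case [IsSimpleGroup G] (hna : ¬ IsMulCommutative G) (htrans : IsPretransitive G Ω)
    (f : ℕ) (hf1 : 1 ≤ f) (hf3 : f ≤ 3)
    (hf : ∀ g : G, orderOf g = 2 → (fixedBy Ω g).ncard ≤ f)
    (hf' : ∃ g : G, orderOf g = 2 ∧ (fixedBy Ω g).ncard = f) (S : Sylow 2 G) :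
    (∃ H : Subgroup G, Cfsg.IsStronglyEmbedded H) ∨
      ((∃ n : ℕ, Nonempty ((S : Subgroup G) ≃* DihedralGroup n)) ∨
        Cfsg.IsQuasiDihedral (S : Subgroup G)) := by
  classical
  have : Fact (Nat.Prime 2) := ⟨Nat.prime_two⟩
  obtain ⟨t₀, ht₀, ht₀f⟩ := hf'
  have hne : ∀ x : G, orderOf x = 2 → x ≠ 1 := fun x hx => (orderOf_two_iff.1 hx).2
  by_cases hone : f = 1
  · -- a point stabilizer is strongly embedded
    left
    obtain ⟨a, ha⟩ := Set.nonempty_of_ncard_ne_zero (s := fixedBy Ω t₀) (by omega)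
    refine ⟨stabilizer G a, ?_, ?_, fun g hg => ?_⟩
    · intro h
      apply hne t₀ ht₀
      refine eq_of_smul_eq_smul (α := Ω) fun b => ?_
      obtain ⟨g, rfl⟩ := exists_smul_eq G a b
      rw [one_smul]
      have hga : g • a = a := mem_stabilizer_iff.1 (h ▸ Subgroup.mem_top g)
      rw [hga]
      exact ha
    · rw [even_iff_two_dvd, ← ht₀, ← Subgroup.orderOf_mk t₀ (show t₀ ∈ stabilizer G a from ha)]
      exact orderOf_dvd_natCard _
    · rw [← Nat.not_even_iff_odd, even_iff_two_dvd]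
      intro hd
      obtain ⟨w, hw⟩ := exists_prime_orderOf_dvd_card' 2 hd
      have hwo : orderOf (w : G) = 2 := by rw [Subgroup.orderOf_coe, hw]
      obtain ⟨hwH, y, hy, hyw⟩ := w.2
      have hga : g • a ∈ fixedBy Ω (w : G) := by
        rw [← hyw]
        show (g * y * g⁻¹) • g • a = g • a
        rw [← mul_smul, inv_mul_cancel_right, mul_smul, show y • a = a from hy]
      apply hg
      rw [mem_stabilizer_iff]
      exact (Set.ncard_le_one_iff (Set.toFinite _)).1 (hone ▸ hf _ hwo) hga hwH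
  -- involutions fixing two points fix exactly `f`
  have hexactf : ∀ x : G, orderOf x = 2 → 2 ≤ (fixedBy Ω x).ncard → (fixedBy Ω x).ncard = f := by
    intro x hx h2
    have h1 := card_parity (Ω := Ω) (orderOf_two_iff.1 hx).1
    have h0 := card_parity (Ω := Ω) (orderOf_two_iff.1 ht₀).1
    have := hf x hx
    omega
  obtain ⟨g₀, hg₀⟩ := exists_conj_mem_sylow S (x := t₀) ⟨1, by rw [ht₀, pow_one]⟩
  set t := g₀ * t₀ * g₀⁻¹ with htdef
  have hto : orderOf t = 2 := by rw [htdef, orderOf_conj_eq, ht₀]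
  set Φ := fixedBy Ω t with hΦ
  have hΦf : Φ.ncard = f := by rw [hΦ, htdef, fixedBy_conj, Set.ncard_smul_set, ht₀f]
  set N := (S : Subgroup G) ⊓ stabilizer G Φ with hN
  set R := N ⊓ fixingSubgroup G Φ with hR
  have htN : t ∈ N := Subgroup.mem_inf.2
    ⟨hg₀, centralizer_le_stabilizer t (Subgroup.mem_centralizer_singleton_iff.2 rfl)⟩
  have htR : t ∈ R := Subgroup.mem_inf.2
    ⟨htN, (mem_fixingSubgroup_iff_subset_fixedBy G).2 subset_rfl⟩
  have hN2 : IsPGroup 2 N := S.2.to_le inf_le_left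
  have hexact : ∀ g ∈ (S : Subgroup G), g ∈ fixingSubgroup G Φ → g ≠ 1 → fixedBy Ω g = Φ := by
    intro g hgS hg hg1
    obtain ⟨m, hm⟩ := exists_pow_orderOf (mem_orderOf_pow S.2 hgS) hg1
    have h1 := subset_fixedBy_of_fixing hg
    have h2 : Φ ⊆ fixedBy Ω (g ^ m) := h1.trans (fixedBy_subset_pow g m)
    have h3 := Set.ncard_le_ncard h2 (Set.toFinite _)
    have h4 : Φ = fixedBy Ω (g ^ m) := Set.eq_of_subset_of_ncard_le h2
      (by rw [hexactf _ hm (by omega)]; omega) (Set.toFinite _)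
    exact Set.Subset.antisymm (h4 ▸ fixedBy_subset_pow g m) h1
  have hquot : ∀ D : Subgroup G, IsPGroup 2 D → D ≤ stabilizer G Φ →
      Nat.card D ≤ 2 * Nat.card ↥(D ⊓ fixingSubgroup G Φ) := by
    intro D hD hDle
    have h1 := card_dvd_fixing_mul Φ hDle
    rw [hΦf] at h1
    obtain ⟨i, hi⟩ := hD.exists_card_eq
    obtain ⟨j, hj⟩ := (hD.to_le inf_le_left : IsPGroup 2 ↥(D ⊓ fixingSubgroup G Φ)).exists_card_eq
    rw [hi, hj] at h1 ⊢
    have h2 : 2 ^ i ∣ 2 ^ j * (2 * 3) := h1.trans (Nat.mul_dvd_mul_left _ (by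
      rcases (show f = 2 ∨ f = 3 by omega) with rfl | rfl <;> norm_num [Nat.factorial]))
    rw [← mul_assoc] at h2
    have h4 := (Nat.Coprime.pow_left i (by norm_num : Nat.Coprime 2 3)).dvd_of_dvd_mul_right h2
    rw [mul_comm]
    exact Nat.le_of_dvd (Nat.mul_pos (pow_pos (by norm_num) j) (by norm_num)) h4
  -- it suffices to find a small centralizer
  suffices key : (∃ H : Subgroup G, Cfsg.IsStronglyEmbedded H) ∨ (4 ≤ Nat.card (S : Subgroup G) ∧
      ∃ u ∈ (S : Subgroup G),
        Nat.card ↥((S : Subgroup G) ⊓ Subgroup.centralizer ({u} : Set G)) ≤ 4) by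
    rcases key with h | ⟨h4, u, huS, hu⟩
    · exact Or.inl h
    right
    have hc : Nat.card (Subgroup.centralizer ({(⟨u, huS⟩ : (S : Subgroup G))} :
        Set (S : Subgroup G))) ≤ 4 := by
      refine le_trans (Nat.card_le_card_of_injective (fun c => (⟨((c : (S : Subgroup G)) : G),
        Subgroup.mem_inf.2 ⟨(c : (S : Subgroup G)).2, Subgroup.mem_centralizer_singleton_iff.2
          (congrArg Subtype.val (Subgroup.mem_centralizer_singleton_iff.1 c.2))⟩⟩ :
            ↥((S : Subgroup G) ⊓ Subgroup.centralizer ({u} : Set G)))) ?_) hu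
      intro a b e
      exact Subtype.ext (Subtype.ext (congrArg Subtype.val e : _))
    rcases CfsgLib.Spectrum.dihedral_or_unique_of_centralizer_le_four S.2 h4 _ hc with h | h
    · exact h
    · exact absurd h (exists_two_involutions hna S)
  have htS : t ∈ (S : Subgroup G) := hg₀
  by_cases hNS : (S : Subgroup G) ≤ N
  swap
  · -- the centralizer of `t` has order at most four
    right
    have hlt : N.subgroupOf (S : Subgroup G) < ⊤ :=
      lt_top_iff_ne_top.2 fun e => hNS (Subgroup.subgroupOf_eq_top.1 e)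
    have := S.2.isNilpotent
    obtain ⟨-, g, hgN, hgN0⟩ := SetLike.lt_iff_le_and_exists.1
      (Group.normalizerCondition_of_isNilpotent _ hlt)
    have hgΦ : (g : G) • Φ ≠ Φ := fun e =>
      hgN0 (Subgroup.mem_inf.2 ⟨g.2, mem_stabilizer_iff.2 e⟩)
    set R2 := R.map (MulAut.conj (g : G)).toMonoidHom with hR2
    have hR2N : R2 ≤ N := by
      rintro _ ⟨r, hr, rfl⟩
      exact (Subgroup.mem_normalizer_iff.1 hgN ⟨r, hr.1.1⟩).1 hr.1
    have hdisj : R ⊓ R2 = ⊥ := by
      rw [Subgroup.eq_bot_iff_forall]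
      rintro w ⟨hw, r, hr, rfl⟩
      by_contra hw1
      have h1 := hexact _ hw.1.1 hw.2 hw1
      have h2' := hexact r hr.1.1 hr.2 (fun e => hw1 (by rw [e, map_one]))
      apply hgΦ
      calc (g : G) • Φ = (g : G) • fixedBy Ω r := by rw [h2']
        _ = fixedBy Ω ((g : G) * r * (g : G)⁻¹) := (fixedBy_conj _ _).symm
        _ = Φ := h1
    have hR2card : Nat.card R2 = Nat.card R :=
      Subgroup.card_map_of_injective (MulAut.conj (g : G)).injective
    have hmul : Nat.card R * Nat.card R2 ≤ Nat.card N := by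
      rw [← Nat.card_prod]
      refine Nat.card_le_card_of_injective
        (fun x : R × R2 => (⟨x.1 * x.2, N.mul_mem x.1.2.1 (hR2N x.2.2)⟩ : N)) ?_
      rintro ⟨a, b⟩ ⟨a', b'⟩ e
      have e' : (a : G) * b = a' * b' := congrArg (fun x : N => (x : G)) e
      have h2 : (a' : G)⁻¹ * a = b' * (b : G)⁻¹ := by
        rw [eq_mul_inv_iff_mul_eq, mul_assoc, e', inv_mul_cancel_left]
      have hm : (a' : G)⁻¹ * a = 1 := Subgroup.mem_bot.1 (hdisj ▸ Subgroup.mem_inf.2
        ⟨R.mul_mem (R.inv_mem a'.2) a.2, h2 ▸ R2.mul_mem b'.2 (R2.inv_mem b.2)⟩)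
      have ha : a' = a := Subtype.ext (inv_mul_eq_one.1 hm)
      subst ha
      have hb : b = b' := Subtype.ext (mul_left_cancel e')
      rw [hb]
    rw [hR2card] at hmul
    have hNle := hquot N hN2 inf_le_right
    change Nat.card N ≤ 2 * Nat.card R at hNle
    have hRpos : 0 < Nat.card R := Nat.card_pos
    have hR2' : Nat.card R ≤ 2 := by
      by_contra h3
      have : Nat.card R * 3 ≤ Nat.card R * Nat.card R := Nat.mul_le_mul_left _ (by omega)
      omega
    refine ⟨?_, t, htS, le_trans (Subgroup.card_le_of_le (le_inf inf_le_left fun c hc =>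
      centralizer_le_stabilizer t hc.2)) (show Nat.card N ≤ 4 by omega)⟩
    have h2N : 2 ≤ Nat.card N := by
      have := orderOf_dvd_natCard (⟨t, htN⟩ : N)
      rw [Subgroup.orderOf_mk, hto] at this
      exact Nat.le_of_dvd Nat.card_pos this
    obtain ⟨i, hi⟩ := hN2.exists_card_eq
    obtain ⟨j, hj⟩ := S.2.exists_card_eq
    have hltc : Nat.card N < Nat.card (S : Subgroup G) := Nat.lt_of_not_le fun h =>
      hNS (Subgroup.eq_of_le_of_card_ge inf_le_left h).ge
    rw [hi] at hltc h2N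
    rw [hj] at hltc ⊢
    have hij := (Nat.pow_lt_pow_iff_right (by norm_num : 1 < 2)).1 hltc
    have hi1 : 1 ≤ i := by
      by_contra h
      rw [show i = 0 by omega] at h2N
      norm_num at h2N
    calc 4 = 2 ^ 2 := by norm_num
      _ ≤ 2 ^ j := Nat.pow_le_pow_right two_pos (by omega)
  -- `S` stabilises the set
  by_cases hall : ∀ x ∈ (S : Subgroup G), orderOf x = 2 → x ∈ fixingSubgroup G Φ
  · left
    exact isStronglyEmbedded_of_fixed S
      (fun e => hne t hto (Subgroup.mem_bot.1 (e ▸ htS)))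
      (Set.nonempty_of_ncard_ne_zero (s := Φ) (by omega)) (ne_univ_of_fixed (hne t hto))
      (fun x hx hxo => hexact x hx (hall x hx hxo) (hne x hxo))
  right
  push_neg at hall
  obtain ⟨u, huS, huo, huR⟩ := hall
  have hSst : (S : Subgroup G) ≤ stabilizer G Φ := hNS.trans inf_le_right
  set M := (fixingSubgroup G Φ).subgroupOf (S : Subgroup G) with hM
  have hMidx : M.index = 2 := by
    have h1 := M.card_mul_index
    have h2 : Nat.card M = Nat.card ↥((S : Subgroup G) ⊓ fixingSubgroup G Φ) := by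
      have e : M = ((S : Subgroup G) ⊓ fixingSubgroup G Φ).subgroupOf (S : Subgroup G) := by
        ext x
        simp [hM, Subgroup.mem_subgroupOf]
      rw [e, Nat.card_congr (Subgroup.subgroupOfEquivOfLe inf_le_left).toEquiv]
    have h3 := hquot (S : Subgroup G) S.2 hSst
    rw [← h2, ← h1, mul_comm 2] at h3
    have h4 : M.index ≤ 2 := Nat.le_of_mul_le_mul_left h3 Nat.card_pos
    have h5 : M.index ≠ 1 := fun e => huR
      ((Subgroup.index_eq_one.1 e ▸ Subgroup.mem_top _ : (⟨u, huS⟩ : (S : Subgroup G)) ∈ M))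
    have := Subgroup.index_ne_zero_of_finite (H := M)
    omega
  obtain ⟨hu2, hu1⟩ := orderOf_two_iff.1 huo
  obtain ⟨a, h, ha⟩ := CfsgLib.SectRank.exists_conj_mem_of_index_two (index_ne_two hna) S M hMidx
    ⟨u, huS⟩ (by rw [pow_two]; exact hu2) huR
  have huf : (fixedBy Ω u).ncard = f := by
    have e := hexact _ h ha (hne _ (by rw [orderOf_conj_eq]; exact huo))
    rw [← hΦf, ← e, fixedBy_conj, Set.ncard_smul_set]
  have huΦ : u ∈ stabilizer G Φ := hSst huS
  have hsplit := Set.ncard_inter_add_ncard_diff_eq_ncard (fixedBy Ω u) Φ (Set.toFinite _)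
  have hlt : (fixedBy Ω u ∩ Φ).ncard < Φ.ncard := by
    refine Set.ncard_lt_ncard ⟨Set.inter_subset_right, fun e => huR ?_⟩ (Set.toFinite _)
    exact (mem_fixingSubgroup_iff_subset_fixedBy G).2 fun y hy => (e hy).1
  have hpar := ncard_fixed_parity hu2 (Y := Φ) (fun y hy => (smul_mem_iff_of_stab huΦ y).2 hy)
  have hdiff : (fixedBy Ω u \ Φ).ncard = 2 := by
    rw [hΦf] at hlt hpar
    rw [huf] at hsplit
    omega
  set C := (S : Subgroup G) ⊓ Subgroup.centralizer ({u} : Set G) with hC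
  have hC2 : IsPGroup 2 C := S.2.to_le inf_le_left
  have hCR : Nat.card ↥(C ⊓ fixingSubgroup G Φ) ≤ 2 := by
    rw [← hdiff]
    refine card_le_of_free (P := ↥(C ⊓ fixingSubgroup G Φ)) (hC2.to_le inf_le_left)
      (fixedBy Ω u \ Φ) ?_ ?_ (Set.nonempty_of_ncard_ne_zero (by omega))
    · intro c w hw
      have hcu : (c : G) ∈ stabilizer G (fixedBy Ω u) := centralizer_le_stabilizer u c.2.1.2
      exact ⟨(smul_mem_iff_of_stab hcu w).2 hw.1, fun e =>
        hw.2 ((smul_mem_iff_of_stab (hSst c.2.1.1) w).1 e)⟩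
    · intro c w hw hcw
      by_contra hc1
      have h5 := hexact _ c.2.1.1 c.2.2 (fun e => hc1 (Subtype.ext e))
      exact hw.2 (h5 ▸ (hcw : w ∈ fixedBy Ω (c : G)))
  have hCle := hquot C hC2 (inf_le_left.trans hSst)
  refine ⟨?_, u, huS, le_trans hCle (by omega)⟩
  have h1 := M.card_mul_index
  rw [hMidx] at h1
  have h2 : 2 ≤ Nat.card M := by
    have := orderOf_dvd_natCard (⟨⟨t, htS⟩, htR.2⟩ : M)
    rw [← Subgroup.orderOf_coe, ← Subgroup.orderOf_coe] at this
    change orderOf t ∣ _ at this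
    rw [hto] at this
    exact Nat.le_of_dvd Nat.card_pos this
  omega

end Low

end CfsgLib.Spectrum.FixFour
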