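/-
Sectional rank bounds for the Sylow 2-subgroups occurring in groups of fixity four.
-/
import Cfsg.Agent.S0501
import Cfsg.Agent.S1232
import Cfsg.Agent.Lib.TwoFusion.KleinFactorBasic
import Cfsg.Agent.Lib.Spectrum.FixityFourBasic
import Mathlib

set_option autoImplicit false
open Cfsg
open CfsgLib.TwoFusion.SelfCent
open CfsgLib.TwoFusion.KleinFactor

namespace CfsgLib.Spectrum.FixFour

/-- The bound passes from a Sylow 2-subgroup to the group. -/
theorem rank_of_sylow {G : Type*} [Group G] [Finite G] (P : Sylow 2 G)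
    (h : Cfsg.SectionalPRankLE 2 4 (P : Subgroup G)) : Cfsg.SectionalPRankLE 2 4 G := by
  refine sectional_of_sylow P fun H hH => ?_
  set K := H.subgroupOf (P : Subgroup G) with hK
  set N : Subgroup K := Phi (⊤ : Subgroup K) with hN
  have : N.Normal := inferInstanceAs (Phi (⊤ : Subgroup K)).Normal
  have hsq : ∀ a : K ⧸ N, a * a = 1 := by
    intro a
    induction a using QuotientGroup.induction_on with
    | _ x =>
      rw [← QuotientGroup.mk_mul, QuotientGroup.eq_one_iff]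
      exact sq_mem_phi (Subgroup.mem_top x)
  have h1 := h K N ⊤ ⟨⟨fun a b => Subtype.ext (comm_of_sq (A := (⊤ : Subgroup (K ⧸ N)))
    (fun c _ => hsq c) a.2 b.2)⟩⟩ (fun a _ => by rw [pow_two]; exact hsq a)
  rw [Subgroup.card_top, ← Subgroup.index_eq_card] at h1
  have e : (Phi H).relIndex H = N.index := by
    have hinjc : Function.Injective ((P : Subgroup G).subtype.comp K.subtype) :=
      (Subgroup.subtype_injective (P : Subgroup G)).comp K.subtype_injective
    rw [← Subgroup.relIndex_top_right, ← Subgroup.relIndex_map_map_of_injective N ⊤ hinjc]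
    rw [hN, phi_map]
    have e2 : (⊤ : Subgroup K).map ((P : Subgroup G).subtype.comp K.subtype) = H := by
      rw [← Subgroup.map_map, ← MonoidHom.range_eq_map, Subgroup.range_subtype,
        Subgroup.map_subgroupOf_eq_of_le hH]
    rw [e2]
  rw [e]
  exact h1

section Group

variable {S : Type*} [Group S] [Finite S]

theorem rank_of_card_le (h : Nat.card S ≤ 16) : Cfsg.SectionalPRankLE 2 4 S :=
  sectional_of_phi fun H => by
    refine le_trans (Nat.le_of_dvd Nat.card_pos (Subgroup.relIndex_dvd_card _ _)) ?_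
    exact le_trans (Nat.card_le_card_of_injective _ H.subtype_injective) h

theorem rank_of_elementary_free_thirtyTwo (hS : Nat.card S ≤ 32)
    (h : ∀ _ : ∀ x : S, x * x = 1, Nat.card S ≤ 16) : Cfsg.SectionalPRankLE 2 4 S := by
  refine sectional_of_phi fun H => ?_
  by_contra hlt
  have h1 := relIndex_mul_card (phi_le_self H)
  have h2 := Subgroup.card_le_card_group H
  have h3 : 0 < Nat.card (Phi H) := Nat.card_pos
  have h4 : Nat.card (Phi H) = 1 := by nlinarith
  have hbot := Subgroup.card_eq_one.1 h4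
  rw [h4, one_mul] at h1
  by_cases hH : H = ⊤
  · subst hH
    rw [Subgroup.card_top] at h1
    have := h fun x => Subgroup.mem_bot.1 (hbot ▸ sq_mem_phi (Subgroup.mem_top x))
    omega
  · have h5 : H.index ≠ 1 := fun e => hH (Subgroup.index_eq_one.1 e)
    have h6 := H.card_mul_index
    have h7 : 2 ≤ H.index := by have := Subgroup.index_ne_zero_of_finite (H := H); omega
    nlinarith

/-- A cyclic subgroup of index at most eight. -/
theorem rank_of_cyclic_index (g : S) (h : (Subgroup.zpowers g).index ≤ 8) :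
    Cfsg.SectionalPRankLE 2 4 S := by
  refine sectional_of_phi fun H => ?_
  have : IsCyclic (Subgroup.zpowers g ⊓ H : Subgroup S) :=
    Subgroup.isCyclic_of_le inf_le_left
  obtain ⟨c, hc⟩ := IsCyclic.exists_generator (α := ↥(Subgroup.zpowers g ⊓ H))
  set a : S := (c : S) with ha
  have hZ : Subgroup.zpowers a = Subgroup.zpowers g ⊓ H := by
    refine le_antisymm (Subgroup.zpowers_le.2 c.2) fun x hx => ?_
    obtain ⟨i, hi⟩ := Subgroup.mem_zpowers_iff.1 (hc ⟨x, hx⟩)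
    exact ⟨i, by simpa [ha] using congrArg Subtype.val hi⟩
  have haH : a ∈ H := c.2.2
  have h1 : (Subgroup.zpowers (a * a)).relIndex (Subgroup.zpowers a) ≤ 2 := by
    have e := relIndex_mul_card (X := Subgroup.zpowers (a * a)) (Y := Subgroup.zpowers a)
      (Subgroup.zpowers_le.2 (Subgroup.mul_mem _ (Subgroup.mem_zpowers a) (Subgroup.mem_zpowers a)))
    rw [Nat.card_zpowers, Nat.card_zpowers, ← pow_two, orderOf_pow] at e
    have hg : (orderOf a).gcd 2 ≤ 2 := Nat.le_of_dvd two_pos (Nat.gcd_dvd_right _ _)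
    have hd := Nat.div_mul_cancel (Nat.gcd_dvd_left (orderOf a) 2)
    have hpos : 0 < orderOf a / (orderOf a).gcd 2 := Nat.div_pos
      (Nat.le_of_dvd (orderOf_pos a) (Nat.gcd_dvd_left _ _)) (Nat.gcd_pos_of_pos_right _ two_pos)
    rw [pow_two] at e
    nlinarith
  have h2 : (Subgroup.zpowers a).relIndex H ≤ 8 := by
    rw [hZ, Subgroup.inf_relIndex_right]
    refine le_trans ?_ h
    rw [← Subgroup.relIndex_top_right]
    exact Subgroup.relIndex_le_of_le_right le_top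
      (by rw [Subgroup.relIndex_top_right]; exact Subgroup.index_ne_zero_of_finite)
  have h3 : (Phi H).relIndex H ≤ (Subgroup.zpowers (a * a)).relIndex H :=
    Subgroup.relIndex_le_of_le_left (Subgroup.zpowers_le.2 (sq_mem_phi haH))
      Subgroup.index_ne_zero_of_finite
  have h4 := Subgroup.relIndex_mul_relIndex (Subgroup.zpowers (a * a)) (Subgroup.zpowers a) H
    (Subgroup.zpowers_le.2 (Subgroup.mul_mem _ (Subgroup.mem_zpowers a) (Subgroup.mem_zpowers a)))
    (Subgroup.zpowers_le.2 haH)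
  calc (Phi H).relIndex H ≤ _ := h3
    _ = _ := h4.symm
    _ ≤ 2 * 8 := Nat.mul_le_mul h1 h2
    _ = 2 ^ 4 := by norm_num

omit [Finite S] in
/-- Adjoining a commuting involution to an elementary abelian subgroup. -/
theorem exists_adjoin {F : Subgroup S} (hF : ∀ f ∈ F, f * f = 1) {u : S} (hu : u * u = 1)
    (hc : ∀ f ∈ F, f * u = u * f) :
    ∃ E : Subgroup S, (∀ g, g ∈ E ↔ g ∈ F ∨ g * u ∈ F) ∧ (∀ e ∈ E, e * e = 1) := by
  have hsq : ∀ g, g ∈ F ∨ g * u ∈ F → g * g = 1 := by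
    rintro g (h | h)
    · exact hF g h
    · have e : g = g * u * u := by rw [mul_assoc, hu, mul_one]
      rw [e, show g * u * u * (g * u * u) = g * u * (u * (g * u)) * u by group, ← hc _ h,
        show g * u * (g * u * u) * u = (g * u * (g * u)) * (u * u) by group, hF _ h, hu, one_mul]
  refine ⟨{ carrier := {g | g ∈ F ∨ g * u ∈ F}
            one_mem' := Or.inl F.one_mem
            mul_mem' := ?_
            inv_mem' := ?_ }, fun g => Iff.rfl, hsq⟩
  · rintro a b (ha | ha) (hb | hb)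
    · exact Or.inl (F.mul_mem ha hb)
    · exact Or.inr (by rw [mul_assoc]; exact F.mul_mem ha hb)
    · right
      rw [show a * b * u = a * (b * u) by group, hc b hb, ← mul_assoc]
      exact F.mul_mem ha hb
    · left
      have e : a * b = a * u * (u * b) := by
        rw [show a * u * (u * b) = a * (u * u) * b by group, hu, mul_one]
      have hub : u * b = b * u := by
        calc u * b = u * (b * u) * u := by rw [mul_assoc, mul_assoc, hu, mul_one]
          _ = (b * u) * u * u := by rw [hc _ hb]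
          _ = b * u := by rw [mul_assoc, hu, mul_one]
      rw [e, hub]
      exact F.mul_mem ha hb
  · intro a ha
    have := hsq a ha
    rw [← eq_inv_of_mul_eq_one_left this]
    exact ha

/-- An involution all of whose commuting elementary subgroups are small, or which lies in a
self-centralizing elementary subgroup of order eight. -/
theorem rank_of_involution (hS : IsPGroup 2 S) (u : S) (hu : u * u = 1) (hu1 : u ≠ 1)
    (h : ∀ E : Subgroup S, (∀ e ∈ E, e * e = 1) → E ≤ Subgroup.centralizer ({u} : Set S) →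
      4 < Nat.card E → ∃ E' : Subgroup S, (∀ e ∈ E', e * e = 1) ∧ Nat.card E' = 8 ∧
        Subgroup.centralizer (E' : Set S) ≤ E') :
    Cfsg.SectionalPRankLE 2 4 S := by
  classical
  by_cases hbig : ∃ E : Subgroup S, (∀ e ∈ E, e * e = 1) ∧
      E ≤ Subgroup.centralizer ({u} : Set S) ∧ 4 < Nat.card E
  · obtain ⟨E, hE2, hEC, hE4⟩ := hbig
    obtain ⟨E', hE'2, hE'8, hE'C⟩ := h E hE2 hEC hE4
    refine Cfsg.Agent.S1232.result hS E'
      ⟨⟨⟨fun a b => Subtype.ext (comm_of_sq hE'2 a.2 b.2)⟩⟩,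
        fun a ha => by rw [pow_two]; exact hE'2 a ha⟩ hE'8
      (le_antisymm hE'C fun e he => ?_)
    rw [Subgroup.mem_centralizer_iff]
    intro g hg
    exact comm_of_sq hE'2 hg he
  push_neg at hbig
  refine Cfsg.Agent.S0501.result hS fun U hUn hUc hU2 => ?_
  have hUsq : ∀ a ∈ U, a * a = 1 := fun a ha => by rw [← pow_two]; exact hU2 a ha
  by_cases huU : u ∈ U
  · exact hbig U hUsq fun g hg =>
      Subgroup.mem_centralizer_singleton_iff.2 (comm_of_sq hUsq hg huU)
  set F := U ⊓ Subgroup.centralizer ({u} : Set S) with hF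
  have hfix := card_le_fix_sq U hUsq u (fun a ha => hUn.conj_mem a ha u)
    (fun a _ => by rw [hu]; exact Commute.one_left a)
  obtain ⟨E, hE, hE2⟩ := exists_adjoin (F := F) (fun f hf => hUsq f hf.1) hu
    (fun f hf => Subgroup.mem_centralizer_singleton_iff.1 hf.2)
  have hEC : E ≤ Subgroup.centralizer ({u} : Set S) := by
    intro g hg
    rw [Subgroup.mem_centralizer_singleton_iff]
    exact comm_of_sq hE2 hg ((hE u).2 (Or.inr (by rw [hu]; exact F.one_mem)))
  have h4 := hbig E hE2 hEC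
  have huF : u ∉ F := fun h => huU h.1
  have hcard : 2 * Nat.card F ≤ Nat.card E := by
    rw [two_mul, ← Nat.card_sum]
    refine Nat.card_le_card_of_injective
      (Sum.elim (fun f : F => (⟨f, (hE f).2 (Or.inl f.2)⟩ : E))
        (fun f : F => ⟨f * u, (hE _).2 (Or.inr (by rw [mul_assoc, hu, mul_one]; exact f.2))⟩)) ?_
    refine Function.Injective.sumElim ?_ ?_ ?_
    · intro a b hab; exact Subtype.ext (congrArg (fun x : E => (x : S)) hab)
    · intro a b hab
      exact Subtype.ext (mul_right_cancel (congrArg (fun x : E => (x : S)) hab))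
    · intro a b hab
      have e : (a : S) = b * u := congrArg (fun x : E => (x : S)) hab
      apply huF
      rw [show u = (b : S)⁻¹ * a by rw [e, inv_mul_cancel_left]]
      exact F.mul_mem (F.inv_mem b.2) a.2
  have hF2 : Nat.card F ≤ 2 := by omega
  calc Nat.card U ≤ Nat.card F ^ 2 := hfix
    _ ≤ 2 ^ 2 := Nat.pow_le_pow_left hF2 2
    _ = 4 := by norm_num

/-- An involution with centralizer of order at most eight. -/
theorem rank_of_centralizer_le_eight (hS : IsPGroup 2 S) (u : S) (hu : u * u = 1) (hu1 : u ≠ 1)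
    (hC : Nat.card (Subgroup.centralizer ({u} : Set S)) ≤ 8) : Cfsg.SectionalPRankLE 2 4 S := by
  refine rank_of_involution hS u hu hu1 fun E hE2 hEC hE4 => ?_
  obtain ⟨i, hi⟩ := (hS.to_subgroup E).exists_card_eq
  have hle := (Subgroup.card_le_of_le hEC).trans hC
  have h8 : Nat.card E = 8 := by
    rcases (show i ≤ 2 ∨ i = 3 ∨ 4 ≤ i by omega) with h | h | h
    · have := Nat.pow_le_pow_right two_pos h; omega
    · rw [hi, h]; norm_num
    · have := Nat.pow_le_pow_right two_pos h; omega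
  have hEeq : E = Subgroup.centralizer ({u} : Set S) :=
    Subgroup.eq_of_le_of_card_ge hEC (by omega)
  refine ⟨E, hE2, h8, fun g hg => ?_⟩
  rw [hEeq, Subgroup.mem_centralizer_singleton_iff]
  exact (Subgroup.mem_centralizer_iff.1 hg u
    (hEeq ▸ Subgroup.mem_centralizer_singleton_iff.2 rfl)).symm

/-- A four-group complement `K` to a normal subgroup `R` with all three involutions having the same
four-group of fixed points `A` in `R`. -/
theorem rank_of_quotient (hS : IsPGroup 2 S) (R A K : Subgroup S) [hRn : R.Normal]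
    (hA2 : ∀ a ∈ A, a * a = 1) (hA4 : Nat.card A = 4) (hK2 : ∀ k ∈ K, k * k = 1)
    (hK4 : Nat.card K = 4) (hRK : R ⊓ K = ⊥) (hgen : ∀ s : S, ∃ r ∈ R, ∃ k ∈ K, s = r * k)
    (hAR : A ≤ R) (hcent : ∀ k ∈ K, k ≠ 1 → ∀ r ∈ R, (r * k = k * r ↔ r ∈ A)) :
    Cfsg.SectionalPRankLE 2 4 S := by
  classical
  have : Fact (Nat.Prime 2) := ⟨Nat.prime_two⟩
  have hAK : ∀ a ∈ A, ∀ k ∈ K, a * k = k * a := by
    intro a ha k hk
    by_cases hk1 : k = 1
    · rw [hk1, mul_one, one_mul]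
    · exact (hcent k hk hk1 a (hAR ha)).2 ha
  have hinvA : ∀ a ∈ A, a⁻¹ = a := fun a ha => (eq_inv_of_mul_eq_one_left (hA2 a ha)).symm
  have hinvK : ∀ k ∈ K, k⁻¹ = k := fun k hk => (eq_inv_of_mul_eq_one_left (hK2 k hk)).symm
  -- the subgroup `A × K`
  let M : Subgroup S :=
    { carrier := {g | ∃ a ∈ A, ∃ k ∈ K, g = a * k}
      one_mem' := ⟨1, A.one_mem, 1, K.one_mem, (mul_one 1).symm⟩
      mul_mem' := by
        rintro _ _ ⟨a, ha, k, hk, rfl⟩ ⟨b, hb, l, hl, rfl⟩
        refine ⟨a * b, A.mul_mem ha hb, k * l, K.mul_mem hk hl, ?_⟩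
        rw [show a * k * (b * l) = a * (k * b) * l by group, ← hAK b hb k hk]
        group
      inv_mem' := by
        rintro _ ⟨a, ha, k, hk, rfl⟩
        refine ⟨a⁻¹, A.inv_mem ha, k⁻¹, K.inv_mem hk, ?_⟩
        rw [mul_inv_rev, hinvA a ha, hinvK k hk, hAK a ha k hk] }
  have hKM : K ≤ M := fun k hk => ⟨1, A.one_mem, k, hk, (one_mul k).symm⟩
  have hAM : A ≤ M := fun a ha => ⟨a, ha, 1, K.one_mem, (mul_one a).symm⟩
  have hRK' : ∀ g ∈ R, g ∈ K → g = 1 := fun g hg hk =>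
    Subgroup.mem_bot.1 (hRK ▸ Subgroup.mem_inf.2 ⟨hg, hk⟩)
  have hMR : ∀ g ∈ M, g ∈ R → g ∈ A := by
    rintro _ ⟨a, ha, k, hk, rfl⟩ h
    have hkR : k ∈ R := by simpa using R.mul_mem (R.inv_mem (hAR ha)) h
    rw [hRK' k hkR hk, mul_one]
    exact ha
  set R1 := R ⊓ Subgroup.normalizer (M : Set S) with hR1
  have hnA : ∀ r ∈ R1, ∀ a ∈ A, r * a * r⁻¹ ∈ A := fun r hr a ha =>
    hMR _ ((Subgroup.mem_normalizer_iff.1 hr.2 a).1 (hAM ha))
      (R.mul_mem (R.mul_mem hr.1 (hAR ha)) (R.inv_mem hr.1))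
  have hφA : ∀ r ∈ R1, ∀ k ∈ K, r * k * r⁻¹ * k⁻¹ ∈ A := fun r hr k hk =>
    hMR _ (M.mul_mem ((Subgroup.mem_normalizer_iff.1 hr.2 k).1 (hKM hk)) (M.inv_mem (hKM hk)))
      (by
        rw [show r * k * r⁻¹ * k⁻¹ = r * (k * r⁻¹ * k⁻¹) by group]
        exact R.mul_mem hr.1 (hRn.conj_mem _ (R.inv_mem hr.1) k))
  have hR1mem : ∀ r ∈ R, (∀ a ∈ A, r * a * r⁻¹ ∈ A) → (∀ k ∈ K, r * k * r⁻¹ * k⁻¹ ∈ A) →
      r ∈ R1 := by
    intro r hr h1 h2
    refine Subgroup.mem_inf.2 ⟨hr, ?_⟩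
    have hmap : M.map (MulAut.conj r).toMonoidHom = M := by
      refine Subgroup.eq_of_le_of_card_ge ?_
        (le_of_eq (Subgroup.card_map_of_injective (MulAut.conj r).injective).symm)
      rintro _ ⟨_, ⟨a, ha, k, hk, rfl⟩, rfl⟩
      show r * (a * k) * r⁻¹ ∈ M
      rw [show r * (a * k) * r⁻¹ = r * a * r⁻¹ * ((r * k * r⁻¹ * k⁻¹) * k) by group]
      exact M.mul_mem (hAM (h1 a ha)) (M.mul_mem (hAM (h2 k hk)) (hKM hk))
    rw [Subgroup.mem_normalizer_iff]
    intro g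
    constructor
    · intro hg; exact hmap.le ⟨g, hg, rfl⟩
    · intro hg
      have hg' : r * g * r⁻¹ ∈ M.map (MulAut.conj r).toMonoidHom := by rw [hmap]; exact hg
      obtain ⟨g', hg', e⟩ := hg'
      rwa [← (MulAut.conj r).injective (e : MulAut.conj r g' = MulAut.conj r g)]
  have hAR1 : A ≤ R1 := fun a ha => hR1mem a (hAR ha)
    (fun b hb => A.mul_mem (A.mul_mem ha hb) (A.inv_mem ha))
    (fun k hk => by rw [hAK a ha k hk, mul_inv_cancel_right, mul_inv_cancel]; exact A.one_mem)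
  have hφhom : ∀ r ∈ R1, ∀ k ∈ K, ∀ l ∈ K,
      r * (k * l) * r⁻¹ * (k * l)⁻¹ = (r * k * r⁻¹ * k⁻¹) * (r * l * r⁻¹ * l⁻¹) := by
    intro r hr k hk l hl
    calc r * (k * l) * r⁻¹ * (k * l)⁻¹
        = (r * k * r⁻¹ * k⁻¹) * (k * (r * l * r⁻¹ * l⁻¹) * k⁻¹) := by group
      _ = _ := by rw [← hAK _ (hφA r hr l hl) k hk, mul_inv_cancel_right]
  have hφone : ∀ r ∈ R1, ∀ k ∈ K, k ≠ 1 → r * k * r⁻¹ * k⁻¹ = 1 → r ∈ A := by
    intro r hr k hk hk1 h
    exact (hcent k hk hk1 r hr.1).1 (mul_inv_eq_iff_eq_mul.1 (mul_inv_eq_one.1 h))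
  -- the elements of `R1` centralise `A` and square into it
  have hR1cs : ∀ r ∈ R1, (∀ a ∈ A, r * a = a * r) ∧ r * r ∈ A := by
    intro r hr
    have hrr : r * r ∈ R1 := R1.mul_mem hr hr
    by_cases hrA : r ∈ A
    · exact ⟨fun a ha => comm_of_sq hA2 hrA ha, A.mul_mem hrA hrA⟩
    let f : K → A := fun k => ⟨r * k * r⁻¹ * (k : S)⁻¹, hφA r hr k k.2⟩
    have hfinj : Function.Injective f := by
      intro k l h
      have h' : r * (k : S) * r⁻¹ * (k : S)⁻¹ = r * l * r⁻¹ * (l : S)⁻¹ := congrArg Subtype.val h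
      have hkl : r * ((k : S) * l) * r⁻¹ * ((k : S) * l)⁻¹ = 1 := by
        rw [hφhom r hr k k.2 l l.2, h']
        exact hA2 _ (hφA r hr l l.2)
      apply Subtype.ext
      by_contra hne
      refine hrA (hφone r hr _ (K.mul_mem k.2 l.2) ?_ hkl)
      intro e
      exact hne (by rw [mul_eq_one_iff_eq_inv.1 e, hinvK _ l.2])
    have hfbij : Function.Bijective f :=
      (Nat.bijective_iff_injective_and_card f).2 ⟨hfinj, by rw [hK4, hA4]⟩
    have hsqform : ∀ k ∈ K, r * r * k * (r * r)⁻¹ * k⁻¹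
        = r * (r * k * r⁻¹ * k⁻¹) * r⁻¹ * (r * k * r⁻¹ * k⁻¹) := fun k _ => by group
    have hone : r * r ∈ A := by
      by_contra hsq
      have hAne : A ≠ ⊥ := fun e => by rw [e, Subgroup.card_bot] at hA4; omega
      obtain ⟨a, ha, hao, hac⟩ := exists_central_in (Q := Subgroup.normalizer (A : Set S))
        (R := A) (hS.to_subgroup _) Subgroup.le_normalizer hAne
        (fun y hy b hb => (Subgroup.mem_normalizer_iff.1 hy b).1 hb)
      have hrN : r ∈ Subgroup.normalizer (A : Set S) := by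
        have hmap : A.map (MulAut.conj r).toMonoidHom = A := by
          refine Subgroup.eq_of_le_of_card_ge ?_
            (le_of_eq (Subgroup.card_map_of_injective (MulAut.conj r).injective).symm)
          rintro _ ⟨b, hb, rfl⟩
          exact hnA r hr b hb
        rw [Subgroup.mem_normalizer_iff]
        intro b
        refine ⟨fun hb => hnA r hr b hb, fun hb => ?_⟩
        have hb' : r * b * r⁻¹ ∈ A.map (MulAut.conj r).toMonoidHom := by rw [hmap]; exact hb
        obtain ⟨b', hb', e⟩ := hb'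
        rwa [← (MulAut.conj r).injective (e : MulAut.conj r b' = MulAut.conj r b)]
      obtain ⟨k, hk⟩ := hfbij.2 ⟨a, ha⟩
      have hk' : r * (k : S) * r⁻¹ * (k : S)⁻¹ = a := congrArg Subtype.val hk
      have hk1 : (k : S) ≠ 1 := fun e => by
        simp [e] at hk'
        simp [← hk'] at hao
      refine hsq (hφone _ hrr k k.2 hk1 ?_)
      rw [hsqform k k.2, hk', hac r hrN, mul_inv_cancel_right]
      exact hA2 a ha
    refine ⟨fun a ha => ?_, hone⟩
    obtain ⟨k, hk⟩ := hfbij.2 ⟨a, ha⟩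
    have hk' : r * (k : S) * r⁻¹ * (k : S)⁻¹ = a := congrArg Subtype.val hk
    have h := hsqform k k.2
    rw [hk', hAK _ hone k k.2, mul_inv_cancel_right, mul_inv_cancel] at h
    have h2 : r * a * r⁻¹ = a := by
      rw [eq_inv_of_mul_eq_one_left h.symm, hinvA a ha]
    exact mul_inv_eq_iff_eq_mul.1 h2
  have hφmul : ∀ r ∈ R1, ∀ q ∈ R1, ∀ k ∈ K,
      r * q * k * (r * q)⁻¹ * k⁻¹ = (q * k * q⁻¹ * k⁻¹) * (r * k * r⁻¹ * k⁻¹) := by
    intro r hr q hq k hk
    calc r * q * k * (r * q)⁻¹ * k⁻¹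
        = r * (q * k * q⁻¹ * k⁻¹) * r⁻¹ * (r * k * r⁻¹ * k⁻¹) := by group
      _ = _ := by rw [(hR1cs r hr).1 _ (hφA q hq k hk), mul_inv_cancel_right]
  have hφinj : ∀ k ∈ K, k ≠ 1 → ∀ r ∈ R1, ∀ q ∈ R1,
      r * k * r⁻¹ * k⁻¹ = q * k * q⁻¹ * k⁻¹ → r * q ∈ A := by
    intro k hk hk1 r hr q hq h
    refine hφone _ (R1.mul_mem hr hq) k hk hk1 ?_
    rw [hφmul r hr q hq k hk, h]
    exact hA2 _ (hφA q hq k hk)
  obtain ⟨k₀, hk₀, hk₀1⟩ : ∃ k ∈ K, k ≠ 1 := by
    by_contra h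
    push_neg at h
    have : K = ⊥ := (Subgroup.eq_bot_iff_forall _).2 h
    rw [this, Subgroup.card_bot] at hK4
    omega
  have hR116 : Nat.card R1 ≤ 16 := by
    let ψ : R1 →* A :=
      { toFun := fun r => ⟨(r : S) * k₀ * (r : S)⁻¹ * k₀⁻¹, hφA r r.2 k₀ hk₀⟩
        map_one' := Subtype.ext (by simp)
        map_mul' := fun r q => Subtype.ext (by
          show (r : S) * q * k₀ * ((r : S) * q)⁻¹ * k₀⁻¹ = _
          rw [hφmul r r.2 q q.2 k₀ hk₀]
          exact comm_of_sq hA2 (hφA q q.2 k₀ hk₀) (hφA r r.2 k₀ hk₀)) }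
    have h1 := ψ.ker.card_mul_index
    rw [Subgroup.index_ker] at h1
    have hk : Nat.card ψ.ker ≤ 4 := by
      rw [← hA4]
      refine Nat.card_le_card_of_injective (fun r : ψ.ker => (⟨((r : R1) : S),
        hφone _ (r : R1).2 k₀ hk₀ hk₀1 (congrArg Subtype.val r.2)⟩ : A)) ?_
      intro r q h
      exact Subtype.ext (Subtype.ext (congrArg (fun a : A => (a : S)) h))
    have hr : Nat.card ψ.range ≤ 4 := by rw [← hA4]; exact Subgroup.card_le_card_group _
    rw [← h1]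
    exact (Nat.mul_le_mul hk hr).trans le_rfl
  by_cases hRR1 : R ≤ R1
  · -- the small case
    have hR16 : Nat.card R ≤ 16 := (Subgroup.card_le_of_le hRR1).trans hR116
    have hS64 : Nat.card S ≤ Nat.card R * 4 := by
      rw [← hK4, ← Nat.card_prod]
      refine Nat.card_le_card_of_surjective (fun p : R × K => (p.1 : S) * p.2) fun s => ?_
      obtain ⟨r, hr, k, hk, rfl⟩ := hgen s
      exact ⟨(⟨r, hr⟩, ⟨k, hk⟩), rfl⟩
    by_cases hRA : R ≤ A
    · refine rank_of_card_le ?_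
      have := Subgroup.card_le_of_le hRA
      omega
    obtain ⟨r₀, hr₀, hr₀A⟩ := SetLike.not_le_iff_exists.1 hRA
    have hAphi : A ≤ Phi (⊤ : Subgroup S) := by
      let f : K → A := fun k => ⟨r₀ * k * r₀⁻¹ * (k : S)⁻¹, hφA r₀ (hRR1 hr₀) k k.2⟩
      have hfinj : Function.Injective f := by
        intro k l h
        have h' : r₀ * (k : S) * r₀⁻¹ * (k : S)⁻¹ = r₀ * l * r₀⁻¹ * (l : S)⁻¹ :=
          congrArg Subtype.val h
        apply Subtype.ext
        by_contra hne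
        refine hr₀A (hφone r₀ (hRR1 hr₀) _ (K.mul_mem k.2 l.2)
          (fun e => hne (by rw [mul_eq_one_iff_eq_inv.1 e, hinvK _ l.2])) ?_)
        rw [hφhom r₀ (hRR1 hr₀) k k.2 l l.2, h']
        exact hA2 _ (hφA r₀ (hRR1 hr₀) l l.2)
      have hfbij : Function.Bijective f :=
        (Nat.bijective_iff_injective_and_card f).2 ⟨hfinj, by rw [hK4, hA4]⟩
      intro a ha
      obtain ⟨k, hk⟩ := hfbij.2 ⟨a, ha⟩
      rw [← show r₀ * (k : S) * r₀⁻¹ * (k : S)⁻¹ = a from congrArg Subtype.val hk]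
      exact comm_mem_phi (Subgroup.mem_top _) (Subgroup.mem_top _)
    refine sectional_of_phi fun H => ?_
    by_contra hbig
    have hb16 : 16 < (Phi H).relIndex H := by simpa using not_le.1 hbig
    have h1 := relIndex_mul_card (phi_le_self H)
    by_cases hH : H = ⊤
    · subst hH
      have := Subgroup.card_le_of_le hAphi
      rw [Subgroup.card_top] at h1
      nlinarith
    have h6 := H.card_mul_index
    have h7 : 2 ≤ H.index := by
      have := Subgroup.index_ne_zero_of_finite (H := H)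
      have : H.index ≠ 1 := fun e => hH (Subgroup.index_eq_one.1 e)
      omega
    obtain ⟨i, hi⟩ := (hS.to_subgroup (Phi H)).exists_card_eq
    have h4 : Nat.card (Phi H) = 1 := by
      have : 0 < Nat.card (Phi H) := Nat.card_pos
      nlinarith
    have hbot := Subgroup.card_eq_one.1 h4
    rw [h4, one_mul] at h1
    have hHsq : ∀ x ∈ H, x * x = 1 := fun x hx => Subgroup.mem_bot.1 (hbot ▸ sq_mem_phi hx)
    obtain ⟨j, hj⟩ := (hS.to_subgroup H).exists_card_eq
    have hH32 : 32 ≤ Nat.card H := by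
      have : 5 ≤ j := by
        by_contra h
        have := Nat.pow_le_pow_right two_pos (show j ≤ 4 by omega)
        omega
      rw [hj]
      exact le_trans (by norm_num) (Nat.pow_le_pow_right two_pos this)
    set Y := H ⊓ R with hY
    have hRidx : R.index ≤ 4 := by
      have := R.card_mul_index
      have : 0 < Nat.card R := Nat.card_pos
      nlinarith
    have hYmul := relIndex_mul_card (inf_le_left : Y ≤ H)
    change Nat.card Y * (H ⊓ R).relIndex H = Nat.card H at hYmul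
    rw [Subgroup.inf_relIndex_left] at hYmul
    have hrel : R.relIndex H ≤ R.index := by
      rw [← Subgroup.relIndex_top_right]
      exact Subgroup.relIndex_le_of_le_right le_top
        (by rw [Subgroup.relIndex_top_right]; exact Subgroup.index_ne_zero_of_finite)
    have hY8 : 8 ≤ Nat.card Y := by
      change Nat.card Y * R.relIndex H = Nat.card H at hYmul
      nlinarith
    obtain ⟨x, hxY, hxA⟩ : ∃ x ∈ Y, x ∉ A := by
      by_contra h
      push_neg at h
      have := Subgroup.card_le_of_le (show Y ≤ A from h)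
      omega
    have hxR1 : x ∈ R1 := hRR1 hxY.2
    have hcomm : ∀ a ∈ H, ∀ b ∈ H, a * b = b * a := fun a ha b hb => comm_of_sq hHsq ha hb
    by_cases hRH : R ≤ H
    · obtain ⟨h, hh, hhR⟩ : ∃ h ∈ H, h ∉ R := by
        by_contra h'
        push_neg at h'
        have := Subgroup.card_le_of_le (show H ≤ R from h')
        omega
      obtain ⟨r, hr, k, hk, rfl⟩ := hgen h
      have hk1 : k ≠ 1 := fun e => hhR (by rw [e, mul_one]; exact hr)
      refine hxA ((hcent k hk hk1 x hxY.2).1 ?_)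
      have hk' : k ∈ H := by simpa using H.mul_mem (H.inv_mem (hRH hr)) hh
      exact hcomm x hxY.1 k hk'
    have hYR : Nat.card Y < Nat.card R := Nat.lt_of_not_le fun h => hRH (by
      have : Y = R := Subgroup.eq_of_le_of_card_ge inf_le_right h
      exact this ▸ inf_le_left)
    -- every element of `K` occurs
    have hsurj : ∀ k ∈ K, ∃ r ∈ R, r * k ∈ H := by
      have hY8' : Nat.card Y ≤ 8 := by
        obtain ⟨a, ha⟩ := (hS.to_subgroup Y).exists_card_eq
        obtain ⟨b, hb⟩ := (hS.to_subgroup R).exists_card_eq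
        rw [ha, hb] at hYR
        have hab := (Nat.pow_lt_pow_iff_right (by norm_num : 1 < 2)).1 hYR
        rw [hb] at hR16
        have hb4 : b ≤ 4 := (Nat.pow_le_pow_iff_right (by norm_num : 1 < 2)).1
          (hR16.trans (le_of_eq (by norm_num : 16 = 2 ^ 4)))
        rw [ha]
        exact le_trans (Nat.pow_le_pow_right two_pos (show a ≤ 3 by omega)) (by norm_num)
      have hrel4 : R.index ≤ R.relIndex H := by
        change Nat.card Y * R.relIndex H = Nat.card H at hYmul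
        nlinarith
      have htop : H.map (QuotientGroup.mk' R) = ⊤ := by
        refine Subgroup.eq_top_of_le_card _ ?_
        rw [← Subgroup.index_eq_card, ← Subgroup.relIndex_ker, QuotientGroup.ker_mk']
        exact hrel4
      intro k hk
      obtain ⟨h, hh, he⟩ : (QuotientGroup.mk' R k) ∈ H.map (QuotientGroup.mk' R) := by
        rw [htop]; exact Subgroup.mem_top _
      obtain ⟨r, hr, l, hl, rfl⟩ := hgen h
      refine ⟨r, hr, ?_⟩
      have e : (r * l)⁻¹ * k ∈ R := QuotientGroup.eq.1 he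
      have e1 : l⁻¹ * k ∈ R := by
        have e2 := R.mul_mem (hRn.conj_mem _ hr l⁻¹) e
        simpa [mul_assoc] using e2
      rw [← show l = k from inv_mul_eq_one.1 (hRK' _ e1 (K.mul_mem (K.inv_mem hl) hk))]
      exact hh
    choose ρ hρR hρH using hsurj
    have hcalc : ∀ k (hk : k ∈ K), x * k * x⁻¹ * k⁻¹ = x * (ρ k hk)⁻¹ * x⁻¹ * ρ k hk := by
      intro k hk
      have h := hcomm x hxY.1 _ (hρH k hk)
      calc x * k * x⁻¹ * k⁻¹
          = x * (ρ k hk)⁻¹ * (x⁻¹ * (x * (ρ k hk * k))) * x⁻¹ * k⁻¹ := by group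
        _ = x * (ρ k hk)⁻¹ * (x⁻¹ * (ρ k hk * k * x)) * x⁻¹ * k⁻¹ := by rw [h]
        _ = _ := by group
    have hinj' : ∀ k (hk : k ∈ K) l (hl : l ∈ K), ρ k hk * ρ l hl ∈ A → k = l := by
      intro k hk l hl h
      have hq := hRR1 (hρR k hk)
      have hq' := hRR1 (hρR l hl)
      obtain ⟨a, ha, e⟩ : ∃ a ∈ A, ρ l hl = ρ k hk * a := by
        refine ⟨(ρ k hk)⁻¹ * ρ l hl, ?_, by group⟩
        have e2 : (ρ k hk)⁻¹ * ρ l hl = (ρ k hk * ρ k hk)⁻¹ * (ρ k hk * ρ l hl) := by group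
        rw [e2]
        exact A.mul_mem (A.inv_mem (hR1cs _ hq).2) h
      by_contra hne
      refine hxA (hφone x hxR1 (k * l) (K.mul_mem hk hl)
        (fun e => hne (by rw [mul_eq_one_iff_eq_inv.1 e, hinvK _ hl])) ?_)
      rw [hφhom x hxR1 k hk l hl]
      have e2 : x * l * x⁻¹ * l⁻¹ = x * k * x⁻¹ * k⁻¹ := by
        rw [hcalc l hl, hcalc k hk, e]
        have c1 : a⁻¹ * ((ρ k hk)⁻¹ * x⁻¹ * ρ k hk) = (ρ k hk)⁻¹ * x⁻¹ * ρ k hk * a⁻¹ :=
          ((hR1cs _ (R1.mul_mem (R1.mul_mem (R1.inv_mem hq) (R1.inv_mem hxR1)) hq)).1 _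
            (A.inv_mem ha)).symm
        calc x * (ρ k hk * a)⁻¹ * x⁻¹ * (ρ k hk * a)
            = x * (a⁻¹ * ((ρ k hk)⁻¹ * x⁻¹ * ρ k hk)) * a := by group
          _ = x * ((ρ k hk)⁻¹ * x⁻¹ * ρ k hk * a⁻¹) * a := by rw [c1]
          _ = _ := by group
      rw [e2]
      exact hA2 _ (hφA x hxR1 k hk)
    have hnot : ∀ k (hk : k ∈ K), k ≠ 1 → ρ k hk ∉ A ∧ x * ρ k hk ∉ A := by
      intro k hk hk1
      have hq := hRR1 (hρR k hk)
      refine ⟨fun h => hxA (hφone x hxR1 k hk hk1 ?_), fun h => hxA (hφone x hxR1 k hk hk1 ?_)⟩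
      · rw [hcalc k hk, (hR1cs x hxR1).1 _ (A.inv_mem h), mul_inv_cancel_right,
          inv_mul_cancel]
      · rw [hcalc k hk]
        have hxx : x * x = 1 := hHsq x hxY.1
        have hxi : x⁻¹ = x := (eq_inv_of_mul_eq_one_left hxx).symm
        have c := (hR1cs x hxR1).1 _ h
        have c2 : x * ρ k hk = ρ k hk * x := by
          have c3 : x * (x * ρ k hk) * x = x * ρ k hk := by rw [c, mul_assoc, hxx, mul_one]
          rw [← mul_assoc, hxx, one_mul] at c3
          exact c3.symm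
        calc x * (ρ k hk)⁻¹ * x⁻¹ * ρ k hk = x * (ρ k hk)⁻¹ * (x * ρ k hk) := by rw [hxi]; group
          _ = 1 := by rw [c2, ← mul_assoc, inv_mul_cancel_right, hxx]
    let val : Option K → A := fun o => o.elim
      ⟨x * k₀ * x⁻¹ * k₀⁻¹, hφA x hxR1 k₀ hk₀⟩
      (fun k => if (k : S) = 1 then 1 else
        ⟨ρ k k.2 * k₀ * (ρ k k.2)⁻¹ * k₀⁻¹, hφA _ (hRR1 (hρR k k.2)) k₀ hk₀⟩)
    have hvinj : Function.Injective val := by
      have hz : ∀ k : K, (k : S) ≠ 1 →
          val (some k) ≠ val none ∧ ∀ l : K, (l : S) = 1 → val (some k) ≠ val (some l) := by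
        intro k hk1
        have hq := hRR1 (hρR k k.2)
        constructor
        · intro e
          simp only [val, Option.elim, if_neg hk1] at e
          exact (hnot k k.2 hk1).2
            (hφinj k₀ hk₀ hk₀1 x hxR1 _ hq (congrArg Subtype.val e).symm)
        · intro l hl e
          simp only [val, Option.elim, if_neg hk1, if_pos hl] at e
          exact (hnot k k.2 hk1).1 (hφone _ hq k₀ hk₀ hk₀1 (congrArg Subtype.val e))
      have hnone : ∀ l : K, (l : S) = 1 → val none ≠ val (some l) := by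
        intro l hl e
        simp only [val, Option.elim, if_pos hl] at e
        exact hxA (hφone x hxR1 k₀ hk₀ hk₀1 (congrArg Subtype.val e))
      rintro (_ | k) (_ | l) e
      · rfl
      · exfalso
        by_cases hl : (l : S) = 1
        · exact hnone l hl e
        · exact (hz l hl).1 e.symm
      · exfalso
        by_cases hk : (k : S) = 1
        · exact hnone k hk e.symm
        · exact (hz k hk).1 e
      · congr 1
        by_cases hk : (k : S) = 1
        · by_cases hl : (l : S) = 1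
          · exact Subtype.ext (hk.trans hl.symm)
          · exact absurd e.symm ((hz l hl).2 k hk)
        · by_cases hl : (l : S) = 1
          · exact absurd e ((hz k hk).2 l hl)
          · simp only [val, Option.elim, if_neg hk, if_neg hl] at e
            exact Subtype.ext (hinj' k k.2 l l.2 (hφinj k₀ hk₀ hk₀1 _ (hRR1 (hρR k k.2)) _
              (hRR1 (hρR l l.2)) (congrArg Subtype.val e)))
    have h5 := Nat.card_le_card_of_injective val hvinj
    rw [Finite.card_option, hK4, hA4] at h5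
    omega
  -- the large case: an element of `R` normalising `R1`
  have hlt : R1.subgroupOf R < ⊤ :=
    lt_top_iff_ne_top.2 fun h => hRR1 (Subgroup.subgroupOf_eq_top.1 h)
  have := (hS.to_subgroup R).isNilpotent
  obtain ⟨-, y₀, hy₀N, hy₀R1⟩ := SetLike.lt_iff_le_and_exists.1
    (Group.normalizerCondition_of_isNilpotent _ hlt)
  set T := Subgroup.normalizer (R1 : Set S) with hT
  have hy₀T : (y₀ : S) ∈ T := by
    rw [hT, Subgroup.mem_normalizer_iff]
    intro g
    constructor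
    · intro hg
      exact (Subgroup.mem_normalizer_iff.1 hy₀N ⟨g, hg.1⟩).1 hg
    · intro hg
      have hgR : g ∈ R := by
        have := R.mul_mem (R.mul_mem (R.inv_mem y₀.2) hg.1) y₀.2
        simpa [mul_assoc] using this
      exact (Subgroup.mem_normalizer_iff.1 hy₀N ⟨g, hgR⟩).2 hg
  have hKT : K ≤ T := by
    intro k hk
    rw [hT, Subgroup.mem_normalizer_iff]
    have key : ∀ k ∈ K, ∀ g ∈ R1, k * g * k⁻¹ ∈ R1 := fun k hk g hg => Subgroup.mem_inf.2
      ⟨hRn.conj_mem g hg.1 k, Subgroup.mul_mem _ (Subgroup.mul_mem _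
        (Subgroup.le_normalizer (hKM hk)) hg.2) (inv_mem (Subgroup.le_normalizer (hKM hk)))⟩
    exact fun g => ⟨key k hk g, fun h => by simpa [mul_assoc] using key k⁻¹ (K.inv_mem hk) _ h⟩
  set R1' := R1.subgroupOf T with hR1'
  have : R1'.Normal := ⟨fun n hn g => (Subgroup.mem_normalizer_iff.1 g.2 _).1 hn⟩
  set RT := (R.subgroupOf T).map (QuotientGroup.mk' R1') with hRT
  have : RT.Normal := Subgroup.Normal.map inferInstance _ (QuotientGroup.mk'_surjective _)
  have hRTne : RT ≠ ⊥ := by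
    intro h
    have : QuotientGroup.mk' R1' ⟨(y₀ : S), hy₀T⟩ ∈ RT := ⟨_, y₀.2, rfl⟩
    rw [h, Subgroup.mem_bot, QuotientGroup.mk'_apply, QuotientGroup.eq_one_iff] at this
    exact hy₀R1 this
  obtain ⟨Yq, hYq, hYo, hYc⟩ := exists_central_in (Q := (⊤ : Subgroup (↥T ⧸ R1')))
    ((hS.to_subgroup T).to_quotient R1' |>.to_subgroup ⊤) le_top hRTne
    (fun g _ r hr => ‹RT.Normal›.conj_mem r hr g)
  obtain ⟨yT, hyTR, rfl⟩ := hYq
  set y : S := (yT : S) with hy
  have hyR : y ∈ R := hyTR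
  have hyR1 : y ∉ R1 := fun h => by
    have : QuotientGroup.mk' R1' yT = 1 := (QuotientGroup.eq_one_iff _).2 h
    rw [this, orderOf_one] at hYo
    omega
  have hyy : y * y ∈ R1 := by
    have h := pow_orderOf_eq_one (QuotientGroup.mk' R1' yT)
    rw [hYo, ← map_pow, QuotientGroup.mk'_apply, QuotientGroup.eq_one_iff, pow_two] at h
    exact h
  have hyN : ∀ g ∈ R1, y * g * y⁻¹ ∈ R1 ∧ y⁻¹ * g * y ∈ R1 := fun g hg =>
    ⟨(Subgroup.mem_normalizer_iff.1 yT.2 g).1 hg,
      (Subgroup.mem_normalizer_iff'.1 yT.2 (y⁻¹ * g)).2 (by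
        rw [show (yT : S) * (y⁻¹ * g) = g from mul_inv_cancel_left y g]; exact hg)⟩
  have hv : ∀ k ∈ K, y * k * y⁻¹ * k⁻¹ ∈ R1 := by
    intro k hk
    have h := hYc (QuotientGroup.mk' R1' ⟨k, hKT hk⟩) (Subgroup.mem_top _)
    have h2 : QuotientGroup.mk' R1' (yT * ⟨k, hKT hk⟩ * yT⁻¹ * (⟨k, hKT hk⟩)⁻¹) = 1 := by
      rw [map_mul, map_mul, map_mul, map_inv, map_inv, ← h, mul_inv_cancel_right, mul_inv_cancel]
    rw [QuotientGroup.mk'_apply, QuotientGroup.eq_one_iff] at h2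
    exact h2
  have hu : ∀ k ∈ K, y⁻¹ * k * y * k⁻¹ ∈ R1 := by
    intro k hk
    have h := (hyN _ (R1.inv_mem (hv k hk))).2
    rwa [show y⁻¹ * (y * k * y⁻¹ * k⁻¹)⁻¹ * y = y⁻¹ * k * y * k⁻¹ by group] at h
  -- `y` normalises `A`
  have hyA : ∀ a ∈ A, y⁻¹ * a * y ∈ A := by
    intro a ha
    refine (hcent k₀ hk₀ hk₀1 _ ?_).1 ?_
    · exact R.mul_mem (R.mul_mem (R.inv_mem hyR) (hAR ha)) hyR
    · have hc : Commute a (y * k₀ * y⁻¹) := by
        have e : y * k₀ * y⁻¹ = (y * k₀ * y⁻¹ * k₀⁻¹) * k₀ := by group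
        rw [e]
        exact Commute.mul_right ((hR1cs _ (hv k₀ hk₀)).1 a ha).symm (hAK a ha k₀ hk₀)
      have h := hc.map (MulAut.conj y⁻¹).toMonoidHom
      have e1 : y⁻¹ * (y * k₀ * y⁻¹) * (y⁻¹)⁻¹ = k₀ := by group
      have h' : Commute (y⁻¹ * a * (y⁻¹)⁻¹) (y⁻¹ * (y * k₀ * y⁻¹) * (y⁻¹)⁻¹) := h
      rw [e1, inv_inv] at h'
      exact h'.eq
  have hyA' : ∀ a ∈ A, y * a * y⁻¹ ∈ A := by
    intro a ha
    have hmap : A.map (MulAut.conj y⁻¹).toMonoidHom = A := by
      refine Subgroup.eq_of_le_of_card_ge ?_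
        (le_of_eq (Subgroup.card_map_of_injective (MulAut.conj y⁻¹).injective).symm)
      rintro _ ⟨b, hb, rfl⟩
      show y⁻¹ * b * (y⁻¹)⁻¹ ∈ A
      rw [inv_inv]
      exact hyA b hb
    obtain ⟨b, hb, e⟩ := hmap.ge ha
    have e' : y⁻¹ * b * (y⁻¹)⁻¹ = a := e
    rw [← e', show y * (y⁻¹ * b * (y⁻¹)⁻¹) * y⁻¹ = b by group]
    exact hb
  have huy : ∀ k ∈ K, (y⁻¹ * k * y * k⁻¹ ∈ A ↔ y * k * y⁻¹ * k⁻¹ ∈ A) := by
    intro k hk
    constructor
    · intro h
      have := hyA' _ (A.inv_mem h)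
      rwa [show y * (y⁻¹ * k * y * k⁻¹)⁻¹ * y⁻¹ = y * k * y⁻¹ * k⁻¹ by group] at this
    · intro h
      have := hyA _ (A.inv_mem h)
      rwa [show y⁻¹ * (y * k * y⁻¹ * k⁻¹)⁻¹ * y = y⁻¹ * k * y * k⁻¹ by group] at this
  have husq : ∀ k ∈ K, ∀ u, u = y⁻¹ * k * y * k⁻¹ → u * k * u⁻¹ * k⁻¹ = u * u := by
    intro k hk u hu'
    rw [hu', hinvK k hk]
    have h2 := hK2 k hk
    have h3 : y⁻¹ * k * y * (y⁻¹ * k * y) = 1 := by
      rw [show y⁻¹ * k * y * (y⁻¹ * k * y) = y⁻¹ * (k * k) * y by group, h2, mul_one,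
        inv_mul_cancel]
    have h4 : (y⁻¹ * k * y * k)⁻¹ = k * (y⁻¹ * k * y) := by
      rw [mul_inv_rev, hinvK k hk, ← eq_inv_of_mul_eq_one_left h3]
    rw [h4]
    calc y⁻¹ * k * y * k * k * (k * (y⁻¹ * k * y)) * k
        = y⁻¹ * k * y * (k * k) * (k * (y⁻¹ * k * y) * k) := by group
      _ = _ := by rw [h2, mul_one]; group
  have hnotA : ∀ k ∈ K, k ≠ 1 → y⁻¹ * k * y * k⁻¹ ∉ A := by
    by_contra hcon
    push_neg at hcon
    obtain ⟨k, hk, hk1, hkA⟩ := hcon
    -- some other element gives a class outside `A`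
    obtain ⟨l, hl, hlA⟩ : ∃ l ∈ K, y⁻¹ * l * y * l⁻¹ ∉ A := by
      by_contra h
      push_neg at h
      exact hyR1 (hR1mem y hyR hyA' fun l hl => (huy l hl).1 (h l hl))
    set u := y⁻¹ * l * y * l⁻¹ with hu_def
    set a := y⁻¹ * k * y * k⁻¹ with ha_def
    have huR1 : u ∈ R1 := hu l hl
    have hukl : y⁻¹ * (k * l) * y * (k * l)⁻¹ = a * (k * u * k⁻¹) := by
      rw [ha_def, hu_def]; group
    have hkl1 : k * l ≠ 1 := by
      intro e
      have e' : k = l := by rw [mul_eq_one_iff_eq_inv.1 e, hinvK l hl]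
      rw [ha_def, e'] at hkA
      exact hlA hkA
    have hkuk : k * u * k⁻¹ = (k * u * k⁻¹ * u⁻¹) * u := by group
    obtain ⟨b, hb, hbe⟩ : ∃ b ∈ A, y⁻¹ * (k * l) * y * (k * l)⁻¹ = b * u := by
      refine ⟨a * (k * u * k⁻¹ * u⁻¹), A.mul_mem hkA ?_, ?_⟩
      · have := A.inv_mem (hφA u huR1 k hk)
        rwa [show (u * k * u⁻¹ * k⁻¹)⁻¹ = k * u * k⁻¹ * u⁻¹ by group] at this
      · rw [hukl]; group
    have h2 := husq (k * l) (K.mul_mem hk hl) (b * u) hbe.symm
    have hcb := (hR1cs u huR1).1 b hb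
    have hbR1 : b ∈ R1 := hAR1 hb
    rw [hφmul b hbR1 u huR1 (k * l) (K.mul_mem hk hl),
      hAK b hb (k * l) (K.mul_mem hk hl), mul_inv_cancel_right, mul_inv_cancel, mul_one,
      hφhom u huR1 k hk l hl, husq l hl u rfl,
      show b * u * (b * u) = b * (u * b) * u by group, hcb,
      show b * (b * u) * u = b * b * (u * u) by group, hA2 b hb, one_mul] at h2
    exact hlA (hφone u huR1 k hk hk1 (mul_eq_right.1 h2))
  have hinj : ∀ k ∈ K, ∀ l ∈ K,
      (y⁻¹ * k * y * k⁻¹) * (y⁻¹ * l * y * l⁻¹) ∈ A → k = l := by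
    intro k hk l hl h
    by_contra hne
    refine hnotA (k * l) (K.mul_mem hk hl)
      (fun e => hne (by rw [mul_eq_one_iff_eq_inv.1 e, hinvK _ hl])) ?_
    set a := y⁻¹ * k * y * k⁻¹
    set b := y⁻¹ * l * y * l⁻¹
    have hb := hu l hl
    have e : y⁻¹ * (k * l) * y * (k * l)⁻¹ = (a * b) * (b⁻¹ * (k * b * k⁻¹)) := by
      simp only [a, b]; group
    rw [e]
    refine A.mul_mem h ?_
    have h3 := A.inv_mem (hφA b hb k hk)
    have e2 : b⁻¹ * (k * b * k⁻¹) = b⁻¹ * (b * k * b⁻¹ * k⁻¹)⁻¹ * b := by group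
    rw [e2, mul_assoc, ← (hR1cs b hb).1 _ h3, inv_mul_cancel_left]
    exact h3
  -- every class of `R1` modulo `A` is one of these
  have hclass : ∀ r ∈ R1, ∃ k ∈ K, r * (y⁻¹ * k * y * k⁻¹) ∈ A := by
    intro r hr
    let f : K → A := fun k =>
      ⟨(y⁻¹ * (k : S) * y * (k : S)⁻¹) * k₀ * (y⁻¹ * (k : S) * y * (k : S)⁻¹)⁻¹ * k₀⁻¹,
        hφA _ (hu k k.2) k₀ hk₀⟩
    have hf : Function.Injective f := fun k l e =>
      Subtype.ext (hinj k k.2 l l.2
        (hφinj k₀ hk₀ hk₀1 _ (hu k k.2) _ (hu l l.2) (congrArg Subtype.val e)))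
    have hfb : Function.Bijective f :=
      (Nat.bijective_iff_injective_and_card f).2 ⟨hf, by rw [hK4, hA4]⟩
    obtain ⟨k, hk⟩ := hfb.2 ⟨_, hφA r hr k₀ hk₀⟩
    exact ⟨k, k.2, hφinj k₀ hk₀ hk₀1 r hr _ (hu k k.2) (congrArg Subtype.val hk).symm⟩
  have hinvol : ∀ r ∈ R1, r * r = 1 → r ∈ A := by
    intro r hr hrr
    obtain ⟨k, hk, hrk⟩ := hclass r hr
    by_contra hrA
    have hu' := hu k hk
    set u := y⁻¹ * k * y * k⁻¹ with hu_def
    have hk1 : k ≠ 1 := by
      intro e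
      apply hrA
      simpa [hu_def, e] using hrk
    have hri : r⁻¹ = r := (eq_inv_of_mul_eq_one_left hrr).symm
    have e : u = r * (r * u) := by rw [← mul_assoc, hrr, one_mul]
    have huu : u * u = 1 := by
      rw [e, show r * (r * u) * (r * (r * u)) = r * ((r * u) * r) * (r * u) by group,
        ← (hR1cs r hr).1 _ hrk, show r * (r * (r * u)) * (r * u) = r * r * ((r * u) * (r * u)) by group,
        hrr, hA2 _ hrk, one_mul]
    exact hnotA k hk hk1 (hφone u hu' k hk hk1 (by rw [husq k hk u rfl, huu]))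
  have hytriv : ∀ r ∈ R1, y * r * y⁻¹ * r⁻¹ ∈ A := by
    intro r hr
    obtain ⟨k, hk, hrk⟩ := hclass r hr
    have hu' := hu k hk
    set u := y⁻¹ * k * y * k⁻¹ with hu_def
    have h1 : y⁻¹ * u * y * u ∈ A := by
      have h := hφA _ (R1.inv_mem hyy) k hk
      rwa [show (y * y)⁻¹ * k * ((y * y)⁻¹)⁻¹ * k⁻¹ = y⁻¹ * u * y * u by
        rw [hu_def, mul_inv_rev, mul_inv_rev, inv_inv]
        simp [mul_assoc]] at h
    have h2 := hyA' _ h1
    rw [show y * (y⁻¹ * u * y * u) * y⁻¹ = u * (y * u * y⁻¹) by group] at h2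
    have h3 : y * u * y⁻¹ * u⁻¹ ∈ A := by
      have hx2 := (hyN u hu').1
      have hc := (hR1cs _ hu').1 _ h2
      have e : y * u * y⁻¹ * u⁻¹ = (u * u)⁻¹ * (u * (u * (y * u * y⁻¹)) * u⁻¹) := by group
      rw [e, hc, mul_inv_cancel_right]
      exact A.mul_mem (A.inv_mem (hR1cs u hu').2) h2
    obtain ⟨a, ha, rfl⟩ : ∃ a ∈ A, r = a * u⁻¹ := ⟨r * u, hrk, by group⟩
    have h4 : y * u⁻¹ * y⁻¹ * (u⁻¹)⁻¹ ∈ A := by
      have hc := (hR1cs _ (R1.inv_mem hu')).1 _ (A.inv_mem h3)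
      have e : y * u⁻¹ * y⁻¹ * (u⁻¹)⁻¹ = u⁻¹ * (y * u * y⁻¹ * u⁻¹)⁻¹ * u := by group
      rw [e, hc, inv_mul_cancel_right]
      exact A.inv_mem h3
    have e : y * (a * u⁻¹) * y⁻¹ * (a * u⁻¹)⁻¹
        = (y * a * y⁻¹) * (y * u⁻¹ * y⁻¹ * (u⁻¹)⁻¹) * a⁻¹ := by group
    rw [e]
    exact A.mul_mem (A.mul_mem (hyA' a ha) h4) (A.inv_mem ha)
  refine Cfsg.Agent.S0501.result hS fun U hUn hUc hU2 => ?_
  have hUsq : ∀ a ∈ U, a * a = 1 := fun a ha => by rw [← pow_two]; exact hU2 a ha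
  by_contra hU4
  have hUR : U ⊓ R ≤ A := by
    intro x hx
    by_contra hxA
    set W := (U ⊓ R) ⊔ M with hW
    have hUR' : (U ⊓ R).Normal := inferInstance
    have hMW : M.subgroupOf W < ⊤ := by
      refine lt_top_iff_ne_top.2 fun e => ?_
      exact hxA (hMR x (Subgroup.subgroupOf_eq_top.1 e (Subgroup.mem_sup_left hx)) hx.2)
    have := (hS.to_subgroup W).isNilpotent
    obtain ⟨-, w, hwN, hwM⟩ := SetLike.lt_iff_le_and_exists.1
      (Group.normalizerCondition_of_isNilpotent _ hMW)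
    have hwdec : ∃ x' ∈ U ⊓ R, ∃ m ∈ M, (w : S) = x' * m := by
      have hw : (w : S) ∈ (U ⊓ R) ⊔ M := w.2
      obtain ⟨x', hx', m, hm, e⟩ := Subgroup.mem_sup_of_normal_left.1 hw
      exact ⟨x', hx', m, hm, e.symm⟩
    obtain ⟨x', hx', m, hm, e⟩ := hwdec
    have hwN' : (w : S) ∈ Subgroup.normalizer (M : Set S) := by
      rw [Subgroup.mem_normalizer_iff]
      intro g
      constructor
      · intro hg
        exact (Subgroup.mem_normalizer_iff.1 hwN ⟨g, Subgroup.mem_sup_right hg⟩).1 hg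
      · intro hg
        have hgW : g ∈ W := by
          have := W.mul_mem (W.mul_mem (W.inv_mem w.2) (Subgroup.mem_sup_right hg)) w.2
          simpa [mul_assoc] using this
        exact (Subgroup.mem_normalizer_iff.1 hwN ⟨g, hgW⟩).2 hg
    have hx'R1 : x' ∈ R1 := Subgroup.mem_inf.2 ⟨hx'.2, by
      rw [show x' = (w : S) * m⁻¹ by rw [e, mul_inv_cancel_right]]
      exact Subgroup.mul_mem _ hwN' (inv_mem (Subgroup.le_normalizer hm))⟩
    exact hwM (show (w : S) ∈ M from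
      e ▸ M.mul_mem (hAM (hinvol x' hx'R1 (hUsq x' hx'.1))) hm)
  obtain ⟨z, hzU, hzR⟩ : ∃ z ∈ U, z ∉ R := by
    by_contra h
    push_neg at h
    have := Subgroup.card_le_of_le ((le_inf le_rfl h).trans hUR : U ≤ A)
    omega
  obtain ⟨r, hr, k, hk, rfl⟩ := hgen z
  have hk1 : k ≠ 1 := fun e => hzR (by rw [e, mul_one]; exact hr)
  have hkey : ∀ s : S, (∃ c ∈ R, s * k * s⁻¹ = c * k) →
      s * (r * k) * s⁻¹ * (r * k)⁻¹ ∈ A := by
    rintro s ⟨c, hc, he⟩
    refine hUR (Subgroup.mem_inf.2 ⟨U.mul_mem (hUn.conj_mem _ hzU s) (U.inv_mem hzU), ?_⟩)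
    rw [show s * (r * k) * s⁻¹ * (r * k)⁻¹ = s * r * s⁻¹ * (s * k * s⁻¹) * k⁻¹ * r⁻¹ by group,
      he, ← mul_assoc (s * r * s⁻¹), mul_inv_cancel_right]
    exact R.mul_mem (R.mul_mem (hRn.conj_mem r hr s) hc) (R.inv_mem hr)
  have hrR1 : r ∈ R1 := by
    refine hR1mem r hr (fun a ha => ?_) (fun l hl => ?_)
    · have h := hkey a ⟨1, R.one_mem, by rw [hAK a ha k hk, mul_inv_cancel_right, one_mul]⟩
      have e : r * a * r⁻¹ = (a⁻¹ * (a * (r * k) * a⁻¹ * (r * k)⁻¹))⁻¹ := by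
        rw [show r * a * r⁻¹ = r * (k * a * k⁻¹) * r⁻¹ by
          rw [← hAK a ha k hk, mul_inv_cancel_right]]
        group
      rw [e]
      exact A.inv_mem (A.mul_mem (A.inv_mem ha) h)
    · have hlk : l * k = k * l := comm_of_sq hK2 hl hk
      have h := hkey l ⟨1, R.one_mem, by rw [hlk, mul_inv_cancel_right, one_mul]⟩
      have h3 : l * (r * k) * l⁻¹ * (r * k)⁻¹ = l * r * l⁻¹ * r⁻¹ := by
        rw [show l * (r * k) * l⁻¹ * (r * k)⁻¹ = l * r * (k * l⁻¹ * k⁻¹) * r⁻¹ by group,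
          show k * l⁻¹ * k⁻¹ = l⁻¹ by rw [hinvK l hl, ← hlk, mul_inv_cancel_right]]
      have e : r * l * r⁻¹ * l⁻¹ = l * (l * r * l⁻¹ * r⁻¹) * l⁻¹ := by
        rw [hinvK l hl]
        calc r * l * r⁻¹ * l = (l * l) * r * l * r⁻¹ * l := by rw [hK2 l hl, one_mul]
          _ = _ := by group
      rw [h3] at h
      rw [e, ← hAK _ h l hl, mul_inv_cancel_right]
      exact h
  obtain ⟨c, hc, hce⟩ : ∃ c ∈ R, y * k * y⁻¹ = c * k :=
    ⟨y * k * y⁻¹ * k⁻¹, (hv k hk).1, by group⟩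
  have h := hkey y ⟨c, hc, hce⟩
  apply hnotA k hk hk1
  rw [huy k hk]
  set q := y * k * y⁻¹ * k⁻¹ with hq
  have hqR1 : q ∈ R1 := hv k hk
  have e : y * (r * k) * y⁻¹ * (r * k)⁻¹ = (y * r * y⁻¹ * r⁻¹) * (r * q * r⁻¹) := by
    rw [hq]; group
  rw [e] at h
  have h2 := A.mul_mem (A.inv_mem (hytriv r hrR1)) h
  rw [inv_mul_cancel_left] at h2
  have h3 := (hR1cs r hrR1).1 _ h2
  have h4 : r * (r * q * r⁻¹) * r⁻¹ = r * q * r⁻¹ := by rw [h3, mul_inv_cancel_right]
  have h5 : r * q * r⁻¹ = q := by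
    have h6 : r * (r * q * r⁻¹) = r * q := by
      calc r * (r * q * r⁻¹) = r * (r * q * r⁻¹) * r⁻¹ * r := by group
        _ = r * q * r⁻¹ * r := by rw [h4]
        _ = r * q := by group
    exact mul_left_cancel h6
  rwa [h5] at h2

end Group

end CfsgLib.Spectrum.FixFour
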