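/-
Groups of fixity four in which involutions fix zero or four points: tools.
-/
import Cfsg.Agent.Lib.Spectrum.FixityFourLow
import Cfsg.Agent.Lib.Spectrum.FixityFourRank
import Mathlib

set_option autoImplicit false
open MulAction
open scoped Pointwise

namespace CfsgLib.Spectrum.FixFour

section Perm4

/-- A fixed point free involution. -/
abbrev IsDbl (σ : Equiv.Perm (Fin 4)) : Prop := σ * σ = 1 ∧ ∀ i, σ i ≠ i

/-- A transposition. -/
abbrev IsSwap4 (σ : Equiv.Perm (Fin 4)) : Prop := σ * σ = 1 ∧ σ ≠ 1 ∧ ∃ i, σ i = i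

set_option synthInstance.maxSize 1024 in
theorem p4_klein_self : ∀ a b : Equiv.Perm (Fin 4), a * a = 1 → b * b = 1 → a * b = b * a →
    a ≠ 1 → b ≠ 1 → a * b ≠ 1 → ∀ c : Equiv.Perm (Fin 4), c * a = a * c → c * b = b * c →
    c = 1 ∨ c = a ∨ c = b ∨ c = a * b := by
  decide +kernel

theorem p4_dbl_unique : ∀ a b c : Equiv.Perm (Fin 4), IsDbl a → IsDbl b → a ≠ b → IsDbl c →
    c = a ∨ c = b ∨ c = a * b := by
  decide +kernel

theorem p4_dbl_mul : ∀ a b : Equiv.Perm (Fin 4), IsDbl a → IsDbl b → a * b = b * a ∧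
    (a ≠ b → IsDbl (a * b)) := by
  decide +kernel

theorem p4_invol : ∀ a : Equiv.Perm (Fin 4), a * a = 1 → a = 1 ∨ IsSwap4 a ∨ IsDbl a := by
  decide +kernel

theorem p4_to_swap : ∀ a : Equiv.Perm (Fin 4), a ^ 4 = 1 → a ≠ 1 → ¬ IsDbl a →
    IsSwap4 a ∨ ∃ v, IsDbl v ∧ IsSwap4 (a * v) := by
  decide +kernel

theorem p4_swap_dbl : ∀ a v w : Equiv.Perm (Fin 4), IsSwap4 a → IsDbl v → IsDbl w →
    a * v = v * a → a * w = w * a → v = w := by
  decide +kernel

theorem p4_swap_exists : ∀ a : Equiv.Perm (Fin 4), IsSwap4 a →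
    ∃ v, IsDbl v ∧ a * v = v * a := by
  decide +kernel

theorem p4_cycle : ∀ a : Equiv.Perm (Fin 4), a ^ 4 = 1 → a * a ≠ 1 →
    Equiv.Perm.sign a = -1 ∧ (∀ i, a i ≠ i) ∧ IsDbl (a * a) := by
  decide +kernel

theorem p4_pow_eight : ∀ a : Equiv.Perm (Fin 4), a ^ 8 = 1 → a ^ 4 = 1 := by
  decide +kernel

theorem p4_swap_move : ∀ (a b : Equiv.Perm (Fin 4)) (i : Fin 4), IsSwap4 a → a i = i →
    b * b = 1 → a (b i) ≠ b i → (b * a) * (b * a) ≠ 1 := by
  decide +kernel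

set_option synthInstance.maxSize 1024 in
theorem p4_three_dbl : ∀ a v : Equiv.Perm (Fin 4), a ^ 3 = 1 → a ≠ 1 → IsDbl v →
    a * v ≠ v * a := by
  decide +kernel

theorem p4_three_or_four : ∀ a : Equiv.Perm (Fin 4), a ^ 3 = 1 ∨ a ^ 4 = 1 := by
  decide +kernel

end Perm4

variable {G Ω : Type*} [Group G] [MulAction G Ω]

/-- The image of the stabilizer of a four-element set in `Sym 4`. -/
noncomputable def img (Φ : Set Ω) (h4 : Nat.card Φ = 4) :
    ↥(stabilizer G Φ) →* Equiv.Perm (Fin 4) :=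
  (@Finite.equivFinOfCardEq _ (Nat.finite_of_card_ne_zero (by omega)) 4 h4).permCongrHom.toMonoidHom.comp
    (permOn Φ)

theorem img_eq_one_iff (Φ : Set Ω) (h4 : Nat.card Φ = 4) (h : ↥(stabilizer G Φ)) :
    img Φ h4 h = 1 ↔ (h : G) ∈ fixingSubgroup G Φ := by
  rw [← permOn_eq_one_iff, img, MonoidHom.comp_apply]
  exact map_eq_one_iff _ (MulEquiv.injective _)

theorem img_fix_iff (Φ : Set Ω) (h4 : Nat.card Φ = 4) (h : ↥(stabilizer G Φ)) :
    (∃ i, img Φ h4 h i = i) ↔ (fixedBy Ω (h : G) ∩ Φ).Nonempty := by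
  have hfin : Finite Φ := Nat.finite_of_card_ne_zero (by omega)
  set e := @Finite.equivFinOfCardEq _ hfin 4 h4 with he
  have happ : ∀ i, img Φ h4 h i = e (permOn Φ h (e.symm i)) := fun i => rfl
  constructor
  · rintro ⟨i, hi⟩
    rw [happ] at hi
    refine ⟨(e.symm i : Ω), ?_, (e.symm i).2⟩
    have h2 : permOn Φ h (e.symm i) = e.symm i := e.injective (hi.trans (e.apply_symm_apply i).symm)
    exact congrArg Subtype.val h2
  · rintro ⟨y, hy, hyΦ⟩
    refine ⟨e ⟨y, hyΦ⟩, ?_⟩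
    rw [happ, e.symm_apply_apply]
    exact congrArg e (Subtype.ext hy)

theorem img_sign [Finite Ω] (Φ : Set Ω) (h4 : Nat.card Φ = 4) (h : ↥(stabilizer G Φ))
    [Fintype Φ] [DecidableEq Φ] :
    Equiv.Perm.sign (img Φ h4 h) = Equiv.Perm.sign (permOn Φ h) := by
  rw [img, MonoidHom.comp_apply]
  exact Equiv.Perm.sign_permCongr _ _

theorem img_dbl_iff (Φ : Set Ω) (h4 : Nat.card Φ = 4) (h : ↥(stabilizer G Φ))
    (hh : (h : G) * h = 1) :
    IsDbl (img Φ h4 h) ↔ fixedBy Ω (h : G) ∩ Φ = ∅ := by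
  have h2 : img Φ h4 h * img Φ h4 h = 1 := by
    rw [← map_mul, show h * h = 1 from Subtype.ext hh, map_one]
  rw [← Set.not_nonempty_iff_eq_empty, ← img_fix_iff Φ h4 h]
  push_neg
  exact ⟨fun e => e.2, fun e => ⟨h2, e⟩⟩

/-- Involutions of a group of fixity four fixing zero or four points. -/
structure Four (G Ω : Type*) [Group G] [MulAction G Ω] : Prop where
  nc : ¬ IsMulCommutative G
  le : ∀ g : G, g ≠ 1 → (fixedBy Ω g).ncard ≤ 4
  inv : ∀ t : G, orderOf t = 2 → (fixedBy Ω t).ncard = 0 ∨ (fixedBy Ω t).ncard = 4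
  four_dvd : 4 ∣ Nat.card Ω

variable [Finite G] [FaithfulSMul G Ω] [Finite Ω]

/-- The parity of the cycles of an element acting freely outside an invariant set. -/
theorem cycles_sign [IsSimpleGroup G] (hna : ¬ IsMulCommutative G) (g : G) (Φ : Set Ω)
    [Fintype Φ] [DecidableEq Φ] (hΦ : g ∈ stabilizer G Φ) (hev : Even (orderOf g))
    (hfree : ∀ a, a ∉ Φ → ∀ m : ℕ, g ^ m • a = a → g ^ m = 1) :
    orderOf g ∣ Nat.card Ω - Φ.ncard ∧
      Equiv.Perm.sign (permOn Φ ⟨g, hΦ⟩) * (-1) ^ ((Nat.card Ω - Φ.ncard) / orderOf g) = 1 := by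
  classical
  let _ := Fintype.ofFinite Ω
  set σ : Equiv.Perm Ω := MulAction.toPermHom G Ω g with hσ
  have hpow : ∀ m : ℕ, ∀ a, (σ ^ m) a = g ^ m • a := fun m a => by
    rw [hσ, ← map_pow]; rfl
  have hst : ∀ a, σ a ∈ Φ.toFinset ↔ a ∈ Φ.toFinset := fun a => by
    rw [Set.mem_toFinset, Set.mem_toFinset]
    exact smul_mem_iff_of_stab hΦ a
  obtain ⟨h1, h2⟩ := sign_split σ Φ.toFinset hst (orderOf g) hev (orderOf_pos g)
    (by rw [hσ, ← map_pow, pow_orderOf_eq_one, map_one])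
    (fun a ha m hm => orderOf_dvd_of_pow_eq_one
      (hfree a (fun h => ha (Set.mem_toFinset.2 h)) m (by rw [← hpow]; exact hm)))
  rw [CfsgLib.Components2.TwentyTwo.sign_eq_one hna g] at h2
  rw [← Nat.card_eq_fintype_card, ← Set.ncard_eq_toFinset_card'] at h1 h2
  refine ⟨h1, ?_⟩
  conv_rhs => rw [h2]
  congr 1
  refine Equiv.Perm.sign_bij (fun (x : Φ) _ => (⟨(x : Ω), Set.mem_toFinset.2 x.2⟩ : Φ.toFinset))
    (fun x _ _ => rfl) (fun x₁ x₂ _ _ h => Subtype.ext (congrArg Subtype.val h : _))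
    (fun y hy => by
      have hm : (y : Ω) ∈ Φ := Set.mem_toFinset.1 y.2
      refine ⟨⟨y, hm⟩, fun e => hy (Subtype.ext ?_), rfl⟩
      have e' := congrArg Subtype.val e
      exact e')

omit [Finite G] in
theorem neg_one_pow_even {k : ℕ} (h : ((-1 : ℤˣ)) ^ k = 1) : Even k := by
  by_contra hk
  rw [Nat.not_even_iff_odd] at hk
  rw [hk.neg_one_pow] at h
  exact absurd h (by decide)

/-- Involutions fixing four points at most, one exactly four: the setting. -/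
theorem Four.of_max [IsSimpleGroup G] (hna : ¬ IsMulCommutative G)
    (hle : ∀ g : G, g ≠ 1 → (fixedBy Ω g).ncard ≤ 4)
    (h4 : ∃ t : G, orderOf t = 2 ∧ (fixedBy Ω t).ncard = 4) : Four G Ω := by
  classical
  have hev : ∀ t : G, orderOf t = 2 →
      Even ((Nat.card Ω - (fixedBy Ω t).ncard) / 2) := by
    intro t ht
    let _ := Fintype.ofFinite Ω
    have hst : t ∈ stabilizer G (fixedBy Ω t) :=
      centralizer_le_stabilizer t (Subgroup.mem_centralizer_singleton_iff.2 rfl)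
    obtain ⟨-, h2⟩ := cycles_sign hna t (fixedBy Ω t) hst (by rw [ht]; decide) (fun a ha m hm => by
      rcases Nat.even_or_odd m with ⟨j, rfl⟩ | ⟨j, rfl⟩
      · rw [← two_mul, pow_mul, ← ht, pow_orderOf_eq_one, one_pow]
      · rw [pow_succ, pow_mul, ← ht, pow_orderOf_eq_one, one_pow, one_mul] at hm
        exact absurd hm ha)
    have hone : permOn (fixedBy Ω t) ⟨t, hst⟩ = 1 :=
      (permOn_eq_one_iff _ _).2 ((mem_fixingSubgroup_iff_subset_fixedBy G).2 subset_rfl)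
    rw [hone, map_one, one_mul, ht] at h2
    exact neg_one_pow_even h2
  obtain ⟨t₀, ht₀, ht₀4⟩ := h4
  have h0 := hev t₀ ht₀
  have p0 := card_parity (Ω := Ω) (orderOf_two_iff.1 ht₀).1
  have hge : 4 ≤ Nat.card Ω := by
    rw [← ht₀4, ← Set.ncard_univ]
    exact Set.ncard_le_ncard (Set.subset_univ _) (Set.toFinite _)
  rw [ht₀4, Nat.even_iff] at h0
  refine ⟨hna, hle, fun t ht => ?_, by omega⟩
  have h1 := hev t ht
  have p1 := card_parity (Ω := Ω) (orderOf_two_iff.1 ht).1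
  have l1 := hle t (orderOf_two_iff.1 ht).2
  rw [Nat.even_iff] at h1
  omega

namespace Four

variable (hF : Four G Ω)
include hF

theorem exact_fix {S : Subgroup G} (hS : IsPGroup 2 S) {Φ : Set Ω} (hΦ : Φ.ncard = 4) {g : G}
    (hgS : g ∈ S) (hg : g ∈ fixingSubgroup G Φ) (hg1 : g ≠ 1) : fixedBy Ω g = Φ :=
  (Set.eq_of_subset_of_ncard_le (subset_fixedBy_of_fixing hg) (by rw [hΦ]; exact hF.le g hg1)
    (Set.toFinite _)).symm

theorem quot_bound {Φ : Set Ω} (hΦ : Φ.ncard = 4) {D : Subgroup G} (hD : IsPGroup 2 D)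
    (hDle : D ≤ stabilizer G Φ) :
    Nat.card D ≤ 8 * Nat.card ↥(D ⊓ fixingSubgroup G Φ) := by
  have : Fact (Nat.Prime 2) := ⟨Nat.prime_two⟩
  have h1 := card_dvd_fixing_mul Φ hDle
  rw [hΦ] at h1
  obtain ⟨i, hi⟩ := hD.exists_card_eq
  obtain ⟨j, hj⟩ := (hD.to_le inf_le_left : IsPGroup 2 ↥(D ⊓ fixingSubgroup G Φ)).exists_card_eq
  rw [hi, hj] at h1 ⊢
  have h2 : 2 ^ i ∣ 2 ^ j * (8 * 3) := h1.trans (Nat.mul_dvd_mul_left _ (by norm_num [Nat.factorial]))
  rw [← mul_assoc] at h2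
  have h4 := (Nat.Coprime.pow_left i (by norm_num : Nat.Coprime 2 3)).dvd_of_dvd_mul_right h2
  rw [mul_comm]
  exact Nat.le_of_dvd (Nat.mul_pos (pow_pos (by norm_num) j) (by norm_num)) h4

/-- An involution acting on a four-set as a transposition has small centralizer in the pointwise
stabilizer. -/
theorem swap_bound {Φ : Set Ω} (hΦ : Φ.ncard = 4) {w : G} (hw : orderOf w = 2)
    (hwΦ : w ∈ stabilizer G Φ) (hwR : w ∉ fixingSubgroup G Φ)
    (hfx : (fixedBy Ω w ∩ Φ).Nonempty) {D : Subgroup G} (hD : IsPGroup 2 D)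
    (hDfix : D ≤ fixingSubgroup G Φ) (hDw : D ≤ Subgroup.centralizer ({w} : Set G)) :
    Nat.card D ≤ 2 := by
  have : Fact (Nat.Prime 2) := ⟨Nat.prime_two⟩
  have hw2 := (orderOf_two_iff.1 hw).1
  have h4 : (fixedBy Ω w).ncard = 4 := by
    rcases hF.inv w hw with h | h
    · exact absurd h (Set.ncard_ne_zero_of_mem hfx.choose_spec.1)
    · exact h
  have hsplit := Set.ncard_inter_add_ncard_diff_eq_ncard (fixedBy Ω w) Φ (Set.toFinite _)
  have hpos : 0 < (fixedBy Ω w ∩ Φ).ncard := (Set.ncard_pos (Set.toFinite _)).2 hfx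
  have hlt : (fixedBy Ω w ∩ Φ).ncard < Φ.ncard := by
    refine Set.ncard_lt_ncard ⟨Set.inter_subset_right, fun e => hwR ?_⟩ (Set.toFinite _)
    exact (mem_fixingSubgroup_iff_subset_fixedBy G).2 fun y hy => (e hy).1
  have hpar := ncard_fixed_parity hw2 (Y := Φ) (fun y hy => (smul_mem_iff_of_stab hwΦ y).2 hy)
  have hdiff : (fixedBy Ω w \ Φ).ncard = 2 := by
    rw [hΦ] at hlt hpar
    omega
  rw [← hdiff]
  refine card_le_of_free (P := D) hD (fixedBy Ω w \ Φ) ?_ ?_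
    (Set.nonempty_of_ncard_ne_zero (by omega))
  · intro c y hy
    have hcw : (c : G) ∈ stabilizer G (fixedBy Ω w) := centralizer_le_stabilizer w (hDw c.2)
    exact ⟨(smul_mem_iff_of_stab hcw y).2 hy.1, fun e =>
      hy.2 ((smul_mem_iff_of_stab (fixing_le_stabilizer Φ (hDfix c.2)) y).1 e)⟩
  · intro c y hy hcy
    by_contra hc1
    have h5 := hF.exact_fix hD hΦ c.2 (hDfix c.2) (fun e => hc1 (Subtype.ext e))
    exact hy.2 (h5 ▸ (hcy : y ∈ fixedBy Ω (c : G)))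

omit hF in
/-- An elementary subgroup with Klein image is large only if its kernel is. -/
theorem klein_image {Φ : Set Ω} {E : Subgroup G} (hE : ∀ e ∈ E, e * e = 1)
    (hEΦ : E ≤ stabilizer G Φ) (h4 : Nat.card Φ = 4)
    (hbig : 2 * Nat.card ↥(E ⊓ fixingSubgroup G Φ) < Nat.card E) :
    Nat.card E ≤ 4 * Nat.card ↥(E ⊓ fixingSubgroup G Φ) ∧
      ∀ c ∈ stabilizer G Φ, (∀ e ∈ E, c * e = e * c) → ∃ e ∈ E, e * c ∈ fixingSubgroup G Φ := by
  classical
  set K := E ⊓ fixingSubgroup G Φ with hK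
  have hEcomm : ∀ a ∈ E, ∀ b ∈ E, a * b = b * a := fun a ha b hb =>
    CfsgLib.TwoFusion.KleinFactor.comm_of_sq hE ha hb
  have hinv : ∀ a ∈ E, a⁻¹ = a := fun a ha => (eq_inv_of_mul_eq_one_left (hE a ha)).symm
  obtain ⟨a, haE, haK⟩ : ∃ a ∈ E, a ∉ K := by
    by_contra h
    push_neg at h
    have h1 := Subgroup.card_le_of_le (show E ≤ K from h)
    omega
  obtain ⟨b, hbE, hbK, habK⟩ : ∃ b ∈ E, b ∉ K ∧ a * b ∉ K := by
    by_contra h
    push_neg at h
    have h1 : Nat.card E ≤ Nat.card (Fin 2 × K) := by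
      refine Nat.card_le_card_of_surjective (fun p : Fin 2 × K =>
        (⟨a ^ (p.1 : ℕ) * p.2, E.mul_mem (E.pow_mem haE _) p.2.2.1⟩ : E)) fun e => ?_
      by_cases he : (e : G) ∈ K
      · exact ⟨(0, ⟨e, he⟩), Subtype.ext (by simp)⟩
      · refine ⟨(1, ⟨a * e, h e e.2 he⟩), Subtype.ext ?_⟩
        show a ^ 1 * (a * (e : G)) = e
        rw [pow_one, ← mul_assoc, hE a haE, one_mul]
    rw [Nat.card_prod, Nat.card_fin] at h1
    omega
  have hσ : ∀ g : G, ∀ hg : g ∈ stabilizer G Φ, (img Φ h4 ⟨g, hg⟩ = 1 ↔ g ∈ fixingSubgroup G Φ) :=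
    fun g hg => img_eq_one_iff Φ h4 ⟨g, hg⟩
  set A := img Φ h4 ⟨a, hEΦ haE⟩ with hA
  set B := img Φ h4 ⟨b, hEΦ hbE⟩ with hB
  have key : ∀ c ∈ stabilizer G Φ, (∀ e ∈ E, c * e = e * c) →
      c ∈ fixingSubgroup G Φ ∨ a * c ∈ fixingSubgroup G Φ ∨ b * c ∈ fixingSubgroup G Φ ∨
        a * b * c ∈ fixingSubgroup G Φ := by
    intro c hc hcomm
    set C := img Φ h4 ⟨c, hc⟩ with hC
    have hab : img Φ h4 (⟨a, hEΦ haE⟩ * ⟨b, hEΦ hbE⟩) = A * B := map_mul _ _ _
    have hA2 : A * A = 1 := by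
      rw [hA, ← map_mul, img_eq_one_iff]
      show a * a ∈ fixingSubgroup G Φ
      rw [hE a haE]; exact one_mem _
    have hB2 : B * B = 1 := by
      rw [hB, ← map_mul, img_eq_one_iff]
      show b * b ∈ fixingSubgroup G Φ
      rw [hE b hbE]; exact one_mem _
    have h := p4_klein_self A B hA2 hB2 (by
        rw [hA, hB, ← map_mul, ← map_mul]
        exact congrArg (img Φ h4) (Subtype.ext (hEcomm a haE b hbE)))
      (fun e => haK ⟨haE, (hσ a (hEΦ haE)).1 e⟩) (fun e => hbK ⟨hbE, (hσ b (hEΦ hbE)).1 e⟩)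
      (fun e => habK ⟨E.mul_mem haE hbE,
        (hσ (a * b) (Subgroup.mul_mem _ (hEΦ haE) (hEΦ hbE))).1 (hab.trans e)⟩)
      C (by rw [hA, hC, ← map_mul, ← map_mul]; exact congrArg (img Φ h4) (Subtype.ext (hcomm a haE)))
      (by rw [hB, hC, ← map_mul, ← map_mul]; exact congrArg (img Φ h4) (Subtype.ext (hcomm b hbE)))
    rcases h with h | h | h | h
    · exact Or.inl ((hσ c hc).1 h)
    · right; left
      refine (hσ (a * c) (Subgroup.mul_mem _ (hEΦ haE) hc)).1 ?_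
      rw [show (⟨a * c, Subgroup.mul_mem _ (hEΦ haE) hc⟩ : ↥(stabilizer G Φ))
        = ⟨a, hEΦ haE⟩ * ⟨c, hc⟩ from rfl, map_mul, ← hA, ← hC, h, hA2]
    · right; right; left
      refine (hσ (b * c) (Subgroup.mul_mem _ (hEΦ hbE) hc)).1 ?_
      rw [show (⟨b * c, Subgroup.mul_mem _ (hEΦ hbE) hc⟩ : ↥(stabilizer G Φ))
        = ⟨b, hEΦ hbE⟩ * ⟨c, hc⟩ from rfl, map_mul, ← hB, ← hC, h, hB2]
    · right; right; right
      refine (hσ (a * b * c) (Subgroup.mul_mem _ (Subgroup.mul_mem _ (hEΦ haE) (hEΦ hbE)) hc)).1 ?_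
      rw [show (⟨a * b * c, Subgroup.mul_mem _ (Subgroup.mul_mem _ (hEΦ haE) (hEΦ hbE)) hc⟩ :
        ↥(stabilizer G Φ)) = ⟨a, hEΦ haE⟩ * ⟨b, hEΦ hbE⟩ * ⟨c, hc⟩ from rfl, map_mul, hab, ← hC, h]
      have hC2 : (A * B) * (A * B) = 1 := by
        rw [← hab, ← map_mul, img_eq_one_iff]
        show a * b * (a * b) ∈ fixingSubgroup G Φ
        rw [hE _ (E.mul_mem haE hbE)]; exact one_mem _
      exact hC2
  constructor
  · have h1 : Nat.card E ≤ Nat.card ((Fin 2 × Fin 2) × K) := by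
      refine Nat.card_le_card_of_surjective (fun p : (Fin 2 × Fin 2) × K =>
        (⟨a ^ (p.1.1 : ℕ) * b ^ (p.1.2 : ℕ) * p.2, E.mul_mem (E.mul_mem (E.pow_mem haE _)
          (E.pow_mem hbE _)) p.2.2.1⟩ : E)) fun e => ?_
      rcases key e (hEΦ e.2) (fun x hx => hEcomm e e.2 x hx) with h | h | h | h
      · exact ⟨((0, 0), ⟨e, e.2, h⟩), Subtype.ext (by simp)⟩
      · refine ⟨((1, 0), ⟨a * e, E.mul_mem haE e.2, h⟩), Subtype.ext ?_⟩
        show a ^ 1 * b ^ 0 * (a * (e : G)) = e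
        rw [pow_one, pow_zero, mul_one, ← mul_assoc, hE a haE, one_mul]
      · refine ⟨((0, 1), ⟨b * e, E.mul_mem hbE e.2, h⟩), Subtype.ext ?_⟩
        show a ^ 0 * b ^ 1 * (b * (e : G)) = e
        rw [pow_one, pow_zero, one_mul, ← mul_assoc, hE b hbE, one_mul]
      · refine ⟨((1, 1), ⟨a * b * e, E.mul_mem (E.mul_mem haE hbE) e.2, h⟩), Subtype.ext ?_⟩
        show a ^ 1 * b ^ 1 * (a * b * (e : G)) = e
        rw [pow_one, pow_one, ← mul_assoc, hE _ (E.mul_mem haE hbE), one_mul]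
    rw [Nat.card_prod, Nat.card_prod, Nat.card_fin] at h1
    exact h1
  · intro c hc hcomm
    rcases key c hc hcomm with h | h | h | h
    · exact ⟨1, E.one_mem, by rwa [one_mul]⟩
    · exact ⟨a, haE, h⟩
    · exact ⟨b, hbE, h⟩
    · exact ⟨a * b, E.mul_mem haE hbE, h⟩

omit hF in
/-- A self-centralising elementary subgroup of order eight. -/
theorem eight_self {Φ : Set Ω} (h4 : Nat.card Φ = 4) {Q E : Subgroup G} (hEQ : E ≤ Q)
    (hE : ∀ e ∈ E, e * e = 1) (hEΦ : E ≤ stabilizer G Φ) (hgt : 4 < Nat.card E)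
    (hK : Nat.card ↥(E ⊓ fixingSubgroup G Φ) ≤ 2)
    (hstab : ∀ g ∈ Q, (∀ e ∈ E, g * e = e * g) → g ∈ stabilizer G Φ)
    (hker : ∀ r ∈ Q, r ∈ fixingSubgroup G Φ → (∀ e ∈ E, r * e = e * r) → r ∈ E) :
    Nat.card E = 8 ∧ ∀ g ∈ Q, (∀ e ∈ E, g * e = e * g) → g ∈ E := by
  obtain ⟨h1, h2⟩ := klein_image hE hEΦ h4 (by omega)
  have hEp : IsPGroup 2 E := fun e => ⟨1, Subtype.ext (by
    rw [pow_one, pow_two, Subgroup.coe_mul, hE e e.2, Subgroup.coe_one])⟩
  have : Fact (Nat.Prime 2) := ⟨Nat.prime_two⟩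
  obtain ⟨i, hi⟩ := hEp.exists_card_eq
  refine ⟨?_, fun g hg hcomm => ?_⟩
  · have hi3 : i = 3 := by
      rcases (show i ≤ 2 ∨ i = 3 ∨ 4 ≤ i by omega) with h | h | h
      · have := Nat.pow_le_pow_right two_pos h; omega
      · exact h
      · have := Nat.pow_le_pow_right two_pos h; omega
    rw [hi, hi3]; norm_num
  · obtain ⟨e, he, heg⟩ := h2 g (hstab g hg hcomm) hcomm
    have h3 := hker _ (Q.mul_mem (hEQ he) hg) heg (fun x hx => by
      rw [mul_assoc, hcomm x hx, ← mul_assoc, ← mul_assoc,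
        CfsgLib.TwoFusion.KleinFactor.comm_of_sq hE he hx])
    have h5 := E.mul_mem (E.inv_mem he) h3
    rwa [inv_mul_cancel_left] at h5

end Four

section Rank

variable {G : Type*} [Group G] [Finite G]

/-- The involution criterion for a Sylow subgroup. -/
theorem rank_of_involution_sylow (P : Sylow 2 G) {u : G} (huP : u ∈ (P : Subgroup G))
    (hu : orderOf u = 2)
    (h : ∀ E : Subgroup G, E ≤ (P : Subgroup G) → (∀ e ∈ E, e * e = 1) →
      (∀ e ∈ E, e * u = u * e) → 4 < Nat.card E →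
      ∃ E' : Subgroup G, E' ≤ (P : Subgroup G) ∧ (∀ e ∈ E', e * e = 1) ∧ Nat.card E' = 8 ∧
        ∀ g ∈ (P : Subgroup G), (∀ e ∈ E', g * e = e * g) → g ∈ E') :
    Cfsg.SectionalPRankLE 2 4 G := by
  refine rank_of_sylow P (rank_of_involution P.2 ⟨u, huP⟩ (Subtype.ext (orderOf_two_iff.1 hu).1)
    (fun e => (orderOf_two_iff.1 hu).2 (congrArg Subtype.val e)) fun E hE2 hEC hE4 => ?_)
  obtain ⟨E', hE'P, hE'2, hE'8, hE'C⟩ := h (E.map (P : Subgroup G).subtype)
    (Subgroup.map_subtype_le E)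
    (by rintro _ ⟨e, he, rfl⟩; exact congrArg Subtype.val (hE2 e he))
    (by
      rintro _ ⟨e, he, rfl⟩
      exact congrArg Subtype.val (Subgroup.mem_centralizer_singleton_iff.1 (hEC he)))
    (by rw [Subgroup.card_map_of_injective (P : Subgroup G).subtype_injective]; exact hE4)
  refine ⟨E'.subgroupOf P, fun e he => Subtype.ext (hE'2 e he), ?_, fun g hg => ?_⟩
  · rw [Nat.card_congr (Subgroup.subgroupOfEquivOfLe hE'P).toEquiv, hE'8]
  · refine hE'C g g.2 fun e he => ?_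
    exact congrArg Subtype.val ((Subgroup.mem_centralizer_iff.1 hg ⟨e, hE'P he⟩ he).symm)

theorem rank_of_eight_sylow (P : Sylow 2 G) {u : G} (huP : u ∈ (P : Subgroup G))
    (hu : orderOf u = 2)
    (hC : Nat.card ↥((P : Subgroup G) ⊓ Subgroup.centralizer ({u} : Set G)) ≤ 8) :
    Cfsg.SectionalPRankLE 2 4 G := by
  refine rank_of_sylow P (rank_of_centralizer_le_eight P.2 ⟨u, huP⟩
    (Subtype.ext (orderOf_two_iff.1 hu).1)
    (fun e => (orderOf_two_iff.1 hu).2 (congrArg Subtype.val e)) (le_trans ?_ hC))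
  refine Nat.card_le_card_of_injective (fun c => (⟨((c : (P : Subgroup G)) : G),
    Subgroup.mem_inf.2 ⟨(c : (P : Subgroup G)).2, Subgroup.mem_centralizer_singleton_iff.2
      (congrArg Subtype.val (Subgroup.mem_centralizer_singleton_iff.1 c.2))⟩⟩ :
        ↥((P : Subgroup G) ⊓ Subgroup.centralizer ({u} : Set G)))) ?_
  intro a b e
  exact Subtype.ext (Subtype.ext (congrArg Subtype.val e : _))

omit [Finite G] in
/-- Four elements in a group of exponent two and order four. -/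
theorem four_cases {A : Subgroup G} (hA : ∀ a ∈ A, a * a = 1) (h4 : Nat.card A = 4) {z r : G}
    (hz : z ∈ A) (hr : r ∈ A) (hz1 : z ≠ 1) (hr1 : r ≠ 1) (hzr : z ≠ r) {e : G} (he : e ∈ A) :
    e = 1 ∨ e = z ∨ e = r ∨ e = z * r := by
  classical
  have : Finite A := Nat.finite_of_card_ne_zero (by omega)
  let _ := Fintype.ofFinite A
  by_contra hcon
  push_neg at hcon
  obtain ⟨h1, h2, h3, h5⟩ := hcon
  have hzr1 : z * r ≠ 1 := fun e => hzr
    ((eq_inv_of_mul_eq_one_left e).trans (eq_inv_of_mul_eq_one_left (hA r hr)).symm)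
  have hzz : z * r ≠ z := fun e => hr1 (mul_eq_left.1 e)
  have hrr : z * r ≠ r := fun e => hz1 (mul_eq_right.1 e)
  let f0 : Fin 5 → G := ![1, z, r, z * r, e]
  have hm : ∀ i, f0 i ∈ A := by
    intro i
    fin_cases i
    exacts [A.one_mem, hz, hr, A.mul_mem hz hr, he]
  let f : Fin 5 → A := fun i => ⟨f0 i, hm i⟩
  have hf : Function.Injective f := by
    intro i j h
    have h' : f0 i = f0 j := congrArg Subtype.val h
    fin_cases i <;> fin_cases j <;> simp_all [f0, eq_comm]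
  have := Nat.card_le_card_of_injective f hf
  rw [Nat.card_fin, h4] at this
  omega

end Rank

end CfsgLib.Spectrum.FixFour
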