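/-
Groups of fixity four: a strongly embedded set stabilizer.
-/
import Cfsg.Agent.Lib.Spectrum.FixityFourTwoBasic
import Cfsg.Agent.S0215
import Mathlib

set_option autoImplicit false
open MulAction
open scoped Pointwise

namespace CfsgLib.Spectrum.FixFour

variable {G Ω : Type*} [Group G] [Finite G] [MulAction G Ω] [FaithfulSMul G Ω] [Finite Ω]

theorem perm_pow_three_of_odd' {α : Type*} [Fintype α] [DecidableEq α]
    (hα : Fintype.card α = 4) (σ : Equiv.Perm α) (h : Odd (orderOf σ)) : σ ^ 3 = 1 := by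
  apply orderOf_dvd_iff_pow_eq_one.1
  have h2 : orderOf σ ∣ 8 * 3 := by
    refine orderOf_dvd_card.trans ?_
    rw [Fintype.card_perm, hα]
    decide
  exact (Nat.Coprime.dvd_of_dvd_mul_left
    ((Nat.coprime_pow_right_iff (by norm_num : 0 < 3) _ 2).2 h.coprime_two_right) h2)

/-- The number of conjugates of `z` by elements of `H`. -/
theorem ncard_conj_range (H : Subgroup G) (z : G) :
    (Set.range fun h : H => (h : G) * z * (h : G)⁻¹).ncard
      = (Subgroup.centralizer ({z} : Set G)).relIndex H := by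
  rw [Subgroup.relIndex, Subgroup.index_eq_card, ← Nat.card_coe_set_eq]
  refine (Nat.card_congr (Equiv.ofBijective (Quotient.lift
    (fun h : H => (⟨(h : G) * z * (h : G)⁻¹, h, rfl⟩ :
      Set.range fun h : H => (h : G) * z * (h : G)⁻¹)) ?_) ⟨?_, ?_⟩)).symm
  · intro a b hab
    replace hab := QuotientGroup.leftRel_apply.1 hab
    have h := Subgroup.mem_centralizer_singleton_iff.1
      (show ((a⁻¹ * b : H) : G) ∈ Subgroup.centralizer ({z} : Set G) from hab)
    apply Subtype.ext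
    show (a : G) * z * (a : G)⁻¹ = (b : G) * z * (b : G)⁻¹
    simp only [Subgroup.coe_mul, Subgroup.coe_inv] at h
    calc (a : G) * z * (a : G)⁻¹ = a * (z * ((a : G)⁻¹ * b)) * (b : G)⁻¹ := by group
      _ = a * ((a : G)⁻¹ * b * z) * (b : G)⁻¹ := by rw [h]
      _ = (b : G) * z * (b : G)⁻¹ := by group
  · intro a b hab
    induction a using QuotientGroup.induction_on with
    | _ a =>
      induction b using QuotientGroup.induction_on with
      | _ b =>
        have h : (a : G) * z * (a : G)⁻¹ = (b : G) * z * (b : G)⁻¹ := congrArg Subtype.val hab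
        apply QuotientGroup.eq.2
        show ((a⁻¹ * b : H) : G) ∈ Subgroup.centralizer ({z} : Set G)
        rw [Subgroup.mem_centralizer_singleton_iff, Subgroup.coe_mul, Subgroup.coe_inv]
        calc (a : G)⁻¹ * b * z = (a : G)⁻¹ * ((b : G) * z * (b : G)⁻¹) * b := by group
          _ = (a : G)⁻¹ * ((a : G) * z * (a : G)⁻¹) * b := by rw [h]
          _ = z * ((a : G)⁻¹ * b) := by group
  · rintro ⟨_, h, rfl⟩
    exact ⟨QuotientGroup.mk h, rfl⟩

namespace Four

variable [IsSimpleGroup G] [IsPretransitive G Ω] (hF : Four G Ω) (h84 : Nat.card Ω % 8 = 4)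
include hF h84

/-- If the involutions of a Sylow subgroup with fixed points fix the same four-set, the stabilizer
of this set is strongly embedded. -/
theorem embedded (P : Sylow 2 G) {Φ : Set Ω} (hΦ : Φ.ncard = 4)
    (hPH : (P : Subgroup G) ≤ stabilizer G Φ) (hR : (P : Subgroup G) ⊓ fixingSubgroup G Φ ≠ ⊥)
    (hno : ∀ w ∈ (P : Subgroup G), orderOf w = 2 → (fixedBy Ω w).Nonempty →
      w ∈ fixingSubgroup G Φ) :
    ∃ H : Subgroup G, Cfsg.IsStronglyEmbedded H := by
  classical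
  have : Fact (Nat.Prime 2) := ⟨Nat.prime_two⟩
  have : Fact (Nat.Prime 3) := ⟨Nat.prime_three⟩
  set H := stabilizer G Φ with hH
  set R := (P : Subgroup G) ⊓ fixingSubgroup G Φ with hRdef
  obtain ⟨z, hzR, hzo, hzc⟩ := exists_central_in P.2 inf_le_left hR
    (fun y hy r hr => Subgroup.mem_inf.2
      ⟨(P : Subgroup G).mul_mem ((P : Subgroup G).mul_mem hy hr.1) (inv_mem hy),
        conj_mem_fixing (hPH hy) hr.2⟩)
  obtain ⟨hz2, hz1⟩ := orderOf_two_iff.1 hzo
  have hzF : fixedBy Ω z = Φ := hF.exact_fix P.2 hΦ hzR.1 hzR.2 hz1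
  have hinvK : ∀ w ∈ H, orderOf w = 2 → (fixedBy Ω w).Nonempty → fixedBy Ω w = Φ := by
    intro w hw hwo hne
    obtain ⟨h, hh, hhw⟩ :=
      exists_conj_mem_of_sylow_le H (P.subtype hPH) hw ⟨1, by rw [hwo, pow_one]⟩
    rw [Sylow.coe_subtype, Subgroup.map_subgroupOf_eq_of_le hPH] at hhw
    have hne' : (fixedBy Ω (h * w * h⁻¹)).Nonempty := by
      rw [fixedBy_conj]; exact hne.smul_set
    have ho : orderOf (h * w * h⁻¹) = 2 := by rw [orderOf_conj_eq, hwo]
    have e := hF.exact_fix P.2 hΦ hhw (hno _ hhw ho hne') (orderOf_two_iff.1 ho).2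
    rw [fixedBy_conj] at e
    calc fixedBy Ω w = h⁻¹ • h • fixedBy Ω w := (inv_smul_smul _ _).symm
      _ = Φ := by rw [e]; exact mem_stabilizer_iff.1 (inv_mem hh)
  have hinvT : ∀ (w : G), ∀ T ∈ orbit G Φ, w • T = T → orderOf w = 2 →
      (fixedBy Ω w).Nonempty → fixedBy Ω w = T := by
    rintro w T ⟨g, rfl⟩ hwT hwo hne
    change w • g • Φ = g • Φ at hwT
    show fixedBy Ω w = g • Φ
    have h1 : g⁻¹ * w * (g⁻¹)⁻¹ ∈ H := by
      show g⁻¹ * w * (g⁻¹)⁻¹ ∈ stabilizer G Φ
      rw [mem_stabilizer_iff, inv_inv, mul_smul, mul_smul, hwT, inv_smul_smul]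
    have h2 := hinvK _ h1 (by rw [orderOf_conj_eq, hwo]) (by rw [fixedBy_conj]; exact hne.smul_set)
    rw [fixedBy_conj] at h2
    rw [← h2, smul_inv_smul]
  -- the conjugates of `z`
  set Z : Set G := Set.range fun g : G => g * z * g⁻¹ with hZ
  have hZo : ∀ u ∈ Z, orderOf u = 2 := by
    rintro _ ⟨g, rfl⟩; rw [orderOf_conj_eq, hzo]
  have hZsq : ∀ u ∈ Z, u * u = 1 := fun u hu => (orderOf_two_iff.1 (hZo u hu)).1
  have hZF : ∀ u ∈ Z, fixedBy Ω u ∈ orbit G Φ := by
    rintro _ ⟨g, rfl⟩; exact ⟨g, by rw [fixedBy_conj, hzF]⟩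
  have horb4 : ∀ T ∈ orbit G Φ, T.ncard = 4 := by
    rintro _ ⟨g, rfl⟩; exact (Set.ncard_smul_set _ _).trans hΦ
  have hZne : ∀ u ∈ Z, (fixedBy Ω u).Nonempty := fun u hu =>
    Set.nonempty_of_ncard_ne_zero (by rw [horb4 _ (hZF u hu)]; norm_num)
  set A : Set G := {u | u ∈ Z ∧ fixedBy Ω u = Φ} with hA
  have hAeq : A = Set.range fun h : H => (h : G) * z * (h : G)⁻¹ := by
    ext u
    constructor
    · rintro ⟨⟨g, rfl⟩, hu⟩
      refine ⟨⟨g, ?_⟩, rfl⟩
      show g ∈ stabilizer G Φ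
      rw [mem_stabilizer_iff, ← hzF, ← fixedBy_conj, hzF]
      exact hu
    · rintro ⟨h, rfl⟩
      refine ⟨⟨h, rfl⟩, ?_⟩
      rw [fixedBy_conj, hzF]
      exact mem_stabilizer_iff.1 h.2
  have hAodd : Odd A.ncard := by
    rw [hAeq, ncard_conj_range]
    have h1 : Odd ((P : Subgroup G).relIndex H) := by
      rw [← Nat.not_even_iff_odd, even_iff_two_dvd]
      exact (P.subtype hPH).not_dvd_index
    have hle : (P : Subgroup G) ≤ H ⊓ Subgroup.centralizer ({z} : Set G) := le_inf hPH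
      fun y hy => Subgroup.mem_centralizer_singleton_iff.2 (hzc y hy)
    have h2 := Subgroup.relIndex_mul_relIndex (P : Subgroup G) _ H hle inf_le_left
    rw [Subgroup.inf_relIndex_left] at h2
    exact h1.of_dvd_nat (Dvd.intro_left _ h2)
  -- a double count
  have hXfix : ∀ T : Set Ω, T ∈ orbit G Φ → T ≠ Φ →
      ∀ k ∈ fixingSubgroup G Φ, k ∈ fixingSubgroup G T → k = 1 := by
    intro T hT hne k hk hkT
    by_contra hk1
    apply hne
    have h1 := subset_fixedBy_of_fixing hk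
    have h2 := subset_fixedBy_of_fixing hkT
    have e1 : Φ = fixedBy Ω k :=
      Set.eq_of_subset_of_ncard_le h1 (by rw [hΦ]; exact hF.le k hk1) (Set.toFinite _)
    have e2 : T = fixedBy Ω k :=
      Set.eq_of_subset_of_ncard_le h2 (by rw [horb4 T hT]; exact hF.le k hk1) (Set.toFinite _)
    exact e2.trans e1.symm
  have hXinv : ∀ T : Set Ω, T ∈ orbit G Φ → T ≠ Φ → ∀ v ∈ H, v • T = T → orderOf v = 2 →
      fixedBy Ω v = ∅ := by
    intro T hT hne v hv hvT hvo
    by_contra hne'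
    have hn := Set.nonempty_iff_ne_empty.2 hne'
    exact hne ((hinvT v T hT hvT hvo hn).symm.trans (hinvK v hv hvo hn))
  have hprod : ∀ T : Set Ω, T ∈ orbit G Φ → T ≠ Φ → ∀ u₁ ∈ Z, ∀ u₂ ∈ Z, u₁ • Φ = T → u₂ • Φ = T →
      u₁ * u₂ ∈ H ∧ (u₁ * u₂) • T = T ∧ (u₁ ≠ u₂ → u₁ * u₂ * (u₁ * u₂) ≠ 1) := by
    intro T hT hne u₁ h₁ u₂ h₂ e₁ e₂
    have b1 : u₁ • T = Φ := by rw [← e₁, ← mul_smul, hZsq u₁ h₁, one_smul]
    have b2 : u₂ • T = Φ := by rw [← e₂, ← mul_smul, hZsq u₂ h₂, one_smul]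
    have hmem : u₁ * u₂ ∈ H := by
      show u₁ * u₂ ∈ stabilizer G Φ
      rw [mem_stabilizer_iff, mul_smul, e₂, b1]
    refine ⟨hmem, by rw [mul_smul, b2, e₁], fun hd hxx => ?_⟩
    have hc : u₂ * u₁ = u₁ * u₂ := by
      calc u₂ * u₁ = u₁ * u₁ * (u₂ * u₁) * (u₂ * u₂) := by
            rw [hZsq u₁ h₁, hZsq u₂ h₂, one_mul, mul_one]
        _ = u₁ * (u₁ * u₂ * (u₁ * u₂)) * u₂ := by group
        _ = u₁ * u₂ := by rw [hxx, mul_one]
    have hd2 : u₂ • fixedBy Ω u₁ = fixedBy Ω u₁ := mem_stabilizer_iff.1 (commute_mem_stabilizer hc)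
    have hF12 := hinvT u₂ _ (hZF u₁ h₁) hd2 (hZo u₂ h₂) (hZne u₂ h₂)
    have hx1 : u₁ * u₂ ≠ 1 := fun e => hd
      ((eq_inv_of_mul_eq_one_left e).trans (eq_inv_of_mul_eq_one_left (hZsq u₂ h₂)).symm)
    have hxo : orderOf (u₁ * u₂) = 2 := orderOf_two_iff.2 ⟨hxx, hx1⟩
    have hsub : fixedBy Ω u₁ ⊆ fixedBy Ω (u₁ * u₂) := fun y hy => by
      show (u₁ * u₂) • y = y
      have hy2 : y ∈ fixedBy Ω u₂ := by rw [hF12]; exact hy
      rw [mul_smul, show u₂ • y = y from hy2, show u₁ • y = y from hy]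
    have e3 := hinvK _ hmem hxo ((hZne u₁ h₁).mono hsub)
    have e4 : fixedBy Ω u₁ = Φ :=
      (Set.eq_of_subset_of_ncard_le hsub (by rw [e3, hΦ, horb4 _ (hZF u₁ h₁)])
        (Set.toFinite _)).trans e3
    apply hne
    rw [← e₁]
    conv_rhs => rw [← e4]
    conv_lhs => rw [← e4]
    exact mem_stabilizer_iff.1
      (centralizer_le_stabilizer u₁ (Subgroup.mem_centralizer_singleton_iff.2 rfl))
  have hthree : ∀ T : Set Ω, T ∈ orbit G Φ → T ≠ Φ →
      {u | u ∈ Z ∧ u • Φ = T}.ncard ≤ 3 ∧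
        (2 ∣ Nat.card ↥(H ⊓ stabilizer G T) → {u | u ∈ Z ∧ u • Φ = T}.ncard ≤ 1) := by
    intro T hT hne
    have h4 : Nat.card Φ = 4 := by rw [Nat.card_coe_set_eq, hΦ]
    set X := H ⊓ stabilizer G T with hX
    let f : X →* Equiv.Perm (Fin 4) := (img Φ h4).comp (Subgroup.inclusion inf_le_left)
    have hf1 : ∀ x : X, f x = 1 ↔ (x : G) ∈ fixingSubgroup G Φ := fun x => img_eq_one_iff Φ h4 _
    have heven : 2 ∣ Nat.card X → {u | u ∈ Z ∧ u • Φ = T}.ncard ≤ 1 := by
      intro h2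
      obtain ⟨v₀, hv₀⟩ := exists_prime_orderOf_dvd_card' 2 h2
      have hvfree : ∀ v : X, orderOf v = 2 → fixedBy Ω (v : G) = ∅ := fun v hv =>
        hXinv T hT hne v v.2.1 (mem_stabilizer_iff.1 v.2.2) (by rw [Subgroup.orderOf_coe, hv])
      have hinj : Function.Injective f := by
        rw [injective_iff_map_eq_one]
        intro k hk
        rw [hf1] at hk
        by_contra hk1
        have hk1' : (k : G) ≠ 1 := fun e => hk1 (Subtype.ext e)
        have hkF : fixedBy Ω (k : G) = Φ := (Set.eq_of_subset_of_ncard_le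
          (subset_fixedBy_of_fixing hk) (by rw [hΦ]; exact hF.le _ hk1') (Set.toFinite _)).symm
        have hkodd : Odd (orderOf (k : G)) := by
          by_contra hev
          rw [Nat.not_odd_iff_even] at hev
          set t := k ^ (orderOf (k : G) / 2) with ht
          have hto : orderOf t = 2 := by
            rw [ht, Subgroup.orderOf_coe, orderOf_pow_orderOf_div (orderOf_pos k).ne']
            rw [← Subgroup.orderOf_coe]
            exact even_iff_two_dvd.1 hev
          have he := hvfree t hto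
          have hsub : Φ ⊆ fixedBy Ω (t : G) := by
            rw [← hkF, ht, Subgroup.coe_pow]; exact fixedBy_subset_pow _ _
          rw [he, Set.subset_empty_iff] at hsub
          rw [hsub, Set.ncard_empty] at hΦ
          omega
        have hk3 : (k : G) ^ 3 = 1 := by
          refine hXfix T hT hne _ (pow_mem hk 3) ?_
          rw [show (k : G) ^ 3 = ((⟨(k : G), k.2.2⟩ : ↥(stabilizer G T)) ^ 3 :
            ↥(stabilizer G T)) from rfl, ← permOn_eq_one_iff, map_pow]
          have : Fintype T := Fintype.ofFinite T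
          apply perm_pow_three_of_odd'
          · rw [← Nat.card_eq_fintype_card, Nat.card_coe_set_eq, horb4 T hT]
          · refine hkodd.of_dvd_nat ((orderOf_map_dvd _ _).trans ?_)
            rw [← Subgroup.orderOf_coe]
        have hmod := CfsgLib.Components2.TwentyTwo.modEq_fixed
          (MulAction.toPerm (k : G) : Equiv.Perm Ω) 3
          (by rw [← MulAction.toPermHom_apply, ← map_pow, hk3, map_one]) T
          (fun y hy => (smul_mem_iff_of_stab k.2.2 y).2 hy)
        have heq : {w | w ∈ T ∧ (MulAction.toPerm (k : G) : Equiv.Perm Ω) w = w} = T ∩ Φ := by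
          rw [← hkF]; rfl
        rw [heq, horb4 T hT] at hmod
        have hlt : (T ∩ Φ).ncard < 4 := by
          rw [← horb4 T hT]
          refine Set.ncard_lt_ncard ⟨Set.inter_subset_left, fun e => hne ?_⟩ (Set.toFinite _)
          exact Set.eq_of_subset_of_ncard_le (fun y hy => (e hy).2)
            (by rw [hΦ, horb4 T hT]) (Set.toFinite _)
        have hone : (T ∩ Φ).ncard = 1 := by
          have : (T ∩ Φ).ncard % 3 = 1 := hmod.symm
          omega
        obtain ⟨y, hy⟩ := Set.ncard_eq_one.1 hone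
        have hvy : (v₀ : G) • y ∈ T ∩ Φ := by
          have hm : y ∈ T ∩ Φ := hy.symm ▸ Set.mem_singleton y
          exact ⟨(smul_mem_iff_of_stab v₀.2.2 y).2 hm.1, (smul_mem_iff_of_stab v₀.2.1 y).2 hm.2⟩
        rw [hy] at hvy
        have : y ∈ fixedBy Ω (v₀ : G) := hvy
        rw [hvfree v₀ hv₀] at this
        exact this
      have hdbl : ∀ v : X, orderOf v = 2 → IsDbl (f v) := by
        intro v hv
        show IsDbl (img Φ h4 _)
        have hsq : (v : G) * v = 1 :=
          (orderOf_two_iff.1 (by rw [Subgroup.orderOf_coe, hv] : orderOf (v : G) = 2)).1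
        rw [img_dbl_iff Φ h4 _ hsq]
        show fixedBy Ω (v : G) ∩ Φ = ∅
        rw [hvfree v hv, Set.empty_inter]
      have horder : ∀ x : X, x * x ≠ 1 → f x ^ 3 = 1 := by
        intro x hx
        rcases p4_three_or_four (f x) with h | h
        · exact h
        exfalso
        have hx4 : x ^ 4 = 1 := hinj (by rw [map_pow, h, map_one])
        have hxo : orderOf x = 4 :=
          orderOf_eq_prime_pow (p := 2) (n := 1) (by rw [pow_one, pow_two]; exact hx)
            (by simpa using hx4)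
        have hsqo : orderOf (x * x) = 2 := orderOf_eq_prime
          (by rw [← pow_two, ← pow_mul, hx4]) hx
        have hfree2 := hvfree _ hsqo
        let _ := Fintype.ofFinite (∅ : Set Ω)
        have hxst : (x : G) ∈ stabilizer G (∅ : Set Ω) := by simp
        obtain ⟨-, h2'⟩ := cycles_sign hF.nc (x : G) ∅ hxst
          (by rw [Subgroup.orderOf_coe, hxo]; decide) (fun a _ m hm => by
            by_contra hm1
            have hfix : a ∈ fixedBy Ω ((x * x : X) : G) := by
              have hm' : a ∈ fixedBy Ω ((x : G) ^ m) := hm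
              rcases Nat.even_or_odd' m with ⟨j, rfl | rfl⟩
              · have e : (x : G) ^ (2 * j) = ((x * x : X) : G) := by
                  rw [Subgroup.coe_mul, ← pow_two]
                  apply pow_eq_pow_iff_modEq.2
                  rw [Subgroup.orderOf_coe, hxo]
                  show 2 * j % 4 = 2 % 4
                  by_contra hne'
                  apply hm1
                  rw [← orderOf_dvd_iff_pow_eq_one, Subgroup.orderOf_coe, hxo]
                  omega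
                rwa [e] at hm'
              · have e : ((x * x : X) : G) = ((x : G) ^ (2 * j + 1)) ^ 2 := by
                  rw [Subgroup.coe_mul, ← pow_two, ← pow_mul]
                  apply pow_eq_pow_iff_modEq.2
                  rw [Subgroup.orderOf_coe, hxo]
                  show 2 % 4 = (2 * j + 1) * 2 % 4
                  omega
                rw [e]
                exact fixedBy_subset_pow _ 2 hm'
            rw [hfree2] at hfix
            exact hfix)
        have hone : permOn (∅ : Set Ω) ⟨(x : G), hxst⟩ = 1 := Subsingleton.elim _ _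
        rw [hone, map_one, one_mul, Set.ncard_empty, Subgroup.orderOf_coe, hxo] at h2'
        have := neg_one_pow_even h2'
        rw [Nat.even_iff] at this
        omega
      rw [Set.ncard_le_one_iff (Set.toFinite _)]
      rintro u₁ u₂ ⟨h₁, e₁⟩ ⟨h₂, e₂⟩
      by_contra hd
      obtain ⟨hx1, hx2, hx3⟩ := hprod T hT hne u₁ h₁ u₂ h₂ e₁ e₂
      set x : X := ⟨u₁ * u₂, Subgroup.mem_inf.2 ⟨hx1, mem_stabilizer_iff.2 hx2⟩⟩ with hxdef
      have hx3' : f x ^ 3 = 1 := horder x fun e => hx3 hd (congrArg Subtype.val e)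
      have hfx1 : f x ≠ 1 := fun e => hx3 hd (by
        have h' := congrArg Subtype.val (hinj (e.trans (map_one f).symm))
        simp only [hxdef, Subgroup.coe_one] at h'
        rw [h', mul_one])
      -- an involution of `X` centralised by `u₁`
      have b1 : u₁ • T = Φ := by rw [← e₁, ← mul_smul, hZsq u₁ h₁, one_smul]
      have hu1inv : u₁⁻¹ = u₁ := (eq_inv_of_mul_eq_one_left (hZsq u₁ h₁)).symm
      have hmemX : ∀ v : X, u₁ * (v : G) * u₁ ∈ X := by
        intro v
        refine Subgroup.mem_inf.2 ⟨?_, ?_⟩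
        · show u₁ * (v : G) * u₁ ∈ stabilizer G Φ
          rw [mem_stabilizer_iff, mul_smul, mul_smul, e₁, mem_stabilizer_iff.1 v.2.2, b1]
        · rw [mem_stabilizer_iff, mul_smul, mul_smul, b1,
            (mem_stabilizer_iff.1 v.2.1 : (v : G) • Φ = Φ), e₁]
      obtain ⟨v, hvo, hvu⟩ : ∃ v : X, orderOf v = 2 ∧ u₁ * (v : G) = (v : G) * u₁ := by
        set v₁ : X := ⟨u₁ * (v₀ : G) * u₁, hmemX v₀⟩ with hv₁
        have hv₁o : orderOf v₁ = 2 := by
          rw [← Subgroup.orderOf_coe]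
          show orderOf (u₁ * (v₀ : G) * u₁) = 2
          conv_lhs => arg 1; arg 2; rw [← hu1inv]
          rw [orderOf_conj_eq, Subgroup.orderOf_coe, hv₀]
        by_cases heq : v₁ = v₀
        · refine ⟨v₀, hv₀, ?_⟩
          have h' : u₁ * (v₀ : G) * u₁ = v₀ := congrArg Subtype.val heq
          calc u₁ * (v₀ : G) = u₁ * (v₀ : G) * (u₁ * u₁) := by rw [hZsq u₁ h₁, mul_one]
            _ = (v₀ : G) * u₁ := by rw [← mul_assoc, h']
        · have hc : v₀ * v₁ = v₁ * v₀ := hinj (by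
            rw [map_mul, map_mul]; exact (p4_dbl_mul _ _ (hdbl v₀ hv₀) (hdbl v₁ hv₁o)).1)
          have hne2 : f v₀ ≠ f v₁ := fun e => heq (hinj e).symm
          have hd' := (p4_dbl_mul _ _ (hdbl v₀ hv₀) (hdbl v₁ hv₁o)).2 hne2
          refine ⟨v₀ * v₁, orderOf_eq_prime (hinj (by rw [map_pow, map_mul, pow_two, hd'.1, map_one]))
            (fun e => hd'.2 0 (by rw [← map_mul, e, map_one, Equiv.Perm.one_apply])), ?_⟩
          have hc' : (v₀ : G) * (u₁ * (v₀ : G) * u₁) = u₁ * (v₀ : G) * u₁ * v₀ :=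
            congrArg Subtype.val hc
          show u₁ * ((v₀ : G) * (u₁ * (v₀ : G) * u₁)) = (v₀ : G) * (u₁ * (v₀ : G) * u₁) * u₁
          calc u₁ * ((v₀ : G) * (u₁ * (v₀ : G) * u₁))
              = u₁ * (v₀ : G) * u₁ * (v₀ : G) * u₁ := by group
            _ = (v₀ : G) * (u₁ * (v₀ : G) * u₁) * u₁ := by rw [← hc']
      have hvsq : (v : G) * v = 1 :=
        (orderOf_two_iff.1 (by rw [Subgroup.orderOf_coe, hvo] : orderOf (v : G) = 2)).1
      have hvinv : (v : G)⁻¹ = v := (eq_inv_of_mul_eq_one_left hvsq).symm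
      set u₃ := (v : G) * u₂ * v with hu3
      have h₃ : u₃ ∈ Z := by
        obtain ⟨g, hg⟩ := h₂
        refine ⟨(v : G) * g, ?_⟩
        show (v : G) * g * z * ((v : G) * g)⁻¹ = (v : G) * u₂ * v
        rw [← hg, mul_inv_rev, hvinv]
        group
      have e₃ : u₃ • Φ = T := by
        rw [hu3, mul_smul, mul_smul, (mem_stabilizer_iff.1 v.2.1 : (v : G) • Φ = Φ), e₂,
          mem_stabilizer_iff.1 v.2.2]
      by_cases h32 : u₃ = u₂
      · apply p4_three_dbl (f x) (f v) hx3' hfx1 (hdbl v hvo)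
        rw [← map_mul, ← map_mul]
        congr 1
        apply Subtype.ext
        show u₁ * u₂ * (v : G) = (v : G) * (u₁ * u₂)
        have h2v : u₂ * (v : G) = (v : G) * u₂ := by
          calc u₂ * (v : G) = (v : G) * v * (u₂ * v) := by rw [hvsq, one_mul]
            _ = (v : G) * u₃ := by rw [hu3]; group
            _ = (v : G) * u₂ := by rw [h32]
        rw [mul_assoc, h2v, ← mul_assoc, hvu, mul_assoc]
      · obtain ⟨hy1, hy2, hy3⟩ := hprod T hT hne u₃ h₃ u₂ h₂ e₃ e₂
        apply hy3 h32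
        set y : X := ⟨u₃ * u₂, Subgroup.mem_inf.2 ⟨hy1, mem_stabilizer_iff.2 hy2⟩⟩ with hydef
        have hxv : orderOf (x⁻¹ * v * x) = 2 := by
          have e : x⁻¹ * v * x = x⁻¹ * v * (x⁻¹)⁻¹ := by rw [inv_inv]
          rw [e, ← hvo]
          exact orderOf_injective (MulAut.conj x⁻¹).toMonoidHom (MulAut.conj x⁻¹).injective v
        have ey : y = v * (x⁻¹ * v * x) := by
          apply Subtype.ext
          show u₃ * u₂ = (v : G) * ((u₁ * u₂)⁻¹ * v * (u₁ * u₂))
          have hu2inv : u₂⁻¹ = u₂ := (eq_inv_of_mul_eq_one_left (hZsq u₂ h₂)).symm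
          rw [hu3, mul_inv_rev, hu1inv, hu2inv]
          calc (v : G) * u₂ * v * u₂ = (v : G) * u₂ * ((u₁ * u₁) * (v : G)) * u₂ := by
                rw [hZsq u₁ h₁, one_mul]
            _ = (v : G) * u₂ * (u₁ * (u₁ * (v : G))) * u₂ := by rw [mul_assoc u₁]
            _ = (v : G) * u₂ * (u₁ * ((v : G) * u₁)) * u₂ := by rw [hvu]
            _ = (v : G) * (u₂ * u₁ * v * (u₁ * u₂)) := by group
        have hsq : f y * f y = 1 := by
          rw [ey, map_mul]
          obtain ⟨hc, -⟩ := p4_dbl_mul _ _ (hdbl v hvo) (hdbl _ hxv)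
          rw [mul_assoc, ← mul_assoc (f (x⁻¹ * v * x)), ← hc, mul_assoc, (hdbl _ hxv).1, mul_one]
          exact (hdbl v hvo).1
        rw [← map_mul, ← map_one f] at hsq
        exact congrArg Subtype.val (hinj hsq)
    refine ⟨?_, heven⟩
    by_cases h2 : 2 ∣ Nat.card X
    · have := heven h2; omega
    rcases Set.eq_empty_or_nonempty {u | u ∈ Z ∧ u • Φ = T} with he | ⟨u₀, h₀, e₀⟩
    · rw [he, Set.ncard_empty]; omega
    have hr3 : Nat.card f.range ≤ 3 := by
      have h1 : Nat.card f.range ∣ 8 * 3 := by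
        refine (Subgroup.card_subgroup_dvd_card _).trans ?_
        rw [Nat.card_eq_fintype_card, Fintype.card_perm, Fintype.card_fin]
        decide
      have h2' : ¬ 2 ∣ Nat.card f.range := fun h => h2 (h.trans (Subgroup.card_range_dvd f))
      exact Nat.le_of_dvd (by norm_num)
        ((((Nat.prime_two.coprime_iff_not_dvd).2 h2').symm.pow_right 3).dvd_of_dvd_mul_left h1)
    refine le_trans ?_ hr3
    rw [← Nat.card_coe_set_eq]
    refine Nat.card_le_card_of_injective (fun u => (⟨f ⟨u₀ * (u : G), Subgroup.mem_inf.2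
      ⟨(hprod T hT hne u₀ h₀ u u.2.1 e₀ u.2.2).1,
        mem_stabilizer_iff.2 (hprod T hT hne u₀ h₀ u u.2.1 e₀ u.2.2).2.1⟩⟩, _, rfl⟩ : f.range)) ?_
    intro u u' e
    apply Subtype.ext
    obtain ⟨hk1, hk2, -⟩ := hprod T hT hne u u.2.1 u' u'.2.1 u.2.2 u'.2.2
    set k : X := ⟨(u : G) * u', Subgroup.mem_inf.2 ⟨hk1, mem_stabilizer_iff.2 hk2⟩⟩ with hk
    have hkf : f k = 1 := by
      have e' := congrArg Subtype.val e
      simp only at e'
      have : k = (⟨u₀ * (u : G), Subgroup.mem_inf.2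
        ⟨(hprod T hT hne u₀ h₀ u u.2.1 e₀ u.2.2).1,
          mem_stabilizer_iff.2 (hprod T hT hne u₀ h₀ u u.2.1 e₀ u.2.2).2.1⟩⟩ : X)⁻¹ *
        ⟨u₀ * (u' : G), Subgroup.mem_inf.2
        ⟨(hprod T hT hne u₀ h₀ u' u'.2.1 e₀ u'.2.2).1,
          mem_stabilizer_iff.2 (hprod T hT hne u₀ h₀ u' u'.2.1 e₀ u'.2.2).2.1⟩⟩ := by
        apply Subtype.ext
        show (u : G) * u' = (u₀ * (u : G))⁻¹ * (u₀ * u')
        rw [mul_inv_rev, mul_assoc, inv_mul_cancel_left,
          ← eq_inv_of_mul_eq_one_left (hZsq u u.2.1)]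
      rw [this, map_mul, map_inv, e', inv_mul_cancel]
    rw [hf1] at hkf
    have hkT : (k : G) ∈ fixingSubgroup G T := by
      rw [mem_fixingSubgroup_iff]
      intro y hy
      have hy' : (u : G) • y ∈ Φ := by
        have hm : (u : G) • y ∈ (u : G) • T := Set.smul_mem_smul_set hy
        have hu2 : (u : G) • Φ = T := u.2.2
        have hu3 : (u : G) • T = Φ := by
          calc (u : G) • T = (u : G) • (u : G) • Φ := by rw [hu2]
            _ = Φ := by rw [← mul_smul, hZsq u u.2.1, one_smul]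
        rwa [hu3] at hm
      have h1 : ((u : G) * u') • (u : G) • y = (u : G) • y :=
        (mem_fixingSubgroup_iff G).1 hkf _ hy'
      have h2' : (u' : G) • (u : G) • y = y := by
        rw [mul_smul] at h1
        exact smul_left_cancel (u : G) h1
      have hi : ((u : G) * u')⁻¹ • y = y := by
        rw [mul_inv_rev, ← eq_inv_of_mul_eq_one_left (hZsq u u.2.1),
          ← eq_inv_of_mul_eq_one_left (hZsq u' u'.2.1), mul_smul]
        exact h2'
      rw [inv_smul_eq_iff] at hi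
      exact hi.symm
    have hone := hXfix T hT hne _ hkf hkT
    exact (eq_inv_of_mul_eq_one_left (show (u : G) * u' = 1 from hone)).trans
      (eq_inv_of_mul_eq_one_left (hZsq u' u'.2.1)).symm
  have hΦne : Φ.Nonempty := Set.nonempty_of_ncard_ne_zero (by omega)
  have hun : Φ ≠ Set.univ := hzF ▸ ne_univ_of_fixed hz1
  refine ⟨H, stabilizer_ne_top hΦne hun, ?_, fun g hg => ?_⟩
  · rw [even_iff_two_dvd, ← hzo, ← Subgroup.orderOf_mk z (hPH hzR.1)]
    exact orderOf_dvd_natCard _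
  rw [← Nat.not_even_iff_odd, even_iff_two_dvd]
  intro hev
  have hmap : H.map (MulAut.conj g).toMonoidHom = stabilizer G (g • Φ) :=
    (stabilizer_smul_eq_stabilizer_map_conj g Φ).symm
  rw [hmap] at hev
  have hT₀ : g • Φ ∈ orbit G Φ := ⟨g, rfl⟩
  have hT₀ne : g • Φ ≠ Φ := fun e => hg (mem_stabilizer_iff.2 e)
  have hT₀1 := (hthree _ hT₀ hT₀ne).2 hev
  -- the count
  let _ := Fintype.ofFinite G
  let _ := Fintype.ofFinite (Set Ω)
  set Zf := Z.toFinset with hZf
  set 𝒯 := (orbit G Φ).toFinset with h𝒯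
  have hfib : ∀ T ∈ 𝒯, (Zf.filter fun u => fixedBy Ω u = T).card = A.ncard := by
    intro T hT
    obtain ⟨k, rfl⟩ := Set.mem_toFinset.1 hT
    rw [← Set.ncard_coe_finset, ← Nat.card_coe_set_eq, ← Nat.card_coe_set_eq]
    refine Nat.card_congr
      { toFun := fun u => ⟨k⁻¹ * (u : G) * k, ?_⟩
        invFun := fun u => ⟨k * (u : G) * k⁻¹, ?_⟩
        left_inv := fun u => Subtype.ext (by simp [mul_assoc])
        right_inv := fun u => Subtype.ext (by simp [mul_assoc]) }
    · obtain ⟨hu, he⟩ := Finset.mem_filter.1 u.2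
      obtain ⟨l, hl⟩ := Set.mem_toFinset.1 hu
      refine ⟨⟨k⁻¹ * l, ?_⟩, ?_⟩
      · show k⁻¹ * l * z * (k⁻¹ * l)⁻¹ = k⁻¹ * (u : G) * k
        rw [← show l * z * l⁻¹ = (u : G) from hl]; group
      · rw [show k⁻¹ * (u : G) * k = k⁻¹ * u * (k⁻¹)⁻¹ by rw [inv_inv], fixedBy_conj, he]
        exact inv_smul_smul k Φ
    · obtain ⟨⟨l, hl⟩, he⟩ := u.2
      refine Finset.mem_filter.2 ⟨Set.mem_toFinset.2 ⟨k * l, ?_⟩, ?_⟩
      · show k * l * z * (k * l)⁻¹ = k * (u : G) * k⁻¹
        rw [← show l * z * l⁻¹ = (u : G) from hl]; group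
      · rw [fixedBy_conj, he]
  have hΦ𝒯 : Φ ∈ 𝒯 := Set.mem_toFinset.2 (mem_orbit_self Φ)
  set Zm := Zf.filter fun u => fixedBy Ω u ≠ Φ with hZm
  have hc1 : Zm.card = (𝒯.erase Φ).card * A.ncard := by
    rw [Finset.card_eq_sum_card_fiberwise (f := fun u => fixedBy Ω u) (t := 𝒯.erase Φ)]
    · rw [Finset.sum_const_nat]
      intro T hT
      rw [Finset.mem_erase] at hT
      rw [← hfib T hT.2, hZm, Finset.filter_filter]
      congr 1
      exact Finset.filter_congr fun u _ => ⟨fun h => h.2, fun h => ⟨h ▸ hT.1, h⟩⟩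
    · intro u hu
      obtain ⟨hu1, hu2⟩ := Finset.mem_filter.1 (Finset.mem_coe.1 hu)
      exact Finset.mem_coe.2 (Finset.mem_erase.2
        ⟨hu2, Set.mem_toFinset.2 (hZF u (Set.mem_toFinset.1 hu1))⟩)
  have hc2 : Zm.card = ∑ T ∈ 𝒯.erase Φ, (Zm.filter fun u => u • Φ = T).card := by
    refine Finset.card_eq_sum_card_fiberwise ?_
    intro u hu
    obtain ⟨hu1, hu2⟩ := Finset.mem_filter.1 (Finset.mem_coe.1 hu)
    refine Finset.mem_coe.2 (Finset.mem_erase.2 ⟨fun e => hu2 ?_, Set.mem_toFinset.2 ⟨u, rfl⟩⟩)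
    exact hinvT u Φ (mem_orbit_self Φ) e (hZo u (Set.mem_toFinset.1 hu1))
      (hZne u (Set.mem_toFinset.1 hu1))
  have hb : ∀ T ∈ 𝒯.erase Φ,
      (Zm.filter fun u => u • Φ = T).card ≤ {u | u ∈ Z ∧ u • Φ = T}.ncard := by
    intro T _
    rw [← Set.ncard_coe_finset]
    refine Set.ncard_le_ncard (fun u hu => ?_) (Set.toFinite _)
    obtain ⟨hu1, hu2⟩ := Finset.mem_filter.1 (Finset.mem_coe.1 hu)
    exact ⟨Set.mem_toFinset.1 (Finset.mem_filter.1 hu1).1, hu2⟩
  have hT₀m : g • Φ ∈ 𝒯.erase Φ := Finset.mem_erase.2 ⟨hT₀ne, Set.mem_toFinset.2 hT₀⟩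
  have hlt : ∑ T ∈ 𝒯.erase Φ, (Zm.filter fun u => u • Φ = T).card < ∑ _T ∈ 𝒯.erase Φ, 3 := by
    refine Finset.sum_lt_sum (fun T hT => (hb T hT).trans ?_)
      ⟨_, hT₀m, lt_of_le_of_lt ((hb _ hT₀m).trans hT₀1) (by norm_num)⟩
    rw [Finset.mem_erase] at hT
    exact (hthree T (Set.mem_toFinset.1 hT.2) hT.1).1
  rw [← hc2, hc1, Finset.sum_const, smul_eq_mul] at hlt
  have hA3 : A.ncard < 3 := Nat.lt_of_mul_lt_mul_left hlt
  obtain ⟨j, hj⟩ := hAodd
  obtain ⟨a, ha⟩ := Set.ncard_eq_one.1 (show A.ncard = 1 by omega)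
  have hzA : z = a := by
    have : z ∈ A := ⟨⟨1, by simp⟩, hzF⟩
    rwa [ha] at this
  have hiso : ∀ k : G, k * z * k⁻¹ ∈ P → k * z * k⁻¹ = z := by
    intro k hk
    have h1 : k * z * k⁻¹ ∈ A := ⟨⟨k, rfl⟩, hinvK _ (hPH hk) (by rw [orderOf_conj_eq, hzo])
      (hZne _ ⟨k, rfl⟩)⟩
    rw [ha] at h1
    exact h1.trans hzA.symm
  obtain ⟨N, hN, hNodd, hNz⟩ := Cfsg.Agent.S0215.result P z hzo hzR.1 hiso
  rcases IsSimpleGroup.eq_bot_or_eq_top_of_normal N hN with e | e
  · have hzc' : z ∈ Subgroup.center G := Subgroup.mem_center_iff.2 fun k => by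
      have h1 := hNz k
      rw [e, Subgroup.mem_bot] at h1
      exact (mul_inv_eq_iff_eq_mul.1 (mul_inv_eq_one.1 h1)).symm
    rcases IsSimpleGroup.eq_bot_or_eq_top_of_normal (Subgroup.center G) inferInstance with h | h
    · exact hz1 (Subgroup.mem_bot.1 (h ▸ hzc'))
    · refine hF.nc ⟨⟨fun p q => ?_⟩⟩
      exact (Subgroup.mem_center_iff.1 (h ▸ Subgroup.mem_top q) p)
  · rw [e, Subgroup.card_top] at hNodd
    exact (Nat.not_even_iff_odd.2 hNodd) (even_iff_two_dvd.2 (hzo ▸ orderOf_dvd_natCard z))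

end Four

end CfsgLib.Spectrum.FixFour
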