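/-
A transfer argument for elements of order three with centralizer of three-part nine.
-/
import Cfsg.Agent.Lib.Spectrum.FixityFourBasic
import Mathlib

set_option autoImplicit false

open scoped commutatorElement

namespace CfsgLib.Spectrum.FixFour

section Small

set_option synthInstance.maxSize 1024 in
theorem zmod_three_sets_eq : ∀ E : Finset (ZMod 3 × ZMod 3),
    (1, 0) ∈ E → (0, 1) ∈ E → (∀ e ∈ E, -e ∉ E) → ∑ e ∈ E, e = 0 →
    E = {(1, 0), (0, 1), (2, 2)} := by
  decide +kernel

theorem zmod_three_cover : ∀ e : ZMod 3 × ZMod 3,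
    (e ∈ ({(1, 0), (0, 1), (2, 2)} : Finset (ZMod 3 × ZMod 3)) → e.1 + e.2 = 1) ∧
      (e.1 + e.2 ≠ 0 → e ∈ ({(1, 0), (0, 1), (2, 2)} : Finset (ZMod 3 × ZMod 3)) ∨
        -e ∈ ({(1, 0), (0, 1), (2, 2)} : Finset (ZMod 3 × ZMod 3))) := by
  decide

theorem zmod_three_sets (E : Finset (ZMod 3 × ZMod 3)) (h1 : (1, 0) ∈ E) (h2 : (0, 1) ∈ E)
    (h3 : ∀ e ∈ E, -e ∉ E) (h4 : ∑ e ∈ E, e = 0) :
    (∀ e ∈ E, e.1 + e.2 = 1) ∧ ∀ e : ZMod 3 × ZMod 3, e.1 + e.2 ≠ 0 → e ∈ E ∨ -e ∈ E := by
  rw [zmod_three_sets_eq E h1 h2 h3 h4]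
  exact ⟨fun e => (zmod_three_cover e).1, fun e => (zmod_three_cover e).2⟩

variable {Q : Type*} [CommGroup Q] [Finite Q]

/-- A set of elements of order three in a group of order nine, free of inverse pairs and with
product one, is the nontrivial coset of a subgroup of order three. -/
theorem exists_coset_hom (hQ : Nat.card Q = 9) (D : Finset Q) (hne : D.Nonempty)
    (hD3 : ∀ d ∈ D, orderOf d = 3) (hinv : ∀ d ∈ D, d⁻¹ ∉ D) (hprod : ∏ d ∈ D, d = 1) :
    ∃ ψ : Q →* Multiplicative (ZMod 3), (∀ d ∈ D, ψ d = Multiplicative.ofAdd 1) ∧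
      ∀ u, ψ u ≠ 1 → u ∈ D ∨ u⁻¹ ∈ D := by
  classical
  have : Fact (Nat.Prime 3) := ⟨Nat.prime_three⟩
  obtain ⟨a, ha⟩ := hne
  have hao := hD3 a ha
  obtain ⟨b, hb, hba⟩ : ∃ b ∈ D, b ∉ Subgroup.zpowers a := by
    by_contra h
    push_neg at h
    have hD : D = {a} := by
      refine Finset.eq_singleton_iff_unique_mem.2 ⟨ha, fun b hb => ?_⟩
      obtain ⟨i, rfl⟩ := Subgroup.mem_zpowers_iff.1 (h b hb)
      rw [← zpow_mod_orderOf, hao] at hb ⊢
      have h1 : i % (3 : ℕ) = 0 ∨ i % (3 : ℕ) = 1 ∨ i % (3 : ℕ) = 2 := by omega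
      rcases h1 with e | e | e <;> rw [e] at hb ⊢
      · exact absurd (hD3 _ hb) (by simp)
      · simp
      · have e2 : a ^ (2 : ℤ) = a⁻¹ := by
          rw [eq_inv_iff_mul_eq_one]
          have h3 : a ^ 3 = 1 := by rw [← hao]; exact pow_orderOf_eq_one a
          rw [zpow_two]
          simpa [pow_succ] using h3
        exact absurd (e2 ▸ hb) (hinv a ha)
    rw [hD, Finset.prod_singleton] at hprod
    rw [hprod, orderOf_one] at hao
    omega
  have hp3 : ∀ d ∈ D, d ^ 3 = 1 := fun d hd => by rw [← hD3 d hd]; exact pow_orderOf_eq_one d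
  let f : ∀ d : Q, d ^ 3 = 1 → (ZMod 3 →+ Additive Q) := fun d hd =>
    ZMod.lift 3 ⟨(zmultiplesHom (Additive Q)) (Additive.ofMul d), by
      simp [← ofMul_zpow, zpow_ofNat, hd]⟩
  let φ : ZMod 3 × ZMod 3 →+ Additive Q :=
    AddMonoidHom.coprod (f a (hp3 a ha)) (f b (hp3 b hb))
  have hf1 : ∀ d hd, f d hd 1 = Additive.ofMul d := fun d hd => by
    change f d hd ((1 : ℤ) : ZMod 3) = _
    simp only [f, ZMod.lift_coe]
    simp
  have hφa : φ (1, 0) = Additive.ofMul a := by simp [φ, hf1]
  have hφb : φ (0, 1) = Additive.ofMul b := by simp [φ, hf1]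
  have hφ : ∀ i j : ℕ, φ ((i : ZMod 3), (j : ZMod 3)) = Additive.ofMul (a ^ i * b ^ j) := by
    intro i j
    have e : (((i : ZMod 3), (j : ZMod 3)) : ZMod 3 × ZMod 3)
        = i • ((1 : ZMod 3), (0 : ZMod 3)) + j • ((0 : ZMod 3), (1 : ZMod 3)) := by simp
    rw [e, map_add, map_nsmul, map_nsmul, hφa, hφb, ← ofMul_pow, ← ofMul_pow, ← ofMul_mul]
  have hinj : Function.Injective φ := by
    rw [injective_iff_map_eq_zero]
    rintro ⟨i, j⟩ h
    have e := hφ i.val j.val
    rw [ZMod.natCast_zmod_val, ZMod.natCast_zmod_val, h] at e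
    have hab : a ^ i.val * b ^ j.val = 1 := Additive.ofMul.injective e.symm
    have hj : j.val = 0 := by
      by_contra hj
      apply hba
      have hmem : b ^ j.val ∈ Subgroup.zpowers a := by
        rw [eq_inv_of_mul_eq_one_right hab]
        exact inv_mem (Subgroup.npow_mem_zpowers a _)
      have hj2 : j.val = 1 ∨ j.val = 2 := by have := j.val_lt; omega
      rcases hj2 with e2 | e2 <;> rw [e2] at hmem
      · rwa [pow_one] at hmem
      · have hb2 : b = (b ^ 2)⁻¹ :=
          eq_inv_of_mul_eq_one_left (by rw [← pow_succ']; exact hp3 b hb)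
        rw [hb2]
        exact inv_mem hmem
    rw [hj, pow_zero, mul_one] at hab
    have hi : i.val = 0 := by
      have h1 := orderOf_dvd_of_pow_eq_one hab
      rw [hao] at h1
      exact Nat.eq_zero_of_dvd_of_lt h1 i.val_lt
    rw [(ZMod.val_eq_zero i).1 hi, (ZMod.val_eq_zero j).1 hj]
    rfl
  have hbij : Function.Bijective φ := by
    refine (Nat.bijective_iff_injective_and_card φ).2 ⟨hinj, ?_⟩
    rw [Nat.card_congr (Additive.toMul (α := Q)), hQ]
    simp
  let e : ZMod 3 × ZMod 3 ≃+ Additive Q := AddEquiv.ofBijective φ hbij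
  set E : Finset (ZMod 3 × ZMod 3) := D.image (fun d => e.symm (Additive.ofMul d)) with hE
  have hmem : ∀ d : Q, e.symm (Additive.ofMul d) ∈ E ↔ d ∈ D := by
    intro d
    rw [hE, Finset.mem_image]
    refine ⟨?_, fun h => ⟨d, h, rfl⟩⟩
    rintro ⟨d', hd', h⟩
    rwa [← Additive.ofMul.injective (e.symm.injective h)]
  have hea : e.symm (Additive.ofMul a) = (1, 0) := e.symm_apply_eq.2 hφa.symm
  have heb : e.symm (Additive.ofMul b) = (0, 1) := e.symm_apply_eq.2 hφb.symm
  have hneg : ∀ d : Q, -e.symm (Additive.ofMul d) = e.symm (Additive.ofMul d⁻¹) := fun d => by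
    rw [← map_neg, ofMul_inv]
  obtain ⟨h1, h2⟩ := zmod_three_sets E (hea ▸ (hmem a).2 ha) (heb ▸ (hmem b).2 hb) (by
      intro x hx
      rw [hE, Finset.mem_image] at hx
      obtain ⟨d, hd, rfl⟩ := hx
      rw [hneg, hmem]
      exact hinv d hd) (by
      rw [hE, Finset.sum_image (fun u _ v _ h => Additive.ofMul.injective (e.symm.injective h)),
        ← map_sum, ← ofMul_prod, hprod, ofMul_one, map_zero])
  refine ⟨AddMonoidHom.toMultiplicativeRight
    ((AddMonoidHom.fst (ZMod 3) (ZMod 3) + AddMonoidHom.snd (ZMod 3) (ZMod 3)).comp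
      e.symm.toAddMonoidHom), fun d hd => ?_, fun u hu => ?_⟩
  · exact congrArg Multiplicative.ofAdd (h1 _ ((hmem d).2 hd))
  · rcases h2 (e.symm (Additive.ofMul u)) (fun h => hu (congrArg Multiplicative.ofAdd h)) with h | h
    · exact Or.inl ((hmem u).1 h)
    · exact Or.inr ((hmem _).1 (hneg u ▸ h))

end Small

section Focal

variable {G : Type*} [Group G] [Finite G] [IsSimpleGroup G]

theorem commutator_eq_top (hna : ¬ IsMulCommutative G) : commutator G = ⊤ := by
  rcases IsSimpleGroup.eq_bot_or_eq_top_of_normal (commutator G) inferInstance with h | h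
  · refine absurd ⟨⟨fun a b => ?_⟩⟩ hna
    rw [commutator_def, Subgroup.commutator_eq_bot_iff_le_centralizer] at h
    exact (h (Subgroup.mem_top b) a (Subgroup.mem_top a))
  · exact h

/-- In a simple group the fusion in a Sylow subgroup does not preserve a nontrivial character. -/
theorem no_fusion_invariant_hom (hna : ¬ IsMulCommutative G) {p : ℕ} [Fact p.Prime] (P : Sylow p G)
    {A : Type*} [Group A] (ψ : (P : Subgroup G) →* A) (hψ : ∃ y, ψ y ≠ 1) :
    ¬ ∀ (x y : (P : Subgroup G)) (u : G), (y : G) = u * x * u⁻¹ → ψ x = ψ y := by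
  intro h
  obtain ⟨y, hy⟩ := hψ
  apply hy
  have hle : Subgroup.focalSubgroup (P : Subgroup G) ≤ ψ.ker.map (P : Subgroup G).subtype := by
    rw [Subgroup.focalSubgroup_def, Subgroup.closure_le]
    rintro g ⟨hgP, x, hxP, u, rfl⟩
    have e1 : ⁅x, u⁆ = x * (u * x * u⁻¹)⁻¹ := by rw [commutatorElement_def]; group
    have h2 : u * x * u⁻¹ ∈ (P : Subgroup G) := by
      have h3 : (u * x * u⁻¹)⁻¹ ∈ (P : Subgroup G) := by
        have := mul_mem (inv_mem hxP) (e1 ▸ hgP)
        simpa [mul_assoc] using this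
      simpa using inv_mem h3
    refine ⟨⟨x, hxP⟩ * ⟨_, h2⟩⁻¹, ?_, e1.symm⟩
    rw [SetLike.mem_coe, MonoidHom.mem_ker, map_mul, map_inv, h ⟨x, hxP⟩ ⟨_, h2⟩ u rfl, mul_inv_cancel]
  have hall : (y : G) ∈ Subgroup.focalSubgroup (P : Subgroup G) := by
    rw [← Subgroup.commutator_inf_eq_focalSubgroup P, commutator_eq_top hna]
    exact ⟨Subgroup.mem_top _, y.2⟩
  obtain ⟨y', hy', he⟩ := hle hall
  rw [← show y' = y from Subtype.ext he]
  exact hy'

theorem index_commutator_ne_of_dvd_three {P : Type*} [Group P] [Finite P] (hP : IsPGroup 3 P)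
    (hnc : ¬ IsMulCommutative P) : ¬ (commutator P).index ∣ 3 := by
  have : Fact (Nat.Prime 3) := ⟨Nat.prime_three⟩
  have := hP.isNilpotent
  intro hd
  obtain ⟨x, hx⟩ : ∃ x : P, commutator P ⊔ Subgroup.zpowers x = ⊤ := by
    by_cases ht : commutator P = ⊤
    · exact ⟨1, by rw [ht, top_sup_eq]⟩
    obtain ⟨x, hx⟩ : ∃ x, x ∉ commutator P := by
      by_contra h
      push_neg at h
      exact ht ((Subgroup.eq_top_iff' _).2 h)
    refine ⟨x, ?_⟩
    rw [← Subgroup.index_eq_one]
    rcases (Nat.dvd_prime Nat.prime_three).1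
      ((Subgroup.index_dvd_of_le le_sup_left).trans hd) with h | h
    · exact h
    · exfalso
      apply hx
      have h1 := Subgroup.relIndex_mul_index
        (le_sup_left : commutator P ≤ commutator P ⊔ Subgroup.zpowers x)
      have h2 := Nat.le_of_dvd (by norm_num) hd
      have h3 : (commutator P).relIndex (commutator P ⊔ Subgroup.zpowers x) ≠ 0 :=
        Subgroup.index_ne_zero_of_finite
      rw [h] at h1
      have h4 : (commutator P).relIndex (commutator P ⊔ Subgroup.zpowers x) = 1 := by omega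
      exact Subgroup.relIndex_eq_one.1 h4 (Subgroup.mem_sup_right (Subgroup.mem_zpowers x))
  rcases eq_top_or_exists_le_coatom (Subgroup.zpowers x) with h | ⟨K, hK, hxK⟩
  · have : IsCyclic P := ⟨⟨x, fun y => Subgroup.mem_zpowers_iff.1 (h ▸ Subgroup.mem_top y)⟩⟩
    exact hnc IsCyclic.isMulCommutative
  · exact hK.1 (eq_top_iff.2 (hx ▸ sup_le (CfsgLib.CyclicTI.commutator_le_coatom hK) hxK))

end Focal

section Transfer

open MulAction

variable {G : Type*} [Group G] [Finite G] {A : Type*} [CommGroup A]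

/-- The transfer of an element of prime order `p` with `φ` killed by nothing but fixed cosets. -/
theorem transfer_eq_prod_fixed {H : Subgroup G} (φ : H →* A) {p : ℕ} (hp : p.Prime) {x : G}
    (hx : x ^ p = 1) [Fintype (G ⧸ H)] [DecidableEq (G ⧸ H)]
    (F : G ⧸ H → A) (hF : ∀ (q : G ⧸ H) (h : q.out⁻¹ * x * q.out ∈ H),
      F q = φ ⟨q.out⁻¹ * x * q.out, h⟩) :
    MonoidHom.transfer φ x = ∏ q ∈ Finset.univ.filter (fun q : G ⧸ H => x • q = q), F q := by
  classical
  let _ := Fintype.ofFinite (Quotient (orbitRel (Subgroup.zpowers x) (G ⧸ H)))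
  rw [MonoidHom.transfer_eq_prod_quotient_orbitRel_zpowers_quot]
  rw [← Finset.prod_filter_mul_prod_filter_not Finset.univ
    (fun q : Quotient (orbitRel (Subgroup.zpowers x) (G ⧸ H)) => x • q.out = q.out)]
  have hone : ∏ q ∈ Finset.univ.filter
      (fun q : Quotient (orbitRel (Subgroup.zpowers x) (G ⧸ H)) => ¬ x • q.out = q.out),
      φ ⟨q.out.out⁻¹ * x ^ Function.minimalPeriod (x • ·) q.out * q.out.out,
        QuotientGroup.out_conj_pow_minimalPeriod_mem H x q.out⟩ = 1 := by
    refine Finset.prod_eq_one fun q hq => ?_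
    have hm : Function.minimalPeriod (x • ·) q.out ∣ p := by
      apply Function.IsPeriodicPt.minimalPeriod_dvd
      show (x • ·)^[p] q.out = q.out
      rw [smul_iterate]
      show (x ^ p) • q.out = q.out
      rw [hx, one_smul]
    rcases (Nat.dvd_prime hp).1 hm with h | h
    · exact absurd (Function.minimalPeriod_eq_one_iff_isFixedPt.1 h) (Finset.mem_filter.1 hq).2
    · rw [show (⟨q.out.out⁻¹ * x ^ Function.minimalPeriod (x • ·) q.out * q.out.out,
        QuotientGroup.out_conj_pow_minimalPeriod_mem H x q.out⟩ : H) = 1 from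
          Subtype.ext (by simp [h, hx]), map_one]
  rw [hone, mul_one]
  have hback : ∀ c : G ⧸ H, x • c = c →
      (Quotient.mk (orbitRel (Subgroup.zpowers x) (G ⧸ H)) c).out = c := by
    intro c hc
    obtain ⟨⟨g, i, rfl⟩, hi⟩ :=
      Quotient.exact (Quotient.mk (orbitRel (Subgroup.zpowers x) (G ⧸ H)) c).out_eq
    have hmem : x ^ i ∈ stabilizer G c := Subgroup.zpow_mem _ hc i
    exact hi.symm.trans hmem
  refine Finset.prod_bij' (fun q _ => q.out)
    (fun c _ => Quotient.mk (orbitRel (Subgroup.zpowers x) (G ⧸ H)) c) ?_ ?_ ?_ ?_ ?_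
  · intro q hq
    exact Finset.mem_filter.2 ⟨Finset.mem_univ _, (Finset.mem_filter.1 hq).2⟩
  · intro c hc
    refine Finset.mem_filter.2 ⟨Finset.mem_univ _, ?_⟩
    rw [hback c (Finset.mem_filter.1 hc).2]
    exact (Finset.mem_filter.1 hc).2
  · intro q _; exact q.out_eq
  · intro c hc; exact hback c (Finset.mem_filter.1 hc).2
  · intro q hq
    have h1 : Function.minimalPeriod (x • ·) q.out = 1 :=
      Function.minimalPeriod_eq_one_iff_isFixedPt.2 (Finset.mem_filter.1 hq).2
    have hmem : q.out.out⁻¹ * x * q.out.out ∈ H := by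
      simpa [h1] using QuotientGroup.out_conj_pow_minimalPeriod_mem H x q.out
    rw [hF q.out hmem]
    congr 1
    exact Subtype.ext (by simp [h1])

end Transfer

section Main

open MulAction

variable {G : Type*} [Group G] [Finite G] [IsSimpleGroup G]

/-- A nonreal element of order three whose centralizer has three-part nine, in a simple group with a
Sylow three-subgroup of order at least twenty-seven. -/
theorem false_of_centralizer_nine (hna : ¬ IsMulCommutative G) (P : Sylow 3 G)
    (h27 : 27 ≤ Nat.card (P : Subgroup G)) (x : G) (hxP : x ∈ (P : Subgroup G))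
    (hxo : orderOf x = 3)
    (hC9 : ∀ D : Subgroup G, D ≤ Subgroup.centralizer ({x} : Set G) → IsPGroup 3 D → Nat.card D ≤ 9)
    (hnr : ∀ g : G, g * x * g⁻¹ ≠ x⁻¹) : False := by
  classical
  have : Fact (Nat.Prime 3) := ⟨Nat.prime_three⟩
  set S := (P : Subgroup G) with hS
  have hx3 : x ^ 3 = 1 := by rw [← hxo]; exact pow_orderOf_eq_one x
  set C := Subgroup.centralizer ({x} : Set G) with hC
  -- centralisers of the conjugates inside the Sylow subgroup
  have hcard9 : ∀ (g : G) (y : S), (y : G) = g⁻¹ * x * g →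
      Nat.card (Subgroup.centralizer ({y} : Set S)) = 9 := by
    intro g y hy
    set E := Subgroup.centralizer ({y} : Set S) with hE
    set D : Subgroup G := (E.map S.subtype).map (MulAut.conj g).toMonoidHom with hD
    have hDcard : Nat.card D = Nat.card E := by
      rw [hD, Subgroup.card_map_of_injective (MulAut.conj g).injective,
        Subgroup.card_map_of_injective S.subtype_injective]
    have hDC : D ≤ C := by
      rintro _ ⟨_, ⟨c, hc, rfl⟩, rfl⟩
      have h := congrArg Subtype.val (Subgroup.mem_centralizer_singleton_iff.1 hc)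
      simp only [Subgroup.coe_mul, hy] at h
      rw [hC, Subgroup.mem_centralizer_singleton_iff]
      show g * (c : G) * g⁻¹ * x = x * (g * c * g⁻¹)
      calc g * (c : G) * g⁻¹ * x = g * ((c : G) * (g⁻¹ * x * g)) * g⁻¹ := by group
        _ = g * ((g⁻¹ * x * g) * c) * g⁻¹ := by rw [h]
        _ = x * (g * c * g⁻¹) := by group
    have hE3 : IsPGroup 3 E := P.2.to_subgroup E
    have hle : Nat.card E ≤ 9 := hDcard ▸ hC9 D hDC ((hE3.map _).map _)
    have hyo : orderOf y = 3 := by
      rw [← Subgroup.orderOf_coe, hy, ← hxo]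
      simpa using orderOf_injective (MulAut.conj g⁻¹).toMonoidHom (MulAut.conj g⁻¹).injective x
    have hSne : S ≠ ⊥ := fun h => by
      have e : Nat.card S = 1 := Subgroup.card_eq_one.2 h
      omega
    obtain ⟨z, hz, hzo, hzc⟩ := exists_central_orderOf P.2 hSne
    have hyc : ¬ ∀ s : S, s * y = y * s := by
      intro hall
      have he : E = ⊤ := (Subgroup.eq_top_iff' E).2 fun s =>
        Subgroup.mem_centralizer_singleton_iff.2 (hall s)
      rw [he, Subgroup.card_top] at hle
      omega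
    have hy3 : Nat.card (Subgroup.zpowers y) = 3 := by rw [Nat.card_zpowers, hyo]
    have hzE : (⟨z, hz⟩ : S) ∈ E :=
      Subgroup.mem_centralizer_singleton_iff.2 (Subtype.ext (hzc y y.2).symm)
    have hlt : Subgroup.zpowers y < E := by
      refine lt_of_le_of_ne (Subgroup.zpowers_le.2
        (Subgroup.mem_centralizer_singleton_iff.2 rfl)) fun he => hyc ?_
      have hz3 : Nat.card (Subgroup.zpowers (⟨z, hz⟩ : S)) = 3 := by
        rw [Nat.card_zpowers, Subgroup.orderOf_mk, hzo]
      have heq := Subgroup.eq_of_le_of_card_ge (Subgroup.zpowers_le.2 (he ▸ hzE))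
        (le_of_eq (hy3.trans hz3.symm))
      intro s
      have hyz : y ∈ Subgroup.zpowers (⟨z, hz⟩ : S) := heq ▸ Subgroup.mem_zpowers y
      obtain ⟨i, rfl⟩ := Subgroup.mem_zpowers_iff.1 hyz
      exact Commute.zpow_right (Subtype.ext (hzc s s.2)) i
    obtain ⟨k, hk⟩ := hE3.exists_card_eq
    have h3lt : 3 < Nat.card E := by
      rw [← hy3]
      exact Nat.lt_of_not_le fun h => hlt.ne (Subgroup.eq_of_le_of_card_ge hlt.le h)
    rcases k with _ | _ | _ | k
    · omega
    · omega
    · rw [hk]; norm_num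
    · have h4 : 3 ^ 3 ≤ 3 ^ (k + 3) := Nat.pow_le_pow_right (by norm_num) (by omega)
      omega
  have hnc : ¬ IsMulCommutative S := by
    intro h
    have h9 := hcard9 1 ⟨x, hxP⟩ (by simp)
    have he : Subgroup.centralizer ({(⟨x, hxP⟩ : S)} : Set S) = ⊤ :=
      (Subgroup.eq_top_iff' _).2 fun s =>
        Subgroup.mem_centralizer_singleton_iff.2 (h.is_comm.comm _ _)
    rw [he, Subgroup.card_top] at h9
    omega
  have hx1 : x ≠ 1 := fun h => by simp [h] at hxo
  -- the conjugacy class in `P` of a conjugate is a coset of the derived subgroup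
  have hclass : (commutator S).index = 9 ∧ ∀ (g : G) (y u : S), (y : G) = g⁻¹ * x * g →
      u⁻¹ * y ∈ commutator S → ∃ s : S, u = s * y * s⁻¹ := by
    have key : ∀ (g : G) (y : S), (y : G) = g⁻¹ * x * g →
        Nat.card S = 9 * (Set.range fun s : S => s * y * s⁻¹).ncard ∧
          (Set.range fun s : S => s * y * s⁻¹) ⊆ {u : S | u⁻¹ * y ∈ commutator S} ∧
          {u : S | u⁻¹ * y ∈ commutator S}.ncard = Nat.card (commutator S) := by
      intro g y hy
      refine ⟨?_, ?_, ?_⟩
      · have h1 := (Subgroup.centralizer ({y} : Set S)).card_mul_index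
        rw [hcard9 g y hy] at h1
        rw [← h1]
        congr 1
        rw [Subgroup.index_eq_card, ← Nat.card_coe_set_eq]
        refine Nat.card_congr (Equiv.ofBijective
          (Quotient.lift (fun s : S => (⟨s * y * s⁻¹, s, rfl⟩ :
            Set.range fun s : S => s * y * s⁻¹)) ?_) ⟨?_, ?_⟩)
        · intro a b hab
          replace hab := QuotientGroup.leftRel_apply.1 hab
          have h := Subgroup.mem_centralizer_singleton_iff.1 hab
          apply Subtype.ext
          show a * y * a⁻¹ = b * y * b⁻¹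
          calc a * y * a⁻¹ = a * (y * (a⁻¹ * b)) * b⁻¹ := by group
            _ = a * ((a⁻¹ * b) * y) * b⁻¹ := by rw [h]
            _ = b * y * b⁻¹ := by group
        · intro a b hab
          induction a using QuotientGroup.induction_on with
          | _ a =>
            induction b using QuotientGroup.induction_on with
            | _ b =>
              have h : a * y * a⁻¹ = b * y * b⁻¹ := congrArg Subtype.val hab
              apply QuotientGroup.eq.2
              rw [Subgroup.mem_centralizer_singleton_iff]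
              calc a⁻¹ * b * y = a⁻¹ * (b * y * b⁻¹) * b := by group
                _ = a⁻¹ * (a * y * a⁻¹) * b := by rw [h]
                _ = y * (a⁻¹ * b) := by group
        · rintro ⟨_, s, rfl⟩
          exact ⟨QuotientGroup.mk s, rfl⟩
      · rintro _ ⟨s, rfl⟩
        show (s * y * s⁻¹)⁻¹ * y ∈ commutator S
        rw [show (s * y * s⁻¹)⁻¹ * y = s * y⁻¹ * s⁻¹ * (y⁻¹)⁻¹ by group, commutator_def,
          ← commutatorElement_def]
        exact Subgroup.commutator_mem_commutator (Subgroup.mem_top _) (Subgroup.mem_top _)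
      · rw [← Nat.card_coe_set_eq]
        exact Nat.card_congr
          { toFun := fun u => ⟨(u : S)⁻¹ * y, u.2⟩
            invFun := fun c => ⟨y * (c : S)⁻¹, by simp⟩
            left_inv := fun u => Subtype.ext (by simp)
            right_inv := fun c => Subtype.ext (by simp) }
    obtain ⟨k1, k2, k3⟩ := key 1 ⟨x, hxP⟩ (by simp)
    have hidx : (commutator S).index = 9 := by
      obtain ⟨k, hk⟩ := P.2.index (commutator S)
      have hnd : ¬ (commutator S).index ∣ 3 := index_commutator_ne_of_dvd_three P.2 hnc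
      have h1 := Set.ncard_le_ncard k2 (Set.toFinite _)
      have h2 := (commutator S).card_mul_index
      have hk2 : 2 ≤ k := by
        by_contra hlt
        exact hnd (hk ▸ (pow_dvd_pow 3 (show k ≤ 1 by omega)).trans (by norm_num))
      have h9 : 9 ≤ (commutator S).index := by
        rw [hk]; exact (le_of_eq (by norm_num)).trans (Nat.pow_le_pow_right (by norm_num) hk2)
      rw [k3] at h1
      have hpos : 0 < Nat.card (commutator S) := Nat.card_pos
      nlinarith
    refine ⟨hidx, fun g y u hy hu => ?_⟩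
    obtain ⟨j1, j2, j3⟩ := key g y hy
    have h2 := (commutator S).card_mul_index
    rw [hidx] at h2
    have heq := Set.eq_of_subset_of_ncard_le j2 (by rw [j3]; omega) (Set.toFinite _)
    have hu' : u ∈ Set.range fun s : S => s * y * s⁻¹ := by rw [heq]; exact hu
    obtain ⟨s, hs⟩ := hu'
    exact ⟨s, hs.symm⟩
  obtain ⟨hidx, hcls⟩ := hclass
  set π : S →* Abelianization S := Abelianization.of with hπ
  have hker : ∀ u v : S, π u = π v ↔ u⁻¹ * v ∈ commutator S := fun u v => QuotientGroup.eq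
  have hQ9 : Nat.card (Abelianization S) = 9 := hidx
  let _ := Fintype.ofFinite (Abelianization S)
  set D : Finset (Abelianization S) := Finset.univ.filter
    (fun d => ∃ (g : G) (y : S), (y : G) = g⁻¹ * x * g ∧ π y = d) with hD
  have hDiff : ∀ u : S, π u ∈ D ↔ ∃ g : G, (u : G) = g⁻¹ * x * g := by
    intro u
    rw [hD, Finset.mem_filter]
    constructor
    · rintro ⟨-, g, y, hy, e⟩
      obtain ⟨s, rfl⟩ := hcls g y u hy ((hker u y).1 e.symm)
      exact ⟨g * (s : G)⁻¹, by simp [hy, mul_assoc]⟩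
    · rintro ⟨g, hg⟩
      exact ⟨Finset.mem_univ _, g, u, hg, rfl⟩
  have hinv : ∀ d ∈ D, d⁻¹ ∉ D := by
    intro d hd hd'
    obtain ⟨u, rfl⟩ : ∃ u : S, π u = d := QuotientGroup.mk_surjective d
    rw [← map_inv] at hd'
    obtain ⟨g, hg⟩ := (hDiff u).1 hd
    obtain ⟨g', hg'⟩ := (hDiff u⁻¹).1 hd'
    refine hnr (g * g'⁻¹) ?_
    rw [Subgroup.coe_inv, hg] at hg'
    calc g * g'⁻¹ * x * (g * g'⁻¹)⁻¹ = g * (g'⁻¹ * x * g') * g⁻¹ := by group
      _ = g * (g⁻¹ * x * g)⁻¹ * g⁻¹ := by rw [hg']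
      _ = x⁻¹ := by group
  have hD3 : ∀ d ∈ D, orderOf d = 3 := by
    intro d hd
    obtain ⟨u, rfl⟩ : ∃ u : S, π u = d := QuotientGroup.mk_surjective d
    obtain ⟨g, hg⟩ := (hDiff u).1 hd
    apply orderOf_eq_prime
    · rw [← map_pow, show u ^ 3 = 1 from Subtype.ext (by
        rw [Subgroup.coe_pow, hg, Subgroup.coe_one,
          show g⁻¹ * x * g = g⁻¹ * x * (g⁻¹)⁻¹ by group, conj_pow, hx3, mul_one, mul_inv_cancel]),
        map_one]
    · intro h1
      have h2 := hinv _ hd
      rw [h1, inv_one] at h2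
      exact h2 (h1 ▸ hd)
  -- the transfer of `x`
  let _ := Fintype.ofFinite (G ⧸ S)
  let F : G ⧸ S → Abelianization S := fun q =>
    if h : q.out⁻¹ * x * q.out ∈ S then π ⟨_, h⟩ else 1
  have htr : (MonoidHom.transfer π) x = 1 := by
    rcases IsSimpleGroup.eq_bot_or_eq_top_of_normal (MonoidHom.transfer π).ker inferInstance with
      h | h
    · refine absurd ⟨⟨fun a b => ?_⟩⟩ hna
      exact (MonoidHom.ker_eq_bot_iff _).1 h (by rw [map_mul, map_mul, mul_comm])
    · exact MonoidHom.mem_ker.1 (h.symm ▸ Subgroup.mem_top x)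
  rw [transfer_eq_prod_fixed π Nat.prime_three hx3 F (fun q h => dif_pos h)] at htr
  set T := Finset.univ.filter (fun q : G ⧸ S => x • q = q) with hT
  have hfixed : ∀ g : G, x • (QuotientGroup.mk g : G ⧸ S) = QuotientGroup.mk g ↔
      g⁻¹ * x * g ∈ S := by
    intro g
    show (QuotientGroup.mk (x * g) : G ⧸ S) = QuotientGroup.mk g ↔ _
    rw [eq_comm, QuotientGroup.eq, mul_assoc]
  have hqfix : ∀ q : G ⧸ S, q ∈ T ↔ q.out⁻¹ * x * q.out ∈ S := by
    intro q
    rw [hT, Finset.mem_filter, ← hfixed q.out, QuotientGroup.out_eq']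
    exact ⟨fun h => h.2, fun h => ⟨Finset.mem_univ _, h⟩⟩
  have hFD : ∀ q ∈ T, F q ∈ D := by
    intro q hq
    simp only [F, dif_pos ((hqfix q).1 hq)]
    exact (hDiff _).2 ⟨q.out, rfl⟩
  have hFmk : ∀ (g : G) (h : g⁻¹ * x * g ∈ S),
      F (QuotientGroup.mk g) = π ⟨g⁻¹ * x * g, h⟩ := by
    intro g h
    obtain ⟨s, hs⟩ := QuotientGroup.mk_out_eq_mul S g
    have hm : (QuotientGroup.mk g : G ⧸ S).out⁻¹ * x * (QuotientGroup.mk g : G ⧸ S).out ∈ S := by
      rw [hs]
      simpa [mul_assoc] using S.mul_mem (S.mul_mem (S.inv_mem s.2) h) s.2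
    simp only [F, dif_pos hm]
    have e : (⟨_, hm⟩ : S) = s⁻¹ * ⟨g⁻¹ * x * g, h⟩ * s := Subtype.ext (by simp [hs, mul_assoc])
    rw [e, map_mul, map_mul, map_inv, mul_comm, mul_inv_cancel_left]
  -- each fibre is an orbit of the centraliser
  have hfib : ∀ d ∈ D, 9 * (T.filter fun q => F q = d).card = Nat.card C := by
    intro d hd
    obtain ⟨g, y, hy, rfl⟩ := (Finset.mem_filter.1 hd).2
    have horb : (↑(T.filter fun q => F q = π y) : Set (G ⧸ S)) =
        orbit C (QuotientGroup.mk g : G ⧸ S) := by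
      ext q
      rw [Finset.mem_coe, Finset.mem_filter]
      constructor
      · rintro ⟨hqT, hqF⟩
        have hm := (hqfix q).1 hqT
        simp only [F, dif_pos hm] at hqF
        obtain ⟨s, hs⟩ := hcls g y ⟨_, hm⟩ hy ((hker _ _).1 hqF)
        have hs' : q.out⁻¹ * x * q.out = (s : G) * (g⁻¹ * x * g) * (s : G)⁻¹ := by
          rw [← hy]; exact congrArg Subtype.val hs
        refine ⟨⟨q.out * s * g⁻¹, ?_⟩, ?_⟩
        · rw [hC, Subgroup.mem_centralizer_singleton_iff]
          calc q.out * (s : G) * g⁻¹ * x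
              = q.out * ((s : G) * (g⁻¹ * x * g) * (s : G)⁻¹) * (s : G) * g⁻¹ := by group
            _ = q.out * (q.out⁻¹ * x * q.out) * (s : G) * g⁻¹ := by rw [hs']
            _ = x * (q.out * (s : G) * g⁻¹) := by group
        · show (QuotientGroup.mk (q.out * (s : G) * g⁻¹ * g) : G ⧸ S) = q
          rw [inv_mul_cancel_right, QuotientGroup.mk_mul_of_mem q.out s.2, QuotientGroup.out_eq']
      · rintro ⟨c, rfl⟩
        change (QuotientGroup.mk ((c : G) * g) : G ⧸ S) ∈ T ∧ F (QuotientGroup.mk ((c : G) * g)) = _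
        have hc : (c : G) * x = x * c := Subgroup.mem_centralizer_singleton_iff.1 c.2
        have he : ((c : G) * g)⁻¹ * x * ((c : G) * g) = (y : G) := by
          rw [hy]
          calc ((c : G) * g)⁻¹ * x * ((c : G) * g) = g⁻¹ * ((c : G)⁻¹ * (x * c)) * g := by group
            _ = g⁻¹ * ((c : G)⁻¹ * ((c : G) * x)) * g := by rw [hc]
            _ = g⁻¹ * x * g := by group
        refine ⟨?_, ?_⟩
        · rw [hT, Finset.mem_filter, hfixed, he]
          exact ⟨Finset.mem_univ _, y.2⟩
        · rw [hFmk _ (he ▸ y.2)]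
          exact congrArg π (Subtype.ext he)
    have h1 := (stabilizer C (QuotientGroup.mk g : G ⧸ S)).card_mul_index
    rw [index_stabilizer, ← horb, Set.ncard_coe_finset] at h1
    rw [← h1]
    congr 1
    rw [← hcard9 g y hy]
    have hstab : ∀ c : C, c ∈ stabilizer C (QuotientGroup.mk g : G ⧸ S) ↔
        g⁻¹ * (c : G) * g ∈ S := by
      intro c
      rw [mem_stabilizer_iff]
      show (QuotientGroup.mk ((c : G) * g) : G ⧸ S) = QuotientGroup.mk g ↔ _
      rw [eq_comm, QuotientGroup.eq, mul_assoc]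
    symm
    refine Nat.card_congr
      { toFun := fun c => ⟨⟨g⁻¹ * ((c : C) : G) * g, (hstab c).1 c.2⟩, ?_⟩
        invFun := fun e => ⟨⟨g * ((e : S) : G) * g⁻¹, ?_⟩, (hstab _).2 ?_⟩
        left_inv := fun c => Subtype.ext (Subtype.ext (by simp [mul_assoc]))
        right_inv := fun e => Subtype.ext (Subtype.ext (by simp [mul_assoc])) }
    · rw [Subgroup.mem_centralizer_singleton_iff]
      apply Subtype.ext
      simp only [Subgroup.coe_mul, hy]
      have hc := Subgroup.mem_centralizer_singleton_iff.1 (c : C).2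
      calc g⁻¹ * ((c : C) : G) * g * (g⁻¹ * x * g) = g⁻¹ * (((c : C) : G) * x) * g := by group
        _ = g⁻¹ * (x * ((c : C) : G)) * g := by rw [hc]
        _ = g⁻¹ * x * g * (g⁻¹ * ((c : C) : G) * g) := by group
    · rw [hC, Subgroup.mem_centralizer_singleton_iff]
      have he := congrArg Subtype.val (Subgroup.mem_centralizer_singleton_iff.1 e.2)
      simp only [Subgroup.coe_mul, hy] at he
      calc g * ((e : S) : G) * g⁻¹ * x = g * (((e : S) : G) * (g⁻¹ * x * g)) * g⁻¹ := by group
        _ = g * (g⁻¹ * x * g * ((e : S) : G)) * g⁻¹ := by rw [he]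
        _ = x * (g * ((e : S) : G) * g⁻¹) := by group
    · show g⁻¹ * (g * ((e : S) : G) * g⁻¹) * g ∈ S
      simp [mul_assoc, (e : S).2]
  set c := Nat.card C / 9 with hc
  have hcd : ∀ d ∈ D, (T.filter fun q => F q = d).card = c := fun d hd => by
    rw [hc, ← hfib d hd, Nat.mul_div_cancel_left _ (by norm_num)]
  rw [← Finset.prod_fiberwise_of_maps_to hFD F] at htr
  have hD0 : π ⟨x, hxP⟩ ∈ D := (hDiff _).2 ⟨1, by simp⟩
  have hprod : (∏ d ∈ D, d) ^ c = 1 := by
    rw [← htr, ← Finset.prod_pow]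
    refine Finset.prod_congr rfl fun d hd => ?_
    rw [Finset.prod_congr rfl (g := fun _ => d) (fun q hq => (Finset.mem_filter.1 hq).2),
      Finset.prod_const, hcd d hd]
  have hc3 : ¬ 3 ∣ c := by
    intro h
    have h27' : 3 ^ 3 ∣ Nat.card C := by
      rw [← hfib _ hD0, hcd _ hD0]
      exact Dvd.dvd.trans (by norm_num) (Nat.mul_dvd_mul_left 9 h)
    obtain ⟨R, hR⟩ := Sylow.exists_subgroup_card_pow_prime 3 h27'
    have h2 := hC9 (R.map C.subtype) (Subgroup.map_subtype_le R)
      (IsPGroup.of_card (n := 3) (by rw [Subgroup.card_map_of_injective C.subtype_injective, hR]))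
    rw [Subgroup.card_map_of_injective C.subtype_injective, hR] at h2
    norm_num at h2
  have hprod1 : ∏ d ∈ D, d = 1 := by
    have hd3 : (∏ d ∈ D, d) ^ 3 = 1 := by
      rw [← Finset.prod_pow]
      exact Finset.prod_eq_one fun d hd => by rw [← hD3 d hd]; exact pow_orderOf_eq_one d
    rw [← orderOf_eq_one_iff]
    exact Nat.eq_one_of_dvd_coprimes
      ((Nat.Prime.coprime_iff_not_dvd Nat.prime_three).2 hc3)
      (orderOf_dvd_of_pow_eq_one hd3) (orderOf_dvd_of_pow_eq_one hprod)
  obtain ⟨ψ, hψD, hψ⟩ := exists_coset_hom hQ9 D ⟨_, hD0⟩ hD3 hinv hprod1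
  -- the character is invariant under fusion
  have hval : ∀ u : S, (∃ g : G, (u : G) = g⁻¹ * x * g) → ψ (π u) = Multiplicative.ofAdd 1 :=
    fun u hu => hψD _ ((hDiff u).2 hu)
  have hstep : ∀ (u v : S) (k : G), (v : G) = k * u * k⁻¹ → ψ (π u) ≠ 1 → ψ (π u) = ψ (π v) := by
    intro u v k hv hu
    rcases hψ _ hu with h | h
    · obtain ⟨g, hg⟩ := (hDiff u).1 h
      rw [hval u ⟨g, hg⟩, hval v ⟨g * k⁻¹, by rw [hv, hg]; group⟩]
    · rw [← map_inv] at h
      obtain ⟨g, hg⟩ := (hDiff u⁻¹).1 h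
      rw [Subgroup.coe_inv] at hg
      have h1 := hval u⁻¹ ⟨g, by rw [Subgroup.coe_inv, hg]⟩
      have h2 := hval v⁻¹ ⟨g * k⁻¹, by
        rw [Subgroup.coe_inv, hv, conj_inv, hg]
        group⟩
      rw [map_inv, map_inv] at h1 h2
      exact inv_injective (h1.trans h2.symm)
  refine no_fusion_invariant_hom hna P (ψ.comp π) ⟨⟨x, hxP⟩, ?_⟩ ?_
  · rw [MonoidHom.comp_apply, hψD _ hD0]
    exact fun h => absurd (Multiplicative.ofAdd.injective h : (1 : ZMod 3) = 0) one_ne_zero
  · intro u v k hv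
    simp only [MonoidHom.comp_apply]
    by_cases hu : ψ (π u) = 1
    · by_contra hne
      refine hne (hstep v u k⁻¹ (by rw [hv]; group) ?_).symm
      exact fun h => hne (hu.trans h.symm)
    · exact hstep u v k hv hu

end Main

end CfsgLib.Spectrum.FixFour
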