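/-
Simple groups of fixity four with point stabilizer of odd order divisible by three.
-/
import Cfsg.Agent.Lib.Spectrum.FixityFourTransfer
import Cfsg.Agent.Lib.Components2.TwentyTwo.Setup
import Cfsg.Agent.Lib.TwoFusion.KleinFactorBasic
import Mathlib

set_option autoImplicit false
open MulAction
open scoped Pointwise

namespace CfsgLib.Spectrum.FixFour

section Misc

variable {G : Type*} [Group G]

theorem conj_iterate_inv {g x : G} (h : g * x * g⁻¹ = x⁻¹) :
    ∀ k : ℕ, g ^ (2 * k) * x * (g ^ (2 * k))⁻¹ = x := by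
  have h2 : g * x⁻¹ * g⁻¹ = x := by rw [← conj_inv, h, inv_inv]
  intro k
  induction k with
  | zero => simp
  | succ k ih =>
    rw [show 2 * (k + 1) = 1 + (1 + 2 * k) by ring, pow_add, pow_add, pow_one]
    calc g * (g * g ^ (2 * k)) * x * (g * (g * g ^ (2 * k)))⁻¹
        = g * (g * (g ^ (2 * k) * x * (g ^ (2 * k))⁻¹) * g⁻¹) * g⁻¹ := by group
      _ = x := by rw [ih, h, h2]

/-- An element of odd order does not invert an element of order three. -/
theorem ne_inv_of_odd {g x : G} (hg : Odd (orderOf g)) (hx : orderOf x = 3) :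
    g * x * g⁻¹ ≠ x⁻¹ := by
  intro h
  obtain ⟨k, hk⟩ := hg
  have h2 := conj_iterate_inv h k
  have h3 : g ^ (2 * k) = g⁻¹ :=
    eq_inv_of_mul_eq_one_left (by rw [← pow_succ, ← hk, pow_orderOf_eq_one])
  rw [h3, inv_inv] at h2
  have h4 : x = x⁻¹ := by
    calc x = g * (g⁻¹ * x * g) * g⁻¹ := by group
      _ = x⁻¹ := by rw [h2, h]
  have h5 : orderOf x ∣ 2 := orderOf_dvd_of_pow_eq_one (by
    rw [pow_two]; exact mul_eq_one_iff_eq_inv.2 h4)
  rw [hx] at h5
  norm_num at h5

theorem sq_centralizes_mem {E : Subgroup G} {g : G} {x : G} (hg : Odd (orderOf g))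
    (h2 : g ^ 2 ∈ E) (_hx : x ∈ E) : g ∈ E := by
  obtain ⟨k, hk⟩ := hg
  have : g = (g ^ 2) ^ (k + 1) := by
    rw [← pow_mul, show 2 * (k + 1) = orderOf g + 1 by omega, pow_succ, pow_orderOf_eq_one, one_mul]
  rw [this]
  exact E.pow_mem h2 _

theorem odd_of_three_group {Q : Subgroup G} (hQ : IsPGroup 3 Q) {g : G} (hg : g ∈ Q) :
    Odd (orderOf g) := by
  have : Fact (Nat.Prime 3) := ⟨Nat.prime_three⟩
  obtain ⟨k, hk⟩ := IsPGroup.iff_orderOf.1 hQ ⟨g, hg⟩
  rw [Subgroup.orderOf_mk] at hk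
  rw [hk]
  exact Odd.pow (by decide)

end Misc

section Pair

variable {G : Type*} [Group G] [Finite G]

/-- The setting: a central element `z` and an element `y` of order three in a Sylow three-subgroup
with small joint centralizer. -/
theorem pair_facts (P : Sylow 3 G) (h27 : 27 ≤ Nat.card (P : Subgroup G)) (y z : G)
    (hyP : y ∈ (P : Subgroup G)) (hzP : z ∈ (P : Subgroup G)) (hyo : orderOf y = 3)
    (hzo : orderOf z = 3) (hzc : ∀ s ∈ (P : Subgroup G), s * z = z * s)
    (hyz : y ∉ Subgroup.zpowers z)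
    (hC : ∀ D : Subgroup G, D ≤ Subgroup.centralizer ({y} : Set G) ⊓ Subgroup.centralizer ({z} : Set G)
      → IsPGroup 3 D → Nat.card D ≤ 9) :
    Nat.card ↥((P : Subgroup G) ⊓ Subgroup.centralizer ({y} : Set G)) = 9 ∧
    (∀ e ∈ (P : Subgroup G) ⊓ Subgroup.centralizer ({y} : Set G),
      ∃ i j : ℕ, i < 3 ∧ j < 3 ∧ e = y ^ i * z ^ j) ∧
    ∀ i m : ℕ, ¬ 3 ∣ i → ∃ g : G, g * y ^ i * g⁻¹ = y ^ i * z ^ m := by
  classical
  have : Fact (Nat.Prime 3) := ⟨Nat.prime_three⟩
  set Q := (P : Subgroup G) with hQ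
  set E := Q ⊓ Subgroup.centralizer ({y} : Set G) with hE
  have hy3 : y ^ 3 = 1 := by rw [← hyo]; exact pow_orderOf_eq_one y
  have hz3 : z ^ 3 = 1 := by rw [← hzo]; exact pow_orderOf_eq_one z
  have hyz' : Commute y z := hzc y hyP
  have hyE : y ∈ E := Subgroup.mem_inf.2 ⟨hyP, Subgroup.mem_centralizer_singleton_iff.2 rfl⟩
  have hzE : z ∈ E :=
    Subgroup.mem_inf.2 ⟨hzP, Subgroup.mem_centralizer_singleton_iff.2 hyz'.symm⟩
  have hE3 : IsPGroup 3 E := P.2.to_le inf_le_left
  have hEle : Nat.card E ≤ 9 := hC E (fun e he => Subgroup.mem_inf.2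
    ⟨he.2, Subgroup.mem_centralizer_singleton_iff.2 (hzc e he.1)⟩) hE3
  let f : Fin 3 × Fin 3 → E := fun ij =>
    ⟨y ^ (ij.1 : ℕ) * z ^ (ij.2 : ℕ), E.mul_mem (E.pow_mem hyE _) (E.pow_mem hzE _)⟩
  have hfinj : Function.Injective f := by
    rintro ⟨i, j⟩ ⟨i', j'⟩ h
    have h' : y ^ (i : ℕ) * z ^ (j : ℕ) = y ^ (i' : ℕ) * z ^ (j' : ℕ) := congrArg Subtype.val h
    have hi : (i : ℕ) = i' := by
      by_contra hne
      apply hyz
      have h1 : y ^ ((i : ℤ) - i') ∈ Subgroup.zpowers z := by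
        have e : y ^ ((i : ℤ) - i') = z ^ ((j' : ℤ) - j) := by
          rw [zpow_sub, zpow_sub, zpow_natCast, zpow_natCast, zpow_natCast, zpow_natCast,
            mul_inv_eq_iff_eq_mul, mul_assoc]
          have hc := ((hyz'.pow_pow (i' : ℕ) (j : ℕ)).inv_right).symm
          calc y ^ (i : ℕ) = (y ^ (i : ℕ) * z ^ (j : ℕ)) * (z ^ (j : ℕ))⁻¹ := by group
            _ = y ^ (i' : ℕ) * z ^ (j' : ℕ) * (z ^ (j : ℕ))⁻¹ := by rw [h']
            _ = z ^ (j' : ℕ) * y ^ (i' : ℕ) * (z ^ (j : ℕ))⁻¹ := by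
              rw [(hyz'.pow_pow (i' : ℕ) (j' : ℕ)).eq]
            _ = z ^ (j' : ℕ) * ((z ^ (j : ℕ))⁻¹ * y ^ (i' : ℕ)) := by rw [mul_assoc, hc.eq]
        rw [e]
        exact Subgroup.zpow_mem_zpowers z _
      have hcop : (((i : ℤ) - i') % 3) = 1 ∨ (((i : ℤ) - i') % 3) = 2 := by
        have := i.2; have := i'.2; omega
      have hy3' : y ^ (3 : ℤ) = 1 := by exact_mod_cast hy3
      have hmod : y ^ (((i : ℤ) - i') % 3) ∈ Subgroup.zpowers z := by
        rw [Int.emod_def, zpow_sub, zpow_mul, hy3', one_zpow, inv_one, mul_one]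
        exact h1
      rcases hcop with e | e <;> rw [e] at hmod
      · simpa using hmod
      · have : y = (y ^ (2 : ℤ))⁻¹ := eq_inv_of_mul_eq_one_left (by
          rw [← zpow_one_add]; exact hy3')
        rw [this]
        exact inv_mem hmod
    have hj : (j : ℕ) = j' := by
      rw [hi, mul_right_inj] at h'
      exact pow_injOn_Iio_orderOf (by rw [Set.mem_Iio, hzo]; exact j.2)
        (by rw [Set.mem_Iio, hzo]; exact j'.2) h'
    rw [Fin.ext hi, Fin.ext hj]
  have hE9 : Nat.card E = 9 := by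
    have := Nat.card_le_card_of_injective f hfinj
    rw [Nat.card_prod, Nat.card_fin] at this
    omega
  have hfbij : Function.Bijective f :=
    (Nat.bijective_iff_injective_and_card f).2 ⟨hfinj, by simp [hE9]⟩
  have helts : ∀ e ∈ E, ∃ i j : ℕ, i < 3 ∧ j < 3 ∧ e = y ^ i * z ^ j := by
    intro e he
    obtain ⟨⟨i, j⟩, hij⟩ := hfbij.2 ⟨e, he⟩
    exact ⟨i, j, i.2, j.2, (congrArg Subtype.val hij).symm⟩
  refine ⟨hE9, helts, ?_⟩
  -- an element of `P` outside `E` normalising `E`
  have hlt : E.subgroupOf Q < ⊤ := by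
    refine lt_top_iff_ne_top.2 fun h => ?_
    have hle : Q ≤ E := Subgroup.subgroupOf_eq_top.1 h
    have h9 := Subgroup.card_le_of_le hle
    rw [hE9] at h9
    have h27' : 27 ≤ Nat.card Q := h27
    omega
  have := P.2.isNilpotent
  obtain ⟨-, p, hpN, hpE⟩ := SetLike.lt_iff_le_and_exists.1
    (Group.normalizerCondition_of_isNilpotent _ hlt)
  have hpE' : (p : G) ∉ E := hpE
  have hpy : (p : G) * y * (p : G)⁻¹ ∈ E :=
    (Subgroup.mem_normalizer_iff.1 hpN ⟨y, hyP⟩).1 hyE
  obtain ⟨i, j, hi, hj, hij⟩ := helts _ hpy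
  have hpz : Commute (p : G) z := hzc p p.2
  have hi1 : i = 1 := by
    rcases (show i = 0 ∨ i = 1 ∨ i = 2 by omega) with rfl | rfl | rfl
    · exfalso
      apply hyz
      rw [pow_zero, one_mul] at hij
      have : y = (p : G)⁻¹ * z ^ j * (p : G) := by rw [← hij]; group
      rw [this, mul_assoc, ← (hpz.pow_right j).eq, inv_mul_cancel_left]
      exact Subgroup.npow_mem_zpowers z j
    · rfl
    · exfalso
      apply hpE'
      refine sq_centralizes_mem (odd_of_three_group P.2 p.2) ?_ hyE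
      refine Subgroup.mem_inf.2 ⟨Q.pow_mem p.2 2, Subgroup.mem_centralizer_singleton_iff.2 ?_⟩
      have e : (p : G) ^ 2 * y * ((p : G) ^ 2)⁻¹ = y := by
        calc (p : G) ^ 2 * y * ((p : G) ^ 2)⁻¹
            = (p : G) * ((p : G) * y * (p : G)⁻¹) * (p : G)⁻¹ := by
              rw [pow_two, mul_inv_rev]; simp only [mul_assoc]
          _ = ((p : G) * y ^ 2 * (p : G)⁻¹) * ((p : G) * z ^ j * (p : G)⁻¹) := by rw [hij]; group
          _ = ((p : G) * y * (p : G)⁻¹) ^ 2 * z ^ j := by
            rw [conj_pow, (hpz.pow_right j).eq, mul_inv_cancel_right]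
          _ = y ^ 4 * z ^ (3 * j) := by
            rw [hij, (hyz'.pow_pow 2 j).mul_pow, ← pow_mul, ← pow_mul, mul_assoc, ← pow_add]
            congr 2
            ring
          _ = y := by rw [pow_mul, hz3, one_pow, mul_one, pow_succ, hy3, one_mul]
      exact mul_inv_eq_iff_eq_mul.1 e
  subst hi1
  rw [pow_one] at hij
  have hj0 : j ≠ 0 := by
    rintro rfl
    rw [pow_zero, mul_one] at hij
    exact hpE' (Subgroup.mem_inf.2
      ⟨p.2, Subgroup.mem_centralizer_singleton_iff.2 (mul_inv_eq_iff_eq_mul.1 hij)⟩)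
  have hpow : ∀ n i : ℕ, (p : G) ^ n * y ^ i * ((p : G) ^ n)⁻¹ = y ^ i * z ^ (n * j * i) := by
    intro n i
    induction n with
    | zero => simp
    | succ n ih =>
      calc (p : G) ^ (n + 1) * y ^ i * ((p : G) ^ (n + 1))⁻¹
          = (p : G) * ((p : G) ^ n * y ^ i * ((p : G) ^ n)⁻¹) * (p : G)⁻¹ := by
            rw [pow_succ']; group
        _ = ((p : G) * y ^ i * (p : G)⁻¹) * ((p : G) * z ^ (n * j * i) * (p : G)⁻¹) := by
            rw [ih]; group
        _ = (y ^ i * (z ^ j) ^ i) * z ^ (n * j * i) := by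
            rw [← conj_pow, hij, (hyz'.pow_right j).mul_pow, (hpz.pow_right _).eq,
              mul_inv_cancel_right]
        _ = y ^ i * z ^ ((n + 1) * j * i) := by
            rw [← pow_mul, mul_assoc, ← pow_add]; ring_nf
  intro i m hi
  refine ⟨(p : G) ^ (m * j * i), ?_⟩
  rw [hpow]
  congr 1
  apply pow_eq_pow_iff_modEq.2
  rw [hzo]
  have hjm : j % 3 = 1 ∨ j % 3 = 2 := by omega
  have him : i % 3 = 1 ∨ i % 3 = 2 := by omega
  show m * j * i * j * i % 3 = m % 3
  have e : m * j * i * j * i = m * ((j * i) * (j * i)) := by ring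
  have hsq : (j * i) * (j * i) % 3 = 1 := by
    rcases hjm with e1 | e1 <;> rcases him with e2 | e2 <;> norm_num [Nat.mul_mod, e1, e2]
  rw [e, Nat.mul_mod, hsq, mul_one, Nat.mod_mod]

/-- The centralizer of `y` has three-part nine when the central element is not real. -/
theorem centralizer_le_nine (P : Sylow 3 G) (h27 : 27 ≤ Nat.card (P : Subgroup G)) (y z : G)
    (hyP : y ∈ (P : Subgroup G)) (hzP : z ∈ (P : Subgroup G)) (hyo : orderOf y = 3)
    (hzo : orderOf z = 3) (hzc : ∀ s ∈ (P : Subgroup G), s * z = z * s)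
    (hyz : y ∉ Subgroup.zpowers z)
    (hC : ∀ D : Subgroup G, D ≤ Subgroup.centralizer ({y} : Set G) ⊓ Subgroup.centralizer ({z} : Set G)
      → IsPGroup 3 D → Nat.card D ≤ 9)
    (hzr : ∀ g : G, g * z * g⁻¹ ≠ z⁻¹) :
    ∀ D : Subgroup G, D ≤ Subgroup.centralizer ({y} : Set G) → IsPGroup 3 D → Nat.card D ≤ 9 := by
  classical
  have : Fact (Nat.Prime 3) := ⟨Nat.prime_three⟩
  intro D hD hD3
  obtain ⟨hE9, helts, hconj⟩ := pair_facts P h27 y z hyP hzP hyo hzo hzc hyz hC
  have hy3 : y ^ 3 = 1 := by rw [← hyo]; exact pow_orderOf_eq_one y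
  have hz3 : z ^ 3 = 1 := by rw [← hzo]; exact pow_orderOf_eq_one z
  have hyz' : Commute y z := hzc y hyP
  set C := Subgroup.centralizer ({y} : Set G) with hCdef
  set E := (P : Subgroup G) ⊓ C with hE
  have hEC : E ≤ C := inf_le_right
  have hE3 : IsPGroup 3 E := P.2.to_le inf_le_left
  obtain ⟨N, hN⟩ := (hE3.comap_of_injective C.subtype C.subtype_injective).exists_le_sylow
  refine (Nat.le_of_dvd Nat.card_pos (card_le_of_sylow C N hD hD3)).trans ?_
  set D₀ := (N : Subgroup C).map C.subtype with hD₀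
  have hED : E ≤ D₀ := fun e he => ⟨⟨e, hEC he⟩, hN he, rfl⟩
  have hD₀3 : IsPGroup 3 D₀ := N.2.map _
  have hD₀C : D₀ ≤ C := Subgroup.map_subtype_le _
  by_contra hbig
  have hlt : E.subgroupOf D₀ < ⊤ := lt_top_iff_ne_top.2 fun h => by
    have := Subgroup.card_le_of_le (Subgroup.subgroupOf_eq_top.1 h)
    omega
  have := hD₀3.isNilpotent
  obtain ⟨-, n, hnN, hnE⟩ := SetLike.lt_iff_le_and_exists.1
    (Group.normalizerCondition_of_isNilpotent _ hlt)
  have hnE' : (n : G) ∉ E := hnE
  have hzE : z ∈ E :=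
    Subgroup.mem_inf.2 ⟨hzP, Subgroup.mem_centralizer_singleton_iff.2 hyz'.symm⟩
  have hny : Commute (n : G) y := Subgroup.mem_centralizer_singleton_iff.1 (hD₀C n.2)
  have hnz : ¬ Commute (n : G) z := by
    intro hc
    set B : Subgroup G := D₀ ⊓ (C ⊓ Subgroup.centralizer ({z} : Set G)) with hB
    have hEB : E ≤ B := fun e he => Subgroup.mem_inf.2 ⟨hED he, Subgroup.mem_inf.2
      ⟨hEC he, Subgroup.mem_centralizer_singleton_iff.2 (hzc e he.1)⟩⟩
    have hnB : (n : G) ∈ B := Subgroup.mem_inf.2 ⟨n.2, Subgroup.mem_inf.2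
      ⟨hD₀C n.2, Subgroup.mem_centralizer_singleton_iff.2 hc⟩⟩
    have h1 := hC B inf_le_right (hD₀3.to_le inf_le_left)
    exact hnE' (Subgroup.eq_of_le_of_card_ge hEB (by omega) ▸ hnB)
  have hnz' : (n : G) * z * (n : G)⁻¹ ∈ E :=
    (Subgroup.mem_normalizer_iff.1 hnN ⟨z, hED hzE⟩).1 hzE
  obtain ⟨i, j, hi, hj, hij⟩ := helts _ hnz'
  have hyn : ∀ k : ℕ, (n : G) * y ^ k * (n : G)⁻¹ = y ^ k := fun k => by
    rw [(hny.pow_right k).eq, mul_inv_cancel_right]
  rcases Nat.eq_zero_or_pos i with rfl | hi0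
  · rw [pow_zero, one_mul] at hij
    rcases (show j = 0 ∨ j = 1 ∨ j = 2 by omega) with rfl | rfl | rfl
    · rw [pow_zero, mul_inv_eq_one, mul_eq_left] at hij
      simp [hij] at hzo
    · rw [pow_one] at hij
      exact hnz (mul_inv_eq_iff_eq_mul.1 hij)
    · exact hzr n (hij.trans (eq_inv_of_mul_eq_one_left (by rw [← pow_succ]; exact hz3)))
  rcases (show j = 0 ∨ j = 1 ∨ j = 2 by omega) with rfl | rfl | rfl
  · rw [pow_zero, mul_one, ← hyn i] at hij
    have hz' : z = y ^ i := mul_left_cancel (mul_right_cancel hij)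
    apply hyz
    rcases (show i = 1 ∨ i = 2 by omega) with rfl | rfl
    · rw [hz', pow_one]; exact Subgroup.mem_zpowers y
    · have : y = z ^ 2 := by
        rw [hz', ← pow_mul, show 2 * 2 = 3 + 1 by rfl, pow_succ, hy3, one_mul]
      rw [this]; exact Subgroup.npow_mem_zpowers z 2
  · rw [pow_one] at hij
    have hk : ∀ k : ℕ, (n : G) ^ k * z * ((n : G) ^ k)⁻¹ = y ^ (k * i) * z := by
      intro k
      induction k with
      | zero => simp
      | succ k ih =>
        calc (n : G) ^ (k + 1) * z * ((n : G) ^ (k + 1))⁻¹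
            = (n : G) * ((n : G) ^ k * z * ((n : G) ^ k)⁻¹) * (n : G)⁻¹ := by
              rw [pow_succ']; group
          _ = ((n : G) * y ^ (k * i) * (n : G)⁻¹) * ((n : G) * z * (n : G)⁻¹) := by
              rw [ih]; group
          _ = y ^ ((k + 1) * i) * z := by
              rw [hyn, hij, ← mul_assoc, ← pow_add]; ring_nf
    -- `z` is conjugate to `y` and to its inverse
    have hcz : ∀ m : ℕ, m < 3 → m ≠ 0 → ∃ g : G, g * z * g⁻¹ = y ^ m := by
      intro m hm hm0
      obtain ⟨g, hg⟩ := hconj m 1 (by omega)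
      obtain ⟨k, hkm⟩ : ∃ k, y ^ (k * i) = y ^ m := by
        refine ⟨m * i, ?_⟩
        apply pow_eq_pow_iff_modEq.2
        rw [hyo]
        show m * i * i % 3 = m % 3
        rcases (show i = 1 ∨ i = 2 by omega) with rfl | rfl <;> omega
      refine ⟨g⁻¹ * (n : G) ^ k, ?_⟩
      calc g⁻¹ * (n : G) ^ k * z * (g⁻¹ * (n : G) ^ k)⁻¹
          = g⁻¹ * ((n : G) ^ k * z * ((n : G) ^ k)⁻¹) * g := by group
        _ = g⁻¹ * (y ^ m * z ^ 1) * g := by rw [hk, hkm, pow_one]
        _ = y ^ m := by rw [← hg]; group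
    obtain ⟨g1, hg1⟩ := hcz 1 (by norm_num) (by norm_num)
    obtain ⟨g2, hg2⟩ := hcz 2 (by norm_num) (by norm_num)
    apply hzr (g1⁻¹ * g2)
    rw [pow_one] at hg1
    have hy2 : y ^ 2 = y⁻¹ := eq_inv_of_mul_eq_one_left (by rw [← pow_succ]; exact hy3)
    calc g1⁻¹ * g2 * z * (g1⁻¹ * g2)⁻¹ = g1⁻¹ * (g2 * z * g2⁻¹) * g1 := by group
      _ = g1⁻¹ * (g1 * z * g1⁻¹)⁻¹ * g1 := by rw [hg2, hy2, hg1]
      _ = z⁻¹ := by group
  · apply hnE'
    refine sq_centralizes_mem (x := z) (odd_of_three_group hD₀3 n.2) ?_ hzE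
    have e : (n : G) ^ 2 * z * ((n : G) ^ 2)⁻¹ = z := by
      calc (n : G) ^ 2 * z * ((n : G) ^ 2)⁻¹
          = (n : G) * ((n : G) * z * (n : G)⁻¹) * (n : G)⁻¹ := by
            rw [pow_two, mul_inv_rev]; simp only [mul_assoc]
        _ = (n : G) * (y ^ i * z ^ 2) * (n : G)⁻¹ := by rw [hij]
        _ = ((n : G) * y ^ i * (n : G)⁻¹) * ((n : G) * z * (n : G)⁻¹) ^ 2 := by
            rw [conj_pow]; simp [mul_assoc]
        _ = y ^ (i * 3) * z ^ 4 := by
            rw [hyn, hij, (hyz'.pow_pow i 2).mul_pow, ← pow_mul, ← pow_mul, ← mul_assoc, ← pow_add]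
            ring_nf
        _ = z := by rw [mul_comm i, pow_mul, hy3, one_pow, one_mul, pow_succ, hz3, one_mul]
    have hc : Commute ((n : G) ^ 2) z := mul_inv_eq_iff_eq_mul.1 e
    set B : Subgroup G := D₀ ⊓ (C ⊓ Subgroup.centralizer ({z} : Set G)) with hB
    have hEB : E ≤ B := fun e he => Subgroup.mem_inf.2 ⟨hED he, Subgroup.mem_inf.2
      ⟨hEC he, Subgroup.mem_centralizer_singleton_iff.2 (hzc e he.1)⟩⟩
    have h1 := hC B inf_le_right (hD₀3.to_le inf_le_left)
    rw [Subgroup.eq_of_le_of_card_ge hEB (by omega)]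
    exact Subgroup.mem_inf.2 ⟨D₀.pow_mem n.2 2, Subgroup.mem_inf.2
      ⟨C.pow_mem (hD₀C n.2) 2, Subgroup.mem_centralizer_singleton_iff.2 hc⟩⟩

/-- An element whose fixed set meets that of a central element in one point is not real. -/
theorem nonreal_of_pair {Ω : Type*} [MulAction G Ω]
    (hodd : ∀ (g : G) (b : Ω), g • b = b → Odd (orderOf g))
    (P : Sylow 3 G) (h27 : 27 ≤ Nat.card (P : Subgroup G)) (y z : G)
    (hyP : y ∈ (P : Subgroup G)) (hzP : z ∈ (P : Subgroup G)) (hyo : orderOf y = 3)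
    (hzo : orderOf z = 3) (hzc : ∀ s ∈ (P : Subgroup G), s * z = z * s)
    (hyz : y ∉ Subgroup.zpowers z)
    (hC9 : ∀ D : Subgroup G, D ≤ Subgroup.centralizer ({y} : Set G) → IsPGroup 3 D → Nat.card D ≤ 9)
    (hzr : ∀ g : G, g * z * g⁻¹ ≠ z⁻¹)
    (b : Ω) (hb : fixedBy Ω y ∩ fixedBy Ω z = {b}) :
    ∀ g : G, g * y * g⁻¹ ≠ y⁻¹ := by
  classical
  have : Fact (Nat.Prime 3) := ⟨Nat.prime_three⟩
  obtain ⟨hE9, helts, hconj⟩ := pair_facts P h27 y z hyP hzP hyo hzo hzc hyz
    (fun D hD hD3 => hC9 D (hD.trans inf_le_left) hD3)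
  set C := Subgroup.centralizer ({y} : Set G) with hCdef
  set E := (P : Subgroup G) ⊓ C with hE
  intro g hg
  set D₁ := E.map (MulAut.conj g).toMonoidHom with hD₁
  have hD₁C : D₁ ≤ C := by
    rintro _ ⟨e, he, rfl⟩
    rw [hCdef, Subgroup.mem_centralizer_singleton_iff]
    have hey : Commute e y := Subgroup.mem_centralizer_singleton_iff.1 he.2
    have h1 : Commute (g * e * g⁻¹) (g * y * g⁻¹) := hey.map (MulAut.conj g).toMonoidHom
    rw [hg] at h1
    exact inv_inv y ▸ h1.inv_right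
  have hE3 : IsPGroup 3 E := P.2.to_le inf_le_left
  obtain ⟨N1, hN1⟩ :=
    ((hE3.map (MulAut.conj g).toMonoidHom).comap_of_injective C.subtype
      C.subtype_injective).exists_le_sylow
  obtain ⟨N, hN⟩ := (hE3.comap_of_injective C.subtype C.subtype_injective).exists_le_sylow
  obtain ⟨c, hc⟩ := MulAction.exists_smul_eq C N1 N
  have hNE : (N : Subgroup C).map C.subtype = E := by
    refine (Subgroup.eq_of_le_of_card_ge (K := (N : Subgroup C).map C.subtype)
      (fun e (he : e ∈ E) => ⟨⟨e, he.2⟩, hN he, rfl⟩) ?_).symm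
    rw [hE9]
    exact hC9 _ (Subgroup.map_subtype_le _) (N.2.map _)
  set g' := (c : G) * g with hg'
  have hg'y : g' * y * g'⁻¹ = y⁻¹ := by
    have hcy : Commute (c : G) y := Subgroup.mem_centralizer_singleton_iff.1 c.2
    calc g' * y * g'⁻¹ = (c : G) * (g * y * g⁻¹) * (c : G)⁻¹ := by rw [hg']; group
      _ = y⁻¹ := by rw [hg, hcy.inv_right.eq, mul_inv_cancel_right]
  have hg'z : g' * z * g'⁻¹ ∈ E := by
    have hzE : z ∈ E :=
      Subgroup.mem_inf.2 ⟨hzP, Subgroup.mem_centralizer_singleton_iff.2 (hzc y hyP).symm⟩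
    have hm : (⟨g * z * g⁻¹, hD₁C ⟨z, hzE, rfl⟩⟩ : C) ∈ (N1 : Subgroup C) := hN1 ⟨z, hzE, rfl⟩
    have hm2 : c * (⟨g * z * g⁻¹, hD₁C ⟨z, hzE, rfl⟩⟩ : C) * c⁻¹ ∈ (N : Subgroup C) := by
      rw [← hc]; exact ⟨_, hm, rfl⟩
    rw [← hNE]
    exact ⟨_, hm2, by simp [hg', mul_assoc]⟩
  obtain ⟨i, j, hi, hj, hij⟩ := helts _ hg'z
  rcases Nat.eq_zero_or_pos i with rfl | hi0
  swap
  · -- `z` would be conjugate to a power of `y`
    obtain ⟨k, hk⟩ := hconj i j (by omega)
    rw [← hij] at hk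
    set u := g'⁻¹ * k with hu
    have hzu : z = u * y ^ i * u⁻¹ := by
      rw [hu]
      calc z = g'⁻¹ * (g' * z * g'⁻¹) * g' := by group
        _ = g'⁻¹ * (k * y ^ i * k⁻¹) * g' := by rw [hk]
        _ = _ := by group
    have h2 : ((P : Subgroup G).map (MulAut.conj u⁻¹).toMonoidHom) ≤ C := by
      rintro _ ⟨s, hs, rfl⟩
      have h3 : Commute (u⁻¹ * s * (u⁻¹)⁻¹) (y ^ i) := by
        have h4 : Commute (u⁻¹ * s * (u⁻¹)⁻¹) (u⁻¹ * z * (u⁻¹)⁻¹) :=
          Commute.map (show Commute s z from hzc s hs) (MulAut.conj u⁻¹).toMonoidHom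
        have e : u⁻¹ * z * (u⁻¹)⁻¹ = y ^ i := by rw [hzu]; group
        rwa [e] at h4
      rw [hCdef, Subgroup.mem_centralizer_singleton_iff]
      have h5 := h3.pow_right i
      rw [← pow_mul] at h5
      have e : y ^ (i * i) = y := by
        conv_rhs => rw [← pow_one y]
        apply pow_eq_pow_iff_modEq.2
        rw [hyo]
        show i * i % 3 = 1 % 3
        rcases (show i = 1 ∨ i = 2 by omega) with rfl | rfl <;> rfl
      rw [e] at h5
      exact h5.eq
    have h6 := hC9 _ h2 (P.2.map _)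
    rw [Subgroup.card_map_of_injective (MulAut.conj u⁻¹).injective] at h6
    omega
  rw [pow_zero, one_mul] at hij
  rcases (show j = 0 ∨ j = 1 ∨ j = 2 by omega) with rfl | rfl | rfl
  · rw [pow_zero, mul_inv_eq_one, mul_eq_left] at hij
    simp [hij] at hzo
  · rw [pow_one] at hij
    have hFz : g' • fixedBy Ω z = fixedBy Ω z := by rw [← fixedBy_conj, hij]
    have hFy : g' • fixedBy Ω y = fixedBy Ω y := by
      rw [← fixedBy_conj, hg'y, MulAction.fixedBy_inv]
    have hgb : g' • b = b := by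
      have h1 : g' • b ∈ g' • (fixedBy Ω y ∩ fixedBy Ω z) :=
        Set.smul_mem_smul_set (hb.symm ▸ Set.mem_singleton b)
      rw [Set.smul_set_inter, hFz, hFy, hb] at h1
      exact h1
    exact ne_inv_of_odd (hodd g' b hgb) hyo hg'y
  · exact hzr g' (hij.trans (eq_inv_of_mul_eq_one_left (by
      rw [← pow_succ, show 2 + 1 = orderOf z from hzo.symm, pow_orderOf_eq_one])))

end Pair

section Perms

theorem perm_three_comm : ∀ σ τ : Equiv.Perm (Fin 3), σ ^ 3 = 1 → τ ^ 3 = 1 → σ * τ = τ * σ := by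
  decide

theorem perm_four_comm : ∀ σ τ : Equiv.Perm (Fin 4), σ ^ 3 = 1 → τ ^ 3 = 1 →
    ∀ i, σ i = i → τ i = i → σ * τ = τ * σ := by
  decide +kernel

theorem perm_pow_three_of_odd {α : Type*} [Fintype α] [DecidableEq α]
    (hα : Fintype.card α ≤ 4) (σ : Equiv.Perm α) (h : Odd (orderOf σ)) : σ ^ 3 = 1 := by
  apply orderOf_dvd_iff_pow_eq_one.1
  have h1 : orderOf σ ∣ (Fintype.card α).factorial := by
    rw [← Fintype.card_perm]; exact orderOf_dvd_card
  have h2 : orderOf σ ∣ 8 * 3 := h1.trans (Nat.factorial_dvd_factorial hα)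
  exact (Nat.Coprime.dvd_of_dvd_mul_left
    ((Nat.coprime_pow_right_iff (by norm_num : 0 < 3) _ 2).2 h.coprime_two_right) h2)

/-- Odd-order elements on a set of three points, or of four points with a common fixed point,
commute in their action. -/
theorem perm_comm {α : Type*} [Finite α] (σ τ : Equiv.Perm α) (hσ : Odd (orderOf σ))
    (hτ : Odd (orderOf τ))
    (h : Nat.card α = 3 ∨ (Nat.card α = 4 ∧ ∃ b, σ b = b ∧ τ b = b)) : σ * τ = τ * σ := by
  classical
  let _ := Fintype.ofFinite α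
  rw [Nat.card_eq_fintype_card] at h
  rcases h with h | ⟨h, b, hb1, hb2⟩
  · let f : Equiv.Perm α →* Equiv.Perm (Fin 3) :=
      (Fintype.equivFinOfCardEq h).permCongrHom.toMonoidHom
    apply (Fintype.equivFinOfCardEq h).permCongrHom.injective
    show f (σ * τ) = f (τ * σ)
    rw [map_mul, map_mul]
    exact perm_three_comm _ _
      (by rw [← map_pow, perm_pow_three_of_odd (by omega) σ hσ, map_one])
      (by rw [← map_pow, perm_pow_three_of_odd (by omega) τ hτ, map_one])
  · let f : Equiv.Perm α →* Equiv.Perm (Fin 4) :=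
      (Fintype.equivFinOfCardEq h).permCongrHom.toMonoidHom
    apply (Fintype.equivFinOfCardEq h).permCongrHom.injective
    show f (σ * τ) = f (τ * σ)
    rw [map_mul, map_mul]
    refine perm_four_comm _ _
      (by rw [← map_pow, perm_pow_three_of_odd (by omega) σ hσ, map_one])
      (by rw [← map_pow, perm_pow_three_of_odd (by omega) τ hτ, map_one])
      (Fintype.equivFinOfCardEq h b) ?_ ?_ <;>
      simp [f, hb1, hb2]

end Perms

section Main

variable {G Ω : Type*} [Group G] [Finite G] [MulAction G Ω] [FaithfulSMul G Ω] [Finite Ω]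

theorem ncard_fixedBy_modEq (p : ℕ) [Fact p.Prime] {x : G} (hx : x ^ p = 1) :
    Nat.card Ω ≡ (fixedBy Ω x).ncard [MOD p] := by
  have h := CfsgLib.Components2.TwentyTwo.modEq_fixed (MulAction.toPerm x : Equiv.Perm Ω) p
    (by rw [← MulAction.toPermHom_apply, ← map_pow, hx, map_one]) Set.univ (fun _ _ => trivial)
  rw [Set.ncard_univ] at h
  convert h using 2
  ext y
  simp [MulAction.mem_fixedBy]

/-- A simple group of fixity four with point stabilizers of odd order divisible by three has a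
strongly 3-embedded subgroup unless its Sylow three-subgroups are elementary of order nine. -/
theorem odd_case [IsSimpleGroup G] (hna : ¬ IsMulCommutative G) (htrans : IsPretransitive G Ω)
    (hfix : ∀ g : G, g ≠ 1 → (fixedBy Ω g).ncard ≤ 4)
    (hodd : ∀ (g : G) (b : Ω), g • b = b → Odd (orderOf g))
    (h3 : ∃ (x : G) (b : Ω), orderOf x = 3 ∧ x • b = b) (P : Sylow 3 G)
    (hP : ¬ (Nat.card (P : Subgroup G) = 9 ∧ ∀ s ∈ (P : Subgroup G), s ^ 3 = 1)) :
    ∃ H : Subgroup G, H ≠ ⊤ ∧ 3 ∣ Nat.card H ∧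
      ∀ g : G, g ∉ H → ¬ 3 ∣ Nat.card ↥(H ⊓ H.map (MulAut.conj g).toMonoidHom) := by
  classical
  have : Fact (Nat.Prime 3) := ⟨Nat.prime_three⟩
  obtain ⟨x₀, b₀, hx₀, hb₀⟩ := h3
  have hpne : ∀ Q : Sylow 3 G, (Q : Subgroup G) ≠ ⊥ := fun Q =>
    Q.ne_bot_of_dvd_card (hx₀ ▸ orderOf_dvd_natCard x₀)
  by_cases hcyc : ∃ z ∈ (P : Subgroup G), orderOf z = 3 ∧
      ∀ y ∈ (P : Subgroup G), orderOf y = 3 → y ∈ Subgroup.zpowers z
  · -- a unique subgroup of order three
    obtain ⟨z, hzP, hzo, huniq⟩ := hcyc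
    have hz3 : Nat.card (Subgroup.zpowers z) = 3 := by rw [Nat.card_zpowers, hzo]
    set Z := Subgroup.zpowers z with hZ
    set H := Subgroup.normalizer (Z : Set G) with hH
    have hPH : (P : Subgroup G) ≤ H := by
      intro s hs
      rw [hH, Subgroup.mem_normalizer_iff]
      have key : ∀ s ∈ (P : Subgroup G), ∀ e ∈ Z, s * e * s⁻¹ ∈ Z := by
        rintro s hs e ⟨i, rfl⟩
        show s * z ^ i * s⁻¹ ∈ Z
        rw [← conj_zpow]
        exact Z.zpow_mem (huniq _ ((P : Subgroup G).mul_mem ((P : Subgroup G).mul_mem hs hzP)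
          (inv_mem hs)) (by
            rw [← hzo]; exact orderOf_injective (MulAut.conj s).toMonoidHom (MulAut.conj s).injective z)) i
      exact fun e => ⟨key s hs e, fun h => by simpa [mul_assoc] using key s⁻¹ (inv_mem hs) _ h⟩
    have hkey : ∀ w ∈ H, orderOf w = 3 → w ∈ Z := by
      intro w hw hwo
      obtain ⟨k, hk, hkw⟩ :=
        exists_conj_mem_of_sylow_le H (P.subtype hPH) hw ⟨1, by rw [hwo, pow_one]⟩
      rw [Sylow.coe_subtype, Subgroup.map_subgroupOf_eq_of_le hPH] at hkw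
      have := huniq _ hkw (by
        rw [← hwo]; exact orderOf_injective (MulAut.conj k).toMonoidHom (MulAut.conj k).injective w)
      exact (Subgroup.mem_normalizer_iff.1 hk w).2 this
    refine ⟨H, ?_, ?_, fun g hg hdvd => hg ?_⟩
    · intro htop
      have hn : Z.Normal := Subgroup.normalizer_eq_top_iff.1 (hH ▸ htop)
      rcases IsSimpleGroup.eq_bot_or_eq_top_of_normal Z hn with h | h
      · rw [h, Subgroup.card_bot] at hz3; omega
      · exact hna (by
          have : IsCyclic G := ⟨⟨z, fun y => Subgroup.mem_zpowers_iff.1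
            (show y ∈ Z by rw [h]; exact Subgroup.mem_top y)⟩⟩
          exact IsCyclic.isMulCommutative)
    · rw [← hzo, ← Subgroup.orderOf_mk z (hPH hzP)]
      exact orderOf_dvd_natCard _
    obtain ⟨w, hw⟩ := exists_prime_orderOf_dvd_card' 3 hdvd
    have hwo : orderOf (w : G) = 3 := by rw [Subgroup.orderOf_coe, hw]
    obtain ⟨hwH, y, hy, hyw⟩ := w.2
    have hyo : orderOf y = 3 := by
      rw [← hwo, ← hyw]; exact (orderOf_injective _ (MulAut.conj g).injective y).symm
    have h1 : Subgroup.zpowers (w : G) = Z :=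
      Subgroup.eq_of_le_of_card_ge (Subgroup.zpowers_le.2 (hkey _ hwH hwo))
        (by rw [hz3, Nat.card_zpowers, hwo])
    have h2 : Subgroup.zpowers y = Z :=
      Subgroup.eq_of_le_of_card_ge (Subgroup.zpowers_le.2 (hkey _ hy hyo))
        (by rw [hz3, Nat.card_zpowers, hyo])
    have h4 : Z.map (MulAut.conj g).toMonoidHom = Z := by
      conv_lhs => rw [← h2]
      rw [MonoidHom.map_zpowers, ← h1, ← hyw]
    rw [hH, Subgroup.mem_normalizer_iff]
    intro e
    constructor
    · intro he; rw [← h4]; exact ⟨e, he, rfl⟩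
    · intro he
      rw [← h4] at he
      obtain ⟨e', he', heq⟩ := he
      rwa [← (MulAut.conj g).injective heq]
  -- the Sylow subgroup has order at least 27
  have h27 : 27 ≤ Nat.card (P : Subgroup G) := by
    obtain ⟨k, hk⟩ := P.2.exists_card_eq
    by_contra hlt
    have hk3 : k < 3 := by
      by_contra h
      have h3' : 3 ^ 3 ≤ 3 ^ k := Nat.pow_le_pow_right (by norm_num) (by omega)
      omega
    obtain ⟨z, hzP, hzo⟩ := exists_orderOf P.2 (hpne P)
    have hcycQ : IsCyclic (P : Subgroup G) → False := by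
      intro hc
      refine hcyc ⟨z, hzP, hzo, fun y hy hyo => ?_⟩
      let _ := Fintype.ofFinite (P : Subgroup G)
      have hle := IsCyclic.card_pow_eq_one_le (α := (P : Subgroup G)) (n := 3) (by norm_num)
      let A : Finset (P : Subgroup G) := Finset.univ.filter (fun s => s ^ 3 = 1)
      let B : Finset (P : Subgroup G) :=
        Finset.univ.filter (fun s => (s : G) ∈ Subgroup.zpowers z)
      have hBA : B ⊆ A := by
        intro s hs
        simp only [A, B, Finset.mem_filter, Finset.mem_univ, true_and] at hs ⊢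
        apply Subtype.ext
        have h1 := Subgroup.orderOf_mk (s : G) hs
        have h2 : orderOf (s : G) ∣ 3 := by
          have e3 : Nat.card (Subgroup.zpowers z) = 3 := by rw [Nat.card_zpowers, hzo]
          rw [← h1]
          exact (orderOf_dvd_natCard _).trans (dvd_of_eq e3)
        simpa using orderOf_dvd_iff_pow_eq_one.1 h2
      have hBcard : B.card = 3 := by
        have e3 : Nat.card (Subgroup.zpowers z) = 3 := by rw [Nat.card_zpowers, hzo]
        refine Eq.trans ?_ e3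
        rw [← Nat.card_eq_finsetCard]
        exact Nat.card_congr
          { toFun := fun s => ⟨((s : (P : Subgroup G)) : G), (Finset.mem_filter.1 s.2).2⟩
            invFun := fun e => ⟨⟨(e : G), (Subgroup.zpowers_le.2 hzP) e.2⟩,
              Finset.mem_filter.2 ⟨Finset.mem_univ _, e.2⟩⟩
            left_inv := fun s => rfl
            right_inv := fun e => rfl }
      have hAB : B = A := Finset.eq_of_subset_of_card_le hBA (by rw [hBcard]; exact hle)
      have hyA : (⟨y, hy⟩ : (P : Subgroup G)) ∈ A := by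
        simp only [A, Finset.mem_filter, Finset.mem_univ, true_and]
        apply Subtype.ext
        simp [← hyo, pow_orderOf_eq_one]
      rw [← hAB] at hyA
      exact (Finset.mem_filter.1 hyA).2
    rcases (show k = 0 ∨ k = 1 ∨ k = 2 by omega) with rfl | rfl | rfl
    · exact hpne P (Subgroup.card_eq_one.1 (by simpa using hk))
    · exact hcycQ (isCyclic_of_prime_card (p := 3) (by simpa using hk))
    · refine hP ⟨by simpa using hk, fun s hs => ?_⟩
      by_contra hne
      have hd : orderOf (⟨s, hs⟩ : (P : Subgroup G)) ∣ 3 ^ 2 := hk ▸ orderOf_dvd_natCard _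
      obtain ⟨i, hi, hio⟩ := (Nat.dvd_prime_pow Nat.prime_three).1 hd
      rw [Subgroup.orderOf_mk] at hio
      rcases (show i = 2 ∨ i ≤ 1 by omega) with rfl | hi1
      · exact hcycQ (isCyclic_of_orderOf_eq_card (⟨s, hs⟩ : (P : Subgroup G))
          (by rw [Subgroup.orderOf_mk, hio, hk]))
      · apply hne
        apply orderOf_dvd_iff_pow_eq_one.1
        rw [hio]
        exact (pow_dvd_pow 3 hi1).trans (by norm_num)
  -- fixed points of elements of order three
  have hne1 : ∀ x : G, orderOf x = 3 → x ≠ 1 := fun x hx h => by simp [h] at hx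
  have hpow3 : ∀ x : G, orderOf x = 3 → x ^ 3 = 1 := fun x hx => hx ▸ pow_orderOf_eq_one x
  have hmod : ∀ x : G, orderOf x = 3 → (fixedBy Ω x).ncard % 3 = Nat.card Ω % 3 := fun x hx =>
    (ncard_fixedBy_modEq 3 (hpow3 x hx)).symm
  have hle : ∀ x : G, orderOf x = 3 → (fixedBy Ω x).ncard ≤ 4 := fun x hx => hfix x (hne1 x hx)
  have hun : ∀ x : G, orderOf x = 3 → fixedBy Ω x ≠ Set.univ := fun x hx h =>
    hne1 x hx (eq_of_smul_eq_smul (α := Ω) fun b => by
      rw [one_smul]; exact (h ▸ Set.mem_univ b : b ∈ fixedBy Ω x))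
  have hconjP : ∀ (Q : Sylow 3 G) (x : G), orderOf x = 3 →
      ∃ g : G, g * x * g⁻¹ ∈ (Q : Subgroup G) := by
    intro Q x hx
    obtain ⟨Q', hQ'⟩ := (IsPGroup.of_card (p := 3) (n := 1)
      (by rw [Nat.card_zpowers, hx, pow_one]) : IsPGroup 3 (Subgroup.zpowers x)).exists_le_sylow
    obtain ⟨g, hg⟩ := MulAction.exists_smul_eq G Q' Q
    refine ⟨g, ?_⟩
    rw [← hg]
    exact ⟨x, hQ' (Subgroup.mem_zpowers x), rfl⟩
  have hconjo : ∀ (g x : G), orderOf (g * x * g⁻¹) = orderOf x := fun g x =>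
    orderOf_injective (MulAut.conj g).toMonoidHom (MulAut.conj g).injective x
  have hconjn : ∀ (g x : G), (fixedBy Ω (g * x * g⁻¹)).ncard = (fixedBy Ω x).ncard := fun g x => by
    rw [fixedBy_conj, Set.ncard_smul_set]
  have hx0ne : (fixedBy Ω x₀).ncard ≠ 0 := fun h =>
    (Set.ncard_ne_zero_of_mem (show b₀ ∈ fixedBy Ω x₀ from hb₀)) h
  have hfixP : ∀ (Q : Sylow 3 G), ∀ x ∈ (Q : Subgroup G),
      fixedPoints (Q : Subgroup G) Ω ⊆ fixedBy Ω x := fun Q x hx b hb => hb ⟨x, hx⟩
  have hPmod : ∀ Q : Sylow 3 G,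
      (fixedPoints (Q : Subgroup G) Ω).ncard % 3 = Nat.card Ω % 3 := fun Q => by
    rw [← Nat.card_coe_set_eq]
    exact (Q.2.card_modEq_card_fixedPoints Ω).symm
  have hmodw : ∀ w ∈ (P : Subgroup G), (fixedBy Ω w).ncard % 3 = Nat.card Ω % 3 := by
    intro w hw
    have h := (P.2.to_le (Subgroup.zpowers_le.2 hw)).card_modEq_card_fixedPoints Ω
    rw [Nat.card_coe_set_eq] at h
    refine Eq.trans ?_ h.symm
    congr 2
    ext b
    refine ⟨fun hb e => ?_, fun hb => hb ⟨w, Subgroup.mem_zpowers w⟩⟩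
    obtain ⟨e, i, rfl⟩ := e
    exact (Subgroup.zpow_mem (stabilizer G b) hb i : w ^ i ∈ stabilizer G b)
  -- residue two
  by_cases h2 : Nat.card Ω % 3 = 2
  · have hΦ : ∀ x ∈ (P : Subgroup G), orderOf x = 3 →
        fixedBy Ω x = fixedPoints (P : Subgroup G) Ω := by
      intro x hx hxo
      refine (Set.eq_of_subset_of_ncard_le (hfixP P x hx) ?_ (Set.toFinite _)).symm
      have := hmod x hxo; have := hle x hxo; have := hPmod P
      omega
    obtain ⟨z, hz, hzo⟩ := exists_orderOf P.2 (hpne P)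
    refine strongly_embedded_of_fixed 3 P (hpne P) ?_ ?_ hΦ
    · apply Set.nonempty_of_ncard_ne_zero
      have := hPmod P; omega
    · rw [← hΦ z hz hzo]; exact hun z hzo
  -- fixed point numbers are `k` and `k - 3`
  obtain ⟨k, hk, hk01⟩ : ∃ k : ℕ, (k = 3 ∨ k = 4) ∧ k % 3 = Nat.card Ω % 3 :=
    ⟨if Nat.card Ω % 3 = 0 then 3 else 4, by split <;> simp, by split <;> omega⟩
  have hk2 : ∀ x : G, orderOf x = 3 →
      (fixedBy Ω x).ncard = k ∨ (fixedBy Ω x).ncard = k - 3 := by
    intro x hx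
    have := hmod x hx; have := hle x hx
    omega
  -- all elements of order three fixing `k` points: some exist unless the claim holds
  by_cases hall : ∀ x ∈ (P : Subgroup G), orderOf x = 3 → (fixedBy Ω x).ncard ≠ k
  · have hk4 : k = 4 := by
      by_contra hne
      obtain ⟨g, hg⟩ := hconjP P x₀ hx₀
      have h1 := hall _ hg (by rw [hconjo, hx₀])
      rw [hconjn] at h1
      have := hk2 x₀ hx₀
      omega
    have hΦ : ∀ x ∈ (P : Subgroup G), orderOf x = 3 →
        fixedBy Ω x = fixedPoints (P : Subgroup G) Ω := by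
      intro x hx hxo
      refine (Set.eq_of_subset_of_ncard_le (hfixP P x hx) ?_ (Set.toFinite _)).symm
      have := hk2 x hxo; have := hall x hx hxo; have := hPmod P
      omega
    obtain ⟨z, hz, hzo⟩ := exists_orderOf P.2 (hpne P)
    refine strongly_embedded_of_fixed 3 P (hpne P) ?_ ?_ hΦ
    · apply Set.nonempty_of_ncard_ne_zero
      have := hPmod P; omega
    · rw [← hΦ z hz hzo]; exact hun z hzo
  push_neg at hall
  by_cases hPk : k = 4 ∧ (fixedPoints (P : Subgroup G) Ω).ncard ≠ 1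
  · have hΦ : ∀ x ∈ (P : Subgroup G), orderOf x = 3 →
        fixedBy Ω x = fixedPoints (P : Subgroup G) Ω := by
      intro x hx hxo
      refine (Set.eq_of_subset_of_ncard_le (hfixP P x hx) ?_ (Set.toFinite _)).symm
      have := hle x hxo; have := hPmod P
      omega
    obtain ⟨z, hz, hzo⟩ := exists_orderOf P.2 (hpne P)
    refine strongly_embedded_of_fixed 3 P (hpne P) ?_ ?_ hΦ
    · apply Set.nonempty_of_ncard_ne_zero
      have := hPmod P; omega
    · rw [← hΦ z hz hzo]; exact hun z hzo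
  -- the unique fixed point of a Sylow subgroup when `k = 4`
  have hPone : ∀ Q : Sylow 3 G, k = 4 → ∃ b, fixedPoints (Q : Subgroup G) Ω = {b} := by
    intro Q hk4
    have h1 : (fixedPoints (P : Subgroup G) Ω).ncard = 1 := by
      by_contra h; exact hPk ⟨hk4, h⟩
    obtain ⟨g, hg⟩ := MulAction.exists_smul_eq G P Q
    have h2 : fixedPoints (Q : Subgroup G) Ω = g • fixedPoints (P : Subgroup G) Ω := by
      ext b
      rw [Set.mem_smul_set_iff_inv_smul_mem]
      constructor
      · intro hb s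
        have hm : g * (s : G) * g⁻¹ ∈ (Q : Subgroup G) := by
          rw [← hg]; exact ⟨s, s.2, rfl⟩
        have h3 : (g * (s : G) * g⁻¹) • b = b := hb ⟨_, hm⟩
        show (s : G) • g⁻¹ • b = g⁻¹ • b
        rw [mul_smul, mul_smul, eq_inv_smul_iff.symm] at h3
        exact h3
      · intro hb q
        obtain ⟨s, hs, hsq⟩ : (q : G) ∈ (P : Subgroup G).map (MulAut.conj g).toMonoidHom :=
          (hg.symm ▸ fun x hx => hx :
            ∀ x : G, x ∈ (Q : Subgroup G) → x ∈ ((g • P : Sylow 3 G) : Subgroup G)) q q.2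
        have h3 : s • g⁻¹ • b = g⁻¹ • b := hb ⟨s, hs⟩
        show (q : G) • b = b
        rw [← hsq]
        show (g * s * g⁻¹) • b = b
        rw [mul_smul, mul_smul, h3, smul_inv_smul]
    rw [← Set.ncard_eq_one, h2, Set.ncard_smul_set]
    exact h1
  -- elements of the pointwise stabiliser of a `k`-set
  have hexact : ∀ (Φ : Set Ω), Φ.ncard = k → ∀ (Q : Subgroup G), IsPGroup 3 Q →
      ∀ g ∈ Q, g ∈ fixingSubgroup G Φ → g ≠ 1 → fixedBy Ω g = Φ := by
    intro Φ hΦ Q hQ g hgQ hg hg1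
    obtain ⟨m, hm⟩ := exists_pow_orderOf (mem_orderOf_pow hQ hgQ) hg1
    have h1 := subset_fixedBy_of_fixing hg
    have h2 : Φ ⊆ fixedBy Ω (g ^ m) := h1.trans (fixedBy_subset_pow g m)
    have h3' := Set.ncard_le_ncard h2 (Set.toFinite _)
    have h4 := hk2 _ hm
    have h5 : Φ = fixedBy Ω (g ^ m) :=
      Set.eq_of_subset_of_ncard_le h2 (by omega) (Set.toFinite _)
    exact Set.Subset.antisymm (h5 ▸ fixedBy_subset_pow g m) h1
  -- elements with a fixed set of size `k` are not inverted when `k = 3`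
  have hstab3 : k = 3 → ∀ Φ : Set Ω, Φ.ncard = k → ∀ g ∈ stabilizer G Φ, Odd (orderOf g) := by
    intro hk3 Φ hΦ g hg
    by_contra hev
    rw [Nat.not_odd_iff_even] at hev
    set t := g ^ (orderOf g / 2) with ht
    have hto : orderOf t = 2 := by
      rw [ht, orderOf_pow_orderOf_div (orderOf_pos g).ne' (even_iff_two_dvd.1 hev)]
    have htΦ : t ∈ stabilizer G Φ := Subgroup.pow_mem _ hg _
    have : Fact (Nat.Prime 2) := ⟨Nat.prime_two⟩
    have h := CfsgLib.Components2.TwentyTwo.modEq_fixed (MulAction.toPerm t : Equiv.Perm Ω) 2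
      (by rw [← MulAction.toPermHom_apply, ← map_pow, ← hto, pow_orderOf_eq_one, map_one]) Φ
      (fun y hy => (smul_mem_iff_of_stab htΦ y).2 hy)
    rw [hΦ, hk3] at h
    obtain ⟨y, hy⟩ : ({y | y ∈ Φ ∧ (MulAction.toPerm t : Equiv.Perm Ω) y = y}).Nonempty := by
      apply Set.nonempty_of_ncard_ne_zero
      intro h0
      rw [h0] at h
      exact absurd h (by decide)
    have := hodd t y hy.2
    rw [hto] at this
    exact absurd this (by decide)
  have hnr3 : k = 3 → ∀ y : G, orderOf y = 3 → (fixedBy Ω y).ncard = k →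
      ∀ g : G, g * y * g⁻¹ ≠ y⁻¹ := by
    intro hk3 y hyo hy g hg
    have hg' : g ∈ stabilizer G (fixedBy Ω y) := by
      rw [mem_stabilizer_iff, ← fixedBy_conj, hg, MulAction.fixedBy_inv]
    exact ne_inv_of_odd (hstab3 hk3 _ hy g hg') hyo hg
  -- the quotient bound
  have hquot : ∀ (Φ : Set Ω), Φ.ncard = k → ∀ D : Subgroup G, IsPGroup 3 D → D ≤ stabilizer G Φ →
      Nat.card D ≤ 3 * Nat.card ↥(D ⊓ fixingSubgroup G Φ) := by
    intro Φ hΦ D hD hDle
    have h1 := card_dvd_fixing_mul Φ hDle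
    rw [hΦ] at h1
    obtain ⟨i, hi⟩ := hD.exists_card_eq
    obtain ⟨j, hj⟩ := (hD.to_le inf_le_left : IsPGroup 3 ↥(D ⊓ fixingSubgroup G Φ)).exists_card_eq
    rw [hi, hj] at h1 ⊢
    have h2 : 3 ^ i ∣ 3 ^ j * (3 * 8) := h1.trans (Nat.mul_dvd_mul_left _ (by
      rcases hk with rfl | rfl <;> norm_num [Nat.factorial]))
    rw [← mul_assoc] at h2
    have h4 := (Nat.Coprime.pow_left i (by norm_num : Nat.Coprime 3 8)).dvd_of_dvd_mul_right h2
    rw [mul_comm]
    exact Nat.le_of_dvd (Nat.mul_pos (pow_pos (by norm_num) j) (by norm_num)) h4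
  by_cases hA : ∃ z ∈ (P : Subgroup G), orderOf z = 3 ∧ (∀ y ∈ (P : Subgroup G), y * z = z * y) ∧
      (fixedBy Ω z).ncard = k
  · -- a central element fixing `k` points
    obtain ⟨z, hzP, hzo, hzc, hzk⟩ := hA
    set Φ := fixedBy Ω z with hΦ
    have hPΦ : (P : Subgroup G) ≤ stabilizer G Φ := fun s hs => commute_mem_stabilizer (hzc s hs)
    have hΦne : Φ.Nonempty := Set.nonempty_of_ncard_ne_zero (by omega)
    by_cases hsame : ∀ y ∈ (P : Subgroup G), orderOf y = 3 → fixedBy Ω y = Φ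
    · exact strongly_embedded_of_fixed 3 P (hpne P) hΦne (hun z hzo) hsame
    have hzmem : z ∈ fixingSubgroup G Φ :=
      (mem_fixingSubgroup_iff_subset_fixedBy G).2 subset_rfl
    have hzr : ∀ g : G, g * z * g⁻¹ ≠ z⁻¹ := by
      rcases hk with hk3 | hk4
      · exact hnr3 hk3 z hzo hzk
      · intro g hg
        obtain ⟨n, hn, hnz⟩ := P.conj_eq_normalizer_conj_of_mem_centralizer z g⁻¹
          (Subgroup.mem_centralizer_iff.2 fun s hs => hzc s hs)
          (Subgroup.mem_centralizer_iff.2 fun s hs => by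
            rw [inv_inv, hg]
            exact (Commute.inv_right (show Commute s z from hzc s hs)).eq)
        rw [inv_inv, hg] at hnz
        obtain ⟨b, hb⟩ := hPone P hk4
        have hnb : n • b = b := by
          have : n • b ∈ fixedPoints (P : Subgroup G) Ω := by
            intro s
            have hm : n⁻¹ * (s : G) * n ∈ (P : Subgroup G) :=
              (Subgroup.mem_normalizer_iff'.1 hn _).2 (by simpa [mul_assoc] using s.2)
            show (s : G) • n • b = n • b
            have h4 : (n⁻¹ * (s : G) * n) • b = b := (hb.symm ▸ Set.mem_singleton b :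
              b ∈ fixedPoints (P : Subgroup G) Ω) ⟨_, hm⟩
            rw [mul_smul, mul_smul, inv_smul_eq_iff] at h4
            exact h4
          rwa [hb] at this
        refine ne_inv_of_odd (g := n⁻¹) (by rw [orderOf_inv]; exact hodd n b hnb) hzo ?_
        rw [inv_inv]; exact hnz.symm
    by_cases hy : ∃ y ∈ (P : Subgroup G), orderOf y = 3 ∧ y ∉ fixingSubgroup G Φ ∧
        (fixedBy Ω y).ncard = k
    · -- a second element with `k` fixed points
      obtain ⟨y, hyP, hyo, hyR, hyk⟩ := hy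
      have hyz : y ∉ Subgroup.zpowers z := fun h => hyR (Subgroup.zpowers_le.2 hzmem h)
      have hyneq : fixedBy Ω y ≠ Φ := fun h =>
        hyR ((mem_fixingSubgroup_iff_subset_fixedBy G).2 h.ge)
      have hYne : (fixedBy Ω y \ Φ).Nonempty := by
        by_contra h
        rw [Set.not_nonempty_iff_eq_empty, Set.diff_eq_empty] at h
        exact hyneq (Set.eq_of_subset_of_ncard_le h (by omega) (Set.toFinite _))
      have hYle : (fixedBy Ω y \ Φ).ncard ≤ 3 := by
        rcases hk with hk3 | hk4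
        · exact (Set.ncard_le_ncard Set.diff_subset (Set.toFinite _)).trans (by omega)
        · obtain ⟨b, hb⟩ := hPone P hk4
          have hbP : b ∈ fixedPoints (P : Subgroup G) Ω := hb.symm ▸ Set.mem_singleton b
          have hlt : (fixedBy Ω y \ Φ).ncard < (fixedBy Ω y).ncard :=
            Set.ncard_lt_ncard ⟨Set.diff_subset, fun h => (h (hfixP P y hyP hbP)).2
              (hfixP P z hzP hbP)⟩ (Set.toFinite _)
          omega
      have hC : ∀ D : Subgroup G,
          D ≤ Subgroup.centralizer ({y} : Set G) ⊓ Subgroup.centralizer ({z} : Set G) →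
          IsPGroup 3 D → Nat.card D ≤ 9 := by
        intro D hD hD3
        have hDΦ : D ≤ stabilizer G Φ := fun d hd =>
          centralizer_le_stabilizer z (hD hd).2
        have h1 := hquot Φ hzk D hD3 hDΦ
        have h2 : Nat.card ↥(D ⊓ fixingSubgroup G Φ) ≤ 3 := by
          refine le_trans (card_le_of_free (P := ↥(D ⊓ fixingSubgroup G Φ))
            (hD3.to_le inf_le_left) (fixedBy Ω y \ Φ) ?_ ?_ hYne) hYle
          · intro d w hw
            have hdy : (d : G) ∈ stabilizer G (fixedBy Ω y) :=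
              centralizer_le_stabilizer y (hD d.2.1).1
            exact ⟨(smul_mem_iff_of_stab hdy w).2 hw.1, fun h =>
              hw.2 ((smul_mem_iff_of_stab (hDΦ d.2.1) w).1 h)⟩
          · intro d w hw hdw
            by_contra hd1
            have h5 := hexact Φ hzk D hD3 d d.2.1 d.2.2 (fun h => hd1 (Subtype.ext h))
            exact hw.2 (h5 ▸ (hdw : w ∈ fixedBy Ω (d : G)))
        omega
      have hC9 := centralizer_le_nine P h27 y z hyP hzP hyo hzo hzc hyz hC hzr
      have hnr : ∀ g : G, g * y * g⁻¹ ≠ y⁻¹ := by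
        rcases hk with hk3 | hk4
        · exact hnr3 hk3 y hyo hyk
        · obtain ⟨b, hb⟩ := hPone P hk4
          have hbP : b ∈ fixedPoints (P : Subgroup G) Ω := hb.symm ▸ Set.mem_singleton b
          refine nonreal_of_pair hodd P h27 y z hyP hzP hyo hzo hzc hyz hC9 hzr b ?_
          have hyΦ : y ∈ stabilizer G Φ := hPΦ hyP
          have h := CfsgLib.Components2.TwentyTwo.modEq_fixed (MulAction.toPerm y : Equiv.Perm Ω) 3
            (by rw [← MulAction.toPermHom_apply, ← map_pow, hpow3 y hyo, map_one]) Φ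
            (fun w hw => (smul_mem_iff_of_stab hyΦ w).2 hw)
          have heq : {w | w ∈ Φ ∧ (MulAction.toPerm y : Equiv.Perm Ω) w = w}
              = fixedBy Ω y ∩ Φ := by ext w; simp [MulAction.mem_fixedBy, and_comm]
          rw [heq, hzk, hk4] at h
          have hlt : (fixedBy Ω y ∩ Φ).ncard < 4 := by
            by_contra h4
            exact hyneq ((Set.eq_of_subset_of_ncard_le Set.inter_subset_left (by omega)
              (Set.toFinite _)).symm.trans
              (Set.eq_of_subset_of_ncard_le Set.inter_subset_right (by omega) (Set.toFinite _)))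
          have h1 : (fixedBy Ω y ∩ Φ).ncard % 3 = 1 := h.symm
          refine (Set.eq_of_subset_of_ncard_le ?_ ?_ (Set.toFinite _)).symm
          · rintro _ rfl
            exact ⟨hfixP P y hyP hbP, hfixP P z hzP hbP⟩
          · rw [Set.ncard_singleton]
            change (fixedBy Ω y ∩ Φ).ncard ≤ 1
            omega
      exact (false_of_centralizer_nine hna P h27 y hyP hyo hC9 hnr).elim
    · -- the fusion respects the action on the fixed set
      exfalso
      push_neg at hy hsame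
      obtain ⟨y₀, hy₀P, hy₀o, hy₀Φ⟩ := hsame
      have hRk : ∀ u ∈ (P : Subgroup G), u ∈ fixingSubgroup G Φ → u ≠ 1 →
          (fixedBy Ω u).ncard = k := fun u hu hR h1 => by rw [hexact Φ hzk _ P.2 u hu hR h1, hzk]
      have hout : ∀ u ∈ (P : Subgroup G), u ∉ fixingSubgroup G Φ →
          (fixedBy Ω u).ncard ≠ k := by
        intro u hu huR hcard
        have hu1 : u ≠ 1 := fun h => huR (h ▸ one_mem _)
        obtain ⟨m, hm⟩ := exists_pow_orderOf (mem_orderOf_pow P.2 hu) hu1
        have h1 : (fixedBy Ω (u ^ m)).ncard = k := by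
          have := Set.ncard_le_ncard (fixedBy_subset_pow (Ω := Ω) u m) (Set.toFinite _)
          have := hk2 _ hm
          omega
        by_cases hmR : u ^ m ∈ fixingSubgroup G Φ
        · have h5 := hexact Φ hzk _ P.2 _ ((P : Subgroup G).pow_mem hu m) hmR (hne1 _ hm)
          have h6 : fixedBy Ω u = Φ := Set.eq_of_subset_of_ncard_le
            (h5 ▸ fixedBy_subset_pow u m) (by omega) (Set.toFinite _)
          exact huR ((mem_fixingSubgroup_iff_subset_fixedBy G).2 h6.ge)
        · exact hy _ ((P : Subgroup G).pow_mem hu m) hm hmR h1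
      let f : (P : Subgroup G) →* Equiv.Perm Φ := (permOn Φ).comp (Subgroup.inclusion hPΦ)
      have hf1 : ∀ u : (P : Subgroup G), f u = 1 ↔ (u : G) ∈ fixingSubgroup G Φ := fun u =>
        permOn_eq_one_iff Φ _
      have hy₀R : y₀ ∉ fixingSubgroup G Φ := fun h =>
        hy₀Φ (hexact Φ hzk _ P.2 y₀ hy₀P h (hne1 _ hy₀o))
      refine no_fusion_invariant_hom hna P f ⟨⟨y₀, hy₀P⟩, fun h => hy₀R ((hf1 _).1 h)⟩ ?_
      intro u v g hv
      by_cases hu1 : (u : G) = 1
      · have : v = u := Subtype.ext (by simp [hv, hu1])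
        rw [this]
      by_cases huR : (u : G) ∈ fixingSubgroup G Φ
      · rw [(hf1 u).2 huR, eq_comm, hf1]
        by_contra hvR
        refine hout v v.2 hvR ?_
        rw [hv, hconjn]
        exact hRk u u.2 huR hu1
      by_cases hvR : (v : G) ∈ fixingSubgroup G Φ
      · exfalso
        refine hout u u.2 huR ?_
        rw [← hconjn g, ← hv]
        exact hRk v v.2 hvR (fun h => hu1 (by
          rw [h] at hv
          exact conj_eq_one_iff.1 hv.symm))
      -- both outside
      set C := Subgroup.centralizer ({(v : G)} : Set G) with hC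
      have hzv : z ∈ C :=
        Subgroup.mem_centralizer_singleton_iff.2 (hzc v v.2).symm
      have hz'v : g * z * g⁻¹ ∈ C := by
        rw [hC, Subgroup.mem_centralizer_singleton_iff, hv]
        exact (Commute.map (show Commute z (u : G) from (hzc u u.2).symm) (MulAut.conj g).toMonoidHom).eq
      obtain ⟨N, hN⟩ := ((IsPGroup.of_card (p := 3) (n := 1)
        (by rw [Nat.card_zpowers, hzo, pow_one]) : IsPGroup 3 (Subgroup.zpowers z)).comap_of_injective
          C.subtype C.subtype_injective).exists_le_sylow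
      obtain ⟨c, hc, hcz⟩ := exists_conj_mem_of_sylow_le C N hz'v ⟨1, by rw [hconjo, hzo, pow_one]⟩
      obtain ⟨Q, hQ⟩ := (N.2.map C.subtype).exists_le_sylow
      obtain ⟨h, hh⟩ := MulAction.exists_smul_eq G Q P
      have hzQ : h * z * h⁻¹ ∈ (P : Subgroup G) := by
        rw [← hh]; exact ⟨z, hQ ⟨⟨z, hzv⟩, hN (Subgroup.mem_zpowers z), rfl⟩, rfl⟩
      set h' := c * g with hh'
      have hczQ : h * (h' * z * h'⁻¹) * h⁻¹ ∈ (P : Subgroup G) := by
        rw [← hh]; refine ⟨h' * z * h'⁻¹, hQ ?_, rfl⟩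
        have e : h' * z * h'⁻¹ = c * (g * z * g⁻¹) * c⁻¹ := by rw [hh']; group
        rw [e]; exact hcz
      have hkP : ∀ w ∈ (P : Subgroup G), orderOf w = 3 → (fixedBy Ω w).ncard = k →
          fixedBy Ω w = Φ := by
        intro w hw hwo hwk
        by_cases hwR : w ∈ fixingSubgroup G Φ
        · exact hexact Φ hzk _ P.2 w hw hwR (hne1 _ hwo)
        · exact absurd hwk (hy w hw hwo hwR)
      have e1 := hkP _ hzQ (by rw [hconjo, hzo]) (by rw [hconjn, hzk])
      have e2 := hkP _ hczQ (by rw [hconjo, hconjo, hzo]) (by rw [hconjn, hconjn, hzk])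
      rw [fixedBy_conj] at e1
      rw [fixedBy_conj, fixedBy_conj] at e2
      have hh'Φ : h' ∈ stabilizer G Φ := by
        rw [mem_stabilizer_iff]
        exact smul_left_cancel h (e2.trans e1.symm)
      have hvh : h' * (u : G) * h'⁻¹ = v := by
        have hcv : Commute c (v : G) := Subgroup.mem_centralizer_singleton_iff.1 hc
        calc h' * (u : G) * h'⁻¹ = c * (g * u * g⁻¹) * c⁻¹ := by rw [hh']; group
          _ = v := by rw [← hv, hcv.eq, mul_inv_cancel_right]
      let F : ↥(stabilizer G Φ) →* Equiv.Perm Φ := permOn Φ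
      set U : ↥(stabilizer G Φ) := ⟨u, hPΦ u.2⟩ with hU
      set K : ↥(stabilizer G Φ) := ⟨h', hh'Φ⟩ with hK
      have hfu : f u = F U := rfl
      have hfv : f v = F K * F U * (F K)⁻¹ := by
        rw [← map_inv, ← map_mul, ← map_mul]
        exact congrArg F (Subtype.ext hvh.symm)
      have hoddU : Odd (orderOf (F U)) := by
        refine Odd.of_dvd_nat ?_ ((orderOf_map_dvd F U).trans
          (dvd_of_eq (Subgroup.orderOf_coe U).symm))
        exact odd_of_three_group P.2 u.2
      have hcomm : F K * F U = F U * F K := by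
        rcases hk with hk3 | hk4
        · refine perm_comm _ _ ?_ hoddU (Or.inl (by rw [Nat.card_coe_set_eq, hzk, hk3]))
          refine Odd.of_dvd_nat (hstab3 hk3 Φ hzk h' hh'Φ)
            ((orderOf_map_dvd F K).trans (dvd_of_eq (Subgroup.orderOf_coe K).symm))
        · obtain ⟨b, hb⟩ := hPone P hk4
          have hbP : b ∈ fixedPoints (P : Subgroup G) Ω := hb.symm ▸ Set.mem_singleton b
          have hF1 : ∀ w ∈ (P : Subgroup G), w ∉ fixingSubgroup G Φ → fixedBy Ω w = {b} := by
            intro w hw hwR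
            refine (Set.eq_of_subset_of_ncard_le (Set.singleton_subset_iff.2 (hfixP P w hw hbP)) ?_
              (Set.toFinite _)).symm
            have hw1 : w ≠ 1 := fun h => hwR (h ▸ one_mem _)
            obtain ⟨m, hm⟩ := exists_pow_orderOf (mem_orderOf_pow P.2 hw) hw1
            rw [Set.ncard_singleton]
            have h1 := hmodw w hw
            have h2' := hfix w hw1
            have h3' := hout w hw hwR
            have h4' : (fixedBy Ω w).ncard ≠ 0 :=
              Set.ncard_ne_zero_of_mem (hfixP P w hw hbP)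
            omega
          have hu_b := hF1 u u.2 huR
          have hv_b := hF1 v v.2 hvR
          have hh'b : h' • b = b := by
            have : h' • b ∈ fixedBy Ω (v : G) := by
              rw [← hvh, fixedBy_conj]
              exact Set.smul_mem_smul_set (hu_b.symm ▸ Set.mem_singleton b)
            rwa [hv_b] at this
          refine perm_comm _ _ ?_ hoddU (Or.inr ⟨by rw [Nat.card_coe_set_eq, hzk, hk4],
            ⟨b, hfixP P z hzP hbP⟩, Subtype.ext hh'b, Subtype.ext (hfixP P u u.2 hbP)⟩)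
          exact Odd.of_dvd_nat (hodd h' b hh'b)
            ((orderOf_map_dvd F K).trans (dvd_of_eq (Subgroup.orderOf_coe K).symm))
      rw [hfu, hfv, hcomm, mul_inv_cancel_right]
  · -- no central element fixes `k` points
    push_neg at hA
    exfalso
    obtain ⟨x, hxP, hxo, hxk⟩ := hall
    set Φ := fixedBy Ω x with hΦ
    obtain ⟨Q, N, hQN⟩ := exists_sylow_inf (p := 3) (stabilizer G Φ)
    obtain ⟨h, hhΦ, hx'⟩ := exists_conj_mem_of_sylow_le (stabilizer G Φ) N
      (centralizer_le_stabilizer x (Subgroup.mem_centralizer_singleton_iff.2 rfl))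
      ⟨1, by rw [hxo, pow_one]⟩
    rw [hQN] at hx'
    set x' := h * x * h⁻¹ with hx'def
    have hx'o : orderOf x' = 3 := by rw [hx'def, hconjo, hxo]
    have hx'F : fixedBy Ω x' = Φ := by
      rw [hx'def, fixedBy_conj]; exact mem_stabilizer_iff.1 hhΦ
    have hx'k : (fixedBy Ω x').ncard = k := by rw [hx'F]; exact hxk
    have hQ27 : 27 ≤ Nat.card (Q : Subgroup G) := by
      rw [Q.card_eq_multiplicity, ← P.card_eq_multiplicity]; exact h27
    have hAQ : ∀ z ∈ (Q : Subgroup G), orderOf z = 3 →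
        (∀ y ∈ (Q : Subgroup G), y * z = z * y) → (fixedBy Ω z).ncard ≠ k := by
      intro z hz hzo hzc
      obtain ⟨g, hg⟩ := MulAction.exists_smul_eq G Q P
      rw [← hconjn g z]
      refine hA _ (by rw [← hg]; exact ⟨z, hz, rfl⟩) (by rw [hconjo, hzo]) ?_
      intro y hy
      rw [← hg] at hy
      obtain ⟨y', hy', rfl⟩ := hy
      exact (Commute.map (show Commute y' z from hzc y' hy') (MulAut.conj g).toMonoidHom).eq
    set N0 := (Q : Subgroup G) ⊓ stabilizer G Φ with hN0
    set R := N0 ⊓ fixingSubgroup G Φ with hR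
    have hN03 : IsPGroup 3 N0 := Q.2.to_le inf_le_left
    have hx'R : x' ∈ R := Subgroup.mem_inf.2
      ⟨hx', (mem_fixingSubgroup_iff_subset_fixedBy G).2 hx'F.ge⟩
    have hRne : R ≠ ⊥ := fun e => hne1 x' hx'o (Subgroup.mem_bot.1 (e ▸ hx'R))
    have hRnorm : ∀ y ∈ N0, ∀ r ∈ R, y * r * y⁻¹ ∈ R := fun y hy r hr => Subgroup.mem_inf.2
      ⟨N0.mul_mem (N0.mul_mem hy hr.1) (inv_mem hy), conj_mem_fixing hy.2 hr.2⟩
    have hlt : N0.subgroupOf (Q : Subgroup G) < ⊤ := by
      refine lt_top_iff_ne_top.2 fun e => ?_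
      have hle' : (Q : Subgroup G) ≤ N0 := Subgroup.subgroupOf_eq_top.1 e
      obtain ⟨z, hzR, hzo, hzc⟩ := exists_central_in Q.2 (inf_le_left.trans inf_le_left) hRne
        (fun y hy => hRnorm y (hle' hy))
      exact hAQ z hzR.1.1 hzo hzc
        (by rw [hexact Φ hxk _ hN03 z hzR.1 hzR.2 (hne1 _ hzo)]; exact hxk)
    have := Q.2.isNilpotent
    obtain ⟨-, g, hgN, hgN0⟩ := SetLike.lt_iff_le_and_exists.1
      (Group.normalizerCondition_of_isNilpotent _ hlt)
    have hgΦ : (g : G) • Φ ≠ Φ := fun e =>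
      hgN0 (Subgroup.mem_inf.2 ⟨g.2, mem_stabilizer_iff.2 e⟩)
    set R2 := R.map (MulAut.conj (g : G)).toMonoidHom with hR2
    have hR2N : R2 ≤ N0 := by
      rintro _ ⟨r, hr, rfl⟩
      exact (Subgroup.mem_normalizer_iff.1 hgN ⟨r, hr.1.1⟩).1 hr.1
    have hdisj : R ⊓ R2 = ⊥ := by
      rw [Subgroup.eq_bot_iff_forall]
      rintro w ⟨hw, r, hr, rfl⟩
      by_contra hw1
      have h1 := hexact Φ hxk _ hN03 _ hw.1 hw.2 hw1
      have h2' := hexact Φ hxk _ hN03 r hr.1 hr.2 (fun e => hw1 (by rw [e, map_one]))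
      apply hgΦ
      calc (g : G) • Φ = (g : G) • fixedBy Ω r := by rw [h2']
        _ = fixedBy Ω ((g : G) * r * (g : G)⁻¹) := (fixedBy_conj _ _).symm
        _ = Φ := h1
    have hcardR2 : Nat.card R2 = Nat.card R :=
      Subgroup.card_map_of_injective (MulAut.conj (g : G)).injective
    have hmul := CfsgLib.TwoFusion.KleinFactor.card_mul_le_of_inf_bot
      (inf_le_left : R ≤ N0) hR2N hdisj
    have hN0le := hquot Φ hxk N0 hN03 inf_le_right
    have hRpos : 0 < Nat.card R := Nat.card_pos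
    have hR3 : Nat.card R ≤ 3 := by
      rw [hcardR2] at hmul
      by_contra h4
      change Nat.card N0 ≤ 3 * Nat.card R at hN0le
      have : Nat.card R * 4 ≤ Nat.card R * Nat.card R := Nat.mul_le_mul_left _ (by omega)
      have h5 := (hmul.trans hN0le)
      nlinarith
    have hN09 : Nat.card N0 ≤ 9 := le_trans hN0le (Nat.mul_le_mul_left 3 hR3)
    have hC9 : ∀ D : Subgroup G, D ≤ Subgroup.centralizer ({x'} : Set G) → IsPGroup 3 D →
        Nat.card D ≤ 9 := by
      intro D hD hD3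
      have hDle : D ≤ stabilizer G Φ := fun d hd => hx'F ▸ centralizer_le_stabilizer x' (hD hd)
      have := card_le_of_sylow (stabilizer G Φ) N hDle hD3
      rw [hQN] at this
      exact (Nat.le_of_dvd Nat.card_pos this).trans hN09
    refine false_of_centralizer_nine hna Q hQ27 x' hx'.1 hx'o hC9 ?_
    rcases hk with hk3 | hk4
    · exact hnr3 hk3 x' hx'o hx'k
    obtain ⟨z, hzQ, hzo, hzc⟩ := exists_central_orderOf Q.2 (hpne Q)
    obtain ⟨b, hb⟩ := hPone Q hk4
    have hbQ : b ∈ fixedPoints (Q : Subgroup G) Ω := hb.symm ▸ Set.mem_singleton b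
    have hzF : fixedBy Ω z = {b} := by
      refine (Set.eq_of_subset_of_ncard_le (Set.singleton_subset_iff.2 (hfixP Q z hzQ hbQ)) ?_
        (Set.toFinite _)).symm
      have := hk2 z hzo; have := hAQ z hzQ hzo hzc
      rw [Set.ncard_singleton]; omega
    have hzr : ∀ g : G, g * z * g⁻¹ ≠ z⁻¹ := by
      intro g hg
      have hgb : g • b = b := by
        have : g • b ∈ fixedBy Ω z⁻¹ := by
          rw [← hg, fixedBy_conj]
          exact Set.smul_mem_smul_set (hzF.symm ▸ Set.mem_singleton b)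
        rw [MulAction.fixedBy_inv, hzF] at this
        exact this
      exact ne_inv_of_odd (hodd g b hgb) hzo hg
    have hx'z : x' ∉ Subgroup.zpowers z := by
      intro hmem
      apply hAQ x' hx'.1 hx'o ?_ hx'k
      intro y hy
      obtain ⟨i, hi⟩ := Subgroup.mem_zpowers_iff.1 hmem
      rw [← hi]
      exact (Commute.zpow_right (show Commute y z from hzc y hy) i).eq
    refine nonreal_of_pair hodd Q hQ27 x' z hx'.1 hzQ hx'o hzo hzc hx'z hC9 hzr b ?_
    rw [hzF, Set.inter_eq_right, Set.singleton_subset_iff]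
    exact hfixP Q x' hx'.1 hbQ

end Main

end CfsgLib.Spectrum.FixFour
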