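/-
Groups of fixity four with involutions fixing four points and degree divisible by eight.
-/
import Cfsg.Agent.Lib.Spectrum.FixityFourTwoBasic
import Cfsg.Agent.S1235
import Mathlib

set_option autoImplicit false
open MulAction
open scoped Pointwise

namespace CfsgLib.Spectrum.FixFour

/-- Five distinct elements of a subgroup. -/
theorem four_lt_card {G : Type*} [Group G] [Finite G] {E : Subgroup G} {z w u : G} (hz : z ∈ E)
    (hw : w ∈ E) (hu : u ∈ E) (a1 : 1 ≠ z) (a2 : 1 ≠ w) (a3 : z ≠ w) (a4 : 1 ≠ z * w)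
    (a5 : z ≠ z * w) (a6 : w ≠ z * w) (a7 : 1 ≠ u) (a8 : z ≠ u) (a9 : w ≠ u) (a10 : z * w ≠ u) :
    4 < Nat.card E := by
  classical
  have hsub : (({1, z, w, z * w, u} : Finset G) : Set G) ⊆ (E : Set G) := by
    intro x hx
    simp only [Finset.coe_insert, Finset.coe_singleton, Set.mem_insert_iff,
      Set.mem_singleton_iff] at hx
    rcases hx with rfl | rfl | rfl | rfl | rfl
    exacts [E.one_mem, hz, hw, E.mul_mem hz hw, hu]
  have h := Set.ncard_le_ncard hsub (Set.toFinite _)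
  rw [Set.ncard_coe_finset, ← Nat.card_coe_set_eq] at h
  have hc : ({1, z, w, z * w, u} : Finset G).card = 5 := by
    rw [Finset.card_insert_of_notMem (by simp [a1, a2, a4, a7]),
      Finset.card_insert_of_notMem (by simp [a3, a5, a8]),
      Finset.card_insert_of_notMem (by simp [a6, a9]),
      Finset.card_insert_of_notMem (by simp [a10]), Finset.card_singleton]
  rw [hc] at h
  exact h

variable {G Ω : Type*} [Group G] [Finite G] [MulAction G Ω] [FaithfulSMul G Ω] [Finite Ω]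

set_option maxHeartbeats 1000000 in
/-- The degree is divisible by eight. -/
theorem Four.case_eight [IsSimpleGroup G] (hF : Four G Ω) (h8 : 8 ∣ Nat.card Ω)
    (ht : ∃ t : G, orderOf t = 2 ∧ (fixedBy Ω t).ncard = 4) : Cfsg.SectionalPRankLE 2 4 G := by
  classical
  have : Fact (Nat.Prime 2) := ⟨Nat.prime_two⟩
  obtain ⟨t₀, ht₀, ht₀4⟩ := ht
  set Φ := fixedBy Ω t₀ with hΦ
  set H := stabilizer G Φ with hH
  obtain ⟨P, N', hPN⟩ := exists_sylow_inf (p := 2) H
  have hΦ4 : Nat.card Φ = 4 := by rw [Nat.card_coe_set_eq]; exact ht₀4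
  set N := (P : Subgroup G) ⊓ H with hN
  set R := N ⊓ fixingSubgroup G Φ with hR
  have hN2 : IsPGroup 2 N := P.2.to_le inf_le_left
  have hR2 : IsPGroup 2 R := hN2.to_le inf_le_left
  obtain ⟨h, hhH, hht⟩ := exists_conj_mem_of_sylow_le H N'
    (centralizer_le_stabilizer t₀ (Subgroup.mem_centralizer_singleton_iff.2 rfl))
    ⟨1, by rw [ht₀, pow_one]⟩
  rw [hPN] at hht
  set t := h * t₀ * h⁻¹ with htdef
  have hto : orderOf t = 2 := by rw [htdef, orderOf_conj_eq, ht₀]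
  have htF : fixedBy Ω t = Φ := by rw [htdef, fixedBy_conj]; exact mem_stabilizer_iff.1 hhH
  have htR : t ∈ R := Subgroup.mem_inf.2
    ⟨hht, (mem_fixingSubgroup_iff_subset_fixedBy G).2 htF.ge⟩
  have hexact : ∀ r ∈ R, r ≠ 1 → fixedBy Ω r = Φ := fun r hr hr1 =>
    hF.exact_fix hR2 ht₀4 hr hr.2 hr1
  have hStab : ∀ r ∈ R, r ≠ 1 → ∀ g : G, g * r = r * g → g ∈ H := fun r hr hr1 g hc => by
    show g ∈ stabilizer G Φ
    rw [← hexact r hr hr1]
    exact commute_mem_stabilizer hc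
  have hCN : ∀ r ∈ R, r ≠ 1 → ∀ g ∈ (P : Subgroup G), g * r = r * g → g ∈ N := fun r hr hr1 g hg hc =>
    Subgroup.mem_inf.2 ⟨hg, hStab r hr hr1 g hc⟩
  have hrN : ∀ r ∈ R, ∀ y ∈ N, y * r * y⁻¹ ∈ R := fun r hr y hy => Subgroup.mem_inf.2
    ⟨N.mul_mem (N.mul_mem hy hr.1) (N.inv_mem hy), conj_mem_fixing hy.2 hr.2⟩
  have hfree : ∀ r ∈ R, ∀ a, a ∉ Φ → r • a = a → r = 1 := fun r hr a ha hra => by
    by_contra hr1
    exact ha (hexact r hr hr1 ▸ (hra : a ∈ fixedBy Ω r))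
  have hcompl : ((Φ)ᶜ : Set Ω).ncard = Nat.card Ω - 4 := by
    rw [Set.ncard_compl Φ (Set.toFinite _), ht₀4]
  have hge : 8 ≤ Nat.card Ω := by
    have h1 : 4 ≤ Nat.card Ω := by
      rw [← ht₀4, ← Set.ncard_univ]
      exact Set.ncard_le_ncard (Set.subset_univ _) (Set.toFinite _)
    omega
  have hRdvd : Nat.card R ∣ Nat.card Ω - 4 := by
    rw [← hcompl]
    refine card_dvd_of_free (P := R) hR2 _ ?_ ?_
    · intro r a ha e
      exact ha ((smul_mem_iff_of_stab (fixing_le_stabilizer Φ r.2.2) a).1 e)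
    · intro r a ha hra
      exact Subtype.ext (hfree r r.2 a ha hra)
  obtain ⟨j, hj⟩ := hR2.exists_card_eq
  have hj2 : j ≤ 2 := by
    by_contra hj3
    have h1 : 8 ∣ Nat.card Ω - 4 := by
      refine Nat.dvd_trans ?_ (hj ▸ hRdvd)
      exact (show (8 : ℕ) = 2 ^ 3 by norm_num) ▸ pow_dvd_pow 2 (by omega)
    omega
  have hj1 : 1 ≤ j := by
    by_contra h0
    rw [show j = 0 by omega, pow_zero] at hj
    exact (orderOf_two_iff.1 hto).2 (Subgroup.mem_bot.1 (Subgroup.card_eq_one.1 hj ▸ htR))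
  have hRsq : ∀ r ∈ R, r * r = 1 := by
    intro r hr
    have hd : orderOf r ∣ 4 := by
      rw [← Subgroup.orderOf_mk r hr]
      refine (orderOf_dvd_natCard _).trans ?_
      rw [hj]
      exact (show (4 : ℕ) = 2 ^ 2 by norm_num) ▸ pow_dvd_pow 2 hj2
    by_contra hrr
    have ho : orderOf r = 4 := by
      rcases (Nat.dvd_prime_pow Nat.prime_two).1 (show orderOf r ∣ 2 ^ 2 by simpa using hd) with
        ⟨i, hi, hio⟩
      rcases (show i ≤ 1 ∨ i = 2 by omega) with h | h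
      · exfalso; apply hrr
        rw [← pow_two]
        exact orderOf_dvd_iff_pow_eq_one.1 (hio ▸ by simpa using pow_dvd_pow 2 h)
      · rw [hio, h]; norm_num
    let _ := Fintype.ofFinite Φ
    obtain ⟨-, h2⟩ := cycles_sign hF.nc r Φ (fixing_le_stabilizer Φ hr.2) (by rw [ho]; decide)
      (fun a ha m hm => hfree _ (R.pow_mem hr m) a ha hm)
    rw [(permOn_eq_one_iff Φ _).2 hr.2, map_one, one_mul, ht₀4, ho] at h2
    have := neg_one_pow_even h2
    rw [Nat.even_iff] at this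
    omega
  have hN8 : Nat.card N ≤ 8 * Nat.card R := hF.quot_bound ht₀4 hN2 inf_le_right
  have hNne : R ≠ ⊥ := fun e => (orderOf_two_iff.1 hto).2 (Subgroup.mem_bot.1 (e ▸ htR))
  rcases (show j = 1 ∨ j = 2 by omega) with rfl | rfl
  · -- `R` has order two
    rw [pow_one] at hj
    refine rank_of_involution_sylow P (u := t) hht.1 hto fun E hEP hE2 hEt hE4 => ?_
    obtain ⟨E', hE', hE'2⟩ := exists_adjoin (F := E) hE2 (orderOf_two_iff.1 hto).1 hEt
    have htE' : t ∈ E' := (hE' t).2 (Or.inr (by rw [(orderOf_two_iff.1 hto).1]; exact E.one_mem))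
    have hEE' : E ≤ E' := fun e he => (hE' e).2 (Or.inl he)
    have hE'P : E' ≤ (P : Subgroup G) := by
      intro e he
      rcases (hE' e).1 he with h | h
      · exact hEP h
      · simpa using (P : Subgroup G).mul_mem (hEP h) ((P : Subgroup G).inv_mem hht.1)
    have hE'N : E' ≤ N := fun e he => hCN t htR (orderOf_two_iff.1 hto).2 e (hE'P he)
      (CfsgLib.TwoFusion.KleinFactor.comm_of_sq hE'2 he htE')
    have hK : Nat.card ↥(E' ⊓ fixingSubgroup G Φ) ≤ 2 := by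
      rw [← hj]
      exact Subgroup.card_le_of_le fun e he => Subgroup.mem_inf.2 ⟨hE'N he.1, he.2⟩
    obtain ⟨h8', hself⟩ := Four.eight_self hΦ4 (Q := (P : Subgroup G)) hE'P hE'2
      (hE'N.trans inf_le_right) (lt_of_lt_of_le hE4 (Subgroup.card_le_of_le hEE')) hK
      (fun g hg hc => (hCN t htR (orderOf_two_iff.1 hto).2 g hg (hc t htE')).2)
      (fun r hr hrf hc => by
        have hrR : r ∈ R := Subgroup.mem_inf.2
          ⟨hCN t htR (orderOf_two_iff.1 hto).2 r hr (hc t htE'), hrf⟩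
        have hle : Subgroup.zpowers t ≤ R := Subgroup.zpowers_le.2 htR
        have heq := Subgroup.eq_of_le_of_card_ge hle (by rw [Nat.card_zpowers, hto, hj])
        exact (Subgroup.zpowers_le.2 htE') (heq ▸ hrR))
    exact ⟨E', hE'P, hE'2, h8', hself⟩
  -- `R` is a four-group
  norm_num at hj
  by_cases hPN' : (P : Subgroup G) ≤ N
  · refine rank_of_sylow P (rank_of_elementary_free_thirtyTwo ?_ fun hall => ?_)
    · exact le_trans (Subgroup.card_le_of_le hPN') (by omega)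
    · by_contra hbig
      have hbig' : 16 < Nat.card (P : Subgroup G) := not_le.1 hbig
      have hK : Nat.card ↥((P : Subgroup G) ⊓ fixingSubgroup G Φ) ≤ 4 := by
        rw [← hj]
        exact Subgroup.card_le_of_le fun e he => Subgroup.mem_inf.2 ⟨hPN' he.1, he.2⟩
      have := (Four.klein_image (E := (P : Subgroup G))
        (fun e he => congrArg Subtype.val (hall ⟨e, he⟩)) (hPN'.trans inf_le_right) hΦ4
        (by omega)).1
      omega
  have hlt : N.subgroupOf (P : Subgroup G) < ⊤ :=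
    lt_top_iff_ne_top.2 fun e => hPN' (Subgroup.subgroupOf_eq_top.1 e)
  have := P.2.isNilpotent
  obtain ⟨-, g, hgN, hgN0⟩ := SetLike.lt_iff_le_and_exists.1
    (Group.normalizerCondition_of_isNilpotent _ hlt)
  have hgΦ : (g : G) • Φ ≠ Φ := fun e =>
    hgN0 (Subgroup.mem_inf.2 ⟨g.2, mem_stabilizer_iff.2 e⟩)
  have hgnorm : ∀ x ∈ N, (g : G) * x * (g : G)⁻¹ ∈ N := fun x hx =>
    (Subgroup.mem_normalizer_iff.1 hgN ⟨x, hx.1⟩).1 hx
  set V := R.map (MulAut.conj (g : G)).toMonoidHom with hV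
  have hVN : V ≤ N := by rintro _ ⟨r, hr, rfl⟩; exact hgnorm r hr.1
  have hV4 : Nat.card V = 4 := by
    rw [hV, Subgroup.card_map_of_injective (MulAut.conj (g : G)).injective, hj]
  have hV2 : ∀ v ∈ V, v * v = 1 := by
    rintro _ ⟨r, hr, rfl⟩
    rw [← map_mul, hRsq r hr, map_one]
  have hVfix : ∀ v ∈ V, v ≠ 1 → fixedBy Ω v = (g : G) • Φ := by
    rintro _ ⟨r, hr, rfl⟩ h1
    rw [← hexact r hr (fun e => h1 (by rw [e, map_one]))]
    exact fixedBy_conj _ _
  have hgNmap : N.map (MulAut.conj (g : G)).toMonoidHom = N := by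
    refine Subgroup.eq_of_le_of_card_ge ?_
      (le_of_eq (Subgroup.card_map_of_injective (MulAut.conj (g : G)).injective).symm)
    rintro _ ⟨x, hx, rfl⟩
    exact hgnorm x hx
  have hVnorm : ∀ v ∈ V, ∀ y ∈ N, y * v * y⁻¹ ∈ V := by
    rintro _ ⟨r, hr, rfl⟩ y hy
    rw [← hgNmap] at hy
    obtain ⟨x, hx, rfl⟩ := hy
    exact ⟨x * r * x⁻¹, hrN r hr x hx, by simp [mul_assoc]⟩
  have hRV : ∀ v ∈ V, v ∈ fixingSubgroup G Φ → v = 1 := by
    intro v hv hvf
    by_contra h1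
    apply hgΦ
    rw [← hVfix v hv h1]
    exact hexact v (Subgroup.mem_inf.2 ⟨hVN hv, hvf⟩) h1
  have hcomm : ∀ r ∈ R, ∀ v ∈ V, r * v = v * r := by
    intro r hr v hv
    have e1 : r * v * r⁻¹ * v⁻¹ ∈ V := V.mul_mem (hVnorm v hv r hr.1) (V.inv_mem hv)
    have e2 : r * v * r⁻¹ * v⁻¹ ∈ R := by
      rw [show r * v * r⁻¹ * v⁻¹ = r * (v * r⁻¹ * v⁻¹) by group]
      exact R.mul_mem hr (hrN _ (R.inv_mem hr) v (hVN hv))
    exact mul_inv_eq_iff_eq_mul.1 (mul_inv_eq_one.1 (hRV _ e1 e2.2))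
  set I : N →* Equiv.Perm (Fin 4) := (img Φ hΦ4).comp (Subgroup.inclusion inf_le_right) with hI
  have hI1 : ∀ n : N, I n = 1 ↔ (n : G) ∈ fixingSubgroup G Φ := fun n => img_eq_one_iff Φ hΦ4 _
  have hinv2 : ∀ v ∈ V, v ≠ 1 → orderOf v = 2 := fun v hv h1 =>
    orderOf_two_iff.2 ⟨hV2 v hv, h1⟩
  have hVdbl : ∀ (v : G) (hv : v ∈ V), v ≠ 1 → IsDbl (I ⟨v, hVN hv⟩) := by
    intro v hv h1
    show IsDbl (img Φ hΦ4 ⟨v, (hVN hv).2⟩)
    rw [img_dbl_iff Φ hΦ4 _ (hV2 v hv), ← Set.not_nonempty_iff_eq_empty]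
    intro hne
    have h2 := hF.swap_bound ht₀4 (hinv2 v hv h1) (hVN hv).2 (fun e => h1 (hRV v hv e)) hne
      (D := R) hR2 inf_le_right
      (fun r hr => Subgroup.mem_centralizer_singleton_iff.2 (hcomm r hr v hv))
    omega
  have hVinj : ∀ (v : G) (hv : v ∈ V) (w : G) (hw : w ∈ V),
      I ⟨v, hVN hv⟩ = I ⟨w, hVN hw⟩ → v = w := by
    intro v hv w hw e
    have h1 : I (⟨v, hVN hv⟩ * ⟨w, hVN hw⟩⁻¹) = 1 := by rw [map_mul, map_inv, e, mul_inv_cancel]
    rw [hI1] at h1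
    exact mul_inv_eq_one.1 (hRV _ (V.mul_mem hv (V.inv_mem hw)) h1)
  obtain ⟨a, b, ha, hb, ha1, hb1, hab⟩ : ∃ a b : G, a ∈ V ∧ b ∈ V ∧ a ≠ 1 ∧ b ≠ 1 ∧ a ≠ b := by
    let _ := Fintype.ofFinite V
    have hc : 1 < (Finset.univ.erase (1 : V)).card := by
      rw [Finset.card_erase_of_mem (Finset.mem_univ _), Finset.card_univ,
        ← Nat.card_eq_fintype_card, hV4]
      norm_num
    obtain ⟨a, ha, b, hb, hab⟩ := Finset.one_lt_card.1 hc
    exact ⟨a, b, a.2, b.2, fun e => Finset.ne_of_mem_erase ha (Subtype.ext e),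
      fun e => Finset.ne_of_mem_erase hb (Subtype.ext e), fun e => hab (Subtype.ext e)⟩
  have hdblV : ∀ σ, IsDbl σ → ∃ (v : G) (hv : v ∈ V), v ≠ 1 ∧ I ⟨v, hVN hv⟩ = σ := by
    intro σ hσ
    rcases p4_dbl_unique _ _ σ (hVdbl a ha ha1) (hVdbl b hb hb1)
      (fun e => hab (hVinj a ha b hb e)) hσ with e | e | e
    · exact ⟨a, ha, ha1, e.symm⟩
    · exact ⟨b, hb, hb1, e.symm⟩
    · refine ⟨a * b, V.mul_mem ha hb, fun e' => hab ?_, ?_⟩
      · exact (eq_inv_of_mul_eq_one_left e').trans (eq_inv_of_mul_eq_one_left (hV2 b hb)).symm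
      · rw [e, ← map_mul]; rfl
  by_cases hM : ∀ n : N, I n = 1 ∨ IsDbl (I n)
  · -- `N` is elementary of order sixteen
    have hdec : ∀ n ∈ N, ∃ r ∈ R, ∃ v ∈ V, n = r * v := by
      intro n hn
      rcases hM ⟨n, hn⟩ with e | e
      · exact ⟨n, Subgroup.mem_inf.2 ⟨hn, (hI1 _).1 e⟩, 1, V.one_mem, (mul_one n).symm⟩
      · obtain ⟨v, hv, -, hv'⟩ := hdblV _ e
        refine ⟨n * v⁻¹, Subgroup.mem_inf.2 ⟨N.mul_mem hn (N.inv_mem (hVN hv)), ?_⟩, v, hv,
          (inv_mul_cancel_right n v).symm⟩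
        have h1 : I (⟨n, hn⟩ * ⟨v, hVN hv⟩⁻¹) = 1 := by rw [map_mul, map_inv, hv', mul_inv_cancel]
        exact (hI1 _).1 h1
    have hcent : ∀ r ∈ R, N ≤ Subgroup.centralizer ({r} : Set G) := by
      intro r hr n hn
      obtain ⟨r', hr', v, hv, rfl⟩ := hdec n hn
      rw [Subgroup.mem_centralizer_singleton_iff]
      have h1 : r' * r = r * r' := CfsgLib.TwoFusion.KleinFactor.comm_of_sq hRsq hr' hr
      calc r' * v * r = r' * (r * v) := by rw [mul_assoc, hcomm r hr v hv]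
        _ = r * (r' * v) := by rw [← mul_assoc, h1, mul_assoc]
    have hodd : ∀ r ∈ R, r ≠ 1 → Odd (N.relIndex (Subgroup.centralizer ({r} : Set G))) := by
      intro r hr hr1
      have h1 : N.relIndex H = (N' : Subgroup H).index := by
        rw [Subgroup.relIndex]
        congr 1
        rw [← hPN, Subgroup.subgroupOf, Subgroup.comap_map_eq_self_of_injective H.subtype_injective]
      have h2 : Odd (N.relIndex H) := by
        rw [h1, ← Nat.not_even_iff_odd, even_iff_two_dvd]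
        exact N'.not_dvd_index
      have hCH : Subgroup.centralizer ({r} : Set G) ≤ H := fun c hc =>
        hStab r hr hr1 c (Subgroup.mem_centralizer_singleton_iff.1 hc)
      exact h2.of_dvd_nat
        (Dvd.intro _ (Subgroup.relIndex_mul_relIndex N _ H (hcent r hr) hCH))
    have hKlein : ∀ A : Subgroup G, (∀ a ∈ A, a * a = 1) → Nat.card A = 4 → IsKleinFour A := by
      intro A hA h4'
      have : Nontrivial A := (Finite.one_lt_card_iff_nontrivial).1 (by rw [h4']; norm_num)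
      exact ⟨h4', (Monoid.exponent_eq_prime_iff Nat.prime_two).2 fun a ha =>
        orderOf_two_iff.2 ⟨Subtype.ext (hA a a.2), ha⟩⟩
    have := hKlein V hV2 hV4
    refine Cfsg.Agent.S1235.result t hto N V R hN2 (hcent t htR)
      (hodd t htR (orderOf_two_iff.1 hto).2) ?_ ?_ (hKlein R hRsq hj)
      (fun r hr hro => ⟨hcent r hr, hodd r hr (orderOf_two_iff.1 hro).2⟩)
    · refine ⟨hVN, inf_le_left, fun v hv r hr => (hcomm r hr v hv).symm, ?_,
        le_antisymm (sup_le hVN inf_le_left) fun n hn => ?_⟩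
      · rw [Subgroup.eq_bot_iff_forall]
        exact fun x hx => hRV x hx.1 hx.2.2
      · obtain ⟨r, hr, v, hv, rfl⟩ := hdec n hn
        exact (V ⊔ R).mul_mem (Subgroup.mem_sup_right hr) (Subgroup.mem_sup_left hv)
    · exact Or.inl ⟨2, le_rfl, IsKleinFour.nonempty_mulEquiv⟩
  -- an element with the image of a transposition
  push_neg at hM
  obtain ⟨n₀, hn₀1, hn₀d⟩ := hM
  obtain ⟨s, hs⟩ : ∃ s : N, IsSwap4 (I s) := by
    have h4 : I n₀ ^ 4 = 1 := by
      apply p4_pow_eight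
      obtain ⟨k, hk⟩ := mem_orderOf_pow hN2 n₀.2
      have hd : orderOf (I n₀) ∣ 24 := by
        refine orderOf_dvd_card.trans ?_
        rw [Fintype.card_perm, Fintype.card_fin]; decide
      have hd2 : orderOf (I n₀) ∣ 2 ^ k := by
        rw [← hk, Subgroup.orderOf_coe]; exact orderOf_map_dvd I n₀
      have h8' : orderOf (I n₀) ∣ 8 :=
        (Nat.Coprime.coprime_dvd_left hd2
          (Nat.Coprime.pow_left k (by norm_num : Nat.Coprime 2 3))).dvd_of_dvd_mul_right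
          (show orderOf (I n₀) ∣ 8 * 3 from hd)
      exact orderOf_dvd_iff_pow_eq_one.1 h8'
    rcases p4_to_swap _ h4 hn₀1 hn₀d with h | ⟨σ, hσ, hsw⟩
    · exact ⟨n₀, h⟩
    · obtain ⟨v, hv, -, hv'⟩ := hdblV σ hσ
      exact ⟨n₀ * ⟨v, hVN hv⟩, by rw [map_mul, hv']; exact hsw⟩
  obtain ⟨hs2, hs1, hsfix⟩ := hs
  obtain ⟨z, hzR, hzo, hzc⟩ := exists_central_in hN2 inf_le_left hNne
    (fun y hy r hr => hrN r hr y hy)
  obtain ⟨hz2, hz1⟩ := orderOf_two_iff.1 hzo
  -- `s` does not centralise `R`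
  obtain ⟨r, hr, hrs⟩ : ∃ r ∈ R, (s : G) * r ≠ r * s := by
    by_contra hcon
    push_neg at hcon
    set C := N ⊓ Subgroup.centralizer (R : Set G) with hC
    have hsC : (s : G) ∈ C := Subgroup.mem_inf.2
      ⟨s.2, Subgroup.mem_centralizer_iff.2 fun r hr => (hcon r hr).symm⟩
    have hmem : ∀ r ∈ R, ∀ v ∈ V, r * v ∈ C := fun r hr v hv => Subgroup.mem_inf.2
      ⟨N.mul_mem hr.1 (hVN hv), Subgroup.mem_centralizer_iff.2 fun x hx => by
        rw [← mul_assoc, CfsgLib.TwoFusion.KleinFactor.comm_of_sq hRsq hx hr, mul_assoc,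
          hcomm x hx v hv, ← mul_assoc]⟩
    let f : (R × V) × Fin 2 → C := fun p => ⟨(p.1.1 : G) * p.1.2 * (s : G) ^ (p.2 : ℕ),
      C.mul_mem (hmem _ p.1.1.2 _ p.1.2.2) (C.pow_mem hsC _)⟩
    have hIm : ∀ (r : R) (v : V) (i : Fin 2) (h : (r : G) * v * (s : G) ^ (i : ℕ) ∈ N),
        I ⟨_, h⟩ = I ⟨v, hVN v.2⟩ * I s ^ (i : ℕ) := by
      intro r v i h
      have e : (⟨_, h⟩ : N) = ⟨r, r.2.1⟩ * ⟨v, hVN v.2⟩ * s ^ (i : ℕ) := Subtype.ext (by simp)
      rw [e, map_mul, map_mul, map_pow, (hI1 _).2 r.2.2, one_mul]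
    have hfinj : Function.Injective f := by
      rintro ⟨⟨r₁, v₁⟩, i₁⟩ ⟨⟨r₂, v₂⟩, i₂⟩ e
      have e' : (r₁ : G) * v₁ * (s : G) ^ (i₁ : ℕ) = r₂ * v₂ * (s : G) ^ (i₂ : ℕ) :=
        congrArg Subtype.val e
      have hm1 : (r₁ : G) * v₁ * (s : G) ^ (i₁ : ℕ) ∈ N := (f ((r₁, v₁), i₁)).2.1
      have hm2 : (r₂ : G) * v₂ * (s : G) ^ (i₂ : ℕ) ∈ N := (f ((r₂, v₂), i₂)).2.1
      have hI' : I ⟨v₁, hVN v₁.2⟩ * I s ^ (i₁ : ℕ) = I ⟨v₂, hVN v₂.2⟩ * I s ^ (i₂ : ℕ) := by
        rw [← hIm r₁ v₁ i₁ hm1, ← hIm r₂ v₂ i₂ hm2]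
        exact congrArg I (Subtype.ext e')
      have hnot : ∀ v w : V, I ⟨v, hVN v.2⟩ * I s ≠ I ⟨w, hVN w.2⟩ := by
        intro v w e''
        have e3 : I s = I (⟨v, hVN v.2⟩⁻¹ * ⟨w, hVN w.2⟩) := by
          rw [map_mul, map_inv, ← e'', inv_mul_cancel_left]
        have hvw : (v : G)⁻¹ * w ∈ V := V.mul_mem (V.inv_mem v.2) w.2
        have e4 : I s = I ⟨(v : G)⁻¹ * w, hVN hvw⟩ := e3
        by_cases h1 : (v : G)⁻¹ * w = 1
        · apply hs1
          rw [e4, (hI1 _).2 (show (v : G)⁻¹ * w ∈ fixingSubgroup G Φ by rw [h1]; exact one_mem _)]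
        · obtain ⟨i, hi⟩ := hsfix
          have h2 := hVdbl _ hvw h1
          rw [← e4] at h2
          exact h2.2 i hi
      have hii : i₁ = i₂ := by
        fin_cases i₁ <;> fin_cases i₂ <;> simp at hI' ⊢
        · exact hnot _ _ hI'.symm
        · exact hnot _ _ hI'
      subst hii
      have hv : v₁ = v₂ := Subtype.ext (hVinj _ v₁.2 _ v₂.2 (mul_right_cancel hI'))
      subst hv
      have hr' : r₁ = r₂ := Subtype.ext (mul_right_cancel (mul_right_cancel e'))
      rw [hr']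
    have h32 := Nat.card_le_card_of_injective f hfinj
    rw [Nat.card_prod, Nat.card_prod, Nat.card_fin, hV4, hj] at h32
    have hCeq : C = N := Subgroup.eq_of_le_of_card_ge inf_le_left (by omega)
    have hVc : ∀ v ∈ V, (s : G) * v = v * s := by
      rintro _ ⟨r, hr, rfl⟩
      obtain ⟨x, hx, hxs⟩ := hgNmap.ge s.2
      have hxC : x ∈ C := by rw [hCeq]; exact hx
      have hxr : Commute r x := Subgroup.mem_centralizer_iff.1 hxC.2 r hr
      rw [← hxs]
      exact (hxr.symm.map (MulAut.conj (g : G)).toMonoidHom).eq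
    refine hab (hVinj a ha b hb (p4_swap_dbl _ _ _ ⟨hs2, hs1, hsfix⟩ (hVdbl a ha ha1)
      (hVdbl b hb hb1) ?_ ?_))
    · rw [← map_mul, ← map_mul]; exact congrArg I (Subtype.ext (hVc a ha))
    · rw [← map_mul, ← map_mul]; exact congrArg I (Subtype.ext (hVc b hb))
  have hrz : z ≠ r := fun e => hrs (e ▸ hzc _ s.2)
  have hr1 : r ≠ 1 := fun e => hrs (by rw [e, mul_one, one_mul])
  have hzs : (s : G) * z = z * s := hzc _ s.2
  have hzr_s : (s : G) * (z * r) ≠ z * r * s := by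
    intro e
    rw [← mul_assoc, hzs, mul_assoc, mul_assoc] at e
    exact hrs (mul_left_cancel e)
  have hconjr : (s : G)⁻¹ * r * s = z * r := by
    have hm : (s : G)⁻¹ * r * s ∈ R := by simpa using hrN r hr _ (N.inv_mem s.2)
    rcases four_cases hRsq hj hzR hr hz1 hr1 hrz hm with e | e | e | e
    · exfalso; apply hr1
      calc r = (s : G) * ((s : G)⁻¹ * r * s) * (s : G)⁻¹ := by group
        _ = 1 := by rw [e, mul_one, mul_inv_cancel]
    · exfalso; apply hrz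
      calc z = (s : G) * z * (s : G)⁻¹ := by rw [hzs, mul_inv_cancel_right]
        _ = r := by rw [← e]; group
    · exfalso; apply hrs
      calc (s : G) * r = (s : G) * ((s : G)⁻¹ * r * s) := by rw [e]
        _ = r * s := by group
    · exact e
  have hss : (s : G) * s = 1 ∨ (s : G) * s = z := by
    have hm : (s : G) * s ∈ R := Subgroup.mem_inf.2
      ⟨N.mul_mem s.2 s.2, (hI1 (s * s)).1 (by rw [map_mul]; exact hs2)⟩
    have hc : (s : G) * ((s : G) * s) = (s : G) * s * s := (mul_assoc _ _ _).symm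
    rcases four_cases hRsq hj hzR hr hz1 hr1 hrz hm with e | e | e | e
    · exact Or.inl e
    · exact Or.inr e
    · rw [e] at hc; exact absurd hc hrs
    · rw [e] at hc; exact absurd hc hzr_s
  obtain ⟨u, hu2, huI, hucases⟩ : ∃ u : N, (u : G) * u = 1 ∧ I u = I s ∧
      ((u : G) = s ∨ (u : G) = s * r) := by
    rcases hss with e | e
    · exact ⟨s, e, rfl, Or.inl rfl⟩
    · refine ⟨s * ⟨r, hr.1⟩, ?_, by rw [map_mul, (hI1 ⟨r, hr.1⟩).2 hr.2, mul_one], Or.inr rfl⟩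
      show (s : G) * r * ((s : G) * r) = 1
      calc (s : G) * r * ((s : G) * r) = (s : G) * s * ((s : G)⁻¹ * r * s) * r := by group
        _ = z * (z * r) * r := by rw [e, hconjr]
        _ = 1 := by rw [← mul_assoc z, hz2, one_mul, hRsq r hr]
  have hu1 : (u : G) ≠ 1 := fun e => hs1 (by rw [← huI, show u = 1 from Subtype.ext e, map_one])
  have huo : orderOf (u : G) = 2 := orderOf_two_iff.2 ⟨hu2, hu1⟩
  have hCu : ∀ x ∈ R, (u : G) * x = x * u → x = 1 ∨ x = z := by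
    intro x hx hc
    have hcs : (s : G) * x = x * s := by
      rcases hucases with e | e <;> rw [e] at hc
      · exact hc
      · have h1 : (s : G) * x * r = x * s * r := by
          rw [mul_assoc, ← CfsgLib.TwoFusion.KleinFactor.comm_of_sq hRsq hr hx, ← mul_assoc, hc,
            ← mul_assoc]
        exact mul_right_cancel h1
    rcases four_cases hRsq hj hzR hr hz1 hr1 hrz hx with e | e | e | e
    · exact Or.inl e
    · exact Or.inr e
    · rw [e] at hcs; exact absurd hcs hrs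
    · rw [e] at hcs; exact absurd hcs hzr_s
  obtain ⟨σ, hσ, hσc⟩ := p4_swap_exists (I s) ⟨hs2, hs1, hsfix⟩
  obtain ⟨w, hwV, hw1, hwI⟩ := hdblV σ hσ
  have huw : (u : G) * w = w * u := by
    have e1 : (u : G) * w * (u : G)⁻¹ * w⁻¹ ∈ V :=
      V.mul_mem (hVnorm w hwV _ u.2) (V.inv_mem hwV)
    have e2 : I (u * ⟨w, hVN hwV⟩ * u⁻¹ * ⟨w, hVN hwV⟩⁻¹) = 1 := by
      rw [map_mul, map_mul, map_mul, map_inv, map_inv, huI, hwI, hσc, mul_inv_cancel_right,
        mul_inv_cancel]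
    exact mul_inv_eq_iff_eq_mul.1 (mul_inv_eq_one.1 (hRV _ e1 ((hI1 _).1 e2)))
  have hzw : z * w = w * z := hcomm z hzR w hwV
  obtain ⟨F1, hF1, hF1sq⟩ := exists_adjoin (F := (⊥ : Subgroup G))
    (fun x hx => by rw [Subgroup.mem_bot.1 hx, one_mul]) hz2
    (fun x hx => by rw [Subgroup.mem_bot.1 hx, one_mul, mul_one])
  have hF1z : ∀ x, x ∈ F1 → x = 1 ∨ x = z := fun x hx => by
    rcases (hF1 x).1 hx with h | h
    · exact Or.inl (Subgroup.mem_bot.1 h)
    · exact Or.inr ((eq_inv_of_mul_eq_one_left (Subgroup.mem_bot.1 h)).trans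
        (eq_inv_of_mul_eq_one_left hz2).symm)
  obtain ⟨F2, hF2, hF2sq⟩ := exists_adjoin (F := F1) hF1sq (hV2 w hwV) (fun x hx => by
    rcases hF1z x hx with rfl | rfl
    · rw [one_mul, mul_one]
    · exact hzw)
  have hF2z : ∀ x, x ∈ F2 → x = 1 ∨ x = z ∨ x = w ∨ x = z * w := fun x hx => by
    rcases (hF2 x).1 hx with h | h
    · rcases hF1z x h with rfl | rfl
      · exact Or.inl rfl
      · exact Or.inr (Or.inl rfl)
    · rcases hF1z _ h with e | e
      · exact Or.inr (Or.inr (Or.inl ((eq_inv_of_mul_eq_one_left e).trans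
          (eq_inv_of_mul_eq_one_left (hV2 w hwV)).symm)))
      · refine Or.inr (Or.inr (Or.inr ?_))
        rw [← e, mul_assoc, hV2 w hwV, mul_one]
  obtain ⟨E, hE, hEsq⟩ := exists_adjoin (F := F2) hF2sq hu2 (fun x hx => by
    have huz : (u : G) * z = z * u := hzc _ u.2
    rcases hF2z x hx with rfl | rfl | rfl | rfl
    · rw [one_mul, mul_one]
    · exact huz.symm
    · exact huw.symm
    · rw [mul_assoc, ← huw, ← mul_assoc, ← huz, mul_assoc])
  have hzE : z ∈ E := (hE z).2 (Or.inl ((hF2 z).2 (Or.inl ((hF1 z).2 (Or.inr (by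
    rw [hz2]; exact one_mem _))))))
  have hwE : w ∈ E := (hE w).2 (Or.inl ((hF2 w).2 (Or.inr (by rw [hV2 w hwV]; exact one_mem _))))
  have huE : (u : G) ∈ E := (hE _).2 (Or.inr (by rw [hu2]; exact one_mem _))
  have hEN : E ≤ N := by
    have hF2N : ∀ x ∈ F2, x ∈ N := fun x hx => by
      rcases hF2z x hx with rfl | rfl | rfl | rfl
      exacts [N.one_mem, hzR.1, hVN hwV, N.mul_mem hzR.1 (hVN hwV)]
    intro x hx
    rcases (hE x).1 hx with h | h
    · exact hF2N x h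
    · simpa using N.mul_mem (hF2N _ h) (N.inv_mem u.2)
  refine rank_of_involution_sylow P (u := (u : G)) u.2.1 huo fun _ _ _ _ _ => ?_
  refine ⟨E, fun x hx => (hEN hx).1, hEsq, Four.eight_self hΦ4 (Q := (P : Subgroup G))
    (fun x hx => (hEN hx).1) hEsq (hEN.trans inf_le_right) ?_ ?_ ?_ ?_⟩
  · -- five distinct elements
    have hwR : w ∉ fixingSubgroup G Φ := fun e => hw1 (hRV w hwV e)
    have hzwz : z * w ≠ z := fun e => hw1 (mul_eq_left.1 e)
    have hzww : z * w ≠ w := fun e => hz1 (mul_eq_right.1 e)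
    have hwz : w ≠ z := fun e => hwR (e ▸ hzR.2)
    have hzw1 : z * w ≠ 1 := fun e => hwz
      ((eq_inv_of_mul_eq_one_right e).trans (eq_inv_of_mul_eq_one_left hz2).symm)
    have huI' : ∀ x : N, IsDbl (I x) ∨ I x = 1 → (u : G) ≠ x := by
      intro x hx e
      have : u = x := Subtype.ext e
      rw [← this, huI] at hx
      rcases hx with h | h
      · obtain ⟨i, hi⟩ := hsfix
        exact h.2 i hi
      · exact hs1 h
    have hz_u : (u : G) ≠ z := huI' ⟨z, hzR.1⟩ (Or.inr ((hI1 _).2 hzR.2))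
    have hw_u : (u : G) ≠ w := huI' ⟨w, hVN hwV⟩ (Or.inl (hVdbl w hwV hw1))
    have hzw_u : (u : G) ≠ z * w := huI' (⟨z, hzR.1⟩ * ⟨w, hVN hwV⟩) (Or.inl (by
      rw [map_mul, (hI1 _).2 hzR.2, one_mul]; exact hVdbl w hwV hw1))
    exact four_lt_card hzE hwE huE (Ne.symm hz1) (Ne.symm hw1) hwz.symm (Ne.symm hzw1) hzwz.symm
      hzww.symm (Ne.symm hu1) hz_u.symm hw_u.symm hzw_u.symm
  · have hle : E ⊓ fixingSubgroup G Φ ≤ F1 := by
      intro x hx
      rcases hCu x (Subgroup.mem_inf.2 ⟨hEN hx.1, hx.2⟩)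
          (CfsgLib.TwoFusion.KleinFactor.comm_of_sq hEsq huE hx.1) with rfl | rfl
      · exact F1.one_mem
      · exact (hF1 _).2 (Or.inr (by rw [hz2]; exact one_mem _))
    refine (Subgroup.card_le_of_le hle).trans ?_
    have h5 : Nat.card F1 ≤ Nat.card (Fin 2) := by
      refine Nat.card_le_card_of_surjective (fun i : Fin 2 => (⟨z ^ (i : ℕ), F1.pow_mem
        ((hF1 _).2 (Or.inr (by rw [hz2]; exact one_mem _))) _⟩ : F1)) fun x => ?_
      rcases hF1z x x.2 with e | e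
      · exact ⟨0, Subtype.ext (by simp [e])⟩
      · exact ⟨1, Subtype.ext (by simp [e])⟩
    rwa [Nat.card_fin] at h5
  · exact fun x hx hc => (hCN z hzR hz1 x hx (hc z hzE)).2
  · intro x hx hxf hc
    rcases hCu x (Subgroup.mem_inf.2 ⟨hCN z hzR hz1 x hx (hc z hzE), hxf⟩) (hc _ huE).symm with
      rfl | rfl
    · exact E.one_mem
    · exact hzE

end CfsgLib.Spectrum.FixFour
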