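/-
Groups of fixity four with involutions fixing four points and degree four modulo eight.
-/
import Cfsg.Agent.Lib.Spectrum.FixityFourEmbedded
import Mathlib

set_option autoImplicit false
open MulAction
open scoped Pointwise

namespace CfsgLib.Spectrum.FixFour

theorem p4_swap_cent : ∀ a : Equiv.Perm (Fin 4), IsSwap4 a →
    (Finset.univ.filter fun c : Equiv.Perm (Fin 4) => c * a = a * c).card ≤ 4 := by
  decide +kernel

theorem p4_even_invol : ∀ a : Equiv.Perm (Fin 4), a * a = 1 → Equiv.Perm.sign a = 1 →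
    a = 1 ∨ IsDbl a := by
  decide +kernel

variable {G Ω : Type*} [Group G] [Finite G] [MulAction G Ω]

theorem img_pow_four (Φ : Set Ω) (h4 : Nat.card Φ = 4) (s : ↥(stabilizer G Φ)) {k : ℕ}
    (hk : orderOf (s : G) = 2 ^ k) : img Φ h4 s ^ 4 = 1 := by
  apply p4_pow_eight
  have hd : orderOf (img Φ h4 s) ∣ 8 * 3 := by
    refine orderOf_dvd_card.trans ?_
    rw [Fintype.card_perm, Fintype.card_fin]; decide
  have hd2 : orderOf (img Φ h4 s) ∣ 2 ^ k := by
    rw [← hk, Subgroup.orderOf_coe]; exact orderOf_map_dvd (img Φ h4) s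
  exact orderOf_dvd_iff_pow_eq_one.1 ((Nat.Coprime.coprime_dvd_left hd2
    (Nat.Coprime.pow_left k (by norm_num : Nat.Coprime 2 3))).dvd_of_dvd_mul_right hd)

/-- Two elements of the same four-set action differing in the kernel. -/
theorem mul_inv_mem_fixing (Φ : Set Ω) (h4 : Nat.card Φ = 4) (a b : ↥(stabilizer G Φ))
    (h : img Φ h4 a = img Φ h4 b) : (a : G) * (b : G)⁻¹ ∈ fixingSubgroup G Φ := by
  have h1 : img Φ h4 (a * b⁻¹) = 1 := by rw [map_mul, map_inv, h, mul_inv_cancel]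
  exact (img_eq_one_iff Φ h4 _).1 h1

variable [FaithfulSMul G Ω] [Finite Ω]

/-- A subgroup of order four acting semiregularly on a four-set realises every fixed point free
involution when it has exponent two. -/
theorem exists_img_eq_dbl (Φ : Set Ω) (h4 : Nat.card Φ = 4) {A : Subgroup G}
    (hAst : A ≤ stabilizer G Φ) (hA4 : Nat.card A = 4) (hA2 : ∀ a ∈ A, a * a = 1)
    (hfree : ∀ a ∈ A, (fixedBy Ω a ∩ Φ).Nonempty → a = 1) {σ : Equiv.Perm (Fin 4)}
    (hσ : IsDbl σ) : ∃ (a : G) (ha : a ∈ A), a ≠ 1 ∧ img Φ h4 ⟨a, hAst ha⟩ = σ := by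
  classical
  have hd : ∀ (a : G) (ha : a ∈ A), a ≠ 1 → IsDbl (img Φ h4 ⟨a, hAst ha⟩) := fun a ha h1 => by
    rw [img_dbl_iff Φ h4 _ (hA2 a ha), ← Set.not_nonempty_iff_eq_empty]
    exact fun hn => h1 (hfree a ha hn)
  obtain ⟨a, b, ha, hb, ha1, hb1, hab⟩ : ∃ a b : G, a ∈ A ∧ b ∈ A ∧ a ≠ 1 ∧ b ≠ 1 ∧ a ≠ b := by
    let _ := Fintype.ofFinite A
    have hc : 1 < (Finset.univ.erase (1 : A)).card := by
      rw [Finset.card_erase_of_mem (Finset.mem_univ _), Finset.card_univ,
        ← Nat.card_eq_fintype_card, hA4]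
      norm_num
    obtain ⟨a, ha, b, hb, hab⟩ := Finset.one_lt_card.1 hc
    exact ⟨a, b, a.2, b.2, fun e => Finset.ne_of_mem_erase ha (Subtype.ext e),
      fun e => Finset.ne_of_mem_erase hb (Subtype.ext e), fun e => hab (Subtype.ext e)⟩
  have hne : a * b ≠ 1 := fun e => hab
    ((eq_inv_of_mul_eq_one_left e).trans (eq_inv_of_mul_eq_one_left (hA2 b hb)).symm)
  have hI : img Φ h4 ⟨a, hAst ha⟩ ≠ img Φ h4 ⟨b, hAst hb⟩ := fun e => by
    have h1 := mul_inv_mem_fixing Φ h4 _ _ e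
    have h2 : (fixedBy Ω (a * b⁻¹) ∩ Φ).Nonempty := by
      obtain ⟨y, hy⟩ := Set.nonempty_of_ncard_ne_zero (s := Φ)
        (by rw [← Nat.card_coe_set_eq, h4]; norm_num)
      exact ⟨y, subset_fixedBy_of_fixing h1 hy, hy⟩
    exact hab (mul_inv_eq_one.1 (hfree _ (A.mul_mem ha (A.inv_mem hb)) h2))
  rcases p4_dbl_unique _ _ σ (hd a ha ha1) (hd b hb hb1) hI hσ with e | e | e
  · exact ⟨a, ha, ha1, e.symm⟩
  · exact ⟨b, hb, hb1, e.symm⟩
  · refine ⟨a * b, A.mul_mem ha hb, hne, ?_⟩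
    rw [e, ← map_mul]
    rfl

namespace Four

variable (hF : Four G Ω) (h84 : Nat.card Ω % 8 = 4)
include hF h84

/-- No product of a cyclic and an elementary group of order four with disjoint fixed sets. -/
theorem psi (X Y : Subgroup G) (hX : IsPGroup 2 X) (hY : IsPGroup 2 Y) (hX4 : Nat.card X = 4)
    (hY4 : Nat.card Y = 4) (hc : ∃ c ∈ X, c * c ≠ 1) (hY2 : ∀ y ∈ Y, y * y = 1)
    (hXY : ∀ x ∈ X, ∀ y ∈ Y, x * y = y * x) {Φ₁ Φ₂ : Set Ω} (h1 : Φ₁.ncard = 4)
    (h2 : Φ₂.ncard = 4) (hd : Φ₁ ∩ Φ₂ = ∅) (hXF : ∀ x ∈ X, x ≠ 1 → fixedBy Ω x = Φ₁)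
    (hYF : ∀ y ∈ Y, y ≠ 1 → fixedBy Ω y = Φ₂) : False := by
  classical
  have : Fact (Nat.Prime 2) := ⟨Nat.prime_two⟩
  obtain ⟨c, hcX, hcc⟩ := hc
  let M : Subgroup G :=
    { carrier := {g | ∃ x ∈ X, ∃ y ∈ Y, g = x * y}
      one_mem' := ⟨1, X.one_mem, 1, Y.one_mem, (mul_one 1).symm⟩
      mul_mem' := by
        rintro _ _ ⟨x, hx, y, hy, rfl⟩ ⟨x', hx', y', hy', rfl⟩
        refine ⟨x * x', X.mul_mem hx hx', y * y', Y.mul_mem hy hy', ?_⟩
        rw [show x * y * (x' * y') = x * (y * x') * y' by group, ← hXY x' hx' y hy]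
        group
      inv_mem' := by
        rintro _ ⟨x, hx, y, hy, rfl⟩
        refine ⟨x⁻¹, X.inv_mem hx, y⁻¹, Y.inv_mem hy, ?_⟩
        rw [mul_inv_rev]
        exact (hXY _ (X.inv_mem hx) _ (Y.inv_mem hy)).symm }
  have hdisj : ∀ g ∈ X, g ∈ Y → g = 1 := by
    intro g hx hy
    by_contra hg
    have e : Φ₁ = Φ₂ := (hXF g hx hg).symm.trans (hYF g hy hg)
    rw [← e, Set.inter_self] at hd
    rw [hd, Set.ncard_empty] at h1
    omega
  have hM16 : Nat.card M = 16 := by
    rw [show (16 : ℕ) = Nat.card (X × Y) by rw [Nat.card_prod, hX4, hY4]]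
    refine (Nat.card_congr (Equiv.ofBijective (fun p : X × Y => (⟨(p.1 : G) * p.2, _, p.1.2, _, p.2.2, rfl⟩ : M)) ⟨?_, ?_⟩)).symm
    · rintro ⟨a, b⟩ ⟨a', b'⟩ e
      have e' : (a : G) * b = a' * b' := congrArg Subtype.val e
      have h3 : (a' : G)⁻¹ * a = b' * (b : G)⁻¹ := by
        rw [eq_mul_inv_iff_mul_eq, mul_assoc, e', inv_mul_cancel_left]
      have h4 := hdisj _ (X.mul_mem (X.inv_mem a'.2) a.2) (h3 ▸ Y.mul_mem b'.2 (Y.inv_mem b.2))
      have ha : a' = a := Subtype.ext (inv_mul_eq_one.1 h4)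
      subst ha
      rw [show b = b' from Subtype.ext (mul_left_cancel e')]
    · rintro ⟨_, x, hx, y, hy, rfl⟩
      exact ⟨(⟨x, hx⟩, ⟨y, hy⟩), rfl⟩
  have hM : IsPGroup 2 M := IsPGroup.of_card (n := 4) (by rw [hM16]; norm_num)
  -- the invariant remainder
  have hstab : ∀ g ∈ M, g ∈ stabilizer G Φ₁ ∧ g ∈ stabilizer G Φ₂ := by
    rintro _ ⟨x, hx, y, hy, rfl⟩
    have hc1 : c ≠ 1 := fun e => hcc (by rw [e, one_mul])
    obtain ⟨d, hdY, hd1⟩ : ∃ d ∈ Y, d ≠ 1 := by
      by_contra h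
      push_neg at h
      rw [(Subgroup.eq_bot_iff_forall Y).2 h, Subgroup.card_bot] at hY4
      omega
    constructor
    · refine Subgroup.mul_mem _ ?_ ?_
      · rw [← hXF c hcX hc1]
        by_cases hx1 : x = 1
        · rw [hx1]; exact Subgroup.one_mem _
        · rw [hXF c hcX hc1, ← hXF x hx hx1]
          exact commute_mem_stabilizer rfl
      · rw [← hXF c hcX hc1]
        exact commute_mem_stabilizer (hXY c hcX y hy).symm
    · refine Subgroup.mul_mem _ ?_ ?_
      · rw [← hYF d hdY hd1]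
        exact commute_mem_stabilizer (hXY x hx d hdY)
      · by_cases hy1 : y = 1
        · rw [hy1]; exact Subgroup.one_mem _
        · rw [← hYF y hy hy1]
          exact commute_mem_stabilizer rfl
  set Z : Set Ω := (Φ₁ ∪ Φ₂)ᶜ with hZ
  have hZc : Z.ncard = Nat.card Ω - 8 := by
    rw [hZ, Set.ncard_compl _ (Set.toFinite _),
      Set.ncard_union_eq (Set.disjoint_iff_inter_eq_empty.2 hd) (Set.toFinite _) (Set.toFinite _),
      h1, h2]
  have hge : 8 ≤ Nat.card Ω := by
    rw [← Set.ncard_univ]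
    refine le_trans ?_ (Set.ncard_le_ncard (Set.subset_univ (Φ₁ ∪ Φ₂)) (Set.toFinite _))
    rw [Set.ncard_union_eq (Set.disjoint_iff_inter_eq_empty.2 hd) (Set.toFinite _) (Set.toFinite _),
      h1, h2]
  obtain ⟨y₀, hy₀, hidx⟩ := exists_small_orbit (P := M) hM Z (fun g w hw e => hw (by
      rcases e with e | e
      · exact Or.inl ((smul_mem_iff_of_stab (hstab g g.2).1 w).1 e)
      · exact Or.inr ((smul_mem_iff_of_stab (hstab g g.2).2 w).1 e))) 3 (by
      rw [hZc]; omega)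
  set B := stabilizer M y₀ with hB
  have hB4 : 4 ≤ Nat.card B := by
    have h3 := B.card_mul_index
    rw [hM16] at h3
    obtain ⟨i, hi⟩ := hM.index B
    rw [hi] at h3 hidx
    have hi2 : i ≤ 2 := by
      have := (Nat.pow_lt_pow_iff_right (by norm_num : 1 < 2)).1 hidx
      omega
    have h4 : 2 ^ i ≤ 4 := (Nat.pow_le_pow_right two_pos hi2).trans (by norm_num)
    nlinarith
  have hdec : ∀ b : B, ∃ x : X, ∃ y ∈ Y, ((b : M) : G) = (x : G) * y := fun b => by
    obtain ⟨x, hx, y, hy, e⟩ := (b : M).2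
    exact ⟨⟨x, hx⟩, y, hy, e⟩
  choose π ρ hρ hπ using hdec
  have hπinj : Function.Injective π := by
    intro b b' e
    have hy : (ρ b)⁻¹ * ρ b' = 1 := by
      by_contra hne
      have hfix : y₀ ∈ fixedBy Ω ((ρ b)⁻¹ * ρ b') := by
        have e1 : (ρ b)⁻¹ * ρ b' = ((b : M) : G)⁻¹ * ((b' : M) : G) := by
          rw [hπ b, hπ b', e]; group
        rw [e1]
        show (((b : M) : G)⁻¹ * ((b' : M) : G)) • y₀ = y₀
        rw [mul_smul, inv_smul_eq_iff]
        have hb : ((b : M) : G) • y₀ = y₀ := b.2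
        have hb' : ((b' : M) : G) • y₀ = y₀ := b'.2
        rw [hb, hb']
      rw [hYF _ (Y.mul_mem (Y.inv_mem (hρ b)) (hρ b')) hne] at hfix
      exact hy₀ (Or.inr hfix)
    apply Subtype.ext; apply Subtype.ext
    rw [hπ b, hπ b', e, inv_mul_eq_one.1 hy]
  have hπbij : Function.Bijective π :=
    (Nat.bijective_iff_injective_and_card π).2
      ⟨hπinj, le_antisymm (Nat.card_le_card_of_injective π hπinj) (by rw [hX4]; exact hB4)⟩
  obtain ⟨b, hb⟩ := hπbij.2 ⟨c, hcX⟩
  have hbc : ((b : M) : G) = c * ρ b := by rw [hπ b, hb]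
  have hfix : y₀ ∈ fixedBy Ω (c * c) := by
    have e : c * c = ((b : M) : G) * ((b : M) : G) := by
      rw [hbc, show c * ρ b * (c * ρ b) = c * (ρ b * c) * ρ b by group, ← hXY c hcX _ (hρ b),
        show c * (c * ρ b) * ρ b = c * c * (ρ b * ρ b) by group, hY2 _ (hρ b), mul_one]
    have hb' : ((b : M) : G) • y₀ = y₀ := b.2
    rw [e]
    show (((b : M) : G) * ((b : M) : G)) • y₀ = y₀
    rw [mul_smul, hb', hb']
  rw [hXF _ (X.mul_mem hcX hcX) hcc] at hfix
  exact hy₀ (Or.inl hfix)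

set_option maxHeartbeats 1000000 in
/-- Degree four modulo eight. -/
theorem case_four [IsSimpleGroup G] [IsPretransitive G Ω] (P : Sylow 2 G)
    (ht : ∃ t : G, orderOf t = 2 ∧ (fixedBy Ω t).ncard = 4) :
    (∃ H : Subgroup G, Cfsg.IsStronglyEmbedded H) ∨ Cfsg.SectionalPRankLE 2 4 G := by
  classical
  have : Fact (Nat.Prime 2) := ⟨Nat.prime_two⟩
  set Q := (P : Subgroup G) with hQ
  have hQ2 : IsPGroup 2 Q := P.2
  obtain ⟨b, -, hidx⟩ := exists_small_orbit (P := Q) hQ2 (Set.univ : Set Ω) (fun _ _ _ => trivial) 3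
    (by rw [Set.ncard_univ]; norm_num; omega)
  have hidx4 : (stabilizer Q b).index = 4 := by
    obtain ⟨i, hi⟩ := hQ2.index (stabilizer Q b)
    have h1 := (stabilizer Q b).card_mul_index
    have hle : Nat.card (stabilizer Q b) * 4 ∣ Nat.card G := by
      have h2 := (stabilizer G b).card_mul_index
      rw [index_stabilizer, orbit_eq_univ, Set.ncard_univ] at h2
      rw [← h2]
      refine Nat.mul_dvd_mul ?_ hF.four_dvd
      refine Subgroup.card_dvd_of_injective
        ({ toFun := fun x => ⟨((x : Q) : G), x.2⟩, map_one' := rfl, map_mul' := fun _ _ => rfl } :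
          ↥(stabilizer Q b) →* ↥(stabilizer G b)) ?_
      intro x y e
      exact Subtype.ext (Subtype.ext (congrArg Subtype.val e : _))
    obtain ⟨j, hj⟩ := (hQ2.to_subgroup (stabilizer Q b)).exists_card_eq
    obtain ⟨k, hk⟩ := hQ2.exists_card_eq
    have hj2 : 2 ^ (j + 2) ∣ Nat.card G := by
      rw [pow_add, ← hj]; exact hle
    have hjk : j + 2 ≤ k := by
      have h3 := P.pow_dvd_card_of_pow_dvd_card hj2
      change 2 ^ (j + 2) ∣ Nat.card Q at h3
      rw [hk] at h3
      exact (Nat.pow_dvd_pow_iff_le_right (by norm_num)).1 h3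
    rw [hi, hj, hk, ← pow_add] at h1
    have h4 := Nat.pow_right_injective le_rfl h1
    rw [hi] at hidx ⊢
    have h5 := (Nat.pow_lt_pow_iff_right (by norm_num : 1 < 2)).1 hidx
    rw [show i = 2 by omega]
    norm_num
  set Φ := orbit Q b with hΦdef
  have hΦ : Φ.ncard = 4 := by rw [← index_stabilizer, hidx4]
  have hΦ4 : Nat.card Φ = 4 := by rw [Nat.card_coe_set_eq, hΦ]
  have hQH : Q ≤ stabilizer G Φ := by
    intro g hg
    rw [mem_stabilizer_iff]
    exact smul_orbit (⟨g, hg⟩ : Q) b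
  set R := Q ⊓ fixingSubgroup G Φ with hRdef
  have hR2 : IsPGroup 2 R := hQ2.to_le inf_le_left
  have hRn : ∀ y ∈ Q, ∀ r ∈ R, y * r * y⁻¹ ∈ R := fun y hy r hr => Subgroup.mem_inf.2
    ⟨Q.mul_mem (Q.mul_mem hy hr.1) (inv_mem hy), conj_mem_fixing (hQH hy) hr.2⟩
  by_cases hR : R = ⊥
  · right
    refine rank_of_sylow P (rank_of_card_le ?_)
    have := hF.quot_bound hΦ hQ2 hQH
    rw [show Q ⊓ fixingSubgroup G Φ = ⊥ from hR, Subgroup.card_bot] at this
    exact le_trans this (by norm_num)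
  by_cases hno : ∀ w ∈ Q, orderOf w = 2 → (fixedBy Ω w).Nonempty → w ∈ fixingSubgroup G Φ
  · exact Or.inl (hF.embedded h84 P hΦ hQH hR hno)
  push_neg at hno
  right
  by_contra hnot
  obtain ⟨z, hzR, hzo, hzc⟩ := exists_central_in hQ2 inf_le_left hR hRn
  obtain ⟨hz2, hz1⟩ := orderOf_two_iff.1 hzo
  have hexact : ∀ r ∈ R, r ≠ 1 → fixedBy Ω r = Φ := fun r hr hr1 =>
    hF.exact_fix hR2 hΦ hr hr.2 hr1
  -- the configuration attached to an involution outside `R`
  have hconf : ∀ w ∈ Q, orderOf w = 2 → (fixedBy Ω w).Nonempty → w ∉ fixingSubgroup G Φ →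
      (fixedBy Ω w).ncard = 4 ∧ fixedBy Ω w ∩ Φ = ∅ ∧
      Nat.card ↥(R ⊓ Subgroup.centralizer ({w} : Set G)) = 4 ∧
      (∀ a ∈ R ⊓ Subgroup.centralizer ({w} : Set G), a * a = 1) ∧
      Nat.card ↥(Q ⊓ Subgroup.centralizer ({w} : Set G) ⊓ fixingSubgroup G (fixedBy Ω w)) = 4 ∧
      (∀ a ∈ Q ⊓ Subgroup.centralizer ({w} : Set G) ⊓ fixingSubgroup G (fixedBy Ω w), a * a = 1) := by
    intro w hwQ hwo hwne hwR
    obtain ⟨hw2, hw1⟩ := orderOf_two_iff.1 hwo
    have hw4 : (fixedBy Ω w).ncard = 4 := by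
      rcases hF.inv w hwo with h | h
      · exact absurd h ((Set.ncard_pos (Set.toFinite _)).2 hwne).ne'
      · exact h
    set A := R ⊓ Subgroup.centralizer ({w} : Set G) with hA
    set T := Q ⊓ Subgroup.centralizer ({w} : Set G) with hT
    set K := T ⊓ fixingSubgroup G (fixedBy Ω w) with hK
    have hA2g : IsPGroup 2 A := hR2.to_le inf_le_left
    have hT2 : IsPGroup 2 T := hQ2.to_le inf_le_left
    have hK2g : IsPGroup 2 K := hT2.to_le inf_le_left
    have hAT : A ≤ T := fun a ha => Subgroup.mem_inf.2 ⟨ha.1.1, ha.2⟩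
    have hwT : w ∈ T := Subgroup.mem_inf.2 ⟨hwQ, Subgroup.mem_centralizer_singleton_iff.2 rfl⟩
    have hwΦ : w ∈ stabilizer G Φ := hQH hwQ
    have hTw : ∀ t ∈ T, t ∈ stabilizer G (fixedBy Ω w) := fun t ht =>
      centralizer_le_stabilizer w ht.2
    have hempty : fixedBy Ω w ∩ Φ = ∅ := by
      rw [← Set.not_nonempty_iff_eq_empty]
      intro hne
      apply hnot
      have hA2le : Nat.card A ≤ 2 :=
        hF.swap_bound hΦ hwo hwΦ hwR hne hA2g (inf_le_left.trans inf_le_right) inf_le_right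
      refine rank_of_eight_sylow P hwQ hwo ?_
      let f : T →* Equiv.Perm (Fin 4) := (img Φ hΦ4).comp (Subgroup.inclusion (inf_le_left.trans hQH))
      have h1 := f.ker.card_mul_index
      rw [Subgroup.index_ker] at h1
      have hk : Nat.card f.ker ≤ 2 := by
        refine le_trans ?_ hA2le
        refine Nat.card_le_card_of_injective (fun t : f.ker => (⟨((t : T) : G),
          Subgroup.mem_inf.2 ⟨Subgroup.mem_inf.2 ⟨(t : T).2.1, (img_eq_one_iff Φ hΦ4 _).1 t.2⟩,
            (t : T).2.2⟩⟩ : A)) ?_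
        intro x y e
        exact Subtype.ext (Subtype.ext (congrArg Subtype.val e : _))
      have hσ : IsSwap4 (f ⟨w, hwT⟩) := by
        refine ⟨?_, fun e => hwR ((img_eq_one_iff Φ hΦ4 _).1 e), (img_fix_iff Φ hΦ4 _).2 hne⟩
        rw [← map_mul, show (⟨w, hwT⟩ : T) * ⟨w, hwT⟩ = 1 from Subtype.ext hw2, map_one]
      have hr : Nat.card f.range ≤ 4 := by
        refine le_trans ?_ (p4_swap_cent _ hσ)
        rw [← Nat.card_eq_finsetCard]
        refine Nat.card_le_card_of_injective (fun c : f.range => (⟨c, ?_⟩ :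
          (Finset.univ.filter fun c : Equiv.Perm (Fin 4) => c * f ⟨w, hwT⟩ = f ⟨w, hwT⟩ * c))) ?_
        · obtain ⟨t, ht⟩ := c.2
          rw [Finset.mem_filter, ← ht, ← map_mul, ← map_mul]
          exact ⟨Finset.mem_univ _, congrArg f
            (Subtype.ext (Subgroup.mem_centralizer_singleton_iff.1 t.2.2))⟩
        · intro x y e
          exact Subtype.ext (congrArg Subtype.val e : _)
      exact h1 ▸ (Nat.mul_le_mul hk hr).trans (by norm_num)
    have hnot1 : ∀ y, y ∈ fixedBy Ω w → y ∉ Φ := fun y hy hy' =>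
      Set.notMem_empty y (hempty ▸ Set.mem_inter hy hy' : y ∈ (∅ : Set Ω))
    have hAfree : ∀ a ∈ A, ∀ y, y ∈ fixedBy Ω w → a • y = y → a = 1 := by
      intro a ha y hy hay
      by_contra h1
      exact hnot1 y hy (hexact a ha.1 h1 ▸ (hay : y ∈ fixedBy Ω a))
    have hKF : ∀ k ∈ K, k ≠ 1 → fixedBy Ω k = fixedBy Ω w := fun k hk hk1 =>
      hF.exact_fix hK2g hw4 hk hk.2 hk1
    have hdisjAK : ∀ g ∈ R, g ∈ fixingSubgroup G (fixedBy Ω w) → g = 1 := by
      intro g hg hgK
      by_contra h1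
      obtain ⟨y, hy⟩ := hwne
      exact hnot1 y hy (hexact g hg h1 ▸ subset_fixedBy_of_fixing hgK hy)
    have hAK : ∀ a ∈ A, ∀ k ∈ K, a * k = k * a := by
      intro a ha k hk
      have e1 : a * k * a⁻¹ * k⁻¹ ∈ R := by
        rw [show a * k * a⁻¹ * k⁻¹ = a * (k * a⁻¹ * k⁻¹) by group]
        exact R.mul_mem ha.1 (hRn k hk.1.1 _ (R.inv_mem ha.1))
      have e2 : a * k * a⁻¹ * k⁻¹ ∈ fixingSubgroup G (fixedBy Ω w) :=
        Subgroup.mul_mem _ (conj_mem_fixing (hTw a (hAT ha)) hk.2) (inv_mem hk.2)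
      exact mul_inv_eq_iff_eq_mul.1 (mul_inv_eq_one.1 (hdisjAK _ e1 e2))
    have hAdvd : Nat.card A ∣ 4 := by
      rw [← hw4]
      refine card_dvd_of_free (P := A) hA2g _ ?_ ?_
      · intro a y hy
        exact (smul_mem_iff_of_stab (hTw a (hAT a.2)) y).2 hy
      · intro a y hy hay
        exact Subtype.ext (hAfree a a.2 y hy hay)
    have hKdvd : Nat.card K ∣ 4 := by
      rw [← hΦ]
      refine card_dvd_of_free (P := K) hK2g _ ?_ ?_
      · intro k y hy
        exact (smul_mem_iff_of_stab (hQH k.2.1.1) y).2 hy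
      · intro k y hy hky
        by_contra h1
        have h5 := hKF k k.2 (fun e => h1 (Subtype.ext e))
        exact hnot1 y (h5 ▸ (hky : y ∈ fixedBy Ω (k : G))) hy
    have hwK : w ∈ K := Subgroup.mem_inf.2
      ⟨hwT, (mem_fixingSubgroup_iff_subset_fixedBy G).2 subset_rfl⟩
    have hzA : z ∈ A :=
      Subgroup.mem_inf.2 ⟨hzR, Subgroup.mem_centralizer_singleton_iff.2 (hzc w hwQ).symm⟩
    -- a large elementary subgroup in the centralizer
    obtain ⟨E, hEQ, hE2, hEw, hzE, hwE, hEbig⟩ : ∃ E : Subgroup G, E ≤ Q ∧ (∀ e ∈ E, e * e = 1) ∧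
        (∀ e ∈ E, e * w = w * e) ∧ z ∈ E ∧ w ∈ E ∧ 4 < Nat.card E := by
      by_contra hcon
      apply hnot
      refine rank_of_involution_sylow P hwQ hwo fun E hEQ hE2 hEw hE4 => absurd ?_ hcon
      obtain ⟨E₁, hE₁, hE₁2⟩ := exists_adjoin (F := E) hE2 hw2 hEw
      have hE₁Q : E₁ ≤ Q := fun e he => by
        rcases (hE₁ e).1 he with h | h
        · exact hEQ h
        · simpa using Q.mul_mem (hEQ h) (Q.inv_mem hwQ)
      obtain ⟨E₂, hE₂, hE₂2⟩ := exists_adjoin (F := E₁) hE₁2 hz2 fun e he => hzc e (hE₁Q he)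
      have h12 : E₁ ≤ E₂ := fun e he => (hE₂ e).2 (Or.inl he)
      have h01 : E ≤ E₁ := fun e he => (hE₁ e).2 (Or.inl he)
      have hwE₂ : w ∈ E₂ := h12 ((hE₁ w).2 (Or.inr (by rw [hw2]; exact E.one_mem)))
      refine ⟨E₂, fun e he => ?_, hE₂2,
        fun e he => CfsgLib.TwoFusion.KleinFactor.comm_of_sq hE₂2 he hwE₂,
        (hE₂ z).2 (Or.inr (by rw [hz2]; exact E₁.one_mem)), hwE₂,
        lt_of_lt_of_le hE4 (Subgroup.card_le_of_le (h01.trans h12))⟩
      rcases (hE₂ e).1 he with h | h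
      · exact hE₁Q h
      · simpa using Q.mul_mem (hE₁Q h) (Q.inv_mem hzR.1)
    have hET : E ≤ T := fun e he => Subgroup.mem_inf.2
      ⟨hEQ he, Subgroup.mem_centralizer_singleton_iff.2 (hEw e he)⟩
    have hEA : E ⊓ fixingSubgroup G Φ ≤ A := fun e he =>
      Subgroup.mem_inf.2 ⟨Subgroup.mem_inf.2 ⟨hEQ he.1, he.2⟩, (hET he.1).2⟩
    -- a self-centralising one would give the bound
    have hfin : ∀ E' : Subgroup G, E' ≤ Q → (∀ e ∈ E', e * e = 1) → Nat.card E' = 8 →
        (∀ g ∈ Q, (∀ e ∈ E', g * e = e * g) → g ∈ E') → False := fun E' a1 a2 a3 a4 =>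
      hnot (rank_of_involution_sylow P hwQ hwo fun _ _ _ _ _ => ⟨E', a1, a2, a3, a4⟩)
    have hsmall : Nat.card ↥(E ⊓ fixingSubgroup G Φ) ≤ 2 →
        (∀ r ∈ A, (∀ e ∈ E, r * e = e * r) → r ∈ E) → False := by
      intro hK' hker
      obtain ⟨h8, hself⟩ := eight_self hΦ4 (Q := Q) hEQ hE2 (hEQ.trans hQH) hEbig hK'
        (fun g hg _ => hQH hg)
        (fun r hr hrf hc => hker r (Subgroup.mem_inf.2 ⟨Subgroup.mem_inf.2 ⟨hr, hrf⟩,
          Subgroup.mem_centralizer_singleton_iff.2 (hc w hwE)⟩) hc)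
      exact hfin E hEQ hE2 h8 hself
    have hA4 : Nat.card A = 4 := by
      obtain ⟨i, hi, hio⟩ := (Nat.dvd_prime_pow Nat.prime_two).1
        (show Nat.card A ∣ 2 ^ 2 by simpa using hAdvd)
      rcases (show i = 2 ∨ i ≤ 1 by omega) with h | h
      · rw [hio, h]; norm_num
      exfalso
      have hle2 : Nat.card A ≤ 2 := by
        rw [hio]; exact (Nat.pow_le_pow_right two_pos h).trans (by norm_num)
      refine hsmall (le_trans (Subgroup.card_le_of_le hEA) hle2) fun r hr _ => ?_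
      have hle : Subgroup.zpowers z ≤ A := Subgroup.zpowers_le.2 hzA
      have heq := Subgroup.eq_of_le_of_card_ge hle (by rw [Nat.card_zpowers, hzo]; exact hle2)
      exact (Subgroup.zpowers_le.2 hzE) (heq ▸ hr)
    have hreg : ∀ y ∈ fixedBy Ω w, ∀ y' ∈ fixedBy Ω w, ∃ a ∈ A, a • y = y' := by
      intro y hy y' hy'
      let f : A → fixedBy Ω w :=
        fun a => ⟨(a : G) • y, (smul_mem_iff_of_stab (hTw a (hAT a.2)) y).2 hy⟩
      have hf : Function.Injective f := by
        intro a a' e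
        have e' : (a : G) • y = (a' : G) • y := congrArg Subtype.val e
        have h2 := hAfree _ (A.mul_mem (A.inv_mem a'.2) a.2) y hy
          (by rw [mul_smul, e', inv_smul_smul])
        exact Subtype.ext (inv_mul_eq_one.1 h2).symm
      obtain ⟨a, ha⟩ := ((Nat.bijective_iff_injective_and_card f).2
        ⟨hf, by rw [hA4, Nat.card_coe_set_eq, hw4]⟩).2 ⟨y', hy'⟩
      exact ⟨a, a.2, congrArg Subtype.val ha⟩
    have hdecT : ∀ t ∈ T, (∀ a ∈ A, t * a = a * t) → ∃ a ∈ A, a⁻¹ * t ∈ K := by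
      intro t ht hcomm
      obtain ⟨y, hy⟩ := hwne
      obtain ⟨a, ha, hay⟩ := hreg y hy (t • y) ((smul_mem_iff_of_stab (hTw t ht) y).2 hy)
      refine ⟨a, ha, Subgroup.mem_inf.2 ⟨T.mul_mem (T.inv_mem (hAT ha)) ht,
        (mem_fixingSubgroup_iff G).2 fun y' hy' => ?_⟩⟩
      obtain ⟨a', ha', rfl⟩ := hreg y hy y' hy'
      have hAcomm : a' * a = a * a' := by
        -- the regular action of a group of order four
        obtain ⟨i, hi⟩ := (Nat.dvd_prime_pow Nat.prime_two).1
          (show Nat.card A ∣ 2 ^ 2 by simpa using hAdvd)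
        have hcomA : IsMulCommutative A := IsPGroup.isMulCommutative_of_card_eq_prime_sq
          (p := 2) (by rw [hA4]; norm_num)
        exact congrArg Subtype.val (hcomA.is_comm.comm ⟨a', ha'⟩ ⟨a, ha⟩)
      have hfix : (a⁻¹ * t) • y = y := by rw [mul_smul, ← hay, inv_smul_smul]
      rw [← mul_smul, show a⁻¹ * t * a' = a' * (a⁻¹ * t) by
        rw [mul_assoc, hcomm a' ha', ← mul_assoc, ← mul_assoc]
        congr 1
        rw [inv_mul_eq_iff_eq_mul, ← mul_assoc, ← hAcomm, mul_inv_cancel_right],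
        mul_smul, hfix]
    have hKcases : Nat.card K = 2 ∨ Nat.card K = 4 := by
      obtain ⟨i, hi, hio⟩ := (Nat.dvd_prime_pow Nat.prime_two).1
        (show Nat.card K ∣ 2 ^ 2 by simpa using hKdvd)
      rcases (show i = 0 ∨ i = 1 ∨ i = 2 by omega) with rfl | rfl | rfl
      · exact absurd (Subgroup.mem_bot.1 (Subgroup.card_eq_one.1 (by simpa using hio) ▸ hwK)) hw1
      · exact Or.inl (by simpa using hio)
      · exact Or.inr (by simpa using hio)
    by_cases hAsq : ∀ a ∈ A, a * a = 1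
    · -- `A` is a four-group
      by_cases hKsq : ∀ k ∈ K, k * k = 1
      · rcases hKcases with hK2 | hK4
        · exfalso
          obtain ⟨E', hE', hE'2⟩ := exists_adjoin (F := A) hAsq hw2
            (fun a ha => Subgroup.mem_centralizer_singleton_iff.1 ha.2)
          have hAE' : A ≤ E' := fun a ha => (hE' a).2 (Or.inl ha)
          have hwE' : w ∈ E' := (hE' w).2 (Or.inr (by rw [hw2]; exact A.one_mem))
          have hwA : w ∉ A := fun h => hwR h.1.2
          have hlt : 4 < Nat.card E' := by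
            by_contra h4
            exact hwA (Subgroup.eq_of_le_of_card_ge hAE' (by omega) ▸ hwE')
          have hE'Q : E' ≤ Q := fun e he => by
            rcases (hE' e).1 he with h | h
            · exact h.1.1
            · simpa using Q.mul_mem h.1.1 (Q.inv_mem hwQ)
          have hle8 : Nat.card E' ≤ 8 := by
            have h1 : Nat.card E' ≤ Nat.card (A × Fin 2) := by
              refine Nat.card_le_card_of_surjective (fun p : A × Fin 2 => (⟨(p.1 : G) * w ^ (p.2 : ℕ),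
                E'.mul_mem (hAE' p.1.2) (E'.pow_mem hwE' _)⟩ : E')) fun e => ?_
              rcases (hE' e).1 e.2 with h | h
              · exact ⟨(⟨e, h⟩, 0), Subtype.ext (by simp)⟩
              · refine ⟨(⟨(e : G) * w, h⟩, 1), Subtype.ext ?_⟩
                show (e : G) * w * w ^ 1 = e
                rw [pow_one, mul_assoc, hw2, mul_one]
            rw [Nat.card_prod, hA4, Nat.card_fin] at h1
            exact h1
          obtain ⟨i, hi⟩ := (hQ2.to_le hE'Q : IsPGroup 2 E').exists_card_eq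
          have h8 : Nat.card E' = 8 := by
            rcases (show i ≤ 2 ∨ i = 3 ∨ 4 ≤ i by omega) with h | h | h
            · have := Nat.pow_le_pow_right two_pos h; omega
            · rw [hi, h]; norm_num
            · have := Nat.pow_le_pow_right two_pos h; omega
          refine hfin E' hE'Q hE'2 h8 fun g hg hc => ?_
          obtain ⟨a, ha, hk⟩ := hdecT g (Subgroup.mem_inf.2
            ⟨hg, Subgroup.mem_centralizer_singleton_iff.2 (hc w hwE')⟩)
            (fun a ha => hc a (hAE' ha))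
          have hKle : K ≤ E' := by
            have heq := Subgroup.eq_of_le_of_card_ge (Subgroup.zpowers_le.2 hwK)
              (by rw [Nat.card_zpowers, hwo, hK2])
            rw [← heq]
            exact Subgroup.zpowers_le.2 hwE'
          simpa using E'.mul_mem (hAE' ha) (hKle hk)
        · exact ⟨hw4, hempty, hA4, hAsq, hK4, hKsq⟩
      · exfalso
        push_neg at hKsq
        obtain ⟨k, hk, hkk⟩ := hKsq
        have hK4 : Nat.card K = 4 := by
          refine hKcases.resolve_left fun h2 => hkk ?_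
          rw [← pow_two]
          have := pow_card_eq_one' (G := K) (x := ⟨k, hk⟩)
          rw [h2] at this
          exact congrArg Subtype.val this
        exact hF.psi h84 K A hK2g hA2g hK4 hA4 ⟨k, hk, hkk⟩ hAsq
          (fun x hx y hy => (hAK y hy x hx).symm) hw4 hΦ hempty hKF
          (fun a ha h1 => hexact a ha.1 h1)
    · -- `A` is cyclic
      exfalso
      push_neg at hAsq
      obtain ⟨a₀, ha₀, haa⟩ := hAsq
      have hzAle : ∀ a ∈ A, a * a = 1 → a ∈ E := by
        intro a ha ha2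
        by_contra hne
        have ha1 : a ≠ 1 := fun e => hne (e ▸ E.one_mem)
        have haz : z ≠ a := fun e => hne (e ▸ hzE)
        -- then `A` has exponent two
        obtain ⟨F, hF', hFsq⟩ := exists_adjoin (F := Subgroup.zpowers z)
          (fun x hx => by
            obtain ⟨i, rfl⟩ := hx
            show z ^ i * z ^ i = 1
            rw [← zpow_add, ← two_mul, zpow_mul, zpow_two, hz2, one_zpow])
          ha2 (fun x hx => by
            obtain ⟨i, rfl⟩ := hx
            exact ((show Commute z a from (hzc a ha.1.1).symm).zpow_left i).eq)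
        have hFA : F ≤ A := fun x hx => by
          rcases (hF' x).1 hx with h | h
          · exact (Subgroup.zpowers_le.2 hzA) h
          · simpa using A.mul_mem ((Subgroup.zpowers_le.2 hzA) h) (A.inv_mem ha)
        have hz2card : Nat.card (Subgroup.zpowers z) = 2 := by rw [Nat.card_zpowers, hzo]
        have hFlt : 2 < Nat.card F := by
          by_contra h2
          have heq := Subgroup.eq_of_le_of_card_ge
            (show Subgroup.zpowers z ≤ F from fun x hx => (hF' x).2 (Or.inl hx)) (by omega)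
          have hm : a ∈ Subgroup.zpowers z := heq ▸ (hF' a).2 (Or.inr (by rw [ha2]; exact one_mem _))
          exact hne ((Subgroup.zpowers_le.2 hzE) hm)
        have hF4 : Nat.card F = 4 := by
          obtain ⟨i, hi⟩ := (hA2g.to_le hFA : IsPGroup 2 F).exists_card_eq
          have h4 := Subgroup.card_le_of_le hFA
          rw [hA4] at h4
          rcases (show i ≤ 1 ∨ i = 2 ∨ 3 ≤ i by omega) with h | h | h
          · have := Nat.pow_le_pow_right two_pos h; omega
          · rw [hi, h]; norm_num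
          · have := Nat.pow_le_pow_right two_pos h; omega
        exact haa (hFsq a₀ (Subgroup.eq_of_le_of_card_ge hFA (by omega) ▸ ha₀))
      have hEA2 : Nat.card ↥(E ⊓ fixingSubgroup G Φ) ≤ 2 := by
        obtain ⟨i, hi⟩ := ((hA2g.to_le hEA) : IsPGroup 2 ↥(E ⊓ fixingSubgroup G Φ)).exists_card_eq
        have hlt : Nat.card ↥(E ⊓ fixingSubgroup G Φ) < 4 := by
          by_contra h4
          have := Subgroup.eq_of_le_of_card_ge hEA (by omega)
          exact haa (hE2 a₀ (this ▸ ha₀ : a₀ ∈ E ⊓ fixingSubgroup G Φ).1)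
        rcases (show i ≤ 1 ∨ 2 ≤ i by omega) with h | h
        · rw [hi]; exact (Nat.pow_le_pow_right two_pos h).trans (by norm_num)
        · have := Nat.pow_le_pow_right two_pos h; omega
      by_cases hcentA : ∀ e ∈ E, ∀ a ∈ A, e * a = a * e
      · -- `E` lies in `A K`
        have hEK : ∀ e ∈ E, ∃ a ∈ A, a * a = 1 ∧ a⁻¹ * e ∈ K ∧ a⁻¹ * e ∈ E := by
          intro e he
          obtain ⟨a, ha, hk⟩ := hdecT e (hET he) (hcentA e he)
          have ha2 : a * a = 1 := by
            by_contra h1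
            apply h1
            have hK' : (a⁻¹ * e) * (a⁻¹ * e) ∈ K := K.mul_mem hk hk
            have e1 : (a⁻¹ * e) * (a⁻¹ * e) = (a * a)⁻¹ := by
              have hc : Commute e a := hcentA e he a ha
              rw [show a⁻¹ * e * (a⁻¹ * e) = a⁻¹ * (e * a⁻¹) * e by group, hc.inv_right.eq,
                show a⁻¹ * (a⁻¹ * e) * e = (a * a)⁻¹ * (e * e) by group, hE2 e he, mul_one]
            rw [e1] at hK'
            exact hdisjAK _ (A.mul_mem ha ha).1 (by simpa using (K.inv_mem hK').2)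
          exact ⟨a, ha, ha2, hk, E.mul_mem (E.inv_mem (hzAle a ha ha2)) he⟩
        have hle : Nat.card E ≤ Nat.card ↥(E ⊓ fixingSubgroup G Φ) * Nat.card ↥(E ⊓ K) := by
          rw [← Nat.card_prod]
          refine Nat.card_le_card_of_surjective (fun p : ↥(E ⊓ fixingSubgroup G Φ) × ↥(E ⊓ K) =>
            (⟨(p.1 : G) * p.2, E.mul_mem p.1.2.1 p.2.2.1⟩ : E)) fun e => ?_
          obtain ⟨a, ha, ha2, hk, hkE⟩ := hEK e e.2
          exact ⟨(⟨a, hzAle a ha ha2, ha.1.2⟩, ⟨a⁻¹ * e, hkE, hk⟩),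
            Subtype.ext (mul_inv_cancel_left a (e : G))⟩
        have hEK2 : 2 < Nat.card ↥(E ⊓ K) := by
          by_contra h2
          have := Nat.mul_le_mul hEA2 (not_lt.1 h2)
          omega
        have hK4 : Nat.card K = 4 := by
          have := Subgroup.card_le_of_le (inf_le_right : E ⊓ K ≤ K)
          omega
        have hEKeq : E ⊓ K = K := by
          refine Subgroup.eq_of_le_of_card_ge inf_le_right ?_
          obtain ⟨i, hi⟩ := ((hK2g.to_le inf_le_right) : IsPGroup 2 ↥(E ⊓ K)).exists_card_eq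
          rcases (show i ≤ 1 ∨ 2 ≤ i by omega) with h | h
          · have := Nat.pow_le_pow_right two_pos h; omega
          · have := Nat.pow_le_pow_right two_pos h; omega
        exact hF.psi h84 A K hA2g hK2g hA4 hK4 ⟨a₀, ha₀, haa⟩
          (fun k hk => hE2 k (hEKeq.ge hk).1) hAK hΦ hw4 (by rw [Set.inter_comm]; exact hempty)
          (fun a ha h1 => hexact a ha.1 h1) hKF
      · push_neg at hcentA
        obtain ⟨e₁, he₁, a₁, ha₁, hne₁⟩ := hcentA
        refine hsmall hEA2 fun r hr hcr => hzAle r hr ?_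
        by_contra hrr
        have hgen : Subgroup.zpowers r = A := by
          refine Subgroup.eq_of_le_of_card_ge (Subgroup.zpowers_le.2 hr) ?_
          rw [hA4, Nat.card_zpowers]
          obtain ⟨i, hi⟩ := mem_orderOf_pow hA2g hr
          rcases (show i ≤ 1 ∨ 2 ≤ i by omega) with h | h
          · exfalso; apply hrr
            rw [← pow_two]
            exact orderOf_dvd_iff_pow_eq_one.1 (hi ▸ by simpa using pow_dvd_pow 2 h)
          · rw [hi]
            exact le_trans (by norm_num) (Nat.pow_le_pow_right two_pos h)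
        obtain ⟨j, rfl⟩ := Subgroup.mem_zpowers_iff.1 (hgen.symm ▸ ha₁ : a₁ ∈ Subgroup.zpowers r)
        exact hne₁ (((show Commute e₁ r from (hcr e₁ he₁).symm).zpow_right j).eq)
  obtain ⟨w₀, hw₀Q, hw₀o, hw₀ne, hw₀R⟩ := hno
  have hI : ∀ s ∈ Q, ∀ hs : s ∈ stabilizer G Φ, img Φ hΦ4 ⟨s, hs⟩ * img Φ hΦ4 ⟨s, hs⟩ = 1 := by
    intro s hs hs'
    by_contra hσ
    obtain ⟨k, hk⟩ := mem_orderOf_pow hQ2 hs
    have hσ4 := img_pow_four Φ hΦ4 ⟨s, hs'⟩ hk
    obtain ⟨hsign, hnofix, hdbl⟩ := p4_cycle _ hσ4 hσ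
    have hsΦ : ∀ y ∈ Φ, s • y ≠ y := fun y hy hsy => by
      obtain ⟨i, hi⟩ := (img_fix_iff Φ hΦ4 ⟨s, hs'⟩).2 ⟨y, hsy, hy⟩
      exact hnofix i hi
    let _ := Fintype.ofFinite Φ
    have hperm : Equiv.Perm.sign (permOn Φ ⟨s, hs'⟩) = -1 := by rw [← img_sign Φ hΦ4, hsign]
    have hs4R : s ^ 4 ∈ fixingSubgroup G Φ :=
      (img_eq_one_iff Φ hΦ4 ((⟨s, hs'⟩ : ↥(stabilizer G Φ)) ^ 4)).1 (by rw [map_pow]; exact hσ4)
    have hs2R : s * s ∉ fixingSubgroup G Φ := fun h => hσ (by
      rw [← map_mul]; exact (img_eq_one_iff Φ hΦ4 _).2 h)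
    by_cases h4 : s ^ 4 = 1
    · -- order four
      have hs2ne : s * s ≠ 1 := fun e => hs2R (e ▸ one_mem _)
      have ho : orderOf s = 4 := orderOf_eq_prime_pow (p := 2) (n := 1)
        (by rw [pow_one, pow_two]; exact hs2ne) (by simpa using h4)
      have hqo : orderOf (s * s) = 2 :=
        orderOf_eq_prime (by rw [← pow_two, ← pow_mul]; exact h4) hs2ne
      have hpow : ∀ (m : ℕ) (y : Ω), s ^ m • y = y → s ^ m ≠ 1 → (s * s) • y = y := by
        intro m y hm hm1
        rcases Nat.even_or_odd' m with ⟨j, rfl | rfl⟩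
        · have e : s ^ (2 * j) = s * s := by
            rw [← pow_two]
            apply pow_eq_pow_iff_modEq.2
            rw [ho]
            show 2 * j % 4 = 2 % 4
            by_contra hne'
            apply hm1
            rw [← orderOf_dvd_iff_pow_eq_one, ho]
            omega
          rwa [e] at hm
        · have e : s * s = (s ^ (2 * j + 1)) ^ 2 := by
            rw [← pow_two, ← pow_mul]
            apply pow_eq_pow_iff_modEq.2
            rw [ho]
            show 2 % 4 = (2 * j + 1) * 2 % 4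
            omega
          rw [e]
          exact fixedBy_subset_pow (Ω := Ω) (s ^ (2 * j + 1)) 2 hm
      by_cases hqfix : (fixedBy Ω (s * s)).Nonempty
      swap
      · let _ := Fintype.ofFinite (∅ : Set Ω)
        have hst : s ∈ stabilizer G (∅ : Set Ω) := by simp
        obtain ⟨-, h2⟩ := cycles_sign hF.nc s ∅ hst (by rw [ho]; decide) (fun y _ m hm => by
          by_contra hm1; exact hqfix ⟨y, hpow m y hm hm1⟩)
        have hone : permOn (∅ : Set Ω) ⟨s, hst⟩ = 1 := Subsingleton.elim _ _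
        rw [hone, map_one, one_mul, Set.ncard_empty, ho] at h2
        have := neg_one_pow_even h2
        rw [Nat.even_iff] at this
        omega
      obtain ⟨hq4, hqΦ, hA4, hA2, hK4, hK2⟩ := hconf _ (Q.mul_mem hs hs) hqo hqfix hs2R
      set q := s * s with hq
      have hsC : s ∈ Subgroup.centralizer ({q} : Set G) :=
        Subgroup.mem_centralizer_singleton_iff.2 (by rw [hq, mul_assoc])
      have hsF : s ∈ stabilizer G (fixedBy Ω q) := centralizer_le_stabilizer q hsC
      let _ := Fintype.ofFinite (fixedBy Ω q)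
      obtain ⟨-, h2⟩ := cycles_sign hF.nc s (fixedBy Ω q) hsF (by rw [ho]; decide)
        (fun y hy m hm => by by_contra hm1; exact hy (hpow m y hm hm1))
      rw [hq4, ho] at h2
      have hev : Even ((Nat.card Ω - 4) / 4) := by rw [Nat.even_iff]; omega
      rw [hev.neg_one_pow, mul_one] at h2
      have h44 : Nat.card (fixedBy Ω q) = 4 := by rw [Nat.card_coe_set_eq, hq4]
      set τ := img (fixedBy Ω q) h44 ⟨s, hsF⟩ with hτ
      have hτ2 : τ * τ = 1 := by
        rw [hτ, ← map_mul]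
        exact (img_eq_one_iff _ h44 _).2 ((mem_fixingSubgroup_iff_subset_fixedBy G).2 subset_rfl)
      have hτs : Equiv.Perm.sign τ = 1 := by rw [hτ, img_sign _ h44]; exact h2
      rcases p4_even_invol τ hτ2 hτs with e | e
      · exact hs2ne (hK2 s (Subgroup.mem_inf.2
          ⟨Subgroup.mem_inf.2 ⟨hs, hsC⟩, (img_eq_one_iff _ h44 _).1 e⟩))
      · set A := R ⊓ Subgroup.centralizer ({q} : Set G) with hA
        have hAst : A ≤ stabilizer G (fixedBy Ω q) := fun a ha => centralizer_le_stabilizer q ha.2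
        obtain ⟨a, ha, -, hae⟩ := exists_img_eq_dbl (fixedBy Ω q) h44 hAst hA4 hA2
          (fun a ha hne => by
            by_contra h1
            obtain ⟨y, hy1, hy2⟩ := hne
            rw [hexact a ha.1 h1] at hy1
            exact Set.notMem_empty y (hqΦ ▸ Set.mem_inter hy2 hy1 : y ∈ (∅ : Set Ω))) e
        have hk : a * s ∈ Q ⊓ Subgroup.centralizer ({q} : Set G) ⊓
            fixingSubgroup G (fixedBy Ω q) := by
          refine Subgroup.mem_inf.2 ⟨Subgroup.mem_inf.2 ⟨Q.mul_mem ha.1.1 hs,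
            Subgroup.mul_mem _ ha.2 hsC⟩, ?_⟩
          refine (img_eq_one_iff _ h44 (⟨a, hAst ha⟩ * ⟨s, hsF⟩)).1 ?_
          rw [map_mul, hae, hτ2]
        apply hσ
        have e1 : img Φ hΦ4 ⟨s, hs'⟩ =
            img Φ hΦ4 (⟨a, hQH ha.1.1⟩ * ⟨s, hs'⟩) := by
          rw [map_mul, (img_eq_one_iff Φ hΦ4 ⟨a, hQH ha.1.1⟩).2 ha.1.2, one_mul]
        rw [e1, ← map_mul]
        exact (img_eq_one_iff Φ hΦ4 _).2 (by
          show a * s * (a * s) ∈ fixingSubgroup G Φ
          rw [hK2 _ hk]; exact one_mem _)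
    · -- order at least eight
      have hk3 : 3 ≤ k := by
        by_contra h
        apply h4
        rw [← orderOf_dvd_iff_pow_eq_one, hk]
        exact (show (4 : ℕ) = 2 ^ 2 by norm_num) ▸ pow_dvd_pow 2 (by omega)
      set q := s ^ 2 ^ (k - 1) with hqdef
      have hq4 : q = (s ^ 4) ^ 2 ^ (k - 3) := by
        rw [hqdef, ← pow_mul]
        congr 1
        rw [show (4 : ℕ) = 2 ^ 2 by norm_num, ← pow_add]
        congr 1
        omega
      have hqR : q ∈ R := Subgroup.mem_inf.2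
        ⟨Q.pow_mem hs _, hq4 ▸ Subgroup.pow_mem _ hs4R _⟩
      have hqne : q ≠ 1 := fun e => by
        rw [hqdef, ← orderOf_dvd_iff_pow_eq_one, hk, Nat.pow_dvd_pow_iff_le_right (by norm_num)] at e
        omega
      have hfreeout : ∀ y, y ∉ Φ → ∀ m : ℕ, s ^ m • y = y → s ^ m = 1 := by
        intro y hy m hm
        by_contra hm1
        obtain ⟨l, hl⟩ := exists_pow_orderOf (p := 2) (g := s ^ m)
          (mem_orderOf_pow hQ2 (Q.pow_mem hs m)) hm1
        have e : (s ^ m) ^ l = q := by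
          rw [← pow_mul, hqdef]
          obtain ⟨hl2, hl1⟩ := orderOf_two_iff.1 hl
          have hd : 2 ^ k ∣ 2 * (m * l) := by
            rw [← hk, orderOf_dvd_iff_pow_eq_one, two_mul, pow_add, pow_mul]; exact hl2
          obtain ⟨c, hc⟩ : 2 ^ (k - 1) ∣ m * l := by
            rw [show 2 ^ k = 2 * 2 ^ (k - 1) by rw [← pow_succ']; congr 1; omega] at hd
            exact Nat.dvd_of_mul_dvd_mul_left two_pos hd
          have hcodd : Odd c := by
            by_contra hev
            rw [Nat.not_odd_iff_even] at hev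
            obtain ⟨c', rfl⟩ := hev
            apply hl1
            rw [← pow_mul, ← orderOf_dvd_iff_pow_eq_one, hk, hc]
            refine ⟨c', ?_⟩
            rw [show 2 ^ k = 2 * 2 ^ (k - 1) by rw [← pow_succ']; congr 1; omega]
            ring
          obtain ⟨c', rfl⟩ := hcodd
          rw [hc, mul_add, mul_one, pow_add]
          rw [show s ^ (2 ^ (k - 1) * (2 * c')) = 1 by
            rw [← orderOf_dvd_iff_pow_eq_one, hk]
            refine ⟨c', ?_⟩
            rw [show 2 ^ k = 2 * 2 ^ (k - 1) by rw [← pow_succ']; congr 1; omega]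
            ring, one_mul]
        exact hy (hexact q hqR hqne ▸ (e ▸ fixedBy_subset_pow (Ω := Ω) (s ^ m) l hm : y ∈ fixedBy Ω q))
      obtain ⟨hdvd, h2⟩ := cycles_sign hF.nc s Φ hs'
        (by rw [hk]; exact even_two.pow_of_ne_zero (by omega)) hfreeout
      rw [hperm, hΦ, hk] at h2
      rw [hΦ, hk] at hdvd
      obtain ⟨c, hc⟩ := hdvd
      have hcodd : Odd c := by
        rw [hc, Nat.mul_div_cancel_left _ (pow_pos two_pos k)] at h2
        by_contra hev
        rw [Nat.not_odd_iff_even] at hev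
        rw [hev.neg_one_pow] at h2
        exact absurd h2 (by decide)
      have hRdvd : Nat.card R ∣ Nat.card Ω - 4 := by
        rw [← hΦ, ← Set.ncard_compl Φ (Set.toFinite _)]
        refine card_dvd_of_free (P := R) hR2 _ ?_ ?_
        · intro r y hy e
          exact hy ((smul_mem_iff_of_stab (fixing_le_stabilizer Φ r.2.2) y).1 e)
        · intro r y hy hry
          by_contra h1
          exact hy (hexact r r.2 (fun e => h1 (Subtype.ext e)) ▸ (hry : y ∈ fixedBy Ω (r : G)))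
      obtain ⟨j, hj⟩ := hR2.exists_card_eq
      rw [hc, hj] at hRdvd
      have hjk := ((Nat.coprime_two_left.2 hcodd).pow_left j).dvd_of_dvd_mul_right hRdvd
      have hQle : Nat.card Q ≤ 8 * 2 ^ k := by
        refine (hF.quot_bound hΦ hQ2 hQH).trans (Nat.mul_le_mul_left 8 ?_)
        show Nat.card R ≤ 2 ^ k
        rw [hj]
        exact Nat.le_of_dvd (pow_pos two_pos k) hjk
      apply hnot
      refine rank_of_sylow P (rank_of_cyclic_index (⟨s, hs⟩ : Q) ?_)
      have h5 := (Subgroup.zpowers (⟨s, hs⟩ : Q)).card_mul_index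
      rw [Nat.card_zpowers, Subgroup.orderOf_mk, hk] at h5
      rw [← h5, mul_comm 8] at hQle
      exact Nat.le_of_mul_le_mul_left hQle (pow_pos two_pos k)
  -- all images are fixed point free
  let f : Q →* Equiv.Perm (Fin 4) := (img Φ hΦ4).comp (Subgroup.inclusion hQH)
  have hf2 : ∀ x : Q, f x * f x = 1 := fun x => hI x x.2 (hQH x.2)
  have hf1 : ∀ x : Q, f x = 1 ↔ (x : G) ∈ fixingSubgroup G Φ := fun x => img_eq_one_iff Φ hΦ4 _
  have hfd : ∀ x : Q, f x = 1 ∨ IsDbl (f x) := by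
    intro x
    rcases p4_invol _ (hf2 x) with h | h | h
    · exact Or.inl h
    · exfalso
      obtain ⟨i, hi⟩ := h.2.2
      obtain ⟨j, hj⟩ : ∃ j, f x j ≠ j := by
        by_contra hall
        push_neg at hall
        exact h.2.1 (Equiv.ext hall)
      set e := @Finite.equivFinOfCardEq _ (Nat.finite_of_card_ne_zero (by omega : Nat.card Φ ≠ 0)) 4 hΦ4
      obtain ⟨g, hg⟩ : ∃ g : Q, g • (e.symm i : Ω) = (e.symm j : Ω) := by
        obtain ⟨g1, hg1⟩ := (e.symm i).2
        obtain ⟨g2, hg2⟩ := (e.symm j).2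
        refine ⟨g2 * g1⁻¹, ?_⟩
        rw [mul_smul, ← hg1]
        simp only [inv_smul_smul]
        exact hg2
      have hgij : f g i = j := by
        show e (permOn Φ ⟨(g : G), hQH g.2⟩ (e.symm i)) = j
        rw [← e.apply_symm_apply j]
        exact congrArg e (Subtype.ext hg)
      refine p4_swap_move (f x) (f g) i ⟨hf2 x, h.2.1, i, hi⟩ hi (hf2 g) (by rw [hgij]; exact hj) ?_
      rw [← map_mul]
      exact hf2 (g * x)
    · exact Or.inr h
  obtain ⟨hw4, hwΦ, hA4, hA2, hK4, hK2⟩ := hconf w₀ hw₀Q hw₀o hw₀ne hw₀R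
  set A := R ⊓ Subgroup.centralizer ({w₀} : Set G) with hAdef
  set K := Q ⊓ Subgroup.centralizer ({w₀} : Set G) ⊓ fixingSubgroup G (fixedBy Ω w₀) with hKdef
  have hKQ : K ≤ Q := inf_le_left.trans inf_le_left
  have hAQ : A ≤ Q := inf_le_left.trans inf_le_left
  have hKF : ∀ k ∈ K, k ≠ 1 → fixedBy Ω k = fixedBy Ω w₀ := fun k hk hk1 =>
    hF.exact_fix (hQ2.to_le hKQ) hw4 hk hk.2 hk1
  have hKfree : ∀ k ∈ K, (fixedBy Ω k ∩ Φ).Nonempty → k = 1 := by
    intro k hk hne
    by_contra h1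
    rw [hKF k hk h1, hwΦ] at hne
    exact Set.not_nonempty_empty hne
  have hKR : ∀ k ∈ K, k ∈ fixingSubgroup G Φ → k = 1 := fun k hk hkf => hKfree k hk (by
    obtain ⟨y, hy⟩ := Set.nonempty_of_ncard_ne_zero (s := Φ) (by omega)
    exact ⟨y, subset_fixedBy_of_fixing hkf hy, hy⟩)
  have hRK : ∀ g ∈ R, g ∈ fixingSubgroup G (fixedBy Ω w₀) → g = 1 := by
    intro g hg hgK
    by_contra h1
    obtain ⟨y, hy⟩ := hw₀ne
    have h2 : y ∈ fixedBy Ω g := subset_fixedBy_of_fixing hgK hy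
    rw [hexact g hg h1] at h2
    exact Set.notMem_empty y (hwΦ ▸ Set.mem_inter hy h2 : y ∈ (∅ : Set Ω))
  have hAK : ∀ a ∈ A, ∀ k ∈ K, a * k = k * a := by
    intro a ha k hk
    have e1 : a * k * a⁻¹ * k⁻¹ ∈ R := by
      rw [show a * k * a⁻¹ * k⁻¹ = a * (k * a⁻¹ * k⁻¹) by group]
      exact R.mul_mem ha.1 (hRn k (hKQ hk) _ (R.inv_mem ha.1))
    exact mul_inv_eq_iff_eq_mul.1 (mul_inv_eq_one.1 (hRK _ e1
      (Subgroup.mul_mem _ (conj_mem_fixing (centralizer_le_stabilizer w₀ ha.2) hk.2) (inv_mem hk.2))))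
  have hgen : ∀ x ∈ Q, ∃ r ∈ R, ∃ k ∈ K, x = r * k := by
    intro x hx
    rcases hfd ⟨x, hx⟩ with h | h
    · exact ⟨x, Subgroup.mem_inf.2 ⟨hx, (hf1 _).1 h⟩, 1, K.one_mem, (mul_one x).symm⟩
    · obtain ⟨k, hk, -, hke⟩ := exists_img_eq_dbl Φ hΦ4 (hKQ.trans hQH) hK4 hK2 hKfree h
      refine ⟨x * k⁻¹, Subgroup.mem_inf.2 ⟨Q.mul_mem hx (Q.inv_mem (hKQ hk)), ?_⟩, k, hk,
        (inv_mul_cancel_right x k).symm⟩
      exact mul_inv_mem_fixing Φ hΦ4 ⟨x, hQH hx⟩ ⟨k, hQH (hKQ hk)⟩ hke.symm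
  have hCk : ∀ k ∈ K, k ≠ 1 → ∀ r ∈ R, (r * k = k * r ↔ r ∈ A) := by
    intro k hk hk1
    obtain ⟨-, -, hAk4, -, -, -⟩ := hconf k (hKQ hk) (orderOf_two_iff.2 ⟨hK2 k hk, hk1⟩)
      (by rw [hKF k hk hk1]; exact hw₀ne) (fun h => hk1 (hKR k hk h))
    have hle : A ≤ R ⊓ Subgroup.centralizer ({k} : Set G) := fun a ha => Subgroup.mem_inf.2
      ⟨ha.1, Subgroup.mem_centralizer_singleton_iff.2 (hAK a ha k hk)⟩
    have heq := Subgroup.eq_of_le_of_card_ge hle (by omega)
    intro r hr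
    constructor
    · intro h
      rw [heq]
      exact Subgroup.mem_inf.2 ⟨hr, Subgroup.mem_centralizer_singleton_iff.2 h⟩
    · intro h; exact hAK r h k hk
  apply hnot
  refine rank_of_sylow P ?_
  have hRnormal : (R.subgroupOf Q).Normal := ⟨fun n hn g => hRn g g.2 n hn⟩
  refine rank_of_quotient hQ2 (R.subgroupOf Q) (A.subgroupOf Q) (K.subgroupOf Q)
    (fun a ha => Subtype.ext (hA2 a ha))
    (by rw [Nat.card_congr (Subgroup.subgroupOfEquivOfLe hAQ).toEquiv, hA4])
    (fun k hk => Subtype.ext (hK2 k hk))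
    (by rw [Nat.card_congr (Subgroup.subgroupOfEquivOfLe hKQ).toEquiv, hK4])
    ((Subgroup.eq_bot_iff_forall _).2 fun x hx => Subtype.ext (hKR x hx.2 hx.1.2))
    (fun x => ?_) (fun a ha => ha.1) (fun k hk hk1 r hr => ?_)
  · obtain ⟨r, hr, k, hk, e⟩ := hgen x x.2
    exact ⟨⟨r, hr.1⟩, hr, ⟨k, hKQ hk⟩, hk, Subtype.ext e⟩
  · have h := hCk k hk (fun e => hk1 (Subtype.ext e)) r hr
    exact ⟨fun e => h.1 (congrArg Subtype.val e), fun e => Subtype.ext (h.2 e)⟩

end Four

end CfsgLib.Spectrum.FixFour
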