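/-
The sign homomorphism separating a point stabilizer in a Sylow 2-subgroup of a group of fixity two.
-/
import Cfsg.Agent.Lib.Spectrum.FixityTwoSylow
import Mathlib

set_option autoImplicit false
open Cfsg

namespace CfsgLib.Spectrum

variable {G : Type*} [Group G] [Finite G] {Ω : Type*} [Fintype Ω] [MulAction G Ω]

/-- With one orbit of size two and all others regular the degree is two modulo the group order. -/
theorem card_eq_two_add {P : Subgroup G} (α β : Ω) (hαβ : α ≠ β)
    (horb : MulAction.orbit P α = {α, β})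
    (hfree : ∀ ω : Ω, ω ∉ MulAction.orbit P α → MulAction.stabilizer P ω = ⊥) :
    ∃ R, Nat.card Ω = 2 + R * Nat.card P := by
  classical
  have hc := Nat.card_congr (MulAction.selfEquivSigmaOrbitsQuotientStabilizer P Ω)
  let _ := Fintype.ofFinite (Quotient (MulAction.orbitRel P Ω))
  rw [Nat.card_sigma] at hc
  set q0 : Quotient (MulAction.orbitRel P Ω) := ⟦α⟧ with hq0
  have h0 : MulAction.orbit P q0.out = MulAction.orbit P α :=
    MulAction.orbit_eq_iff.2 (Quotient.exact q0.out_eq)
  have hdvd : Nat.card P ∣ ∑ q ∈ Finset.univ.erase q0,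
      Nat.card (P ⧸ MulAction.stabilizer P q.out) := by
    refine Finset.dvd_sum fun q hq => ?_
    rw [hfree q.out (fun h => Finset.ne_of_mem_erase hq ?_), ← Subgroup.index_eq_card,
      Subgroup.index_bot]
    rw [hq0, ← q.out_eq]
    exact Quotient.sound h
  obtain ⟨R, hR⟩ := hdvd
  refine ⟨R, ?_⟩
  rw [hc, ← Finset.add_sum_erase _ _ (Finset.mem_univ q0), hR, ← Subgroup.index_eq_card,
    MulAction.index_stabilizer, h0, horb, Set.ncard_pair hαβ, mul_comm]

/-- A homomorphism onto the signs which is trivial on the stabilizer in the Sylow subgroup and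
nontrivial on an element moving the point. -/
theorem exists_separating_hom (S : Sylow 2 G) (α β : Ω) (hαβ : α ≠ β)
    (horb : MulAction.orbit ↥(S : Subgroup G) α = {α, β})
    (hidx : (MulAction.stabilizer ↥(S : Subgroup G) α).index = 2)
    (hTfix : ∀ t : (S : Subgroup G), t ≠ 1 → t • α = α → MulAction.fixedBy Ω t = {α, β})
    (hfree : ∀ ω : Ω, ω ≠ α → ω ≠ β → MulAction.stabilizer ↥(S : Subgroup G) ω = ⊥)
    (R : ℕ) (hR : Nat.card Ω = 2 + R * Nat.card (S : Subgroup G)) :
    ∃ (χ : G →* ℤˣ) (s : (S : Subgroup G)), s • α = β ∧ χ (s : G) = -1 ∧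
      ∀ t ∈ MulAction.stabilizer ↥(S : Subgroup G) α, χ (t : G) = 1 := by
  classical
  have : Fact (Nat.Prime 2) := ⟨Nat.prime_two⟩
  set P := (S : Subgroup G) with hP
  set T := MulAction.stabilizer P α with hT
  obtain ⟨s, hsβ⟩ : β ∈ MulAction.orbit P α := by rw [horb]; exact Or.inr rfl
  change s • α = β at hsβ
  have hβα : β ≠ α := hαβ.symm
  have hsT : s ∉ T := fun h => hβα (hsβ.symm.trans h)
  have hs1 : s ≠ 1 := fun h => hsT (h ▸ T.one_mem)
  have hsαβ : s • β = α := by
    have : s • β ∈ MulAction.orbit P α := ⟨s * s, by simp [mul_smul, hsβ]⟩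
    rw [horb] at this
    rcases this with h | h
    · exact h
    · exact absurd (smul_left_cancel s (h.trans hsβ.symm)) hβα
  have hoP : ∀ g : P, g ≠ 1 → Even (orderOf g) := by
    intro g hg
    obtain ⟨k, hk⟩ := IsPGroup.iff_orderOf.1 S.2 g
    rcases k with _ | k
    · exact absurd (orderOf_eq_one_iff.1 hk) hg
    · rw [hk]; exact ⟨2 ^ k, by ring⟩
  have hquot : ∀ g : P, orderOf g ≠ Nat.card P → Even (Nat.card P / orderOf g) := by
    intro g hg
    obtain ⟨a, ha⟩ := S.2.exists_card_eq
    obtain ⟨k, hk⟩ := IsPGroup.iff_orderOf.1 S.2 g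
    have hd : orderOf g ∣ Nat.card P := orderOf_dvd_natCard g
    rw [ha, hk, Nat.pow_dvd_pow_iff_le_right (by norm_num)] at hd
    have hne : k ≠ a := fun h => hg (by rw [hk, ha, h])
    rw [ha, hk, Nat.pow_div hd two_pos, Nat.even_pow]
    exact ⟨even_two, by omega⟩
  by_cases hcyc : IsCyclic P
  · let _ := Fintype.ofFinite G
    refine ⟨Equiv.Perm.sign.comp (MulAction.toPermHom G G), s, hsβ, ?_⟩
    have hsign : ∀ g : P, g ≠ 1 →
        Equiv.Perm.sign (MulAction.toPermHom G G (g : G)) = (-1) ^ (Nat.card G / orderOf g) := by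
      intro g hg
      have h := sign_eq_of_free (MulAction.toPermHom G G (g : G)) (orderOf g)
        (by rw [← map_pow, ← Subgroup.coe_pow, pow_orderOf_eq_one, Subgroup.coe_one, map_one])
        (hoP g hg) (fun a _ m hm => by
          rw [← map_pow, MulAction.toPermHom_apply, MulAction.toPerm_apply, smul_eq_mul,
            mul_eq_right] at hm
          exact orderOf_dvd_of_pow_eq_one (Subtype.ext hm))
      rw [h.2]
      congr 2
      have : (MulAction.toPermHom G G (g : G)).support = Finset.univ := by
        rw [Finset.eq_univ_iff_forall]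
        intro a
        rw [Equiv.Perm.mem_support, MulAction.toPermHom_apply, MulAction.toPerm_apply, smul_eq_mul,
          ne_eq, mul_eq_right]
        exact fun h => hg (Subtype.ext h)
      rw [this, Finset.card_univ, Nat.card_eq_fintype_card]
    obtain ⟨g₀, hg₀⟩ := hcyc.exists_generator
    have hgsT : orderOf s = Nat.card P := by
      by_contra hne
      apply hsT
      obtain ⟨k, rfl⟩ := Subgroup.mem_zpowers_iff.1 (hg₀ s)
      rcases Int.even_or_odd k with ⟨j, rfl⟩ | hk
      · rw [zpow_add]
        exact Subgroup.mul_self_mem_of_index_two hidx _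
      · exfalso
        apply hne
        have h0 : orderOf g₀ = Nat.card P := orderOf_eq_card_of_forall_mem_zpowers hg₀
        refine Nat.dvd_antisymm (orderOf_dvd_natCard _) ?_
        rw [← h0]
        obtain ⟨a, ha⟩ := S.2.exists_card_eq
        have hcop : IsCoprime (((orderOf g₀ : ℕ) : ℤ)) k := by
          rw [h0, ha]; push_cast
          refine IsCoprime.pow_left ?_
          obtain ⟨j, rfl⟩ := hk
          exact ⟨-j, 1, by ring⟩
        obtain ⟨u, v, huv⟩ := hcop
        refine orderOf_dvd_of_mem_zpowers ⟨v, ?_⟩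
        change (g₀ ^ k) ^ v = g₀
        rw [← zpow_mul, show k * v = 1 + (orderOf g₀ : ℤ) * (-u) by linarith, zpow_add, zpow_one,
          zpow_mul, zpow_natCast, pow_orderOf_eq_one, one_zpow, mul_one]
    obtain ⟨m, hm⟩ : Nat.card P ∣ Nat.card G := Subgroup.card_subgroup_dvd_card _
    have hmodd : Odd m := by
      rw [← Nat.not_even_iff_odd, even_iff_two_dvd]
      have h := S.not_dvd_index
      have h2 := P.card_mul_index
      rw [hm] at h2
      rwa [Nat.eq_of_mul_eq_mul_left Nat.card_pos h2] at h
    constructor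
    · change Equiv.Perm.sign (MulAction.toPermHom G G (s : G)) = -1
      rw [hsign s hs1, hgsT, hm, Nat.mul_div_cancel_left _ Nat.card_pos, hmodd.neg_one_pow]
    · intro t ht
      change Equiv.Perm.sign (MulAction.toPermHom G G (t : G)) = 1
      by_cases ht1 : t = 1
      · rw [ht1, Subgroup.coe_one, map_one, map_one]
      have hd : orderOf t ∣ Nat.card P := orderOf_dvd_natCard t
      have hne : orderOf t ≠ Nat.card P := by
        intro h
        have h1 : orderOf t ≤ Nat.card T := Nat.le_of_dvd Nat.card_pos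
          ((Subgroup.orderOf_coe (⟨t, ht⟩ : T)) ▸ orderOf_dvd_natCard (⟨t, ht⟩ : T))
        have h2 := T.card_mul_index
        rw [hidx] at h2
        have := Nat.card_pos (α := T)
        omega
      rw [hsign t ht1, hm, Nat.mul_div_right_comm hd, ((hquot t hne).mul_right m).neg_one_pow]
  · refine ⟨Equiv.Perm.sign.comp (MulAction.toPermHom G Ω), s, hsβ, ?_⟩
    have hsign : ∀ (g : P) (σ : Equiv.Perm Ω), g ≠ 1 → σ α = α → σ β = β →
        (∀ ω, ω ≠ α → ω ≠ β → σ ω = g • ω) → Equiv.Perm.sign σ = 1 := by
      intro g σ hg hσα hσβ hσ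
      have hinv : ∀ (m : ℕ) (ω : Ω), ω ≠ α → ω ≠ β → (g ^ m) • ω ≠ α ∧ (g ^ m) • ω ≠ β := by
        intro m ω h1 h2
        have hω : ω ∉ MulAction.orbit P α := by rw [horb]; simp [h1, h2]
        constructor <;> intro h <;> apply hω
        · exact ⟨(g ^ m)⁻¹, by simp only [inv_smul_eq_iff]; exact h.symm⟩
        · exact ⟨(g ^ m)⁻¹ * s, by simp only [mul_smul, inv_smul_eq_iff, hsβ]; exact h.symm⟩
      have hpow : ∀ (m : ℕ) (ω : Ω), ω ≠ α → ω ≠ β → (σ ^ m) ω = (g ^ m) • ω := by
        intro m
        induction m with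
        | zero => intros; simp
        | succ m ih =>
          intro ω h1 h2
          rw [pow_succ', Equiv.Perm.mul_apply, ih ω h1 h2,
            hσ _ (hinv m ω h1 h2).1 (hinv m ω h1 h2).2, ← mul_smul, ← pow_succ']
      have hfix0 : ∀ (m : ℕ) (ω : Ω), ω ≠ α → ω ≠ β → (σ ^ m) ω = ω → orderOf g ∣ m := by
        intro m ω h1 h2 h
        rw [hpow m ω h1 h2] at h
        apply orderOf_dvd_of_pow_eq_one
        have : g ^ m ∈ MulAction.stabilizer P ω := h
        rwa [hfree ω h1 h2, Subgroup.mem_bot] at this
      have hσn : σ ^ orderOf g = 1 := by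
        ext ω
        by_cases h1 : ω = α
        · subst h1; simp [Equiv.Perm.pow_apply_eq_self_of_apply_eq_self hσα]
        by_cases h2 : ω = β
        · subst h2; simp [Equiv.Perm.pow_apply_eq_self_of_apply_eq_self hσβ]
        rw [hpow _ ω h1 h2, pow_orderOf_eq_one, one_smul, Equiv.Perm.one_apply]
      have h := sign_eq_of_free σ (orderOf g) hσn (hoP g hg) (fun a ha m hm =>
        hfix0 m a (fun e => ha (by rw [e, hσα])) (fun e => ha (by rw [e, hσβ])) hm)
      have hsupp : σ.support.card = R * Nat.card P := by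
        have : σ.support = Finset.univ \ {α, β} := by
          ext ω
          simp only [Equiv.Perm.mem_support, Finset.mem_sdiff, Finset.mem_univ, true_and,
            Finset.mem_insert, Finset.mem_singleton, not_or, ne_eq]
          refine ⟨fun h => ⟨fun e => h (by rw [e, hσα]), fun e => h (by rw [e, hσβ])⟩,
            fun ⟨h1, h2⟩ h => ?_⟩
          have := hfix0 1 ω h1 h2 (by rwa [pow_one])
          rw [Nat.dvd_one, orderOf_eq_one_iff] at this
          exact hg this
        rw [this, Finset.card_univ_sdiff, Finset.card_pair hαβ, ← Nat.card_eq_fintype_card, hR]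
        omega
      rw [h.2, hsupp, Nat.mul_div_assoc _ (orderOf_dvd_natCard g)]
      have hne : orderOf g ≠ Nat.card P := fun h => hcyc (isCyclic_of_orderOf_eq_card g h)
      exact ((hquot g hne).mul_left R).neg_one_pow
    constructor
    · change Equiv.Perm.sign (MulAction.toPermHom G Ω (s : G)) = -1
      have h := hsign s (Equiv.swap α β * MulAction.toPermHom G Ω (s : G)) hs1
        (by
          change Equiv.swap α β (s • α) = α
          rw [hsβ, Equiv.swap_apply_right])
        (by
          change Equiv.swap α β (s • β) = β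
          rw [hsαβ, Equiv.swap_apply_left])
        (fun ω h1 h2 => by
          change Equiv.swap α β (s • ω) = s • ω
          refine Equiv.swap_apply_of_ne_of_ne (fun e => h2 ?_) (fun e => h1 ?_)
          · exact smul_left_cancel s (e.trans hsαβ.symm)
          · exact smul_left_cancel s (e.trans hsβ.symm))
      rw [map_mul, Equiv.Perm.sign_swap hαβ] at h
      calc Equiv.Perm.sign (MulAction.toPermHom G Ω (s : G))
          = -(-1 * Equiv.Perm.sign (MulAction.toPermHom G Ω (s : G))) := by simp
        _ = -1 := by rw [h]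
    · intro t ht
      change Equiv.Perm.sign (MulAction.toPermHom G Ω (t : G)) = 1
      by_cases ht1 : t = 1
      · rw [ht1, Subgroup.coe_one, map_one, map_one]
      have hf := hTfix t ht1 ht
      refine hsign t _ ht1 ht ?_ (fun ω _ _ => rfl)
      exact (show β ∈ MulAction.fixedBy Ω t by rw [hf]; exact Or.inr rfl)

end CfsgLib.Spectrum
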