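import Cfsg.Agent.Lib.Spectrum.L33Group

/-!
Automorphisms of the graph on the 52 flags of the projective plane of order 3.
-/

namespace CfsgLib.Spectrum.L33

/-- Point of a flag. -/
def pid (i : ℕ) : ℕ := i / 4

/-- Line of a flag. -/
def lid (i : ℕ) : ℕ :=
  [1, 4, 7, 10, 0, 4, 5, 6, 3, 4, 9, 11, 2, 4, 8, 12, 0, 1, 2, 3, 1, 6, 9, 12, 1, 5, 8, 11, 0, 10, 11, 12,
    3, 6, 8, 10, 2, 5, 9, 10, 0, 7, 8, 9, 2, 6, 7, 11, 3, 5, 7, 12].getD i 0

/-- Two flags share a point or a line. -/
def adj (i j : ℕ) : Bool := Nat.beq (pid i) (pid j) || Nat.beq (lid i) (lid j)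

theorem adj_check : (List.range 52).all (fun i => (List.range 52).all (fun j =>
    eqb (mul (tdata.getD i (one, one, one, one)).1 (tdata.getD j (one, one, one, one)).1)
      (mul (tdata.getD j (one, one, one, one)).1 (tdata.getD i (one, one, one, one)).1) == adj i j)) = true := by
  decide +kernel

theorem separated_check : (List.range 52).all (fun i => (List.range 52).all (fun j =>
    Nat.beq i j || (List.range 52).any (fun k => adj i k != adj j k))) = true := by decide +kernel

theorem tv_comm_iff (i j : Fin 52) (s s' : Bool) : tv i s * tv j s' = tv j s' * tv i s ↔ adj i.val j.val = true := by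
  have h0 : tv i s * tv j s' = tv j s' * tv i s ↔ tv i false * tv j false = tv j false * tv i false := by
    show Commute _ _ ↔ Commute _ _
    cases s <;> cases s' <;> simp [tv]
  rw [h0]
  show mkSL (trow i).1 * mkSL (trow j).1 = mkSL (trow j).1 * mkSL (trow i).1 ↔ _
  rw [mul_comm_iff (trow_facts i).1 (trow_facts j).1]
  have h := List.all_eq_true.mp (List.all_eq_true.mp adj_check i.val (List.mem_range.mpr i.isLt)) j.val
    (List.mem_range.mpr j.isLt)
  rw [beq_iff_eq] at h
  rw [← h]
  constructor
  · intro e
    show eqb (mul (trow i).1 (trow j).1) (mul (trow j).1 (trow i).1) = true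
    rw [e]
    simp [eqb]
  · exact eq_of_eqb

theorem flag_eq (i j : Fin 52) (h : ∀ k : Fin 52, adj i.val k.val = adj j.val k.val) : i = j := by
  have hc := List.all_eq_true.mp (List.all_eq_true.mp separated_check i.val (List.mem_range.mpr i.isLt)) j.val
    (List.mem_range.mpr j.isLt)
  rw [Bool.or_eq_true, Nat.beq_eq] at hc
  rcases hc with e | e
  · exact Fin.ext e
  · obtain ⟨k, hk, hne⟩ := List.any_eq_true.mp e
    exact absurd (h ⟨k, List.mem_range.mp hk⟩) (by simpa using hne)

/-- Having a common neighbour. -/
def near (i j : ℕ) : Bool := (List.range 52).any (fun k => adj i k && adj k j)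

/-- The distance class of two flags. -/
def dist (i j : ℕ) : ℕ := if Nat.beq i j then 0 else if adj i j then 1 else if near i j then 2 else 3

/-- The automorphism group of the flag graph. -/
def autGraph : Subgroup (Equiv.Perm (Fin 52)) where
  carrier := {α | ∀ i j : Fin 52, adj (α i).val (α j).val = adj i.val j.val}
  one_mem' := fun _ _ => rfl
  mul_mem' := fun {a b} ha hb i j => (ha _ _).trans (hb i j)
  inv_mem' := fun {a} ha i j => by
    have := ha (a⁻¹ i) (a⁻¹ j)
    simpa using this.symm

theorem near_iff (i j : ℕ) : near i j = true ↔ ∃ k : Fin 52, adj i k.val = true ∧ adj k.val j = true := by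
  simp only [near, List.any_eq_true, List.mem_range, Bool.and_eq_true]
  exact ⟨fun ⟨k, hk, h⟩ => ⟨⟨k, hk⟩, h⟩, fun ⟨k, h⟩ => ⟨k, k.isLt, h⟩⟩

theorem dist_map {α : Equiv.Perm (Fin 52)} (hα : α ∈ autGraph) (i j : Fin 52) :
    dist (α i).val (α j).val = dist i.val j.val := by
  have hn : near (α i).val (α j).val = near i.val j.val := by
    rw [Bool.eq_iff_iff, near_iff, near_iff]
    constructor
    · rintro ⟨k, h1, h2⟩
      refine ⟨α⁻¹ k, ?_, ?_⟩
      · rw [← hα]; simpa using h1
      · rw [← hα]; simpa using h2
    · rintro ⟨k, h1, h2⟩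
      exact ⟨α k, by rw [hα]; exact h1, by rw [hα]; exact h2⟩
  have he : Nat.beq (α i).val (α j).val = Nat.beq i.val j.val := by
    rw [Bool.eq_iff_iff, Nat.beq_eq, Nat.beq_eq, ← Fin.ext_iff, ← Fin.ext_iff, α.injective.eq_iff]
  rw [dist, dist, hn, he, hα i j]

/-- The base and the order in which the other flags get fixed. -/
def order : List ℕ := [0, 5, 16, 8, 21, 30, 1, 4, 6, 7, 9, 11, 13, 17, 18, 12, 19, 10, 20, 22, 23, 14, 15, 24, 25,
  26, 27, 28, 29, 2, 3, 31, 40, 34, 32, 33, 35, 38, 36, 37, 39, 41, 42, 43, 44, 45, 46, 47, 48, 49, 50, 51]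

/-- The candidates for the image of the base flag number `k` when the previous ones are fixed. -/
def cand (k : ℕ) : List ℕ :=
  (List.range 52).filter fun c => (List.range k).all fun j =>
    Nat.beq (dist (order.getD j 0) c) (dist (order.getD j 0) (order.getD k 0))

theorem cand_prod : (cand 0).length * (cand 1).length * (cand 2).length * (cand 3).length * (cand 4).length *
    (cand 5).length = 11232 := by decide +kernel

theorem propagate_check : (List.range 52).all (fun k => Nat.blt k 6 || (List.range 52).all (fun e =>
    Nat.beq e (order.getD k 0) || (List.range k).any (fun j => adj (order.getD j 0) e != adj (order.getD j 0) (order.getD k 0)))) = true := by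
  decide +kernel

theorem order_complete : (List.range 52).all (fun i => order.contains i) = true := by decide +kernel

/-- A flag of the base. -/
def bflag (k : ℕ) : Fin 52 := ⟨order.getD k 0 % 52, Nat.mod_lt _ (by norm_num)⟩

theorem order_lt : (List.range 52).all (fun k => Nat.beq (order.getD k 0 % 52) (order.getD k 0)) = true := by
  decide +kernel

theorem bflag_val {k : ℕ} (hk : k < 52) : (bflag k).val = order.getD k 0 :=
  Nat.eq_of_beq_eq_true (List.all_eq_true.mp order_lt k (List.mem_range.mpr hk))

/-- The stabiliser of the first `k` base flags. -/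
def stab (k : ℕ) : Subgroup autGraph := ⨅ j ∈ Finset.range k, MulAction.stabilizer autGraph (bflag j)

theorem mem_stab {k : ℕ} {α : autGraph} : α ∈ stab k ↔ ∀ j < k, α.1 (bflag j) = bflag j := by
  simp only [stab, Subgroup.mem_iInf, Finset.mem_range, MulAction.mem_stabilizer_iff]
  rfl

theorem stab_six : stab 6 = ⊥ := by
  rw [eq_bot_iff]
  intro α hα
  rw [mem_stab] at hα
  have key : ∀ k < 52, α.1 (bflag k) = bflag k := by
    intro k
    induction k using Nat.strong_induction_on with
    | _ k ih =>
      intro hk
      by_cases h6 : k < 6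
      · exact hα k h6
      have hc := List.all_eq_true.mp propagate_check k (List.mem_range.mpr hk)
      rw [Bool.or_eq_true, Nat.blt_eq] at hc
      have hc' := List.all_eq_true.mp (hc.resolve_left h6) _ (List.mem_range.mpr (α.1 (bflag k)).isLt)
      rw [Bool.or_eq_true, Nat.beq_eq, ← bflag_val hk] at hc'
      rcases hc' with e | e
      · exact Fin.ext e
      · obtain ⟨j, hj, hne⟩ := List.any_eq_true.mp e
        have hjk := List.mem_range.mp hj
        have := α.2 (bflag j) (bflag k)
        rw [ih j hjk (by omega)] at this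
        rw [← bflag_val (show j < 52 by omega)] at hne
        simp [this] at hne
  rw [Subgroup.mem_bot]
  apply Subtype.ext
  ext i
  obtain ⟨k, hk, e⟩ := List.getElem_of_mem (List.mem_of_elem_eq_true (List.all_eq_true.mp order_complete i.val (List.mem_range.mpr i.isLt)))
  have hb : bflag k = i := Fin.ext (by
    rw [bflag_val hk, List.getD_eq_getElem?_getD, List.getElem?_eq_getElem hk]; exact e)
  rw [← hb, key k hk]
  rfl

section
attribute [local irreducible] stab bflag

theorem card_stab_le (k : ℕ) (hk : k < 52) : Nat.card (stab k) ≤ (cand k).length * Nat.card (stab (k + 1)) := by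
  have horb : ∀ x ∈ MulAction.orbit (stab k) (bflag k), (x : Fin 52).val ∈ cand k := by
    rintro _ ⟨α, rfl⟩
    have hfix := mem_stab.mp α.2
    simp only [cand, List.mem_filter, List.mem_range, List.all_eq_true, Nat.beq_eq]
    refine ⟨Fin.isLt _, fun j hj => ?_⟩
    rw [← bflag_val (show j < 52 by omega), ← bflag_val hk]
    conv_lhs => rw [← hfix j hj]
    exact dist_map α.1.2 _ _
  have hle : Nat.card (MulAction.orbit (stab k) (bflag k)) ≤ (cand k).length := by
    refine (Nat.card_le_card_of_injective (fun x : MulAction.orbit (stab k) (bflag k) =>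
      (⟨x.1.val, List.mem_toFinset.mpr (horb x.1 x.2)⟩ : (cand k).toFinset))
      (fun a b h => Subtype.ext (Fin.ext (congrArg (fun y : (cand k).toFinset => y.val) h)))).trans ?_
    rw [Nat.card_eq_fintype_card, Fintype.card_coe]
    exact List.toFinset_card_le _
  have hst : Nat.card (MulAction.stabilizer (stab k) (bflag k)) ≤ Nat.card (stab (k + 1)) := by
    refine Nat.card_le_card_of_injective (fun α : MulAction.stabilizer (stab k) (bflag k) =>
      (⟨α.1.1, mem_stab.mpr fun j hj => ?_⟩ : stab (k + 1))) ?_
    · rcases Nat.lt_succ_iff_lt_or_eq.mp hj with h | h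
      · exact mem_stab.mp α.1.2 j h
      · subst h; exact α.2
    · intro a b h
      have h' := congrArg Subtype.val h
      exact Subtype.ext (Subtype.ext h')
  rw [← Subgroup.card_mul_index (MulAction.stabilizer (stab k) (bflag k)), MulAction.index_stabilizer, mul_comm,
    ← Nat.card_coe_set_eq]
  exact Nat.mul_le_mul hle hst

end

theorem card_autGraph_le : Nat.card autGraph ≤ 11232 := by
  have h0 : Nat.card autGraph = Nat.card (stab 0) := by
    have : stab 0 = ⊤ := eq_top_iff.mpr fun α _ => mem_stab.mpr fun j hj => absurd hj (by omega)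
    rw [this, Subgroup.card_top]
  have h6 : Nat.card (stab 6) = 1 := by rw [stab_six, Subgroup.card_bot]
  have e0 := card_stab_le 0 (by norm_num)
  have e1 := card_stab_le 1 (by norm_num)
  have e2 := card_stab_le 2 (by norm_num)
  have e3 := card_stab_le 3 (by norm_num)
  have e4 := card_stab_le 4 (by norm_num)
  have e5 := card_stab_le 5 (by norm_num)
  rw [h6, mul_one] at e5
  calc Nat.card autGraph = Nat.card (stab 0) := h0
    _ ≤ (cand 0).length * ((cand 1).length * ((cand 2).length * ((cand 3).length * ((cand 4).length * (cand 5).length)))) := by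
        refine e0.trans (Nat.mul_le_mul_left _ (e1.trans (Nat.mul_le_mul_left _ (e2.trans (Nat.mul_le_mul_left _
          (e3.trans (Nat.mul_le_mul_left _ (e4.trans (Nat.mul_le_mul_left _ e5)))))))))
    _ = 11232 := by rw [← cand_prod]; ring

end CfsgLib.Spectrum.L33
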