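import Cfsg.Agent.Lib.Spectrum.L33Data
import Cfsg.Agent.Lib.ClassicalLinear.Generation

/-!
Centralisers in SL(3,3) and its transvection classes.
-/

namespace CfsgLib.Spectrum.L33

open scoped Matrix

/-- The group SL(3,3). -/
abbrev P33 := Matrix.SpecialLinearGroup (Fin 3) (ZMod 3)

/-- The matrix of an `M3`. -/
def toM (A : M3) : Matrix (Fin 3) (Fin 3) (ZMod 3) :=
  !![(A.a : ZMod 3), (A.b : ZMod 3), (A.c : ZMod 3); (A.d : ZMod 3), (A.e : ZMod 3), (A.f : ZMod 3);
     (A.g : ZMod 3), (A.h : ZMod 3), (A.i : ZMod 3)]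

/-- Entries of a matrix. -/
def ofM (M : Matrix (Fin 3) (Fin 3) (ZMod 3)) : M3 :=
  ⟨(M 0 0).val, (M 0 1).val, (M 0 2).val, (M 1 0).val, (M 1 1).val, (M 1 2).val, (M 2 0).val, (M 2 1).val, (M 2 2).val⟩

/-- Reduction of the entries. -/
def red (A : M3) : M3 :=
  ⟨A.a % 3, A.b % 3, A.c % 3, A.d % 3, A.e % 3, A.f % 3, A.g % 3, A.h % 3, A.i % 3⟩

theorem ofM_toM (A : M3) : ofM (toM A) = red A := by simp [ofM, toM, red, ZMod.val_natCast]

theorem toM_ofM (M : Matrix (Fin 3) (Fin 3) (ZMod 3)) : toM (ofM M) = M := by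
  ext i j
  fin_cases i <;> fin_cases j <;> simp [toM, ofM]

theorem toM_mul (A B : M3) : toM (mul A B) = toM A * toM B := by
  ext i j
  fin_cases i <;> fin_cases j <;> simp [toM, mul, Matrix.mul_apply, Fin.sum_univ_three]

theorem toM_one : toM one = 1 := by
  ext i j
  fin_cases i <;> fin_cases j <;> simp [toM, one]

theorem toM_det (A : M3) : (det A : ZMod 3) = (toM A).det := by
  have h2 : (2 : ZMod 3) = -1 := rfl
  simp [det, toM, Matrix.det_fin_three, h2]
  ring

/-- An element of SL(3,3). -/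
def mkSL (A : M3) : P33 := if h : (toM A).det = 1 then ⟨toM A, h⟩ else 1

theorem mkSL_val {A : M3} (h : det A = 1) : (mkSL A).1 = toM A := by
  have : (toM A).det = 1 := by rw [← toM_det, h, Nat.cast_one]
  rw [show mkSL A = ⟨toM A, this⟩ from dif_pos this]

theorem mkSL_one : mkSL one = 1 := by
  apply Subtype.ext
  rw [mkSL_val (by decide +kernel), toM_one]
  rfl

theorem mkSL_mul {A B : M3} (hA : det A = 1) (hB : det B = 1) : (mkSL A * mkSL B).1 = toM (mul A B) := by
  rw [Matrix.SpecialLinearGroup.coe_mul, mkSL_val hA, mkSL_val hB, toM_mul]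

theorem red_mul (A B : M3) : red (mul A B) = mul A B := by simp [red, mul, Nat.mod_mod]

theorem mul_comm_iff {A B : M3} (hA : det A = 1) (hB : det B = 1) :
    mkSL A * mkSL B = mkSL B * mkSL A ↔ mul A B = mul B A := by
  constructor
  · intro h
    have := congrArg (fun g : P33 => ofM g.1) h
    simp only [mkSL_mul hA hB, mkSL_mul hB hA, ofM_toM, red_mul] at this
    exact this
  · intro h
    apply Subtype.ext
    rw [mkSL_mul hA hB, mkSL_mul hB hA, h]

/-- The data of a flag. -/
def trow (i : Fin 52) : M3 × M3 × M3 × M3 := tdata.getD i.val (one, one, one, one)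

theorem trow_mem (i : Fin 52) : trow i ∈ tdata := by
  unfold trow
  rw [List.getD_eq_getElem?_getD, List.getElem?_eq_getElem (show i.val < tdata.length from i.isLt)]
  exact List.getElem_mem _

theorem exists_of_mem_tdata {t : M3 × M3 × M3 × M3} (ht : t ∈ tdata) : ∃ i, trow i = t := by
  obtain ⟨k, hk, rfl⟩ := List.getElem_of_mem ht
  refine ⟨⟨k, hk⟩, ?_⟩
  simp [trow, List.getElem?_eq_getElem hk]

theorem trow_facts (i : Fin 52) : det (trow i).1 = 1 ∧ det (trow i).2.1 = 1 ∧ det (trow i).2.2.1 = 1 ∧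
    det (trow i).2.2.2 = 1 ∧ mul (trow i).1 (trow i).2.1 = one ∧
    mul (trow i).2.2.1 t0 = mul (trow i).1 (trow i).2.2.1 ∧ mul (trow i).2.2.1 (trow i).2.2.2 = one := by
  have h := List.all_eq_true.mp tdata_check _ (trow_mem i)
  simp only [Bool.and_eq_true, Nat.beq_eq] at h
  obtain ⟨⟨⟨⟨⟨⟨h1, h2⟩, h3⟩, h4⟩, h5⟩, h6⟩, h7⟩ := h
  exact ⟨h1, h2, h3, h4, eq_of_eqb h5, eq_of_eqb h6, eq_of_eqb h7⟩

/-- The two transvections of a flag. -/
def tv (i : Fin 52) : Bool → P33
  | false => mkSL (trow i).1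
  | true => (mkSL (trow i).1)⁻¹

theorem tv_true (i : Fin 52) : tv i true = mkSL (trow i).2.1 := by
  obtain ⟨h1, h2, -, -, h5, -⟩ := trow_facts i
  refine inv_eq_of_mul_eq_one_right (Subtype.ext ?_)
  rw [mkSL_mul h1 h2, h5, toM_one]
  rfl

theorem tv_conj (i : Fin 52) : tv i false = mkSL (trow i).2.2.1 * mkSL t0 * (mkSL (trow i).2.2.1)⁻¹ := by
  obtain ⟨h1, -, h3, -, -, h6, -⟩ := trow_facts i
  rw [eq_mul_inv_iff_mul_eq]
  apply Subtype.ext
  show (mkSL (trow i).1 * mkSL (trow i).2.2.1).1 = _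
  rw [mkSL_mul h1 h3, mkSL_mul h3 (by decide +kernel), h6]

theorem tv_pow_three (i : Fin 52) (s : Bool) : tv i s ^ 3 = 1 := by
  have h : mkSL t0 ^ 3 = 1 := by
    have e : mul t0 (mul t0 t0) = one := eq_of_eqb (by decide +kernel)
    apply Subtype.ext
    rw [pow_succ', pow_two, Matrix.SpecialLinearGroup.coe_mul,
      mkSL_mul (by decide +kernel) (by decide +kernel), mkSL_val (by decide +kernel), ← toM_mul, e, toM_one]
    rfl
  have h' : tv i false ^ 3 = 1 := by rw [tv_conj, conj_pow, h, mul_one, mul_inv_cancel]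
  cases s
  · exact h'
  · show (tv i false)⁻¹ ^ 3 = 1
    rw [inv_pow, h', inv_one]

theorem tv_ne (i : Fin 52) : tv i false ≠ tv i true := by
  rw [tv_true]
  intro h
  have h0 : tdata.all (fun t => !eqb (red t.1) (red t.2.1)) = true := by decide +kernel
  have h1 := List.all_eq_true.mp h0 _ (trow_mem i)
  have e := congrArg (fun g : P33 => ofM g.1) h
  simp only [tv, mkSL_val (trow_facts i).1, mkSL_val (trow_facts i).2.1, ofM_toM] at e
  rw [e] at h1
  simp [eqb] at h1

/-- Cases of the classification. -/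
theorem classify (g : P33) :
    g = 1 ∨ (∃ i s, g = tv i s) ∨ (∃ c : P33, g = c * mkSL d0 * c⁻¹) ∨
      ∃ v : Fin 3 → ZMod 3, (Matrix.of fun r k => ((g.1 ^ (k : Fin 3).val) *ᵥ v) r : Matrix (Fin 3) (Fin 3) (ZMod 3)).det ≠ 0 := by
  have hall : ∀ x y z : ℕ, x < 3 → y < 3 → z < 3 → (x, y, z) ∈ rows := by
    intro x y z hx hy hz
    interval_cases x <;> interval_cases y <;> interval_cases z <;> simp [rows]
  have hlt : ∀ a b, (g.1 a b).val < 3 := fun a b => ZMod.val_lt _
  have h := List.all_eq_true.mp (List.all_eq_true.mp (List.all_eq_true.mp classify_check _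
    (hall _ _ _ (hlt 0 0) (hlt 0 1) (hlt 0 2))) _ (hall _ _ _ (hlt 1 0) (hlt 1 1) (hlt 1 2))) _
    (hall _ _ _ (hlt 2 0) (hlt 2 1) (hlt 2 2))
  change caseOK (ofM g.1) = true at h
  have hd : det (ofM g.1) = 1 := by
    have h1 : (det (ofM g.1) : ZMod 3) = ((1 : ℕ) : ZMod 3) := by rw [toM_det, toM_ofM, g.2, Nat.cast_one]
    have h2 := (ZMod.natCast_eq_natCast_iff' _ _ _).mp h1
    rwa [Nat.mod_eq_of_lt (show det (ofM g.1) < 3 from Nat.mod_lt _ (by norm_num))] at h2
  have hg : g = mkSL (ofM g.1) := Subtype.ext (by rw [mkSL_val hd, toM_ofM])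
  simp only [caseOK, Bool.or_eq_true, List.any_eq_true, Bool.not_eq_true'] at h
  rcases h with (((h | h) | h) | h) | h
  · rw [hd] at h; simp at h
  · right; right; right
    obtain ⟨⟨x, y, z⟩, -, hv⟩ := h
    refine ⟨![(x : ZMod 3), (y : ZMod 3), (z : ZMod 3)], ?_⟩
    have hne : det (krylov (ofM g.1) x y z) ≠ 0 := fun e => by rw [e] at hv; simp at hv
    have heq : (Matrix.of fun r k => ((g.1 ^ (k : Fin 3).val) *ᵥ ![(x : ZMod 3), (y : ZMod 3), (z : ZMod 3)]) r :
        Matrix (Fin 3) (Fin 3) (ZMod 3)) = toM (krylov (ofM g.1) x y z) := by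
      ext r k
      fin_cases r <;> fin_cases k <;>
        simp [toM, krylov, ofM, pow_two, Matrix.mul_apply, Matrix.mulVec, dotProduct, Fin.sum_univ_three] <;> ring
    rw [heq, ← toM_det]
    intro e
    apply hne
    have h2 := (ZMod.natCast_eq_natCast_iff' (det (krylov (ofM g.1) x y z)) 0 3).mp (by rw [e, Nat.cast_zero])
    rwa [Nat.mod_eq_of_lt (show det (krylov (ofM g.1) x y z) < 3 from Nat.mod_lt _ (by norm_num)),
      Nat.zero_mod] at h2
  · left; rw [hg, eq_of_eqb h, mkSL_one]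
  · right; left
    obtain ⟨t, ht, h'⟩ := h
    obtain ⟨i, rfl⟩ := exists_of_mem_tdata ht
    rcases h' with h' | h'
    · exact ⟨i, false, by rw [hg, eq_of_eqb h']; rfl⟩
    · exact ⟨i, true, by rw [hg, eq_of_eqb h', tv_true]⟩
  · right; right; left
    obtain ⟨t, ht, h'⟩ := h
    have hc := List.all_eq_true.mp idata_check t ht
    simp only [Bool.and_eq_true, Nat.beq_eq] at hc
    obtain ⟨⟨⟨⟨h1, h2⟩, -⟩, h4⟩, -⟩ := hc
    refine ⟨mkSL t.2.1, ?_⟩
    rw [eq_mul_inv_iff_mul_eq, hg, eq_of_eqb h']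
    apply Subtype.ext
    rw [mkSL_mul h1 h2, mkSL_mul h2 (by decide +kernel), eq_of_eqb h4]

theorem card_centralizer_conj {G : Type*} [Group G] (c x : G) :
    Nat.card (Subgroup.centralizer ({c * x * c⁻¹} : Set G)) = Nat.card (Subgroup.centralizer ({x} : Set G)) := by
  refine (Nat.card_congr ((MulAut.conj c).toEquiv.subtypeEquiv fun g => ?_)).symm
  simp only [Subgroup.mem_centralizer_singleton_iff, MulEquiv.toEquiv_eq_coe, EquivLike.coe_coe,
    MulAut.conj_apply]
  constructor
  · intro h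
    calc c * g * c⁻¹ * (c * x * c⁻¹) = c * (g * x) * c⁻¹ := by group
      _ = c * (x * g) * c⁻¹ := by rw [h]
      _ = c * x * c⁻¹ * (c * g * c⁻¹) := by group
  · intro h
    calc g * x = c⁻¹ * (c * g * c⁻¹ * (c * x * c⁻¹)) * c := by group
      _ = c⁻¹ * (c * x * c⁻¹ * (c * g * c⁻¹)) * c := by rw [h]
      _ = x * g := by group

theorem card_centralizer_tv (i : Fin 52) (s : Bool) :
    54 ≤ Nat.card (Subgroup.centralizer ({tv i s} : Set P33)) := by
  have h0 : 54 ≤ Nat.card (Subgroup.centralizer ({mkSL t0} : Set P33)) := by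
    have hmem : ∀ A ∈ centT0, det A = 1 ∧ mul A t0 = mul t0 A := fun A hA => by
      have := List.all_eq_true.mp centT0_check A hA
      simp only [Bool.and_eq_true, Nat.beq_eq] at this
      exact ⟨this.1, eq_of_eqb this.2⟩
    have hred : ∀ A ∈ centT0, red A = A := fun A hA =>
      eq_of_eqb (List.all_eq_true.mp (show centT0.all (fun B => eqb (red B) B) = true by decide +kernel) A hA)
    let f : Fin centT0.length → Subgroup.centralizer ({mkSL t0} : Set P33) := fun k =>
      ⟨mkSL centT0[k], Subgroup.mem_centralizer_singleton_iff.mpr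
        ((mul_comm_iff (hmem _ (List.getElem_mem k.2)).1 (by decide +kernel)).mpr (hmem _ (List.getElem_mem k.2)).2)⟩
    have hf : Function.Injective f := by
      intro a b hab
      have e := congrArg (fun g : Subgroup.centralizer ({mkSL t0} : Set P33) => code (ofM g.1.1)) hab
      simp only [f, mkSL_val (hmem _ (List.getElem_mem a.2)).1, mkSL_val (hmem _ (List.getElem_mem b.2)).1,
        ofM_toM, hred _ (List.getElem_mem a.2), hred _ (List.getElem_mem b.2), Fin.getElem_fin] at e
      have := (centT0_nodup.getElem_inj_iff (i := a.val) (j := b.val) (hi := by simp) (hj := by simp)).mp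
        (by simpa using e)
      exact Fin.ext this
    have := Nat.card_le_card_of_injective f hf
    rw [Nat.card_fin] at this
    exact this
  have h1 : Nat.card (Subgroup.centralizer ({tv i false} : Set P33)) =
      Nat.card (Subgroup.centralizer ({mkSL t0} : Set P33)) := by
    rw [tv_conj, card_centralizer_conj]
  cases s
  · omega
  · refine h0.trans (h1.symm.le.trans (le_of_eq (Nat.card_congr (Equiv.subtypeEquivRight fun g => ?_))))
    simp only [Subgroup.mem_centralizer_singleton_iff]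
    exact ⟨fun h => (Commute.inv_right h : _), fun h => by simpa [tv] using (Commute.inv_right h : Commute g (tv i true)⁻¹).eq⟩

theorem card_centralizer_cyclic (g : P33) (v : Fin 3 → ZMod 3)
    (hv : (Matrix.of fun r k => ((g.1 ^ (k : Fin 3).val) *ᵥ v) r : Matrix (Fin 3) (Fin 3) (ZMod 3)).det ≠ 0) :
    Nat.card (Subgroup.centralizer ({g} : Set P33)) ≤ 27 := by
  haveI : Fact (Nat.Prime 3) := ⟨by norm_num⟩
  set K : Matrix (Fin 3) (Fin 3) (ZMod 3) := Matrix.of fun r k => ((g.1 ^ (k : Fin 3).val) *ᵥ v) r with hK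
  refine (Nat.card_le_card_of_injective
    (fun c : Subgroup.centralizer ({g} : Set P33) => c.1.1 *ᵥ v) ?_).trans (le_of_eq ?_)
  · intro a b hab
    have hkey : ∀ c : Subgroup.centralizer ({g} : Set P33), c.1.1 * K =
        Matrix.of fun r k => ((g.1 ^ (k : Fin 3).val) *ᵥ (c.1.1 *ᵥ v)) r := by
      intro c
      ext r k
      have hc0 : c.1 * g = g * c.1 := Subgroup.mem_centralizer_singleton_iff.mp c.2
      have hc : Commute c.1.1 g.1 := congrArg (fun x : P33 => x.1) hc0
      rw [Matrix.of_apply, Matrix.mulVec_mulVec, ← (hc.pow_right k.val).eq, ← Matrix.mulVec_mulVec]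
      rfl
    have e : a.1.1 * K = b.1.1 * K := by
      have h : a.1.1 *ᵥ v = b.1.1 *ᵥ v := hab
      rw [hkey, hkey, h]
    apply Subtype.ext
    apply Subtype.ext
    exact ((Matrix.isUnit_iff_isUnit_det _).mpr (isUnit_iff_ne_zero.mpr hv)).mul_right_cancel e
  · simp

theorem card_gl2 :
    Fintype.card {q : ZMod 3 × ZMod 3 × ZMod 3 × ZMod 3 // q.1 * q.2.2.2 - q.2.1 * q.2.2.1 ≠ 0} = 48 := by
  decide +kernel

theorem two_mul_fixed : ∀ a : ZMod 3, a = 2 * a → a = 0 := by decide +kernel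

theorem transvection_listed : ∀ i j : Fin 3, i ≠ j → ∀ b : ZMod 3, b ≠ 0 →
    tdata.any (fun t => eqb (ofM (Matrix.transvection i j b)) (red t.1) ||
      eqb (ofM (Matrix.transvection i j b)) (red t.2.1)) = true := by decide +kernel

theorem card_centralizer_d0 : Nat.card (Subgroup.centralizer ({mkSL d0} : Set P33)) ≤ 48 := by
  haveI : Fact (Nat.Prime 3) := ⟨by norm_num⟩
  have key : ∀ c : Subgroup.centralizer ({mkSL d0} : Set P33),
      c.1.1 0 2 = 0 ∧ c.1.1 1 2 = 0 ∧ c.1.1 2 0 = 0 ∧ c.1.1 2 1 = 0 := by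
    intro c
    have h0 : c.1 * mkSL d0 = mkSL d0 * c.1 := Subgroup.mem_centralizer_singleton_iff.mp c.2
    have h := congrArg (fun x : P33 => x.1) h0
    simp only [Matrix.SpecialLinearGroup.coe_mul, mkSL_val (show det d0 = 1 by decide +kernel)] at h
    have e := fun r k => congrFun (congrFun h r) k
    have k3 := two_mul_fixed
    refine ⟨k3 _ ?_, k3 _ ?_, k3 _ ?_, k3 _ ?_⟩
    · have := e 0 2; simpa [toM, d0, Matrix.mul_apply, Fin.sum_univ_three] using this
    · have := e 1 2; simpa [toM, d0, Matrix.mul_apply, Fin.sum_univ_three] using this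
    · have := e 2 0; simpa [toM, d0, Matrix.mul_apply, Fin.sum_univ_three, mul_comm, eq_comm] using this
    · have := e 2 1; simpa [toM, d0, Matrix.mul_apply, Fin.sum_univ_three, mul_comm, eq_comm] using this
  have hdet : ∀ c : Subgroup.centralizer ({mkSL d0} : Set P33),
      (c.1.1 0 0 * c.1.1 1 1 - c.1.1 0 1 * c.1.1 1 0) * c.1.1 2 2 = 1 := by
    intro c
    obtain ⟨a, b, d, e⟩ := key c
    have h := c.1.2
    rw [Matrix.det_fin_three, a, b, d, e] at h
    linear_combination h
  let f : Subgroup.centralizer ({mkSL d0} : Set P33) →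
      {q : ZMod 3 × ZMod 3 × ZMod 3 × ZMod 3 // q.1 * q.2.2.2 - q.2.1 * q.2.2.1 ≠ 0} := fun c =>
    ⟨(c.1.1 0 0, c.1.1 0 1, c.1.1 1 0, c.1.1 1 1), fun h => by
      have h' := hdet c
      rw [show c.1.1 0 0 * c.1.1 1 1 - c.1.1 0 1 * c.1.1 1 0 = 0 from h, zero_mul] at h'
      exact zero_ne_one h'⟩
  refine (Nat.card_le_card_of_injective f ?_).trans (le_of_eq ?_)
  · intro x y hxy
    have h := congrArg Subtype.val hxy
    simp only [f, Prod.mk.injEq] at h
    obtain ⟨e1, e2, e3, e4⟩ := h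
    obtain ⟨a, b, d, e⟩ := key x
    obtain ⟨a', b', d', e'⟩ := key y
    have h1 := hdet x
    have h2 := hdet y
    rw [e1, e2, e3, e4] at h1
    have e5 : x.1.1 2 2 = y.1.1 2 2 :=
      mul_left_cancel₀ (fun hz => by rw [hz, zero_mul] at h2; exact zero_ne_one h2) (h1.trans h2.symm)
    apply Subtype.ext
    apply Subtype.ext
    ext r k
    fin_cases r <;> fin_cases k <;> simp_all
  · rw [Nat.card_eq_fintype_card]
    exact card_gl2

/-- Transvections are the elements with large centraliser. -/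
theorem exists_tv_iff (g : P33) : (∃ i s, g = tv i s) ↔
    g ≠ 1 ∧ 54 ≤ Nat.card (Subgroup.centralizer ({g} : Set P33)) := by
  constructor
  · rintro ⟨i, s, rfl⟩
    refine ⟨fun h => tv_ne i ?_, card_centralizer_tv i s⟩
    cases s <;> simp_all [tv]
  · rintro ⟨hne, hc⟩
    rcases classify g with h | h | ⟨c, h⟩ | ⟨v, hv⟩
    · exact absurd h hne
    · exact h
    · rw [h, card_centralizer_conj] at hc
      have := card_centralizer_d0
      omega
    · have := card_centralizer_cyclic g v hv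
      omega

/-- An element of order 13 has centraliser of order at most 27. -/
theorem card_centralizer_thirteen (g : P33) (hg : orderOf g = 13) :
    Nat.card (Subgroup.centralizer ({g} : Set P33)) ≤ 27 := by
  rcases classify g with h | ⟨i, s, h⟩ | ⟨c, h⟩ | ⟨v, hv⟩
  · rw [h, orderOf_one] at hg; norm_num at hg
  · have := orderOf_dvd_of_pow_eq_one (h ▸ tv_pow_three i s : g ^ 3 = 1)
    rw [hg] at this; norm_num at this
  · have hd : mkSL d0 ^ 2 = 1 := by
      apply Subtype.ext
      rw [pow_two, mkSL_mul (by decide +kernel) (by decide +kernel),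
        show mul d0 d0 = one from eq_of_eqb (by decide +kernel), toM_one]
      rfl
    have : g ^ 2 = 1 := by rw [h, conj_pow, hd, mul_one, mul_inv_cancel]
    have := orderOf_dvd_of_pow_eq_one this
    rw [hg] at this; norm_num at this
  · exact card_centralizer_cyclic g v hv

theorem transvection_mem (H : Subgroup P33) (h : ∀ i s, tv i s ∈ H) : H = ⊤ := by
  haveI : Fact (Nat.Prime 3) := ⟨by norm_num⟩
  have hlist := transvection_listed
  apply CfsgLib.ClassicalLinear.eq_top_of_transvection_mem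
  intro i j hij b
  by_cases hb : b = 0
  · subst hb
    have e : (Matrix.SpecialLinearGroup.transvection hij (0 : ZMod 3)) = 1 := by
      apply Subtype.ext
      simp [Matrix.SpecialLinearGroup.transvection]
    rw [e]; exact one_mem H
  obtain ⟨t, ht, hh⟩ := List.any_eq_true.mp (hlist i j hij b hb)
  obtain ⟨k, rfl⟩ := exists_of_mem_tdata ht
  rw [Bool.or_eq_true] at hh
  rcases hh with e | e
  · convert h k false using 1
    apply Subtype.ext
    have := congrArg toM (eq_of_eqb e)
    rw [toM_ofM, ← ofM_toM, toM_ofM] at this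
    show _ = (mkSL (trow k).1).1
    rw [mkSL_val (trow_facts k).1, ← this]
    rfl
  · convert h k true using 1
    apply Subtype.ext
    have := congrArg toM (eq_of_eqb e)
    rw [toM_ofM, ← ofM_toM, toM_ofM] at this
    rw [tv_true, mkSL_val (trow_facts k).2.1, ← this]
    rfl

theorem central_eq_one (g : P33) (h : ∀ i, g * tv i false = tv i false * g) : g = 1 := by
  have hm : ∀ A : M3, det A = 1 → (∀ i, mkSL A * tv i false = tv i false * mkSL A) → ∀ t ∈ tdata, mul A t.1 = mul t.1 A := by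
    intro A hA hAt t ht
    obtain ⟨k, rfl⟩ := exists_of_mem_tdata ht
    exact (mul_comm_iff hA (trow_facts k).1).mp (hAt k)
  have hchk : rows.all (fun r => rows.all (fun s => rows.all (fun t =>
      let A : M3 := ⟨r.1, r.2.1, r.2.2, s.1, s.2.1, s.2.2, t.1, t.2.1, t.2.2⟩
      !Nat.beq (det A) 1 || eqb A one || tdata.any (fun u => !eqb (mul A u.1) (mul u.1 A))))) = true := by decide +kernel
  have hall : ∀ x y z : ℕ, x < 3 → y < 3 → z < 3 → (x, y, z) ∈ rows := by
    intro x y z hx hy hz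
    interval_cases x <;> interval_cases y <;> interval_cases z <;> simp [rows]
  have hlt : ∀ a b, (g.1 a b).val < 3 := fun a b => ZMod.val_lt _
  have hc := List.all_eq_true.mp (List.all_eq_true.mp (List.all_eq_true.mp hchk _
    (hall _ _ _ (hlt 0 0) (hlt 0 1) (hlt 0 2))) _ (hall _ _ _ (hlt 1 0) (hlt 1 1) (hlt 1 2))) _
    (hall _ _ _ (hlt 2 0) (hlt 2 1) (hlt 2 2))
  change (!Nat.beq (det (ofM g.1)) 1 || eqb (ofM g.1) one ||
    tdata.any (fun u => !eqb (mul (ofM g.1) u.1) (mul u.1 (ofM g.1)))) = true at hc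
  have hd : det (ofM g.1) = 1 := by
    have h1 : (det (ofM g.1) : ZMod 3) = ((1 : ℕ) : ZMod 3) := by rw [toM_det, toM_ofM, g.2, Nat.cast_one]
    have h2 := (ZMod.natCast_eq_natCast_iff' _ _ _).mp h1
    rwa [Nat.mod_eq_of_lt (show det (ofM g.1) < 3 from Nat.mod_lt _ (by norm_num))] at h2
  have hg : g = mkSL (ofM g.1) := Subtype.ext (by rw [mkSL_val hd, toM_ofM])
  simp only [Bool.or_eq_true, Bool.not_eq_true', List.any_eq_true] at hc
  rcases hc with (hc | hc) | hc
  · rw [hd] at hc; simp at hc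
  · rw [hg, eq_of_eqb hc, mkSL_one]
  · obtain ⟨u, hu, hu'⟩ := hc
    have := hm _ hd (fun i => by rw [← hg]; exact h i) u hu
    rw [this] at hu'
    simp [eqb] at hu'

end CfsgLib.Spectrum.L33
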