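import Cfsg.Agent.Lib.Spectrum.PSLTwoEvenGraphBasic

/-!
The possible simple socles of a group with the prime graph of `PSL₂(2^m)`.
-/

set_option autoImplicit false

open Cfsg
open scoped Pointwise

namespace CfsgLib.Spectrum.PSLEvenGraph

open CfsgLib.CIT CfsgLib.Zsigmondy

universe u

variable {X : Type u} [Group X] [Finite X] {m : ℕ} {T : Subgroup X} [T.Normal]

theorem card_even_field {Y : Type*} [Group Y] {F : Type*} [Field F] [Fintype F] {n : ℕ} (hn : n ≠ 0)
    (e : Y ≃* Matrix.ProjectiveSpecialLinearGroup (Fin 2) F) (hF : Fintype.card F = 2 ^ n) :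
    Nat.card Y = 2 ^ n * (2 ^ (2 * n) - 1) := by
  rw [Nat.card_congr e.toEquiv,
    CfsgLib.ClassicalLinear.card_PSL_two_of_even hF (Nat.even_pow.2 ⟨even_two, hn⟩), ← pow_mul,
    mul_comm n 2]

theorem data_even {Y : Type*} [Group Y] [Finite Y] {F : Type*} [Field F] [Fintype F] {n : ℕ} (hn : 2 ≤ n)
    (e : Y ≃* Matrix.ProjectiveSpecialLinearGroup (Fin 2) F) (hF : Fintype.card F = 2 ^ n) :
    CfsgLib.Spectrum.PSLTwo.Data Y 2 n (2 ^ n) (2 ^ n - 1) (2 ^ n + 1) 1 := by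
  obtain ⟨p, hchar⟩ := CharP.exists F
  obtain ⟨n', hp, hq⟩ := FiniteField.card F p
  haveI : Fact p.Prime := ⟨hp⟩
  have hp2 : p = 2 := (Nat.prime_dvd_prime_iff_eq hp Nat.prime_two).1
    (hp.dvd_of_dvd_pow (by rw [← hF, hq]; exact dvd_pow_self p n'.ne_zero))
  subst hp2
  have h4 : 4 ≤ 2 ^ n := le_trans (by norm_num) (Nat.pow_le_pow_right (by norm_num) hn)
  have hS := Cfsg.Agent.S2475.result (F := F) 2 (by omega)
  rw [hF] at hS
  have hg : Nat.gcd 2 (2 ^ n - 1) = 1 := by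
    obtain ⟨j, hj⟩ : 2 ∣ 2 ^ n := dvd_pow_self 2 (by omega)
    rw [show 2 ^ n - 1 = 2 * (j - 1) + 1 by omega]
    simp
  rw [hg] at hS
  simp only [Nat.div_one] at hS
  refine ⟨Nat.prime_two, rfl, by omega, Or.inl ⟨rfl, rfl⟩, by omega, by omega, ?_, fun k => ?_⟩
  · rw [card_even_field (by omega) e hF, mul_one, mul_assoc]
    congr 1
    rw [mul_comm 2 n, pow_mul]
    have h1 : 1 ≤ (2 ^ n) ^ 2 := Nat.one_le_pow _ _ (by omega)
    zify [h1, show 1 ≤ 2 ^ n by omega]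
    ring
  · constructor
    · rintro ⟨g, rfl⟩
      exact (Set.ext_iff.1 hS _).1 ⟨e g, e.orderOf_eq g⟩
    · intro h
      obtain ⟨g, hg⟩ := (Set.ext_iff.1 hS k).2 h
      exact ⟨e.symm g, by rw [e.symm.orderOf_eq, hg]⟩

namespace Ctx

variable (C : Ctx X m)
include C

/-- Nothing lies above `PSL₂(2^m)`. -/
theorem eq_top_of_even {a b : ℕ}
    (D : CfsgLib.Spectrum.PSLTwo.Data T 2 m (2 ^ m) a b 1) : T = ⊤ := by
  classical
  haveI : Fact (Nat.Prime 2) := ⟨Nat.prime_two⟩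
  have hm := C.hm
  set q := 2 ^ m with hq
  have hq16 : 16 ≤ q := le_trans (by norm_num) (Nat.pow_le_pow_right (by norm_num) hm)
  have hab : a + 1 = q := by have := D.ha; omega
  obtain ⟨P⟩ : Nonempty (Sylow 2 T) := inferInstance
  set S := (P : Subgroup T).map T.subtype with hS
  have hScard : Nat.card S = q := by
    rw [hS, Subgroup.card_map_of_injective T.subtype_injective]; exact D.card_sylow P
  have hSp : IsPGroup 2 S := P.2.map _
  have hsq : ∀ v ∈ S, v * v = 1 := by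
    rintro _ ⟨v, hv, rfl⟩
    exact congrArg Subtype.val (D.pow_two_eq_one rfl P hv)
  have hcomm : ∀ v ∈ S, ∀ w ∈ S, v * w = w * v := by
    intro v hv w hw
    calc v * w = v * w * ((v * w) * (v * w))⁻¹ := by rw [hsq _ (mul_mem hv hw)]; simp
      _ = w⁻¹ * v⁻¹ := by group
      _ = w * v := by rw [inv_eq_of_mul_eq_one_right (hsq v hv), inv_eq_of_mul_eq_one_right (hsq w hw)]
  set N := Subgroup.normalizer (S : Set X) with hN
  set NT := N ⊓ T with hNT
  have hSN : S ≤ N := Subgroup.le_normalizer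
  have hST : S ≤ T := Subgroup.map_subtype_le _
  have hnorm : ∀ v : T, (v : X) ∈ N ↔ v ∈ Subgroup.normalizer ((P : Subgroup T) : Set T) := by
    intro v
    have hmem : ∀ w : T, (w : X) ∈ S ↔ w ∈ (P : Subgroup T) := fun w =>
      ⟨fun ⟨w', hw', h⟩ => (Subtype.ext h : w' = w) ▸ hw', fun hw => ⟨w, hw, rfl⟩⟩
    rw [hN, Subgroup.mem_normalizer_iff, Subgroup.mem_normalizer_iff]
    constructor
    · intro h w
      rw [← hmem, ← hmem, h (w : X)]
      simp
    · intro h w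
      constructor
      · intro hw
        obtain ⟨w', hw', rfl⟩ := hw
        exact ⟨v * w' * v⁻¹, (h w').1 hw', rfl⟩
      · intro hw
        have hwT : w ∈ T := by
          have := T.mul_mem (T.mul_mem (T.inv_mem v.2) (hST hw)) v.2
          simpa [mul_assoc] using this
        exact (hmem ⟨w, hwT⟩).2 ((h ⟨w, hwT⟩).2 ((hmem (v * ⟨w, hwT⟩ * v⁻¹)).1 hw))
  have hNTcard : Nat.card NT = q * a := by
    rw [← (D.card_sylows P).2,
      ← Subgroup.card_map_of_injective (K := Subgroup.normalizer (P : Set T))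
        (f := T.subtype) T.subtype_injective]
    congr 2
    ext w
    constructor
    · rintro ⟨hwN, hwT⟩
      exact ⟨⟨w, hwT⟩, (hnorm ⟨w, hwT⟩).1 hwN, rfl⟩
    · rintro ⟨w', hw', rfl⟩
      exact ⟨(hnorm w').2 hw', w'.2⟩
  -- a 2-element of `N ⊓ T` lies in `S`
  have htwo : ∀ g ∈ NT, ∀ j : ℕ, g ^ 2 ^ j = 1 → g ∈ S := by
    intro g hg j hj
    have hz : IsPGroup 2 (Subgroup.zpowers (⟨g, hg.2⟩ : T)) := by
      obtain ⟨i, -, hi⟩ := (Nat.dvd_prime_pow Nat.prime_two).1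
        (orderOf_dvd_of_pow_eq_one (x := (⟨g, hg.2⟩ : T)) (n := 2 ^ j) (Subtype.ext hj))
      exact IsPGroup.of_card (n := i) (by rw [Nat.card_zpowers, hi])
    have h1 : (⟨g, hg.2⟩ : T) ∈ Subgroup.zpowers (⟨g, hg.2⟩ : T) ⊓
        Subgroup.normalizer (P : Set T) := ⟨Subgroup.mem_zpowers _, (hnorm ⟨g, hg.2⟩).1 hg.1⟩
    rw [hz.inf_normalizer_sylow P] at h1
    exact ⟨_, h1.2, rfl⟩
  have hcent : ∀ v ∈ S, v ≠ 1 → ∀ g ∈ NT, Commute g v → g ∈ S := by
    intro v hv hv1 g hg hc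
    obtain ⟨j, hj⟩ := C.cit.isPGroup_centralizer (two_dvd_orderOf_of_mem hSp hv hv1)
      ⟨g, Subgroup.mem_centralizer_singleton_iff.2 hc.eq⟩
    exact htwo g hg j (congrArg Subtype.val hj)
  obtain ⟨⟨v₀, hv₀⟩, hv₀1⟩ : ∃ v : S, v ≠ 1 := by
    haveI : Nontrivial S := Finite.one_lt_card_iff_nontrivial.1 (by omega)
    exact exists_ne 1
  have hv₀1' : v₀ ≠ 1 := fun h => hv₀1 (Subtype.ext h)
  have hSNT : S ≤ NT := le_inf hSN hST
  haveI : Fintype S := Fintype.ofFinite S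
  have hS1 : Nat.card {w : S // w ≠ 1} = a := by
    rw [Nat.card_eq_fintype_card, Fintype.card_subtype_compl, Fintype.card_subtype_eq,
      ← Nat.card_eq_fintype_card, hScard]
    omega
  -- transitivity on the involutions of `S`
  have htrans : ∀ w ∈ S, w ≠ 1 → ∃ k ∈ NT, k * v₀ * k⁻¹ = w := by
    let f : NT ⧸ S.subgroupOf NT → {w : S // w ≠ 1} := Quotient.lift
      (fun k => ⟨⟨(k : X) * v₀ * (k : X)⁻¹, (Subgroup.mem_normalizer_iff.1 k.2.1 v₀).1 hv₀⟩,
        fun h => hv₀1' (conj_eq_one_iff.1 (congrArg Subtype.val h))⟩)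
      (fun k k' hkk => by
        have h1 : (k : X)⁻¹ * k' ∈ S := by
          have h0 := QuotientGroup.leftRel_apply.1 hkk
          exact h0
        have h2 := hcomm v₀ hv₀ _ h1
        refine Subtype.ext (Subtype.ext ?_)
        show (k : X) * v₀ * (k : X)⁻¹ = (k' : X) * v₀ * (k' : X)⁻¹
        calc (k : X) * v₀ * (k : X)⁻¹ = (k : X) * (v₀ * ((k : X)⁻¹ * k')) * (k' : X)⁻¹ := by group
          _ = (k : X) * (((k : X)⁻¹ * k') * v₀) * (k' : X)⁻¹ := by rw [h2]
          _ = (k' : X) * v₀ * (k' : X)⁻¹ := by group)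
    have hf : Function.Injective f := by
      rintro ⟨k⟩ ⟨k'⟩ h
      have h1 : (k : X) * v₀ * (k : X)⁻¹ = (k' : X) * v₀ * (k' : X)⁻¹ :=
        congrArg (fun z => ((z.1 : S) : X)) h
      refine Quotient.sound (QuotientGroup.leftRel_apply.2 (hcent v₀ hv₀ hv₀1' _ (k⁻¹ * k').2 ?_))
      show (k : X)⁻¹ * k' * v₀ = v₀ * ((k : X)⁻¹ * k')
      calc (k : X)⁻¹ * k' * v₀ = (k : X)⁻¹ * ((k' : X) * v₀ * (k' : X)⁻¹) * k' := by group
        _ = (k : X)⁻¹ * ((k : X) * v₀ * (k : X)⁻¹) * k' := by rw [h1]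
        _ = v₀ * ((k : X)⁻¹ * k') := by group
    have hc : Nat.card (NT ⧸ S.subgroupOf NT) = a := by
      have h := Subgroup.card_eq_card_quotient_mul_card_subgroup (S.subgroupOf NT)
      rw [Nat.card_congr (Subgroup.subgroupOfEquivOfLe hSNT).toEquiv, hScard, hNTcard, mul_comm] at h
      exact (Nat.eq_of_mul_eq_mul_right (by omega) h).symm
    intro w hw hw1
    obtain ⟨⟨k⟩, hk⟩ := ((Nat.bijective_iff_injective_and_card f).2 ⟨hf, by rw [hc, hS1]⟩).2
      ⟨⟨w, hw⟩, fun h => hw1 (congrArg Subtype.val h)⟩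
    exact ⟨k, k.2, congrArg (fun z => ((z.1 : S) : X)) hk⟩
  set Q := N ⊓ Subgroup.centralizer ({v₀} : Set X) with hQ
  have hQp : IsPGroup 2 Q :=
    (C.cit.isPGroup_centralizer (two_dvd_orderOf_of_mem hSp hv₀ hv₀1')).to_le inf_le_right
  have hSQ : S ≤ Q := le_inf hSN fun s hs => Subgroup.mem_centralizer_singleton_iff.2 (hcomm s hs v₀ hv₀)
  -- the point stabiliser is `S`
  have hQS : Q = S := by
    refine le_antisymm ?_ hSQ
    by_contra hle
    haveI hnQ : (S.subgroupOf Q).Normal := ⟨fun v hv g => (Subgroup.mem_normalizer_iff.1 g.2.1 (v : X)).1 hv⟩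
    have hnt : Nontrivial (Q ⧸ S.subgroupOf Q) := by
      obtain ⟨g, hg, hgS⟩ := Set.not_subset.1 hle
      refine ⟨⟨QuotientGroup.mk' _ ⟨g, hg⟩, 1, fun h => hgS ?_⟩⟩
      rw [QuotientGroup.mk'_apply, QuotientGroup.eq_one_iff] at h
      exact h
    have h2 : 2 ∣ Nat.card (Q ⧸ S.subgroupOf Q) := by
      obtain ⟨j, hj, hcard⟩ := ((hQp.to_quotient (S.subgroupOf Q)).nontrivial_iff_card).1 hnt
      exact hcard ▸ dvd_pow_self 2 hj.ne'
    obtain ⟨z', hz'⟩ := exists_prime_orderOf_dvd_card' 2 h2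
    obtain ⟨⟨z, hzQ⟩, rfl⟩ := QuotientGroup.mk'_surjective (S.subgroupOf Q) z'
    have hzS : z ∉ S := fun h => by
      rw [QuotientGroup.mk'_apply, (QuotientGroup.eq_one_iff _).2 (show (⟨z, hzQ⟩ : Q) ∈ S.subgroupOf Q from h),
        orderOf_one] at hz'
      omega
    have hz2 : z * z ∈ S := by
      have h := pow_orderOf_eq_one (QuotientGroup.mk' (S.subgroupOf Q) ⟨z, hzQ⟩)
      rw [hz', ← map_pow, QuotientGroup.mk'_apply, QuotientGroup.eq_one_iff, pow_two] at h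
      exact h
    have hzn : ∀ v ∈ S, z * v * z⁻¹ ∈ S := fun v hv => (Subgroup.mem_normalizer_iff.1 hzQ.1 v).1 hv
    -- fixed points of `z` on `S`
    let φ : S →* S := MonoidHom.mk' (fun v => v * ⟨z * v * z⁻¹, hzn v v.2⟩) fun v w => Subtype.ext (by
      show (v : X) * w * (z * (v * w) * z⁻¹) = v * (z * v * z⁻¹) * (w * (z * w * z⁻¹))
      calc (v : X) * w * (z * (v * w) * z⁻¹)
          = (v : X) * ((w : X) * (z * v * z⁻¹)) * (z * w * z⁻¹) := by group
        _ = (v : X) * ((z * v * z⁻¹) * w) * (z * w * z⁻¹) := by rw [hcomm _ w.2 _ (hzn v v.2)]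
        _ = v * (z * v * z⁻¹) * (w * (z * w * z⁻¹)) := by group)
    set V₀ := (S ⊓ Subgroup.centralizer ({z} : Set X)).subgroupOf S with hV₀
    have hrange : φ.range ≤ V₀ := by
      rintro _ ⟨v, rfl⟩
      refine Subgroup.mem_subgroupOf.2 ⟨(φ v).2, Subgroup.mem_centralizer_singleton_iff.2 ?_⟩
      show (v : X) * (z * v * z⁻¹) * z = z * ((v : X) * (z * v * z⁻¹))
      have hc : z * z * (v : X) = v * (z * z) := hcomm _ hz2 _ v.2
      calc (v : X) * (z * v * z⁻¹) * z = (v : X) * (z * v) := by group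
        _ = (v : X) * (z * v * z⁻¹) * z := by group
        _ = (z * v * z⁻¹) * v * z := by rw [hcomm _ (hzn v v.2) _ v.2]
        _ = z * v * z⁻¹ * (v * (z * z)) * z⁻¹ := by group
        _ = z * v * z⁻¹ * (z * z * v) * z⁻¹ := by rw [hc]
        _ = z * ((v : X) * (z * v * z⁻¹)) := by group
    have hker : φ.ker ≤ V₀ := by
      intro v hv
      refine Subgroup.mem_subgroupOf.2 ⟨v.2, Subgroup.mem_centralizer_singleton_iff.2 ?_⟩
      have h1 : (v : X) * (z * v * z⁻¹) = 1 := congrArg Subtype.val hv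
      have h2 : z * (v : X) * z⁻¹ = v := by
        rw [← inv_eq_of_mul_eq_one_right h1, inv_eq_of_mul_eq_one_right (hsq v v.2)]
      exact (mul_inv_eq_iff_eq_mul.1 h2).symm
    have hV3 : 3 ≤ Nat.card V₀ := by
      have h := φ.ker.card_mul_index
      rw [Subgroup.index_ker, hScard] at h
      have h1 := Subgroup.card_le_of_le hker
      have h2 := Subgroup.card_le_of_le hrange
      have := Nat.mul_le_mul h1 h2
      nlinarith
    obtain ⟨w, hw, hw1, hw0⟩ : ∃ w : S, w ∈ V₀ ∧ w ≠ 1 ∧ (w : X) ≠ v₀ := by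
      by_contra! hall
      have hsub : ∀ w : V₀, (w : S) = 1 ∨ (w : S) = ⟨v₀, hv₀⟩ := fun w => by
        by_cases h : (w : S) = 1
        · exact Or.inl h
        · exact Or.inr (Subtype.ext (hall w w.2 h))
      let g : V₀ → Bool := fun w => decide ((w : S) = 1)
      have hg : Function.Injective g := fun w w' h => by
        apply Subtype.ext
        simp only [g, decide_eq_decide] at h
        rcases hsub w with e | e <;> rcases hsub w' with e' | e'
        · rw [e, e']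
        · rw [e, h.1 e]
        · rw [e', h.2 e']
        · rw [e, e']
      have := Nat.card_le_card_of_injective g hg
      rw [Nat.card_eq_fintype_card (α := Bool), Fintype.card_bool] at this
      omega
    obtain ⟨k, hk, hkw⟩ := htrans w w.2 fun h => hw1 (Subtype.ext h)
    have hwz : z * (w : X) = w * z :=
      (Subgroup.mem_centralizer_singleton_iff.1 (Subgroup.mem_subgroupOf.1 hw).2).symm
    have hv₀z : z * v₀ = v₀ * z := Subgroup.mem_centralizer_singleton_iff.1 hzQ.2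
    have hkS : k ∉ S := fun h => hw0 (by rw [← hkw, hcomm k h v₀ hv₀, mul_inv_cancel_right])
    -- `z` commutes with `k` modulo `S`
    have hzk : k⁻¹ * (z * k * z⁻¹) ∈ S := by
      refine hcent v₀ hv₀ hv₀1' _ ⟨N.mul_mem (N.inv_mem hk.1)
        (N.mul_mem (N.mul_mem hzQ.1 hk.1) (N.inv_mem hzQ.1)),
        T.mul_mem (T.inv_mem hk.2) ((inferInstance : T.Normal).conj_mem k hk.2 z)⟩ ?_
      have e1 : z⁻¹ * v₀ * z = v₀ := by rw [mul_assoc, ← hv₀z, inv_mul_cancel_left]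
      have e2 : z * (w : X) * z⁻¹ = w := by rw [hwz, mul_inv_cancel_right]
      have h : (k⁻¹ * (z * k * z⁻¹)) * v₀ * (k⁻¹ * (z * k * z⁻¹))⁻¹ = v₀ := by
        calc _ = k⁻¹ * (z * (k * (z⁻¹ * v₀ * z) * k⁻¹) * z⁻¹) * k := by group
          _ = k⁻¹ * (z * w * z⁻¹) * k := by rw [e1, hkw]
          _ = k⁻¹ * (k * v₀ * k⁻¹) * k := by rw [e2, hkw]
          _ = v₀ := by group
      exact mul_inv_eq_iff_eq_mul.1 h
    set k₁ := k ^ q with hk₁
    have hkq : k ^ (q * a) = 1 := by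
      rw [← hNTcard, ← orderOf_dvd_iff_pow_eq_one, ← Subgroup.orderOf_mk k hk]
      exact orderOf_dvd_natCard _
    have hk₁odd : Odd (orderOf k₁) := by
      refine Odd.of_dvd_nat ?_ (orderOf_dvd_of_pow_eq_one (show k₁ ^ a = 1 by rw [hk₁, ← pow_mul, hkq]))
      obtain ⟨j, hj⟩ : 2 ∣ q := dvd_pow_self 2 (by omega)
      exact ⟨j - 1, by omega⟩
    have hk₁S : k₁ ∉ S := fun h => by
      have h2 : k ^ a ∈ S := htwo _ (pow_mem hk a) m (by rw [← pow_mul, mul_comm, ← hq, hkq])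
      apply hkS
      have : k = k ^ q * (k ^ a)⁻¹ := by rw [← hab, pow_succ']; group
      rw [this]
      exact mul_mem h (inv_mem h2)
    haveI hnN : (S.subgroupOf N).Normal := Subgroup.normal_in_normalizer
    have hzk₁ : k₁⁻¹ * (z * k₁ * z⁻¹) ∈ S := by
      let kN : N := ⟨k, hk.1⟩
      let zN : N := ⟨z, hzQ.1⟩
      have h1 : QuotientGroup.mk' (S.subgroupOf N) (zN * kN * zN⁻¹) =
          QuotientGroup.mk' (S.subgroupOf N) kN :=
        (QuotientGroup.eq.2 (show kN⁻¹ * (zN * kN * zN⁻¹) ∈ S.subgroupOf N from hzk)).symm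
      have h2 : QuotientGroup.mk' (S.subgroupOf N) ((zN * kN * zN⁻¹) ^ q) =
          QuotientGroup.mk' (S.subgroupOf N) (kN ^ q) := by rw [map_pow, h1, ← map_pow]
      rw [conj_pow] at h2
      have h3 := QuotientGroup.eq.1 h2.symm
      exact h3
    -- all of the coset `k₁ S` is one `S`-class
    have hk₁N : k₁ ∈ N := pow_mem hk.1 q
    have hk₁1 : k₁ ≠ 1 := fun h => hk₁S (h ▸ S.one_mem)
    let g : S → S := fun s => ⟨k₁⁻¹ * s * k₁ * (s : X)⁻¹,
      mul_mem ((Subgroup.mem_normalizer_iff''.1 hk₁N _).1 s.2) (inv_mem s.2)⟩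
    have hg : Function.Injective g := by
      intro s s' h
      have h1 : k₁⁻¹ * s * k₁ * (s : X)⁻¹ = k₁⁻¹ * s' * k₁ * (s' : X)⁻¹ := congrArg Subtype.val h
      have h2 : Commute ((s' : X)⁻¹ * s) k₁ := by
        show (s' : X)⁻¹ * s * k₁ = k₁ * ((s' : X)⁻¹ * s)
        calc (s' : X)⁻¹ * s * k₁ = (s' : X)⁻¹ * k₁ * (k₁⁻¹ * s * k₁ * (s : X)⁻¹) * s := by group
          _ = (s' : X)⁻¹ * k₁ * (k₁⁻¹ * s' * k₁ * (s' : X)⁻¹) * s := by rw [h1]
          _ = k₁ * ((s' : X)⁻¹ * s) := by group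
      have h3 := C.cit.fpf hSp (mul_mem (inv_mem s'.2) s.2) hk₁odd hk₁1 h2
      exact Subtype.ext (inv_mul_eq_one.1 h3).symm
    obtain ⟨s, hs⟩ := (Finite.injective_iff_surjective.1 hg) ⟨_, hzk₁⟩
    have hs' : k₁⁻¹ * s * k₁ * (s : X)⁻¹ = k₁⁻¹ * (z * k₁ * z⁻¹) := congrArg Subtype.val hs
    have hc : Commute ((s : X)⁻¹ * z) k₁ := by
      show (s : X)⁻¹ * z * k₁ = k₁ * ((s : X)⁻¹ * z)
      calc (s : X)⁻¹ * z * k₁ = (s : X)⁻¹ * k₁ * (k₁⁻¹ * (z * k₁ * z⁻¹)) * z := by group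
        _ = (s : X)⁻¹ * k₁ * (k₁⁻¹ * s * k₁ * (s : X)⁻¹) * z := by rw [hs']
        _ = k₁ * ((s : X)⁻¹ * z) := by group
    have hne : (s : X)⁻¹ * z ≠ 1 := fun h => hzS (by rw [inv_mul_eq_one] at h; exact h ▸ s.2)
    exact hk₁1 (C.cit.eq_one_of_commute
      (two_dvd_orderOf_of_mem hQp (mul_mem (inv_mem (hSQ s.2)) hzQ) hne) hk₁odd hc)
  -- the normaliser lies in `T`
  have hNcard : Nat.card N ≤ q * a := by
    let f : N ⧸ Q.subgroupOf N → {w : S // w ≠ 1} := Quotient.lift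
      (fun k => ⟨⟨(k : X) * v₀ * (k : X)⁻¹, (Subgroup.mem_normalizer_iff.1 k.2 v₀).1 hv₀⟩,
        fun h => hv₀1' (conj_eq_one_iff.1 (congrArg Subtype.val h))⟩)
      (fun k k' hkk => by
        have h1 : (k : X)⁻¹ * k' ∈ Q := by
          have h0 := QuotientGroup.leftRel_apply.1 hkk
          exact h0
        have h2 := Subgroup.mem_centralizer_singleton_iff.1 h1.2
        refine Subtype.ext (Subtype.ext ?_)
        show (k : X) * v₀ * (k : X)⁻¹ = (k' : X) * v₀ * (k' : X)⁻¹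
        calc (k : X) * v₀ * (k : X)⁻¹ = (k : X) * (v₀ * ((k : X)⁻¹ * k')) * (k' : X)⁻¹ := by group
          _ = (k : X) * (((k : X)⁻¹ * k') * v₀) * (k' : X)⁻¹ := by rw [h2]
          _ = (k' : X) * v₀ * (k' : X)⁻¹ := by group)
    have hf : Function.Injective f := by
      rintro ⟨k⟩ ⟨k'⟩ h
      have h1 : (k : X) * v₀ * (k : X)⁻¹ = (k' : X) * v₀ * (k' : X)⁻¹ :=
        congrArg (fun z => ((z.1 : S) : X)) h
      refine Quotient.sound (QuotientGroup.leftRel_apply.2 ⟨(k⁻¹ * k').2,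
        Subgroup.mem_centralizer_singleton_iff.2 ?_⟩)
      show (k : X)⁻¹ * k' * v₀ = v₀ * ((k : X)⁻¹ * k')
      calc (k : X)⁻¹ * k' * v₀ = (k : X)⁻¹ * ((k' : X) * v₀ * (k' : X)⁻¹) * k' := by group
        _ = (k : X)⁻¹ * ((k : X) * v₀ * (k : X)⁻¹) * k' := by rw [h1]
        _ = v₀ * ((k : X)⁻¹ * k') := by group
    have h := Subgroup.card_eq_card_quotient_mul_card_subgroup (Q.subgroupOf N)
    rw [Nat.card_congr (Subgroup.subgroupOfEquivOfLe (inf_le_left : Q ≤ N)).toEquiv,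
      show Nat.card Q = q by rw [hQS]; exact hScard] at h
    have h1 := Nat.card_le_card_of_injective f hf
    rw [hS1] at h1
    rw [h, mul_comm q a]
    exact Nat.mul_le_mul_right q h1
  have hNle : N ≤ T := by
    have := Subgroup.eq_of_le_of_card_ge (inf_le_left : NT ≤ N) (by rw [hNTcard]; exact hNcard)
    rw [← this]
    exact inf_le_right
  have h := Sylow.normalizer_sup_eq_top P
  rw [← hS] at h
  rw [eq_top_iff, ← h]
  exact sup_le hNle le_rfl

theorem equiv_of_even {n : ℕ} {F' : Type} [Field F'] [Fintype F'] (hF' : Fintype.card F' = 2 ^ n)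
    (e : T ≃* Matrix.ProjectiveSpecialLinearGroup (Fin 2) F') {F : Type*} [Field F] [Fintype F]
    (hF : Fintype.card F = 2 ^ m) : Nonempty (X ≃* Matrix.ProjectiveSpecialLinearGroup (Fin 2) F) := by
  classical
  have hm := C.hm
  haveI : Fact (Nat.Prime 2) := ⟨Nat.prime_two⟩
  have hn : n ≠ 0 := by
    rintro rfl
    have := Fintype.one_lt_card (α := F')
    omega
  have hcard := card_even_field hn e hF'
  have hcop : Nat.Coprime (2 ^ n) (2 ^ (2 * n) - 1) := Nat.Coprime.pow_left n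
    (Nat.prime_two.coprime_iff_not_dvd.2 fun h => by
      obtain ⟨j, hj⟩ : 2 ∣ 2 ^ (2 * n) := dvd_pow_self 2 (by omega)
      obtain ⟨i, hi⟩ := h
      have : 0 < 2 ^ (2 * n) := Nat.two_pow_pos _
      omega)
  have hfac : (Nat.card T).factorization 2 = n := by
    rw [hcard, Nat.factorization_mul_apply_of_coprime hcop, Nat.prime_two.factorization_pow,
      Finsupp.single_eq_same, Nat.factorization_eq_zero_of_not_dvd, add_zero]
    intro h
    have := Nat.eq_one_of_dvd_coprimes hcop (dvd_pow_self 2 hn) h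
    omega
  obtain ⟨l, hl, hlX, hlt, hl2⟩ := C.exists_prim
  have hprim : 2 * m ≤ n → False := by
    intro hle
    obtain ⟨r, hr⟩ := exists_isPpd (a := 2) (n := 2 * n) (by norm_num) (by omega) (by omega) (by omega)
    have hr2 : r ≠ 2 := by have := hr.lt (by norm_num) (by omega); omega
    have h1 := C.dvd_sub_one_of_dvd (T := T) hr.1 hr2 (hcard ▸ dvd_mul_of_dvd_right hr.2.1 _)
    have := Nat.le_of_dvd (by omega) ((hr.dvd_pow_sub_one_iff' (by norm_num) (by omega) _).1 h1)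
    omega
  have hmn : n = m := by
    by_cases hlT : l ∣ Nat.card T
    · have h1 : l ∣ 2 ^ (2 * n) - 1 := (Nat.Coprime.dvd_of_dvd_mul_left
        (Nat.Coprime.pow_right n ((Nat.coprime_primes hl.1 Nat.prime_two).2 hl2)) (hcard ▸ hlT))
      have h2 := (hl.dvd_pow_sub_one_iff' (by norm_num) (by omega) _).1 h1
      obtain ⟨c, hc⟩ : m ∣ n := Nat.dvd_of_mul_dvd_mul_left (by norm_num) h2
      rcases c with _ | _ | c
      · omega
      · omega
      · exact (hprim (by rw [hc]; nlinarith)).elim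
    · have h := C.exponent_dvd (by omega) hl hl2 hlX hlT hfac
      exact (hprim (Nat.le_of_dvd (by omega) h)).elim
  subst hmn
  have hT := C.eq_top_of_even (data_even (by omega) e hF')
  subst hT
  exact ⟨(Subgroup.topEquiv.symm.trans e).trans
    (CfsgLib.ClassicalLinear.pslCongr (FiniteField.ringEquivOfCardEq (hF'.trans hF.symm)))⟩

theorem false_of_small {d : ℕ} (hcard : Nat.card T = d) (h7 : ∀ r : ℕ, r.Prime → r ∣ d → r ≤ 7)
    (hs : d.factorization 2 < 8) (hd : 2 ∣ d) : False := by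
  have hm := C.hm
  obtain ⟨l, hl, hlX, hlt, hl2⟩ := C.exists_prim
  by_cases hlT : l ∣ Nat.card T
  · have := h7 l hl.1 (hcard ▸ hlT)
    omega
  · have h := C.exponent_dvd (by omega) hl hl2 hlX hlT (by rw [hcard])
    have hpos : 0 < d.factorization 2 := Nat.prime_two.factorization_pos_of_dvd
      (by rw [← hcard]; exact Nat.card_pos.ne') hd
    have := Nat.le_of_dvd hpos h
    omega

end Ctx

end CfsgLib.Spectrum.PSLEvenGraph
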