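import Cfsg.Agent.Lib.Spectrum.PSLTwoEvenGraphSuzuki
import Cfsg.Agent.Lib.OrderDegrees.Coclique

/-!
A group with the prime graph of `PSL₂(2^m)` is `PSL₂(2^m)` modulo its 2-core, given the list of
simple groups whose involution centralisers are 2-groups.
-/

set_option autoImplicit false

open Cfsg

namespace CfsgLib.Spectrum.PSLEvenGraph

open CfsgLib.CIT CfsgLib.Zsigmondy CfsgLib.Spectrum.CITStructure

universe u

theorem main {F : Type*} [Field F] [Fintype F] (m : ℕ) (hm : 4 ≤ m) (hF : Fintype.card F = 2 ^ m)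
    {G : Type u} [Group G] [Finite G]
    (hπ : ∀ r : ℕ, r.Prime → (r ∣ Nat.card (Matrix.ProjectiveSpecialLinearGroup (Fin 2) F) ↔ r ∣ Nat.card G))
    (hE : ∀ r s : ℕ, r.Prime → s.Prime → r ≠ s →
      ((∃ x : Matrix.ProjectiveSpecialLinearGroup (Fin 2) F, orderOf x = r * s) ↔ ∃ y : G, orderOf y = r * s))
    (classify : ∀ {Y : Type u} [Group Y] [Finite Y] [IsSimpleGroup Y], (∃ a b : Y, a * b ≠ b * a) →
      IsCIT Y →
      (∃ (F : Type) (_ : Field F) (_ : Fintype F),
          (Fintype.card F = 9 ∨ (∃ n : ℕ, Fintype.card F = 2 ^ n) ∨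
            ((Fintype.card F).Prime ∧ ∃ k : ℕ, Fintype.card F = 2 ^ k + 1 ∨ Fintype.card F + 1 = 2 ^ k)) ∧
          Nonempty (Y ≃* Matrix.ProjectiveSpecialLinearGroup (Fin 2) F)) ∨
      (∃ (F : Type) (_ : Field F) (_ : Fintype F), Fintype.card F = 4 ∧
          Nonempty (Y ≃* Matrix.ProjectiveSpecialLinearGroup (Fin 3) F)) ∨
      Cfsg.IsSuzuki Y) :
    Nonempty (G ⧸ pCore 2 G ≃* Matrix.ProjectiveSpecialLinearGroup (Fin 2) F) := by
  classical
  haveI : Fact (Nat.Prime 2) := ⟨Nat.prime_two⟩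
  have D := data_even (by omega) (MulEquiv.refl (Matrix.ProjectiveSpecialLinearGroup (Fin 2) F)) hF
  have hcard := card_even_field (by omega) (MulEquiv.refl (Matrix.ProjectiveSpecialLinearGroup (Fin 2) F)) hF
  have hprimes : ∀ r : ℕ, r.Prime → (r ∣ Nat.card G ↔ r = 2 ∨ r ∣ 2 ^ (2 * m) - 1) := by
    intro r hr
    rw [← hπ r hr, hcard]
    constructor
    · intro h
      rcases hr.dvd_mul.1 h with h | h
      · exact Or.inl ((Nat.prime_dvd_prime_iff_eq hr Nat.prime_two).1 (hr.dvd_of_dvd_pow h))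
      · exact Or.inr h
    · rintro (rfl | h)
      · exact dvd_mul_of_dvd_left (dvd_pow_self 2 (by omega)) _
      · exact dvd_mul_of_dvd_right h _
  have hpow : 2 ^ (2 * m) - 1 = (2 ^ m + 1) * (2 ^ m - 1) := by
    rw [← Nat.sq_sub_sq, ← pow_mul, one_pow, mul_comm m 2]
  have h16 : 16 ≤ 2 ^ m := le_trans (by norm_num) (Nat.pow_le_pow_right (by norm_num) hm)
  obtain ⟨j, hj⟩ : 2 ∣ 2 ^ m := dvd_pow_self 2 (by omega)
  -- no element of order `2 r`
  have hno2 : ∀ r : ℕ, r.Prime → r ≠ 2 → ¬ ∃ y : G, orderOf y = 2 * r := by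
    intro r hr hr2 hy
    rcases (D.spec _).1 ((hE 2 r Nat.prime_two hr hr2.symm).2 hy) with h | h | h
    · have := Nat.le_of_dvd (by norm_num) h
      have := hr.two_le
      omega
    · have := (dvd_mul_right 2 r).trans h
      omega
    · have := (dvd_mul_right 2 r).trans h
      omega
  -- the two halves are not joined
  have hno : ∀ r s : ℕ, r.Prime → s.Prime → r ∣ 2 ^ m - 1 → s ∣ 2 ^ m + 1 →
      r ≠ s ∧ ¬ ∃ y : G, orderOf y = r * s := by
    intro r s hr hs hra hsb
    have key : ∀ t : ℕ, t.Prime → t ∣ 2 ^ m - 1 → t ∣ 2 ^ m + 1 → False := by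
      intro t ht ha hb
      have h := Nat.dvd_sub hb ha
      rw [show 2 ^ m + 1 - (2 ^ m - 1) = 2 by omega] at h
      obtain rfl := (Nat.prime_dvd_prime_iff_eq ht Nat.prime_two).1 h
      omega
    have hrs : r ≠ s := fun h => key r hr hra (h ▸ hsb)
    refine ⟨hrs, fun hy => ?_⟩
    rcases (D.spec _).1 ((hE r s hr hs hrs).2 hy) with h | h | h
    · obtain rfl := (Nat.prime_dvd_prime_iff_eq hr Nat.prime_two).1 ((dvd_mul_right r s).trans h)
      omega
    · exact key s hs ((dvd_mul_left s r).trans h) hsb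
    · exact key r hr hra ((dvd_mul_right r s).trans h)
  have hcit : IsCIT G := by
    intro t ht
    rw [IsPGroup.iff_orderOf]
    intro c
    by_contra hc
    obtain ⟨r, hr, hrd, hr2⟩ : ∃ r : ℕ, r.Prime ∧ r ∣ orderOf c ∧ r ≠ 2 := by
      by_contra! hall
      exact hc ⟨_, Nat.eq_prime_pow_of_unique_prime_dvd (orderOf_pos c).ne' fun hd hdd => hall _ hd hdd⟩
    have hcomm : Commute t (((c : G)) ^ (orderOf c / r)) :=
      ((show Commute (c : G) t from Subgroup.mem_centralizer_singleton_iff.1 c.2).symm).pow_right _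
    refine hno2 r hr hr2 ⟨t * (c : G) ^ (orderOf c / r), ?_⟩
    have hco : orderOf ((c : G) ^ (orderOf c / r)) = r := by
      rw [← Subgroup.orderOf_coe c]
      exact orderOf_pow_orderOf_div (orderOf_pos _).ne' (by rwa [Subgroup.orderOf_coe])
    rw [hcomm.orderOf_mul_eq_mul_orderOf_of_coprime
      (by rw [ht, hco]; exact (Nat.coprime_primes Nat.prime_two hr).2 hr2.symm), ht, hco]
  have h2G : 2 ∣ Nat.card G := (hprimes 2 Nat.prime_two).2 (Or.inl rfl)
  obtain ⟨l, hl⟩ := exists_isPpd (a := 2) (n := 2 * m) (by norm_num) (by omega) (by omega) (by omega)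
  have hl2 : l ≠ 2 := by have := hl.lt (by norm_num) (by omega); omega
  have hns : ¬ Group.IsSolvable G := by
    intro hs
    obtain ⟨t, ht, htd⟩ := Nat.exists_prime_and_dvd (show 2 ^ m - 1 ≠ 1 by omega)
    have ht2 : t ≠ 2 := by rintro rfl; omega
    have hlb : l ∣ 2 ^ m + 1 := (hl.1.dvd_mul.1 (hpow ▸ hl.2.1)).resolve_right fun h => by
      have := Nat.le_of_dvd (by omega) ((hl.dvd_pow_sub_one_iff' (by norm_num) (by omega) _).1 h)
      omega
    obtain ⟨hne, hnot⟩ := hno t l ht hl.1 htd hlb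
    haveI := hs
    exact CfsgLib.OrderDegrees.false_of_solvable_coclique (⊤ : Subgroup G) inferInstance
      Nat.prime_two hl.1 ht hl2.symm ht2.symm hne.symm (hno2 l hl.1 hl2) (hno2 t ht ht2)
      (by rw [mul_comm]; exact hnot) (by rwa [Subgroup.card_top])
      (by rw [Subgroup.card_top]; exact (hprimes l hl.1).2 (Or.inr hl.2.1))
      ((hprimes t ht).2 (Or.inr (htd.trans (hpow ▸ dvd_mul_left _ _))))
  set E := pCore 2 G
  have hEp : IsPGroup 2 E := Cores.isPGroup_pCore 2 G
  obtain ⟨i, hi⟩ := IsPGroup.iff_card.1 hEp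
  have hdvd : ∀ r : ℕ, r.Prime → (r ∣ Nat.card (G ⧸ E) ↔ r ∣ Nat.card G) := by
    intro r hr
    refine ⟨fun h => h.trans (Subgroup.card_quotient_dvd_card E), fun h => ?_⟩
    rcases eq_or_ne r 2 with rfl | hr2
    · exact two_dvd_card_quotient hcit hns h
    · rw [Subgroup.card_eq_card_quotient_mul_card_subgroup E, hi] at h
      exact (hr.dvd_mul.1 h).resolve_right fun h' =>
        hr2 ((Nat.prime_dvd_prime_iff_eq hr Nat.prime_two).1 (hr.dvd_of_dvd_pow h'))
  have C : Ctx (G ⧸ E) m := by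
    refine ⟨hm, hcit.quotient hEp, fun r hr => (hdvd r hr).trans (hprimes r hr), ?_⟩
    rintro r s hr hs hra hsb ⟨x, hx⟩
    obtain ⟨y, rfl⟩ := QuotientGroup.mk'_surjective E x
    have hd : r * s ∣ orderOf y := hx ▸ orderOf_map_dvd (QuotientGroup.mk' E) y
    exact (hno r s hr hs hra hsb).2 ⟨_, orderOf_pow_orderOf_div (orderOf_pos y).ne' hd⟩
  have hnsX : ¬ Group.IsSolvable (G ⧸ E) := by
    intro hs
    haveI := hEp.isNilpotent
    exact hns ((Group.isSolvable_of_ker_le_range E.subtype (QuotientGroup.mk' E) (by rw [QuotientGroup.ker_mk', Subgroup.range_subtype])))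
  obtain ⟨T, hTn, hTs, hTab, -, -⟩ := exists_simple_normal C.cit hnsX ((hdvd 2 Nat.prime_two).2 h2G)
    (Cores.pCore_quotient_pCore 2 G)
  haveI := hTn
  haveI := hTs
  rcases classify hTab (C.cit.subgroup T) with ⟨F', iF, iFF, hF', ⟨e⟩⟩ | ⟨F', iF, iFF, hF', ⟨e⟩⟩ | ⟨-, j', hj', hT⟩
  · rcases hF' with h9 | ⟨n, hn⟩ | ⟨hp, k, hk⟩
    · have h := CfsgLib.ClassicalLinear.card_PSL_two_of_odd h9 (by decide)
      have hT : Nat.card T = 360 := by
        rw [← Nat.card_congr e.toEquiv] at h
        norm_num at h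
        omega
      refine (C.false_of_small hT ?_ ?_ (by norm_num)).elim
      · intro r hr hd
        by_contra hlt
        push Not at hlt
        have : r ∣ 2 ^ 3 * (3 ^ 2 * 5) := by norm_num; exact hd
        rcases hr.dvd_mul.1 this with h | h
        · have := Nat.le_of_dvd (by norm_num) (hr.dvd_of_dvd_pow h); omega
        · rcases hr.dvd_mul.1 h with h | h
          · have := Nat.le_of_dvd (by norm_num) (hr.dvd_of_dvd_pow h); omega
          · have := Nat.le_of_dvd (by norm_num) h; omega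
      · rw [show (360 : ℕ) = 2 ^ 3 * 45 by norm_num,
          Nat.factorization_mul_apply_of_coprime (by norm_num), Nat.prime_two.factorization_pow,
          Finsupp.single_eq_same, Nat.factorization_eq_zero_of_not_dvd (by norm_num)]
        norm_num
    · exact C.equiv_of_even hn e hF
    · rcases hp.eq_two_or_odd' with h2 | hodd
      · exact C.equiv_of_even (n := 1) (by rw [h2, pow_one]) e hF
      · obtain ⟨k', hk', hk''⟩ : ∃ k', 2 ≤ k' ∧
            (Fintype.card F' = 2 ^ k' + 1 ∨ Fintype.card F' + 1 = 2 ^ k') := by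
          have := hp.two_le
          rcases k with _ | _ | k
          · rcases hk with hk | hk
            · rw [hk] at hodd; exact absurd hodd (by decide)
            · norm_num at hk
          · rcases hk with hk | hk
            · exact ⟨2, le_rfl, Or.inr (by rw [hk]; norm_num)⟩
            · norm_num at hk; omega
          · exact ⟨k + 2, by omega, hk⟩
        exact (C.false_of_prime hp hk' hk'' rfl e).elim
  · have hT : Nat.card T = 20160 := by
      rw [Nat.card_congr e.toEquiv, CfsgLib.Golay.natCard_PSL3_four hF']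
    refine (C.false_of_small hT ?_ ?_ (by norm_num)).elim
    · intro r hr hd
      by_contra hlt
      push Not at hlt
      have : r ∣ 2 ^ 6 * (3 ^ 2 * (5 * 7)) := by norm_num; exact hd
      rcases hr.dvd_mul.1 this with h | h
      · have := Nat.le_of_dvd (by norm_num) (hr.dvd_of_dvd_pow h); omega
      · rcases hr.dvd_mul.1 h with h | h
        · have := Nat.le_of_dvd (by norm_num) (hr.dvd_of_dvd_pow h); omega
        · rcases hr.dvd_mul.1 h with h | h <;> (have := Nat.le_of_dvd (by norm_num) h; omega)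
    · rw [show (20160 : ℕ) = 2 ^ 6 * 315 by norm_num,
        Nat.factorization_mul_apply_of_coprime (by norm_num), Nat.prime_two.factorization_pow,
        Finsupp.single_eq_same, Nat.factorization_eq_zero_of_not_dvd (by norm_num)]
      norm_num
  · exact (C.false_of_suzuki hj' hT).elim

end CfsgLib.Spectrum.PSLEvenGraph
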