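import Cfsg.Agent.Lib.Spectrum.PSLTwoEvenGraphCases

/-!
The socle of a group with the prime graph of `PSL₂(2^m)` is no `PSL₂(p)`, `p = 2^k ± 1`.
-/

set_option autoImplicit false

open Cfsg

namespace CfsgLib.Spectrum.PSLEvenGraph

open CfsgLib.CIT CfsgLib.Zsigmondy

universe u

variable {X : Type u} [Group X] [Finite X] {m : ℕ} {T : Subgroup X} [T.Normal]

namespace Ctx

variable (C : Ctx X m)
include C

/-- An element of odd prime order normalising a Sylow 2-subgroup with a cyclic subgroup of index 2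
would centralise an involution. -/
theorem false_of_cyclic_index_two {k r : ℕ} (hk : 3 ≤ k) [Fact r.Prime] (hr2 : r ≠ 2) {x : X}
    (hx : orderOf x = r) (S : Subgroup X) (hS : Nat.card S = 2 ^ k)
    (hn : ∀ v ∈ S, x * v * x⁻¹ ∈ S) (hc : ∃ c ∈ S, orderOf c = 2 ^ (k - 1)) : False := by
  classical
  haveI : Fact (Nat.Prime 2) := ⟨Nat.prime_two⟩
  have hr : r.Prime := Fact.out
  obtain ⟨j, rfl⟩ : ∃ j, k = j + 3 := ⟨k - 3, by omega⟩
  obtain ⟨c, hcS, hco⟩ := hc
  rw [show j + 3 - 1 = j + 2 by omega] at hco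
  set H := (Subgroup.zpowers c).subgroupOf S with hH
  have hle : Subgroup.zpowers c ≤ S := Subgroup.zpowers_le.2 hcS
  have hidx : H.index = 2 := by
    have h := H.card_mul_index
    rw [hH, Nat.card_congr (Subgroup.subgroupOfEquivOfLe hle).toEquiv, Nat.card_zpowers, hco, hS,
      pow_succ 2 (j + 2)] at h
    exact Nat.eq_of_mul_eq_mul_left (by positivity) h
  have hsq : (x * c * x⁻¹) ^ 2 ∈ Subgroup.zpowers c := by
    have h := Subgroup.sq_mem_of_index_two hidx (⟨_, hn c hcS⟩ : S)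
    exact h
  set z := c ^ 2 ^ (j + 1) with hz
  have hz1 : z ≠ 1 := by
    intro h
    have := Nat.le_of_dvd (Nat.two_pow_pos _) (orderOf_dvd_of_pow_eq_one h)
    rw [hco, pow_succ 2 (j + 1)] at this
    have := Nat.two_pow_pos (j + 1)
    omega
  have hmem : x * z * x⁻¹ ∈ Subgroup.zpowers c := by
    rw [hz, ← conj_pow, pow_succ' 2 j, pow_mul]
    exact pow_mem hsq _
  have hxz : x * z * x⁻¹ = z := by
    obtain ⟨i, hi⟩ := Subgroup.mem_zpowers_iff.1 hmem
    have hzz : z ^ (2 : ℕ) = 1 := by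
      rw [hz, ← pow_mul, ← pow_succ, ← hco, pow_orderOf_eq_one]
    have h2 : c ^ (i * 2) = 1 := by
      rw [zpow_mul, hi, zpow_ofNat, conj_pow, hzz, mul_one, mul_inv_cancel]
    have hd := orderOf_dvd_iff_zpow_eq_one.2 h2
    rw [hco, pow_succ 2 (j + 1)] at hd
    push_cast at hd
    obtain ⟨t, rfl⟩ : ((2 : ℤ) ^ (j + 1)) ∣ i :=
      (mul_dvd_mul_iff_right (two_ne_zero)).1 hd
    have hit : c ^ ((2 : ℤ) ^ (j + 1) * t) = z ^ t := by
      rw [zpow_mul, hz, ← zpow_natCast c]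
      norm_num
    rw [hit] at hi
    rcases Int.even_or_odd t with ⟨s, rfl⟩ | ⟨s, rfl⟩
    · rw [← two_mul, zpow_mul, zpow_ofNat, hzz, one_zpow] at hi
      exact absurd (conj_eq_one_iff.1 hi.symm) hz1
    · rw [zpow_add, zpow_mul, zpow_ofNat, hzz, one_zpow, one_mul, zpow_one] at hi
      exact hi.symm
  refine hz1 (C.cit.fpf (D := S) ?_ (pow_mem hcS _) (x := x) ?_ ?_ ?_)
  · exact IsPGroup.of_card hS
  · rw [hx]; exact hr.odd_of_ne_two hr2
  · intro h; rw [h, orderOf_one] at hx; exact hr.one_lt.ne hx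
  · exact ((mul_inv_eq_iff_eq_mul.1 hxz)).symm

theorem false_of_prime {p k : ℕ} (hp : p.Prime) (hk : 2 ≤ k) (hpk : p = 2 ^ k + 1 ∨ p + 1 = 2 ^ k)
    {F' : Type} [Field F'] [Fintype F'] (hF' : Fintype.card F' = p)
    (e : T ≃* Matrix.ProjectiveSpecialLinearGroup (Fin 2) F') : False := by
  classical
  have hm := C.hm
  haveI : Fact (Nat.Prime 2) := ⟨Nat.prime_two⟩
  haveI : Fact p.Prime := ⟨hp⟩
  obtain ⟨i, rfl⟩ : ∃ i, k = i + 2 := ⟨k - 2, by omega⟩
  have h4k : 4 ≤ 2 ^ (i + 2) := le_trans (by norm_num) (Nat.pow_le_pow_right (by norm_num) hk)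
  have hp2 : p ≠ 2 := by rcases hpk with h | h <;> omega
  have hodd : Odd p := hp.odd_of_ne_two hp2
  -- the order of `T`
  obtain ⟨c, hcard, hcodd, hcd⟩ : ∃ c, Nat.card T = 2 ^ (i + 2) * (c * p) ∧ Odd c ∧
      c ∣ 2 ^ (2 * (i + 1)) - 1 := by
    have h := CfsgLib.ClassicalLinear.card_PSL_two_of_odd hF' hodd
    rw [← Nat.card_congr e.toEquiv] at h
    have hu : 2 ^ (2 * (i + 1)) - 1 = (2 ^ (i + 1) + 1) * (2 ^ (i + 1) - 1) := by
      rw [← Nat.sq_sub_sq, ← pow_mul, one_pow, mul_comm (i + 1) 2]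
    have he : Even (2 ^ (i + 1)) := Nat.even_pow.2 ⟨even_two, by omega⟩
    have h2 : 2 ^ (i + 2) = 2 * 2 ^ (i + 1) := pow_succ' 2 (i + 1)
    have h1 : 1 ≤ 2 ^ (i + 1) := Nat.one_le_two_pow
    have hsq : p ^ 2 - 1 = (p + 1) * (p - 1) := by rw [← Nat.sq_sub_sq, one_pow]
    rcases hpk with hpk | hpk
    · refine ⟨2 ^ (i + 1) + 1, ?_, he.add_one, hu ▸ dvd_mul_right _ _⟩
      rw [hsq, show p + 1 = 2 * (2 ^ (i + 1) + 1) by omega,
        show p - 1 = 2 ^ (i + 2) by omega] at h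
      nlinarith
    · refine ⟨2 ^ (i + 1) - 1, ?_, Nat.Even.sub_odd h1 he odd_one, hu ▸ dvd_mul_left _ _⟩
      rw [hsq, hpk, show p - 1 = 2 * (2 ^ (i + 1) - 1) by omega] at h
      nlinarith
  have hfac : (Nat.card T).factorization 2 = i + 2 := by
    have hcp : ¬ 2 ∣ c * p := fun h => (Nat.not_even_iff_odd.2 (hcodd.mul hodd)) (even_iff_two_dvd.2 h)
    rw [hcard, Nat.factorization_mul_apply_of_coprime
        (Nat.Coprime.pow_left _ (Nat.prime_two.coprime_iff_not_dvd.2 hcp)),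
      Nat.prime_two.factorization_pow, Finsupp.single_eq_same,
      Nat.factorization_eq_zero_of_not_dvd hcp, add_zero]
  have hpT : p ∣ Nat.card T := hcard ▸ dvd_mul_of_dvd_right (dvd_mul_left _ _) _
  have hpd := C.dvd_sub_one_of_dvd hp hp2 hpT
  -- `p` is at most `2^m + 1`
  have hfac2 : 2 ^ (2 * m) - 1 = (2 ^ m + 1) * (2 ^ m - 1) := by
    rw [← Nat.sq_sub_sq, ← pow_mul, one_pow, mul_comm m 2]
  have h16 : 16 ≤ 2 ^ m := le_trans (by norm_num) (Nat.pow_le_pow_right (by norm_num) hm)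
  have hple : p ≤ 2 ^ m + 1 := by
    rcases hp.dvd_mul.1 (hfac2 ▸ hpd) with h | h
    · exact Nat.le_of_dvd (by omega) h
    · have := Nat.le_of_dvd (by omega) h
      omega
  have hkm : i + 2 ≤ m := by
    by_contra h
    have hh := Nat.pow_le_pow_right (show 0 < 2 by norm_num) (show m + 1 ≤ i + 2 by omega)
    rw [pow_succ] at hh
    omega
  obtain ⟨l, hl, hlX, hlt, hl2⟩ := C.exists_prim
  by_cases hlT : l ∣ Nat.card T
  swap
  · have := Nat.le_of_dvd (by omega) (C.exponent_dvd (by omega) hl hl2 hlX hlT hfac)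
    omega
  have hco2 : ∀ {r : ℕ}, r.Prime → r ≠ 2 → Nat.Coprime r (2 ^ (i + 2)) := fun hr h2 =>
    Nat.Coprime.pow_right _ ((Nat.coprime_primes hr Nat.prime_two).2 h2)
  have hlcp := (hco2 hl.1 hl2).dvd_of_dvd_mul_left (hcard ▸ hlT)
  rcases hl.1.dvd_mul.1 hlcp with h | h
  · have h1 := Nat.le_of_dvd (by omega) ((hl.dvd_pow_sub_one_iff' (by norm_num) (by omega) _).1 (h.trans hcd))
    omega
  have hlp : l = p := (Nat.prime_dvd_prime_iff_eq hl.1 hp).1 h
  subst hlp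
  rcases hpk with hpk | hpk
  swap
  · have := Nat.le_of_dvd (by omega)
      ((hl.dvd_pow_sub_one_iff' (by norm_num) (by omega) (i + 2)).1
        (show l ∣ 2 ^ (i + 2) - 1 from ⟨1, by omega⟩))
    omega
  -- the Fermat prime `2^m + 1`
  have hkm' : i + 2 = m := by
    have h1 : l ∣ 2 ^ (2 * (i + 2)) - 1 := ⟨2 ^ (i + 2) - 1, by
      rw [hpk, ← Nat.sq_sub_sq, ← pow_mul, one_pow, mul_comm (i + 2) 2]⟩
    have := Nat.le_of_dvd (by omega) ((hl.dvd_pow_sub_one_iff' (by norm_num) (by omega) _).1 h1)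
    omega
  subst hkm'
  have hm6 : i + 2 ≠ 6 := fun h6 => by
    rw [h6] at hpk
    norm_num [hpk] at hp
  obtain ⟨r, hr⟩ := exists_isPpd (a := 2) (n := i + 2) (by norm_num) (by omega) (by omega) (by omega)
  have hr2 : r ≠ 2 := by have := hr.lt (by norm_num) (by omega); omega
  have hrT : ¬ r ∣ Nat.card T := by
    intro h
    rcases hr.1.dvd_mul.1 ((hco2 hr.1 hr2).dvd_of_dvd_mul_left (hcard ▸ h)) with h | h
    · have h1 := (hr.dvd_pow_sub_one_iff' (by norm_num) (by omega) _).1 (h.trans hcd)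
      have h3 := Nat.dvd_sub (dvd_mul_left (i + 2) 2) h1
      rw [show 2 * (i + 2) - 2 * (i + 1) = 2 by omega] at h3
      have := Nat.le_of_dvd (by norm_num) h3
      omega
    · have h1 : l ∣ 2 ^ (i + 2) - 1 := (Nat.prime_dvd_prime_iff_eq hr.1 hp).1 h ▸ hr.2.1
      have := Nat.le_of_dvd (by omega) h1
      omega
  haveI : Fact r.Prime := ⟨hr.1⟩
  have hrX : r ∣ Nat.card X := (C.primes r hr.1).2 (Or.inr (hr.2.1.trans (hfac2 ▸ dvd_mul_left _ _)))
  obtain ⟨x, hx⟩ := exists_prime_orderOf_dvd_card' (G := X) r hrX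
  obtain ⟨P, hP⟩ := exists_normalized_sylow (s := 2) T hrT hx
  refine C.false_of_cyclic_index_two (k := i + 2) (by omega) hr2 hx _ ?_ hP ?_
  · rw [Subgroup.card_map_of_injective T.subtype_injective, Sylow.card_eq_multiplicity, hfac]
  · haveI : CharP F' l := by
      obtain ⟨q, hq⟩ := CharP.exists F'
      obtain ⟨n, hqp, hqn⟩ := FiniteField.card F' q
      have : q = l := (Nat.prime_dvd_prime_iff_eq hqp hp).1 (hF' ▸ hqn ▸ dvd_pow_self q n.ne_zero)
      exact this ▸ hq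
    have hS := Cfsg.Agent.S2475.result (F := F') l (by omega)
    obtain ⟨g, hg⟩ := (Set.ext_iff.1 hS (2 ^ (i + 1))).2 (Or.inr (Or.inl (by
      rw [hF', hpk, Nat.add_sub_cancel, Nat.gcd_eq_left (dvd_pow_self 2 (by omega)),
        pow_succ 2 (i + 1), Nat.mul_div_cancel _ (by norm_num : 0 < 2)])))
    have hgo : orderOf (e.symm g) = 2 ^ (i + 1) := by rw [e.symm.orderOf_eq, hg]
    obtain ⟨Q, hQ⟩ := (IsPGroup.of_card (p := 2) (n := i + 1)
      (show Nat.card (Subgroup.zpowers (e.symm g)) = 2 ^ (i + 1) by rw [Nat.card_zpowers, hgo])).exists_le_sylow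
    obtain ⟨w, hw⟩ := MulAction.exists_smul_eq T Q P
    refine ⟨((w * e.symm g * w⁻¹ : T) : X), ⟨w * e.symm g * w⁻¹, ?_, rfl⟩, ?_⟩
    · rw [← hw, Sylow.coe_subgroup_smul]
      exact Subgroup.smul_mem_pointwise_smul _ (MulAut.conj w) _ (hQ (Subgroup.mem_zpowers _))
    · rw [Subgroup.orderOf_coe, show w * e.symm g * w⁻¹ = MulAut.conj w (e.symm g) from rfl,
        MulEquiv.orderOf_eq, hgo]
      congr 1

end Ctx

end CfsgLib.Spectrum.PSLEvenGraph
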