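import Cfsg.Agent.Lib.Spectrum.PSLTwoEvenGraphPrimes

/-!
The socle of a group with the prime graph of `PSL₂(2^m)` is not of Suzuki order.
-/

set_option autoImplicit false

open Cfsg

namespace CfsgLib.Spectrum.PSLEvenGraph

open CfsgLib.CIT CfsgLib.Zsigmondy

universe u

variable {X : Type u} [Group X] [Finite X] {m : ℕ} {T : Subgroup X} [T.Normal]

/-- A nontrivial 2-group on which a primitive prime of its exponent acts freely is elementary abelian. -/
theorem elementary_of_fpf {e r : ℕ} (he : 0 < e) (hr : IsPpd 2 e r) (S : Subgroup X)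
    (hS : Nat.card S = 2 ^ e)
    (hfree : ∀ V : Subgroup X, V ≤ S → (∀ φ : S ≃* S, (V.subgroupOf S).map φ.toMonoidHom = V.subgroupOf S) →
      r ∣ Nat.card V - 1) : (∀ v ∈ S, ∀ w ∈ S, v * w = w * v) ∧ ∀ v ∈ S, v ^ 2 = 1 := by
  classical
  haveI : Fact (Nat.Prime 2) := ⟨Nat.prime_two⟩
  have hSp : IsPGroup 2 S := IsPGroup.of_card hS
  haveI : Nontrivial S := Finite.one_lt_card_iff_nontrivial.1 (by rw [hS]; exact Nat.one_lt_two_pow he.ne')
  have key : ∀ V : Subgroup S, V ≠ ⊥ → (∀ φ : S ≃* S, V.map φ.toMonoidHom = V) → V = ⊤ := by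
    intro V hV hchar
    have hsub : (V.map S.subtype).subgroupOf S = V :=
      Subgroup.comap_map_eq_self_of_injective S.subtype_injective V
    have h := hfree (V.map S.subtype) (Subgroup.map_subtype_le V) (fun φ => by rw [hsub]; exact hchar φ)
    rw [Subgroup.card_map_of_injective S.subtype_injective] at h
    obtain ⟨a, ha, hVc⟩ := (Nat.dvd_prime_pow Nat.prime_two).1 (hS ▸ Subgroup.card_subgroup_dvd_card V)
    rw [hVc] at h
    have hed := (hr.dvd_pow_sub_one_iff' (by norm_num) he a).1 h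
    have ha0 : a ≠ 0 := fun h0 => hV (Subgroup.eq_bot_of_card_eq _ (by rw [hVc, h0, pow_zero]))
    refine Subgroup.eq_top_of_card_eq _ ?_
    rw [hVc, hS, le_antisymm ha (Nat.le_of_dvd (Nat.pos_of_ne_zero ha0) hed)]
  have hcen : Subgroup.center S = ⊤ := by
    haveI := hSp.center_nontrivial
    exact key _ ((Subgroup.nontrivial_iff_ne_bot _).1 inferInstance) fun φ =>
      Subgroup.characteristic_iff_map_eq.1 inferInstance φ
  have hcomm : ∀ v w : S, v * w = w * v := fun v w =>
    (Subgroup.mem_center_iff.1 (hcen ▸ Subgroup.mem_top w) v)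
  let W : Subgroup S :=
    { carrier := {v | v ^ 2 = 1}
      one_mem' := one_pow 2
      mul_mem' := fun {a b} ha hb => by
        simp only [Set.mem_ofPred_eq] at *
        rw [(show Commute a b from hcomm a b).mul_pow, ha, hb, one_mul]
      inv_mem' := fun {a} ha => by
        simp only [Set.mem_ofPred_eq] at *
        rw [inv_pow, ha, inv_one] }
  have hW : W = ⊤ := by
    refine key W (fun h => ?_) fun φ => ?_
    · obtain ⟨t, ht⟩ := exists_prime_orderOf_dvd_card' (G := S) 2 (by rw [hS]; exact dvd_pow_self 2 he.ne')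
      have h1 : t ∈ W := by
        show t ^ 2 = 1
        rw [← ht, pow_orderOf_eq_one]
      rw [h, Subgroup.mem_bot] at h1
      rw [h1, orderOf_one] at ht
      omega
    · ext v
      constructor
      · rintro ⟨w, hw, rfl⟩
        show (φ w) ^ 2 = 1
        rw [← map_pow, show w ^ 2 = 1 from hw, map_one]
      · intro hv
        refine ⟨φ.symm v, ?_, φ.apply_symm_apply v⟩
        show (φ.symm v) ^ 2 = 1
        rw [← map_pow, show v ^ 2 = 1 from hv, map_one]
  refine ⟨fun v hv w hw => congrArg Subtype.val (hcomm ⟨v, hv⟩ ⟨w, hw⟩), fun v hv => ?_⟩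
  exact congrArg Subtype.val (show (⟨v, hv⟩ : S) ^ 2 = 1 from (show (⟨v, hv⟩ : S) ∈ W by rw [hW]; trivial))

namespace Ctx

variable (C : Ctx X m)
include C

theorem false_of_suzuki [IsSimpleGroup T] {j : ℕ} (hj : 1 ≤ j)
    (hcard : Nat.card T = (2 ^ (2 * j + 1)) ^ 2 * ((2 ^ (2 * j + 1)) ^ 2 + 1) * (2 ^ (2 * j + 1) - 1)) :
    False := by
  classical
  have hm := C.hm
  haveI : Fact (Nat.Prime 2) := ⟨Nat.prime_two⟩
  obtain ⟨n, hn⟩ : ∃ n, 2 * j + 1 = n := ⟨_, rfl⟩
  have hn3 : 3 ≤ n := by omega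
  rw [hn, ← pow_mul, mul_comm n 2] at hcard
  have h8 : 8 ≤ 2 ^ n := le_trans (by norm_num) (Nat.pow_le_pow_right (by norm_num) hn3)
  have hA : 1 ≤ 2 ^ (2 * n) := Nat.one_le_two_pow
  have hu : 2 ^ (4 * n) - 1 = (2 ^ (2 * n) + 1) * (2 ^ (2 * n) - 1) := by
    rw [← Nat.sq_sub_sq, ← pow_mul, one_pow, show 2 * n * 2 = 4 * n by ring]
  have hu2 : 2 ^ (2 * n) - 1 = (2 ^ n + 1) * (2 ^ n - 1) := by
    rw [← Nat.sq_sub_sq, ← pow_mul, one_pow, mul_comm n 2]
  have hd1 : 2 ^ (2 * n) + 1 ∣ 2 ^ (4 * n) - 1 := hu ▸ dvd_mul_right _ _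
  have hd2 : 2 ^ n - 1 ∣ 2 ^ (4 * n) - 1 :=
    (hu2 ▸ dvd_mul_left _ _ : 2 ^ n - 1 ∣ 2 ^ (2 * n) - 1).trans (hu ▸ dvd_mul_left _ _)
  have hfac : (Nat.card T).factorization 2 = 2 * n := by
    have hodd : ¬ 2 ∣ (2 ^ (2 * n) + 1) * (2 ^ n - 1) := by
      obtain ⟨a, ha⟩ : 2 ∣ 2 ^ (2 * n) := dvd_pow_self 2 (by omega)
      obtain ⟨b, hb⟩ : 2 ∣ 2 ^ n := dvd_pow_self 2 (by omega)
      intro h
      rcases Nat.prime_two.dvd_mul.1 h with h | h <;> omega
    rw [hcard, mul_assoc, Nat.factorization_mul_apply_of_coprime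
        (Nat.Coprime.pow_left _ (Nat.prime_two.coprime_iff_not_dvd.2 hodd)),
      Nat.prime_two.factorization_pow, Finsupp.single_eq_same,
      Nat.factorization_eq_zero_of_not_dvd hodd, add_zero]
  -- `m = 2 n`
  obtain ⟨r, hr⟩ := exists_isPpd (a := 2) (n := 4 * n) (by norm_num) (by omega) (by omega) (by omega)
  have hr2 : r ≠ 2 := by have := hr.lt (by norm_num) (by omega); omega
  have hrA : r ∣ 2 ^ (2 * n) + 1 := (hr.1.dvd_mul.1 (hu ▸ hr.2.1)).resolve_right fun h => by
    have := Nat.le_of_dvd (by omega) ((hr.dvd_pow_sub_one_iff' (by norm_num) (by omega) _).1 h)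
    omega
  have h2m : 2 * n ∣ m := by
    have h := (hr.dvd_pow_sub_one_iff' (by norm_num) (by omega) _).1
      (C.dvd_sub_one_of_dvd (T := T) hr.1 hr2
        (hcard ▸ dvd_mul_of_dvd_left (dvd_mul_of_dvd_right hrA _) _))
    rw [show 4 * n = 2 * (2 * n) by ring] at h
    exact Nat.dvd_of_mul_dvd_mul_left (by norm_num) h
  obtain ⟨l, hl, hlX, hlt, hl2⟩ := C.exists_prim
  have hmn : m = 2 * n := by
    by_cases hlT : l ∣ Nat.card T
    · have h1 : l ∣ 2 ^ (4 * n) - 1 := by
        rw [hcard] at hlT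
        rcases hl.1.dvd_mul.1 hlT with h | h
        · rcases hl.1.dvd_mul.1 h with h | h
          · exact absurd ((Nat.prime_dvd_prime_iff_eq hl.1 Nat.prime_two).1 (hl.1.dvd_of_dvd_pow h)) hl2
          · exact h.trans hd1
        · exact h.trans hd2
      have := Nat.le_of_dvd (by omega) ((hl.dvd_pow_sub_one_iff' (by norm_num) (by omega) _).1 h1)
      have := Nat.le_of_dvd (by omega) h2m
      omega
    · have := Nat.le_of_dvd (by omega) (C.exponent_dvd (by omega) hl hl2 hlX hlT hfac)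
      have := Nat.le_of_dvd (by omega) h2m
      omega
  subst hmn
  have hu3 : 2 ^ (2 * (2 * n)) - 1 = (2 ^ (2 * n) + 1) * (2 ^ (2 * n) - 1) := by
    rw [← mul_assoc]; exact hu
  rcases eq_or_ne n 3 with h3 | h3
  · subst h3
    norm_num at hcard
    haveI : Fact (Nat.Prime 3) := ⟨by norm_num⟩
    haveI : Fact (Nat.Prime 5) := ⟨by norm_num⟩
    obtain ⟨x, hx⟩ := exists_prime_orderOf_dvd_card' (G := X) 3
      ((C.primes 3 (by norm_num)).2 (Or.inr (by norm_num)))
    obtain ⟨P, hP⟩ := exists_normalized_sylow (s := 5) T (by rw [hcard]; norm_num) hx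
    have hP5 : Nat.card ((P : Subgroup T).map T.subtype) = 5 := by
      rw [Subgroup.card_map_of_injective T.subtype_injective, Sylow.card_eq_multiplicity, hcard]
      rw [show (29120 : ℕ) = 5 * 5824 by norm_num,
        Nat.factorization_mul_apply_of_coprime (by norm_num),
        (by norm_num : Nat.Prime 5).factorization_self,
        Nat.factorization_eq_zero_of_not_dvd (by norm_num), add_zero, pow_one]
    by_cases hfree : ∀ v ∈ (P : Subgroup T).map T.subtype, Commute x v → v = 1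
    · have := dvd_card_sub_one hx _ hP hfree
      rw [hP5] at this
      norm_num at this
    · push Not at hfree
      obtain ⟨v, hv, hc, hv1⟩ := hfree
      have hvo : orderOf v = 5 := by
        refine ((Nat.dvd_prime (by norm_num)).1 ?_).resolve_left (fun h => hv1 (orderOf_eq_one_iff.1 h))
        have h := orderOf_dvd_natCard (⟨v, hv⟩ : (P : Subgroup T).map T.subtype)
        rwa [hP5, ← Subgroup.orderOf_coe] at h
      refine C.noedge 3 5 (by norm_num) (by norm_num) (by norm_num) (by norm_num) ⟨x * v, ?_⟩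
      rw [hc.orderOf_mul_eq_mul_orderOf_of_coprime (by rw [hx, hvo]; norm_num), hx, hvo]
  obtain ⟨r', hr'⟩ := exists_isPpd (a := 2) (n := 2 * n) (by norm_num) (by omega) (by omega) (by omega)
  have hr'2 : r' ≠ 2 := by have := hr'.lt (by norm_num) (by omega); omega
  haveI : Fact r'.Prime := ⟨hr'.1⟩
  have hr'T : ¬ r' ∣ Nat.card T := by
    rw [hcard]
    intro h
    rcases hr'.1.dvd_mul.1 h with h | h
    · rcases hr'.1.dvd_mul.1 h with h | h
      · exact hr'2 ((Nat.prime_dvd_prime_iff_eq hr'.1 Nat.prime_two).1 (hr'.1.dvd_of_dvd_pow h))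
      · have h1 := Nat.dvd_sub h hr'.2.1
        rw [show 2 ^ (2 * n) + 1 - (2 ^ (2 * n) - 1) = 2 by omega] at h1
        exact hr'2 ((Nat.prime_dvd_prime_iff_eq hr'.1 Nat.prime_two).1 h1)
    · have := Nat.le_of_dvd (by omega) ((hr'.dvd_pow_sub_one_iff' (by norm_num) (by omega) _).1 h)
      omega
  obtain ⟨x, hx⟩ := exists_prime_orderOf_dvd_card' (G := X) r'
    ((C.primes r' hr'.1).2 (Or.inr (hr'.2.1.trans (hu3 ▸ dvd_mul_left _ _))))
  obtain ⟨P, hP⟩ := exists_normalized_sylow (s := 2) T hr'T hx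
  set S := (P : Subgroup T).map T.subtype with hS
  have hScard : Nat.card S = 2 ^ (2 * n) := by
    rw [hS, Subgroup.card_map_of_injective T.subtype_injective, Sylow.card_eq_multiplicity, hfac]
  have hinv : ∀ v : X, v ∈ S → x⁻¹ * v * x ∈ S := by
    -- conjugation by `x` is a permutation of the finite set `S`
    let f : S → S := fun v => ⟨x * v * x⁻¹, hP v v.2⟩
    have hf : Function.Injective f := fun v w h => Subtype.ext (by
      have h1 : x * (v : X) * x⁻¹ = x * w * x⁻¹ := congrArg Subtype.val h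
      exact mul_left_cancel (mul_right_cancel h1))
    intro v hv
    obtain ⟨w, hw⟩ := Finite.injective_iff_surjective.1 hf ⟨v, hv⟩
    have h1 : x * (w : X) * x⁻¹ = v := congrArg Subtype.val hw
    rw [← h1]
    simpa [mul_assoc] using w.2
  let cx : S ≃* S :=
    { toFun := fun v => ⟨x * v * x⁻¹, hP v v.2⟩
      invFun := fun v => ⟨x⁻¹ * v * x, hinv v v.2⟩
      left_inv := fun v => Subtype.ext (by simp [mul_assoc])
      right_inv := fun v => Subtype.ext (by simp [mul_assoc])
      map_mul' := fun v w => Subtype.ext (by simp [mul_assoc]) }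
  obtain ⟨hab, helem⟩ := elementary_of_fpf (by omega) hr' S hScard (fun V hVS hV => by
    refine C.fpf_two hr'2 hx V ((P.2.map _).to_le hVS) fun v hv => ?_
    have h1 : cx ⟨v, hVS hv⟩ ∈ V.subgroupOf S := by
      rw [← hV cx]
      exact Subgroup.mem_map_of_mem _ (Subgroup.mem_subgroupOf.2 hv)
    exact h1)
  have hPel : ∀ v ∈ (P : Subgroup T), v ^ 2 = 1 := fun v hv =>
    Subtype.ext (helem v ⟨v, hv, rfl⟩)
  have h64 : 64 ≤ 2 ^ (2 * n) := le_trans (by norm_num) (Nat.pow_le_pow_right (by norm_num) (by omega : 6 ≤ 2 * n))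
  obtain ⟨F, iF, iFF, hF, ⟨e⟩⟩ := Cfsg.Agent.S1230.result P
    (by
      intro hcyc
      obtain ⟨g, hg⟩ := hcyc.exists_generator
      have h1 : orderOf g = Nat.card (P : Subgroup T) := orderOf_eq_card_of_forall_mem_zpowers hg
      have h2 : orderOf g ∣ 2 := orderOf_dvd_of_pow_eq_one (Subtype.ext (hPel g g.2))
      have := Nat.le_of_dvd (by norm_num) h2
      rw [h1, Sylow.card_eq_multiplicity, hfac] at this
      omega)
    (by
      intro hn'
      rcases hn'.eq_bot_or_eq_top with h | h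
      · have := P.card_eq_multiplicity
        rw [show Nat.card P = Nat.card (P : Subgroup T) from rfl, h, Subgroup.card_bot, hfac] at this
        omega
      · have := P.card_eq_multiplicity
        rw [show Nat.card P = Nat.card (P : Subgroup T) from rfl, h, Subgroup.card_top, hfac] at this
        have hdvd : r ∣ 2 ^ (2 * n) := this ▸ (hcard ▸ dvd_mul_of_dvd_left (dvd_mul_of_dvd_right hrA _) _)
        exact hr2 ((Nat.prime_dvd_prime_iff_eq hr.1 Nat.prime_two).1 (hr.1.dvd_of_dvd_pow hdvd)))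
    (fun t ht => by
      obtain ⟨Q, hQ⟩ := ((C.cit.subgroup T) t ht).exists_le_sylow
      obtain ⟨w, hw⟩ := MulAction.exists_smul_eq T Q P
      have hmem : ∀ c ∈ Subgroup.centralizer ({t} : Set T), MulAut.conj w c ∈ (P : Subgroup T) := by
        intro c hc
        rw [← hw, Sylow.coe_subgroup_smul]
        exact Subgroup.smul_mem_pointwise_smul _ (MulAut.conj w) _ (hQ hc)
      refine ⟨⟨⟨fun c d => Subtype.ext ((MulAut.conj w).injective ?_)⟩⟩, fun c hc => (MulAut.conj w).injective ?_⟩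
      · rw [Subgroup.coe_mul, Subgroup.coe_mul, map_mul, map_mul]
        exact Subtype.ext (hab _ ⟨_, hmem c c.2, rfl⟩ _ ⟨_, hmem d d.2, rfl⟩)
      · rw [map_pow, map_one]
        exact hPel _ (hmem c hc))
  rw [Sylow.card_eq_multiplicity, hfac] at hF
  have h := card_even_field (by omega) e hF
  rw [hcard, mul_assoc, hu3] at h
  have h1 := Nat.eq_of_mul_eq_mul_left (by omega) h
  have h2 := Nat.eq_of_mul_eq_mul_left (by omega) h1
  rw [hu2] at h2
  nlinarith [show 7 ≤ 2 ^ n - 1 by omega]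

end Ctx

end CfsgLib.Spectrum.PSLEvenGraph
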