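import Cfsg.Agent.Lib.Spectrum.PSLTwoTI
import Cfsg.Agent.Lib.AltGroups.SharplyThreeTransitive
import Cfsg.Agent.S0731
import Cfsg.Agent.Lib.Derangements.PGL2Basic
import Cfsg.Agent.Lib.ClassicalLinear.BlockHom
import Cfsg.Agent.Lib.ClassicalLinear.Card

/-!
A finite group with the order and the element orders of `PSL₂(q)` acts on its Sylow subgroups for
the defining prime as a Zassenhaus group, hence is `PSL₂(q)`.
-/

set_option autoImplicit false

open scoped Pointwise

namespace CfsgLib.Spectrum.PSLTwo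

universe u v

variable {G : Type u} [Group G] [Finite G]

namespace Data

variable {p n q a b d : ℕ} (D : Data G p n q a b d)
include D

theorem factorization_card : (Nat.card G).factorization p = n := by
  have hd : ¬ p ∣ d := by
    rcases D.hd with ⟨-, rfl⟩ | ⟨h2, rfl⟩
    · exact fun h => D.hp.one_lt.ne' (Nat.dvd_one.1 h)
    · exact fun h => h2 ((Nat.prime_dvd_prime_iff_eq D.hp Nat.prime_two).1 h)
  have hM : ¬ p ∣ a * b * d := fun h => by
    rcases D.hp.dvd_mul.1 h with h | h
    · rcases D.hp.dvd_mul.1 h with h | h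
      · exact D.not_dvd_a h
      · exact D.not_dvd_b h
    · exact hd h
  rw [D.card, show q * a * b * d = q * (a * b * d) by ring, Nat.factorization_mul
    (by have := D.q3; omega) (fun h => hM (by rw [h]; exact dvd_zero p)), Finsupp.add_apply,
    Nat.factorization_eq_zero_of_not_dvd hM, add_zero, D.hq, D.hp.factorization_pow,
    Finsupp.single_eq_same]

theorem coprime_b_qa : Nat.Coprime b (q * a) := by
  refine Nat.Coprime.mul_right ?_ D.coprime_ab.symm
  rw [D.hq]
  exact Nat.Coprime.pow_right n (D.hp.coprime_iff_not_dvd.2 D.not_dvd_b).symm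

theorem card_sylow [Fact p.Prime] (P : Sylow p G) : Nat.card P = q := by
  rw [Sylow.card_eq_multiplicity, D.factorization_card, D.hq]

theorem pow_two_eq_one [Fact p.Prime] (hp2 : p = 2) (P : Sylow p G) {x : G}
    (hx : x ∈ (P : Subgroup G)) : x * x = 1 := by
  obtain ⟨k, hk⟩ := P.2 ⟨x, hx⟩
  have hxk : x ^ p ^ k = 1 := congrArg Subtype.val hk
  obtain ⟨i, -, hi⟩ := (Nat.dvd_prime_pow D.hp).1 (orderOf_dvd_of_pow_eq_one hxk)
  rw [← pow_two]
  refine orderOf_dvd_iff_pow_eq_one.1 ?_
  rcases (D.spec _).1 ⟨x, rfl⟩ with h | h | h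
  · rwa [hp2] at h
  all_goals
    rcases Nat.eq_zero_or_pos i with rfl | hi0
    · rw [hi, pow_zero]; exact one_dvd _
    · exfalso
      have h1 := (dvd_pow_self p (Nat.pos_iff_ne_zero.1 hi0)).trans (hi ▸ h)
      first
        | exact D.not_dvd_a h1
        | exact D.not_dvd_b h1

theorem p_power_of_mem [Fact p.Prime] (P : Sylow p G) {x : G} (hx : x ∈ (P : Subgroup G)) :
    ∃ k, x ^ p ^ k = 1 := by
  obtain ⟨k, hk⟩ := P.2 ⟨x, hx⟩
  exact ⟨k, congrArg Subtype.val hk⟩

/-- Distinct Sylow subgroups intersect trivially. -/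
theorem inf_eq_bot [Fact p.Prime] {P P' : Sylow p G} (h : P ≠ P') :
    (P : Subgroup G) ⊓ P' = ⊥ := by
  classical
  by_cases hp2 : p = 2
  · rw [Subgroup.eq_bot_iff_forall]
    intro x hx
    by_contra hx1
    have key : ∀ Q : Sylow p G, x ∈ (Q : Subgroup G) →
        (Q : Subgroup G) = Subgroup.centralizer ({x} : Set G) := by
      intro Q hQ
      refine (Q.3 (D.isPGroup_centralizer hx1 (D.p_power_of_mem Q hQ)) ?_).symm
      intro y hy
      refine Subgroup.mem_centralizer_singleton_iff.2 ?_
      have h1 := D.pow_two_eq_one hp2 Q hQ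
      have h2 := D.pow_two_eq_one hp2 Q hy
      have h3 := D.pow_two_eq_one hp2 Q (mul_mem hy hQ)
      calc y * x = y * x * ((y * x) * (y * x))⁻¹ := by rw [h3]; simp
        _ = x⁻¹ * y⁻¹ := by group
        _ = x * y := by rw [inv_eq_of_mul_eq_one_right h1, inv_eq_of_mul_eq_one_right h2]
    exact h (Sylow.ext ((key P hx.1).trans (key P' hx.2).symm))
  · by_contra hne
    obtain ⟨⟨P₁, P₂⟩, hmem, hmax⟩ := Set.exists_max_image
      {T : Sylow p G × Sylow p G | T.1 ≠ T.2}
      (fun T => Nat.card ((T.1 : Subgroup G) ⊓ T.2 : Subgroup G)) (Set.toFinite _) ⟨(P, P'), h⟩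
    simp only [Set.mem_setOf_eq] at hmem hmax
    set E := (P₁ : Subgroup G) ⊓ P₂ with hE
    have hE1 : E ≠ ⊥ := by
      intro hb
      have h1 := hmax (P, P') h
      simp only [hb, Subgroup.card_bot] at h1
      exact hne (Subgroup.eq_bot_of_card_le _ h1)
    obtain ⟨S, hSp, hS⟩ := D.exists_pSubgroup hp2 (P₁.2.to_inf_left (K := (P₂ : Subgroup G))) hE1
    obtain ⟨P₃, hP₃⟩ := hSp.exists_le_sylow
    have key : ∀ Q : Sylow p G, E ≤ Q → E ≠ Q → P₃ = Q := by
      intro Q hEQ hEne
      have hnc : NormalizerCondition Q := normalizerCondition_of_isNilpotent (G := Q)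
        (h := Q.2.isNilpotent)
      have hlt : E.subgroupOf (Q : Subgroup G) < ⊤ := by
        rw [lt_top_iff_ne_top]
        intro htop
        rw [Subgroup.subgroupOf_eq_top] at htop
        exact hEne (le_antisymm hEQ htop)
      obtain ⟨⟨g, hgQ⟩, hgN, hgE⟩ := SetLike.exists_of_lt (hnc _ hlt)
      by_contra hQ3
      have h1 := hmax (P₃, Q) hQ3
      simp only at h1
      have hgM : g ∈ Subgroup.normalizer (E : Set G) := by
        rw [Subgroup.mem_normalizer_iff]
        intro x
        constructor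
        · intro hx
          exact (Subgroup.mem_normalizer_iff.1 hgN ⟨x, hEQ hx⟩).1 hx
        · intro hx
          have hxQ : x ∈ (Q : Subgroup G) := by
            have := mul_mem (mul_mem (inv_mem hgQ) (hEQ hx)) hgQ
            simpa [mul_assoc] using this
          exact (Subgroup.mem_normalizer_iff.1 hgN ⟨x, hxQ⟩).2 hx
      have hsub : E ≤ (P₃ : Subgroup G) ⊓ Q := fun x hx => ⟨hP₃ (hS x
        (Subgroup.le_normalizer hx) (D.p_power_of_mem Q (hEQ hx))), hEQ hx⟩
      have hgin : g ∈ (P₃ : Subgroup G) ⊓ Q :=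
        ⟨hP₃ (hS g hgM (D.p_power_of_mem Q hgQ)), hgQ⟩
      have := Subgroup.eq_of_le_of_card_ge hsub h1
      exact hgE (Subgroup.mem_subgroupOf.2 (this ▸ hgin))
    have h₁ : E ≠ (P₁ : Subgroup G) := fun he =>
      hmem (Sylow.ext (P₁.3 P₂.2 (he ▸ inf_le_right)).symm)
    have h₂ : E ≠ (P₂ : Subgroup G) := fun he =>
      hmem (Sylow.ext (P₂.3 P₁.2 (he ▸ inf_le_left)))
    exact hmem ((key P₁ inf_le_left h₁).symm.trans (key P₂ inf_le_right h₂))

theorem mem_of_smul_eq [Fact p.Prime] {P : Sylow p G} {P' : Sylow p G} {g : G}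
    (hg : g ∈ (P : Subgroup G)) (h : g • P' = P') : g ∈ (P' : Subgroup G) := by
  have h1 : g ∈ (P : Subgroup G) ⊓ Subgroup.normalizer (P' : Set G) :=
    ⟨hg, Sylow.smul_eq_iff_mem_normalizer.1 h⟩
  rw [P.2.inf_normalizer_sylow P'] at h1
  exact h1.2

theorem smul_free [Fact p.Prime] {P P' : Sylow p G} (hne : P' ≠ P) {g : G}
    (hg : g ∈ (P : Subgroup G)) (h : g • P' = P') : g = 1 :=
  (Subgroup.eq_bot_iff_forall _).1 (D.inf_eq_bot (Ne.symm hne)) g ⟨hg, D.mem_of_smul_eq hg h⟩

/-- The complement of a Sylow subgroup in its normaliser acts semiregularly. -/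
theorem normalizer_card [Fact p.Prime] (P : Sylow p G) :
    ∃ e, Nat.card (Subgroup.normalizer (P : Set G)) = q * e ∧ 0 < e ∧
      ∀ x ∈ (P : Subgroup G), x ≠ 1 → ∀ S : Subgroup G, x ∈ S → S ≤ P →
        (∀ g ∈ Subgroup.normalizer (P : Set G), ∀ y ∈ S, g * y * g⁻¹ ∈ S) →
        e ≤ Nat.card S - 1 := by
  classical
  set N := Subgroup.normalizer (P : Set G) with hN
  have hPN : (P : Subgroup G) ≤ N := Subgroup.le_normalizer
  haveI : ((P : Subgroup G).subgroupOf N).Normal := Subgroup.normal_in_normalizer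
  have hcardP : Nat.card ((P : Subgroup G).subgroupOf N) = q := by
    rw [Nat.card_congr (Subgroup.subgroupOfEquivOfLe hPN).toEquiv]
    exact D.card_sylow P
  have hndvd : ¬ p ∣ ((P : Subgroup G).subgroupOf N).index := fun h => P.not_dvd_index
    (h.trans (Subgroup.relIndex_dvd_index_of_le hPN))
  obtain ⟨K, hK⟩ := Subgroup.exists_right_complement'_of_coprime
    (N := (P : Subgroup G).subgroupOf N) (by
      rw [hcardP, D.hq]
      exact Nat.Coprime.pow_left n (D.hp.coprime_iff_not_dvd.2 hndvd))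
  refine ⟨Nat.card K, ?_, Nat.card_pos, ?_⟩
  · rw [← hK.card_mul, hcardP]
  intro x hxP hx1 S hxS hSP hSn
  let f : K → {y : S // y ≠ 1} := fun k => ⟨⟨(k : N) * x * ((k : N) : G)⁻¹,
    hSn _ (k : N).2 x hxS⟩, fun h => hx1 (conj_eq_one_iff.1 (congrArg Subtype.val h))⟩
  have hf : Function.Injective f := by
    intro k k' h
    have h1 : ((k : N) : G) * x * ((k : N) : G)⁻¹ = ((k' : N) : G) * x * ((k' : N) : G)⁻¹ :=
      congrArg (fun z => ((z.1 : S) : G)) h
    set z := k⁻¹ * k' with hz
    have hzx : ((z : N) : G) ∈ Subgroup.centralizer ({x} : Set G) := by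
      refine Subgroup.mem_centralizer_singleton_iff.2 ?_
      show ((k : N) : G)⁻¹ * (k' : N) * x = x * (((k : N) : G)⁻¹ * (k' : N))
      calc ((k : N) : G)⁻¹ * (k' : N) * x
          = ((k : N) : G)⁻¹ * (((k' : N) : G) * x * ((k' : N) : G)⁻¹) * (k' : N) := by group
        _ = ((k : N) : G)⁻¹ * (((k : N) : G) * x * ((k : N) : G)⁻¹) * (k' : N) := by rw [h1]
        _ = x * (((k : N) : G)⁻¹ * (k' : N)) := by group
    obtain ⟨i, hi⟩ := D.isPGroup_centralizer hx1 (D.p_power_of_mem P hxP) ⟨_, hzx⟩
    have hzi : z ^ p ^ i = 1 := Subtype.ext (Subtype.ext (by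
      simpa using congrArg Subtype.val hi))
    have ho1 : orderOf z ∣ p ^ i := orderOf_dvd_of_pow_eq_one hzi
    have ho2 : orderOf z ∣ ((P : Subgroup G).subgroupOf N).index := by
      rw [hK.symm.index_eq_card]; exact orderOf_dvd_natCard z
    have hone : orderOf z = 1 := Nat.dvd_one.1 (by
      rw [← (Nat.Coprime.pow_left i (D.hp.coprime_iff_not_dvd.2 hndvd)).gcd_eq_one]
      exact Nat.dvd_gcd ho1 ho2)
    exact inv_mul_eq_one.1 (orderOf_eq_one_iff.1 hone)
  calc Nat.card K ≤ Nat.card {y : S // y ≠ 1} := Nat.card_le_card_of_injective f hf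
    _ = Nat.card S - 1 := by
        haveI := Fintype.ofFinite S
        rw [Nat.card_eq_fintype_card, Fintype.card_subtype_compl, Fintype.card_subtype_eq,
          ← Nat.card_eq_fintype_card]

/-- There are `q + 1` Sylow subgroups, each with normaliser of order `q (q - 1) / d`. -/
theorem card_sylows [Fact p.Prime] (P : Sylow p G) :
    Nat.card (Sylow p G) = q + 1 ∧
      Nat.card (Subgroup.normalizer (P : Set G)) = q * a := by
  classical
  haveI := Fintype.ofFinite (Sylow p G)
  obtain ⟨e, hNe, he0, hle⟩ := D.normalizer_card P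
  have hPcard := D.card_sylow P
  obtain ⟨x, hx, hx1⟩ : ∃ x ∈ (P : Subgroup G), x ≠ 1 := by
    by_contra h
    push Not at h
    have hb : (P : Subgroup G) = ⊥ := (Subgroup.eq_bot_iff_forall _).2 h
    have : Nat.card (P : Subgroup G) = 1 := by rw [hb, Subgroup.card_bot]
    have := D.q3
    omega
  have heq : e ≤ q - 1 := by
    have := hle x hx hx1 P hx le_rfl (fun g hg y hy => (Subgroup.mem_normalizer_iff.1 hg y).1 hy)
    rwa [hPcard] at this
  obtain ⟨t, ht⟩ : q ∣ Nat.card {P' : Sylow p G // P' ≠ P} := by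
    letI : MulAction (P : Subgroup G) {P' : Sylow p G // P' ≠ P} :=
      { smul := fun g P' => ⟨(g : G) • (P' : Sylow p G), fun h => P'.2 (by
          rw [← inv_smul_smul (g : G) (P' : Sylow p G), h]
          exact Sylow.smul_eq_iff_mem_normalizer.2 (inv_mem (Subgroup.le_normalizer g.2)))⟩
        one_smul := fun P' => Subtype.ext (one_smul G _)
        mul_smul := fun g g' P' => Subtype.ext (mul_smul (g : G) (g' : G) _) }
    rw [← hPcard]
    exact CfsgLib.AltGroups.dvd_of_semiregular (fun g P' h => Subtype.ext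
      (D.smul_free P'.2 g.2 (congrArg Subtype.val h)))
  have hn : Nat.card (Sylow p G) = q * t + 1 := by
    rw [← ht, Nat.card_eq_fintype_card, Nat.card_eq_fintype_card, Fintype.card_subtype_compl,
      Fintype.card_subtype_eq]
    have := Fintype.card_pos_iff.2 ⟨P⟩
    omega
  have hidx : q * e * (q * t + 1) = q * a * b * d := by
    rw [← hn, ← hNe, Sylow.card_eq_index_normalizer P, Subgroup.card_mul_index, D.card]
  have h0 := D.q3
  have hd0 := D.d_pos
  have h1 : e * d * (q * t + 1) = (a * d) * (b * d) := by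
    have := Nat.eq_of_mul_eq_mul_left (show 0 < q by omega)
      (show q * (e * (q * t + 1)) = q * (a * b * d) by linarith)
    calc e * d * (q * t + 1) = e * (q * t + 1) * d := by ring
      _ = a * b * d * d := by rw [this]
      _ = (a * d) * (b * d) := by ring
  have hA : a * d = q - 1 := by have := D.ha; omega
  rw [hA, D.hb] at h1
  have hdd : d ≤ 2 := by rcases D.d_cases with h | h <;> omega
  have hed : e * d + 1 = q := by
    have hz : ((e * d : ℕ) : ℤ) * (q * t + 1) = ((q : ℤ) - 1) * (q + 1) := by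
      have h2 : ((e * d * (q * t + 1) : ℕ) : ℤ) = (((q - 1) * (q + 1) : ℕ) : ℤ) :=
        congrArg _ h1
      push_cast [Nat.cast_sub (show 1 ≤ q by omega)] at h2
      push_cast
      linarith
    have hdvd : (q : ℤ) ∣ ((e * d : ℕ) : ℤ) + 1 :=
      ⟨(q : ℤ) - ((e * d : ℕ) : ℤ) * t, by linear_combination hz⟩
    rw [show ((e * d : ℕ) : ℤ) + 1 = ((e * d + 1 : ℕ) : ℤ) by push_cast; ring,
      Int.natCast_dvd_natCast] at hdvd
    obtain ⟨s, hs⟩ := hdvd
    have hbd : e * d ≤ (q - 1) * 2 := Nat.mul_le_mul heq hdd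
    rcases s with _ | _ | s
    · omega
    · omega
    · exfalso
      have : q * 2 ≤ q * (s + 1 + 1) := Nat.mul_le_mul_left q (by omega)
      omega
  have he : e = a := Nat.eq_of_mul_eq_mul_right hd0 (by omega)
  refine ⟨?_, by rw [hNe, he]⟩
  have h3 : (q - 1) * (q * t + 1) = (q - 1) * (q + 1) := by
    rw [← h1, show e * d = q - 1 by omega]
  rw [hn, Nat.eq_of_mul_eq_mul_left (show 0 < q - 1 by omega) h3]

theorem existsUnique_smul [Fact p.Prime] (P : Sylow p G) {Y Z : Sylow p G} (hY : Y ≠ P)
    (hZ : Z ≠ P) : ∃! g : (P : Subgroup G), (g : G) • Y = Z := by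
  classical
  haveI := Fintype.ofFinite (Sylow p G)
  have hstab : ∀ g : (P : Subgroup G), (g : G) • Y ≠ P := fun g h => hY (by
    rw [← inv_smul_smul (g : G) Y, h]
    exact Sylow.smul_eq_iff_mem_normalizer.2 (inv_mem (Subgroup.le_normalizer g.2)))
  let f : ↥(P : Subgroup G) → {P' : Sylow p G // P' ≠ P} := fun g => ⟨(g : G) • Y, hstab g⟩
  have hf : Function.Injective f := fun g g' h => by
    have h1 : (g : G) • Y = (g' : G) • Y := congrArg Subtype.val h
    have h2 : (((g'⁻¹ * g : (P : Subgroup G)) : G)) • Y = Y := by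
      rw [Subgroup.coe_mul, Subgroup.coe_inv, mul_smul, h1, inv_smul_smul]
    have := D.smul_free hY (g'⁻¹ * g : (P : Subgroup G)).2 h2
    exact (inv_mul_eq_one.1 (Subtype.ext this : g'⁻¹ * g = 1)).symm
  have hc : Nat.card {P' : Sylow p G // P' ≠ P} = q := by
    rw [Nat.card_eq_fintype_card, Fintype.card_subtype_compl, Fintype.card_subtype_eq,
      ← Nat.card_eq_fintype_card, (D.card_sylows P).1]
    omega
  have hbij : Function.Bijective f := (Nat.bijective_iff_injective_and_card f).2
    ⟨hf, by rw [hc]; exact D.card_sylow P⟩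
  obtain ⟨g, hg⟩ := hbij.2 ⟨Z, hZ⟩
  exact ⟨g, congrArg Subtype.val hg, fun g' hg' => hf (Subtype.ext (by
    rw [show ((f g : {P' : Sylow p G // P' ≠ P}) : Sylow p G) = Z from congrArg Subtype.val hg]
    exact hg'))⟩

theorem three_fixed [Fact p.Prime] {g : G} {A B C : Sylow p G} (hAB : A ≠ B) (hBC : B ≠ C)
    (hAC : A ≠ C) (hA : g • A = A) (hB : g • B = B) (hC : g • C = C) : g = 1 := by
  obtain ⟨u, hu, huniq⟩ := D.existsUnique_smul A (Ne.symm hAB) (Ne.symm hAC)
  have hgA := Sylow.smul_eq_iff_mem_normalizer.1 hA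
  have hgu : g * u * g⁻¹ ∈ (A : Subgroup G) :=
    (Subgroup.mem_normalizer_iff.1 hgA (u : G)).1 u.2
  have h1 := huniq ⟨_, hgu⟩ (by
    show (g * u * g⁻¹) • B = C
    rw [mul_smul, mul_smul, show g⁻¹ • B = B from inv_smul_eq_iff.2 hB.symm, hu, hC])
  have hcomm : g * u * g⁻¹ = (u : G) := congrArg Subtype.val h1
  have hu1 : (u : G) ≠ 1 := fun h => hBC (by
    have hu' : (u : G) • B = C := hu
    rwa [h, one_smul] at hu')
  have hgc : g ∈ Subgroup.centralizer ({(u : G)} : Set G) :=
    Subgroup.mem_centralizer_singleton_iff.2 (mul_inv_eq_iff_eq_mul.1 hcomm)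
  obtain ⟨i, hi⟩ := D.isPGroup_centralizer hu1 (D.p_power_of_mem A u.2) ⟨g, hgc⟩
  have hgp : g ^ p ^ i = 1 := congrArg Subtype.val hi
  have hz : IsPGroup p (Subgroup.zpowers g) := by
    rintro ⟨v, hv⟩
    obtain ⟨l, rfl⟩ := Subgroup.mem_zpowers_iff.1 hv
    refine ⟨i, Subtype.ext ?_⟩
    show (g ^ l) ^ p ^ i = 1
    rw [← zpow_natCast (g ^ l), ← zpow_mul, mul_comm, zpow_mul, zpow_natCast, hgp, one_zpow]
  have hgin : g ∈ (A : Subgroup G) := by
    have h1 : g ∈ Subgroup.zpowers g ⊓ Subgroup.normalizer (A : Set G) :=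
      ⟨Subgroup.mem_zpowers g, hgA⟩
    rw [hz.inf_normalizer_sylow A] at h1
    exact h1.2
  exact D.smul_free (Ne.symm hAB) hgin hB

theorem card_two_stabilizer [Fact p.Prime] {A B : Sylow p G} (hAB : A ≠ B) :
    Nat.card ↥(MulAction.stabilizer G A ⊓ MulAction.stabilizer G B) = a := by
  classical
  set S := MulAction.stabilizer G A ⊓ MulAction.stabilizer G B
  let f : ↥(A : Subgroup G) × ↥S → Subgroup.normalizer (A : Set G) := fun x =>
    ⟨(x.1 : G) * x.2, mul_mem (Subgroup.le_normalizer x.1.2)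
      (Sylow.smul_eq_iff_mem_normalizer.1 (MulAction.mem_stabilizer_iff.1
        (Subgroup.mem_inf.1 x.2.2).1))⟩
  have hbij : Function.Bijective f := by
    constructor
    · rintro ⟨u, k⟩ ⟨u', k'⟩ h
      have h1 : (u : G) * k = u' * k' := congrArg Subtype.val h
      have h2 : (u : G) • B = (u' : G) • B := by
        have := congrArg (fun g : G => g • B) h1
        simp only [mul_smul] at this
        rwa [MulAction.mem_stabilizer_iff.1 (Subgroup.mem_inf.1 k.2).2,
          MulAction.mem_stabilizer_iff.1 (Subgroup.mem_inf.1 k'.2).2] at this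
      have hne : (u' : G) • B ≠ A := fun e => hAB (by
        rw [← inv_smul_smul (u' : G) B, e]
        exact (Sylow.smul_eq_iff_mem_normalizer.2
          (inv_mem (Subgroup.le_normalizer u'.2))).symm)
      obtain ⟨w, -, hw⟩ := D.existsUnique_smul A (Ne.symm hAB) hne
      have huu : u = u' := (hw u h2).trans (hw u' rfl).symm
      subst huu
      exact Prod.ext rfl (Subtype.ext (mul_left_cancel h1))
    · rintro ⟨g, hg⟩
      have hgA := Sylow.smul_eq_iff_mem_normalizer.2 hg
      have hne : g • B ≠ A := fun e => hAB (MulAction.injective g (e.trans hgA.symm)).symm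
      obtain ⟨u, hu, -⟩ := D.existsUnique_smul A (Ne.symm hAB) hne
      refine ⟨⟨u, ⟨(u : G)⁻¹ * g, Subgroup.mem_inf.2 ⟨?_, ?_⟩⟩⟩, Subtype.ext (by simp [f])⟩
      · rw [MulAction.mem_stabilizer_iff, mul_smul, hgA]
        exact Sylow.smul_eq_iff_mem_normalizer.2 (inv_mem (Subgroup.le_normalizer u.2))
      · rw [MulAction.mem_stabilizer_iff, mul_smul, ← hu, inv_smul_smul]
  have := Nat.card_eq_of_bijective f hbij
  rw [Nat.card_prod, (D.card_sylows A).2, D.card_sylow A] at this
  exact Nat.eq_of_mul_eq_mul_left (by have := D.q3; omega) this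

theorem isCommutative [Fact p.Prime] (P : Sylow p G) : IsMulCommutative (P : Subgroup G) := by
  classical
  refine isMulCommutative_iff.2 fun x y => ?_
  rcases D.hd with ⟨hp2, -⟩ | ⟨hp2, hd⟩
  · apply Subtype.ext
    have h1 := D.pow_two_eq_one hp2 P x.2
    have h2 := D.pow_two_eq_one hp2 P y.2
    have h3 := D.pow_two_eq_one hp2 P (mul_mem x.2 y.2)
    calc (x : G) * y = x * y * (((x : G) * y) * (x * y))⁻¹ := by rw [h3]; simp
      _ = (y : G)⁻¹ * (x : G)⁻¹ := by group
      _ = y * x := by rw [inv_eq_of_mul_eq_one_right h1, inv_eq_of_mul_eq_one_right h2]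
  · obtain ⟨e, hNe, -, hle⟩ := D.normalizer_card P
    have hea : e = a := Nat.eq_of_mul_eq_mul_left (show 0 < q by have := D.q3; omega)
      (hNe.symm.trans (D.card_sylows P).2)
    haveI : Nontrivial (P : Subgroup G) := Finite.one_lt_card_iff_nontrivial.1 (by
      rw [D.card_sylow P]; have := D.q3; omega)
    set Z := (Subgroup.center (P : Subgroup G)).map (P : Subgroup G).subtype with hZ
    obtain ⟨z, hzc, hz1⟩ : ∃ z ∈ Subgroup.center (P : Subgroup G), z ≠ 1 := by
      haveI := P.2.center_nontrivial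
      obtain ⟨z, hz⟩ := exists_ne (1 : Subgroup.center (P : Subgroup G))
      exact ⟨z, z.2, fun h => hz (Subtype.ext h)⟩
    have hbound := hle z z.2 (fun h => hz1 (Subtype.ext h)) Z ⟨z, hzc, rfl⟩
      (Subgroup.map_subtype_le _) (by
        rintro g hg v ⟨v', hv', rfl⟩
        refine ⟨⟨g * v' * g⁻¹, (Subgroup.mem_normalizer_iff.1 hg (v' : G)).1 v'.2⟩, ?_, rfl⟩
        rw [SetLike.mem_coe, Subgroup.mem_center_iff]
        intro w
        apply Subtype.ext
        have hw : g⁻¹ * w * g ∈ (P : Subgroup G) :=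
          (Subgroup.mem_normalizer_iff''.1 hg (w : G)).1 w.2
        have hc : (g⁻¹ * w * g) * (v' : G) = (v' : G) * (g⁻¹ * w * g) :=
          congrArg Subtype.val (Subgroup.mem_center_iff.1 hv' ⟨_, hw⟩)
        show (w : G) * (g * v' * g⁻¹) = g * v' * g⁻¹ * w
        calc (w : G) * (g * v' * g⁻¹) = g * ((g⁻¹ * w * g) * v') * g⁻¹ := by group
          _ = g * (v' * (g⁻¹ * w * g)) * g⁻¹ := by rw [hc]
          _ = g * v' * g⁻¹ * w := by group)
    rw [hea, hZ, Subgroup.card_map_of_injective Subtype.val_injective] at hbound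
    have htop : Subgroup.center (P : Subgroup G) = ⊤ := by
      by_contra hne
      have hmul := (Subgroup.center (P : Subgroup G)).card_mul_index
      rw [D.card_sylow P] at hmul
      have hi : (Subgroup.center (P : Subgroup G)).index ≠ 1 := fun h =>
        hne (Subgroup.index_eq_one.1 h)
      obtain ⟨j, -, hj⟩ := (Nat.dvd_prime_pow D.hp).1
        (show (Subgroup.center (P : Subgroup G)).index ∣ p ^ n by
          rw [← D.hq, ← hmul]; exact dvd_mul_left _ _)
      have hj0 : j ≠ 0 := fun h => hi (by rw [hj, h, pow_zero])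
      have h3 : 3 ≤ (Subgroup.center (P : Subgroup G)).index := by
        rw [hj]
        have := D.hp.two_le
        calc 3 ≤ p := by omega
          _ ≤ p ^ j := Nat.le_self_pow hj0 p
      have h4 := Nat.mul_le_mul_left (Nat.card (Subgroup.center (P : Subgroup G))) h3
      rw [hmul] at h4
      have ha := D.ha
      rw [hd] at ha
      have hzpos : 0 < Nat.card (Subgroup.center (P : Subgroup G)) := Nat.card_pos
      generalize hZc : Nat.card (Subgroup.center (P : Subgroup G)) = zc at hbound h4 hzpos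
      omega
    have hy : y ∈ Subgroup.center (P : Subgroup G) := htop ▸ Subgroup.mem_top y
    exact Subgroup.mem_center_iff.1 hy x

theorem isZassenhaus [Fact p.Prime] : Cfsg.IsZassenhausGroup G (Sylow p G) := by
  classical
  haveI := Fintype.ofFinite (Sylow p G)
  obtain ⟨P⟩ : Nonempty (Sylow p G) := inferInstance
  have hn := (D.card_sylows P).1
  rw [Nat.card_eq_fintype_card] at hn
  have hq3 := D.q3
  have hex : ∀ A B : Sylow p G, ∃ C, C ≠ A ∧ C ≠ B := by
    intro A B
    by_contra h
    push Not at h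
    have h1 : Finset.univ ⊆ ({A, B} : Finset (Sylow p G)) := fun C _ => by
      by_cases hC : C = A
      · simp [hC]
      · simp [h C hC]
    have h2 := Finset.card_le_card h1
    rw [Finset.card_univ] at h2
    have := Finset.card_le_two (a := A) (b := B)
    omega
  obtain ⟨B, hBP, -⟩ := hex P P
  obtain ⟨C, hCP, hCB⟩ := hex P B
  refine ⟨⟨fun {g g'} h => ?_⟩, ?_, fun g A B C hAB hBC hAC hA hB hC =>
    D.three_fixed hAB hBC hAC hA hB hC, ?_, ?_⟩
  · have hfix : ∀ A : Sylow p G, (g'⁻¹ * g) • A = A := fun A => by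
      rw [mul_smul, h A, inv_smul_smul]
    exact (inv_mul_eq_one.1
      (D.three_fixed (Ne.symm hBP) (Ne.symm hCB) (Ne.symm hCP) (hfix P) (hfix B) (hfix C))).symm
  · rw [MulAction.is_two_pretransitive_iff]
    intro A B A' B' hAB hAB'
    obtain ⟨g, hg⟩ := MulAction.exists_smul_eq G A A'
    have hne : g • B ≠ A' := fun e => hAB (MulAction.injective g (hg.trans e.symm))
    obtain ⟨u, hu, -⟩ := D.existsUnique_smul A' hne (Ne.symm hAB')
    refine ⟨(u : G) * g, ?_, ?_⟩
    · rw [mul_smul, hg]
      exact Sylow.smul_eq_iff_mem_normalizer.2 (Subgroup.le_normalizer u.2)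
    · rw [mul_smul, hu]
  · have hK := D.card_two_stabilizer (Ne.symm hBP)
    have ha1 : 1 < a := by
      by_contra h
      have := D.ha
      have hdd : a * d ≤ 1 * 2 := Nat.mul_le_mul (by omega)
        (by rcases D.d_cases with h | h <;> omega)
      omega
    haveI : Nontrivial ↥(MulAction.stabilizer G P ⊓ MulAction.stabilizer G B) :=
      Finite.one_lt_card_iff_nontrivial.1 (by rw [hK]; exact ha1)
    obtain ⟨g, hg⟩ := exists_ne (1 : ↥(MulAction.stabilizer G P ⊓ MulAction.stabilizer G B))
    exact ⟨g, fun h => hg (Subtype.ext h), P, B, Ne.symm hBP,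
      (Subgroup.mem_inf.1 g.2).1, (Subgroup.mem_inf.1 g.2).2⟩
  · intro N hN htr
    by_contra hreg
    push Not at hreg
    -- `N` is regular of order `q + 1`
    have hNc : Nat.card N = q + 1 := by
      rw [← (D.card_sylows P).1]
      refine Nat.card_eq_of_bijective (fun g : N => g • P) ⟨fun g g' h => ?_,
        fun A => MulAction.exists_smul_eq N P A⟩
      have h1 : g'⁻¹ * g ∈ MulAction.stabilizer N P := by
        rw [MulAction.mem_stabilizer_iff, mul_smul]
        simp only at h
        rw [h, inv_smul_smul]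
      rw [hreg P, Subgroup.mem_bot] at h1
      exact (inv_mul_eq_one.1 h1).symm
    -- `P` is regular on the non-identity elements of `N`
    have hconj : ∀ z z' : N, z ≠ 1 → z' ≠ 1 → ∃ g : G, g * z * g⁻¹ = (z' : G) := by
      intro z z' hz hz'
      let f : ↥(P : Subgroup G) → {w : N // w ≠ 1} := fun u =>
        ⟨⟨(u : G) * z * (u : G)⁻¹, hN.conj_mem _ z.2 _⟩,
          fun h => hz (Subtype.ext (conj_eq_one_iff.1 (congrArg Subtype.val h)))⟩
      have hf : Function.Injective f := by
        intro u u' h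
        have h1 : (u : G) * z * (u : G)⁻¹ = (u' : G) * z * (u' : G)⁻¹ :=
          congrArg (fun w => ((w.1 : N) : G)) h
        set v := u⁻¹ * u' with hv
        have hvz : (v : G) * z = z * v := by
          show (u : G)⁻¹ * u' * z = z * ((u : G)⁻¹ * u')
          calc (u : G)⁻¹ * u' * z = (u : G)⁻¹ * ((u' : G) * z * (u' : G)⁻¹) * u' := by group
            _ = (u : G)⁻¹ * ((u : G) * z * (u : G)⁻¹) * u' := by rw [h1]
            _ = z * ((u : G)⁻¹ * u') := by group
        by_contra hne
        have hv1 : (v : G) ≠ 1 := fun e => hne (inv_mul_eq_one.1 (Subtype.ext e : v = 1))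
        have hvP : (v : G) • P = P :=
          Sylow.smul_eq_iff_mem_normalizer.2 (Subgroup.le_normalizer v.2)
        have hzP : z • P = P := by
          by_contra hzP
          refine hv1 (D.smul_free hzP v.2 ?_)
          show (v : G) • ((z : G) • P) = (z : G) • P
          rw [← mul_smul, hvz, mul_smul, hvP]
        have : z ∈ MulAction.stabilizer N P := hzP
        rw [hreg P, Subgroup.mem_bot] at this
        exact hz this
      have hc : Nat.card {w : N // w ≠ 1} = q := by
        haveI := Fintype.ofFinite N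
        rw [Nat.card_eq_fintype_card, Fintype.card_subtype_compl, Fintype.card_subtype_eq,
          ← Nat.card_eq_fintype_card, hNc]
        omega
      obtain ⟨u, hu⟩ := ((Nat.bijective_iff_injective_and_card f).2
        ⟨hf, by rw [hc]; exact D.card_sylow P⟩).2 ⟨z', hz'⟩
      exact ⟨u, congrArg (fun w => ((w.1 : N) : G)) hu⟩
    set l := (q + 1).minFac with hl
    have hlp : l.Prime := Nat.minFac_prime (by omega)
    haveI : Fact l.Prime := ⟨hlp⟩
    obtain ⟨w, hw⟩ := exists_prime_orderOf_dvd_card' (G := N) l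
      (hNc.symm ▸ Nat.minFac_dvd _)
    have hw1 : w ≠ 1 := fun h => hlp.one_lt.ne' (by rw [← hw, h, orderOf_one])
    have hall : ∀ z : N, z ≠ 1 → orderOf z = l := by
      intro z hz
      obtain ⟨g, hg⟩ := hconj w z hw1 hz
      rw [← hw, ← Subgroup.orderOf_coe, ← Subgroup.orderOf_coe w, ← hg]
      exact orderOf_injective (MulAut.conj g).toMonoidHom (MulAut.conj g).injective (w : G)
    obtain ⟨f, hf⟩ : ∃ f, q + 1 = l ^ f := by
      have hNl : IsPGroup l N := fun z => ⟨1, by
        by_cases hz : z = 1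
        · simp [hz]
        · rw [pow_one, ← hall z hz, pow_orderOf_eq_one]⟩
      obtain ⟨f, hf⟩ := IsPGroup.iff_card.1 hNl
      exact ⟨f, hNc ▸ hf⟩
    obtain ⟨i, -, hib⟩ := (Nat.dvd_prime_pow hlp).1
      (show b ∣ l ^ f from hf ▸ D.hb ▸ dvd_mul_right b d)
    obtain ⟨y, hy⟩ := (D.spec b).2 (Or.inr (Or.inr dvd_rfl))
    have hd2 : d ≤ 2 := by rcases D.d_cases with h | h <;> omega
    have hb3 : 3 ≤ b := by
      by_contra h
      have := Nat.mul_le_mul (show b ≤ 2 by omega) hd2
      have := D.hb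
      omega
    have hi0 : i ≠ 0 := fun h => by rw [h, pow_zero] at hib; omega
    have hidx : N.index = q * a := by
      have h := N.card_mul_index
      rw [hNc, D.card, ← D.hb] at h
      have hb0 : 0 < b * d := Nat.mul_pos (by omega) D.d_pos
      exact Nat.eq_of_mul_eq_mul_left hb0 (h.trans (by ring))
    have hyN : y ∈ N := by
      have h1 : orderOf (QuotientGroup.mk' N y) ∣ b := hy ▸ orderOf_map_dvd _ y
      have h2 : orderOf (QuotientGroup.mk' N y) ∣ q * a := hidx ▸ orderOf_dvd_natCard _
      have hcop : Nat.Coprime b (q * a) := D.coprime_b_qa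
      have h3 : orderOf (QuotientGroup.mk' N y) = 1 := Nat.dvd_one.1 (by
        rw [← hcop.gcd_eq_one]; exact Nat.dvd_gcd h1 h2)
      rwa [orderOf_eq_one_iff, QuotientGroup.mk'_apply, QuotientGroup.eq_one_iff] at h3
    have hbl : b = l := by
      rw [← hy, ← Subgroup.orderOf_mk y hyN]
      refine hall _ fun h => ?_
      have : y = 1 := congrArg Subtype.val h
      rw [this, orderOf_one] at hy
      omega
    have hbodd : ¬ 2 ∣ b := fun h => by
      rw [hbl] at h hb3
      have := (Nat.prime_dvd_prime_iff_eq Nat.prime_two hlp).1 h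
      omega
    rcases D.hd with ⟨-, hd1⟩ | ⟨-, hd2'⟩
    · -- `N` is cyclic of prime order
      have hbq : b = q + 1 := by rw [← D.hb, hd1, mul_one]
      have hyC : N ≤ Subgroup.centralizer ({y} : Set G) := by
        have hNy : Subgroup.zpowers y = N := Subgroup.eq_of_le_of_card_ge
          (Subgroup.zpowers_le.2 hyN) (by rw [Nat.card_zpowers, hy, hNc, hbq])
        rw [← hNy]
        exact Subgroup.zpowers_le.2 (Subgroup.mem_centralizer_singleton_iff.2 rfl)
      have hy1 : y ≠ 1 := fun h => by rw [h, orderOf_one] at hy; omega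
      have hcardC : Nat.card (Subgroup.centralizer ({y} : Set G)) ∣ b := by
        have hprimes : ∀ s, s.Prime →
            s ∣ Nat.card (Subgroup.centralizer ({y} : Set G)) → s = l := by
          intro s hs hsC
          by_contra hsl
          haveI : Fact s.Prime := ⟨hs⟩
          obtain ⟨z, hz⟩ := exists_prime_orderOf_dvd_card' s hsC
          have hzc : Commute y (z : G) := (Subgroup.mem_centralizer_singleton_iff.1 z.2).symm
          have ho : orderOf (y * (z : G)) = l * s := by
            rw [hzc.orderOf_mul_eq_mul_orderOf_of_coprime, hy, hbl, Subgroup.orderOf_coe, hz]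
            rw [hy, hbl, Subgroup.orderOf_coe, hz]
            exact (Nat.coprime_primes hlp hs).2 (Ne.symm hsl)
          rcases (D.spec _).1 ⟨_, ho⟩ with h | h | h
          · have := (Nat.prime_dvd_prime_iff_eq hlp D.hp).1 ((Dvd.intro s rfl).trans h)
            exact D.not_dvd_b (hbl ▸ this ▸ dvd_rfl)
          · exact hlp.one_lt.ne' (Nat.dvd_one.1 (D.coprime_ab ▸ Nat.dvd_gcd
              ((Dvd.intro s rfl).trans h) (hbl ▸ dvd_rfl)))
          · rw [hbl] at h
            exact hsl ((Nat.prime_dvd_prime_iff_eq hs hlp).1 ((Dvd.intro_left l rfl).trans h))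
        have h : Nat.card (Subgroup.centralizer ({y} : Set G)) ∣ (q * a) * b := by
          have := Subgroup.card_subgroup_dvd_card (Subgroup.centralizer ({y} : Set G))
          rwa [D.card, hd1, mul_one] at this
        refine Nat.Coprime.dvd_of_dvd_mul_left (Nat.coprime_of_dvd fun s hs h1 h2 => ?_) h
        have hsl := hprimes s hs h1
        rw [hsl, ← hbl] at h2
        have hcop : Nat.Coprime b (q * a) := D.coprime_b_qa
        have := Nat.eq_one_of_dvd_coprimes hcop dvd_rfl h2
        omega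
      have hNC : N = Subgroup.centralizer ({y} : Set G) := Subgroup.eq_of_le_of_card_ge hyC (by
        rw [hNc, ← hbq]; exact Nat.le_of_dvd (by omega) hcardC)
      have hle : N.index ≤ q := by
        let F : G ⧸ N → {w : N // w ≠ 1} := Quotient.lift
          (fun g => ⟨⟨g * y * g⁻¹, hN.conj_mem _ hyN _⟩,
            fun h => hy1 (conj_eq_one_iff.1 (congrArg Subtype.val h))⟩)
          (fun g g' hgg => by
            have h1 : g⁻¹ * g' ∈ Subgroup.centralizer ({y} : Set G) :=
              hNC ▸ (QuotientGroup.leftRel_apply.1 hgg)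
            have h2 := Subgroup.mem_centralizer_singleton_iff.1 h1
            refine Subtype.ext (Subtype.ext ?_)
            show g * y * g⁻¹ = g' * y * g'⁻¹
            calc g * y * g⁻¹ = g * (y * (g⁻¹ * g')) * g'⁻¹ := by group
              _ = g * (g⁻¹ * g' * y) * g'⁻¹ := by rw [h2]
              _ = g' * y * g'⁻¹ := by group)
        have hF : Function.Injective F := by
          rintro ⟨g⟩ ⟨g'⟩ h
          have h1 : g * y * g⁻¹ = g' * y * g'⁻¹ := congrArg (fun w => ((w.1 : N) : G)) h
          refine Quotient.sound (QuotientGroup.leftRel_apply.2 ?_)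
          rw [hNC]
          refine Subgroup.mem_centralizer_singleton_iff.2 ?_
          calc g⁻¹ * g' * y = g⁻¹ * (g' * y * g'⁻¹) * g' := by group
            _ = g⁻¹ * (g * y * g⁻¹) * g' := by rw [h1]
            _ = y * (g⁻¹ * g') := by group
        haveI := Fintype.ofFinite N
        calc N.index ≤ Nat.card {w : N // w ≠ 1} := Nat.card_le_card_of_injective F hF
          _ = q := by
            rw [Nat.card_eq_fintype_card, Fintype.card_subtype_compl, Fintype.card_subtype_eq,
              ← Nat.card_eq_fintype_card, hNc]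
            omega
      have hA := D.ha
      rw [hd1, mul_one] at hA
      rw [hidx] at hle
      have := Nat.mul_le_mul_left q (show 2 ≤ a by omega)
      omega
    · -- `q + 1` would be even
      have h2l : 2 ∣ l := Nat.prime_two.dvd_of_dvd_pow
        (show 2 ∣ l ^ f by rw [← hf, ← D.hb, hd2']; exact dvd_mul_left 2 b)
      exact hbodd (hbl ▸ h2l)

end Data

/-- A group with the order and the spectrum of `PSL₂(q)` is `PSL₂(q)`. -/
theorem nonempty_mulEquiv {p n q a b d : ℕ} (D : Data G p n q a b d) {F : Type v} [Field F]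
    [Fintype F] (hF : Fintype.card F = q) :
    Nonempty (G ≃* Matrix.ProjectiveSpecialLinearGroup (Fin 2) F) := by
  classical
  haveI : Fact p.Prime := ⟨D.hp⟩
  haveI := Fintype.ofFinite (Sylow p G)
  have hZ := D.isZassenhaus
  haveI := hZ.1
  obtain ⟨P⟩ : Nonempty (Sylow p G) := inferInstance
  have hn := (D.card_sylows P).1
  have hq3 := D.q3
  have h3c : Fintype.card (Sylow p G) = q + 1 := by rw [← Nat.card_eq_fintype_card, hn]
  have hcount : Fintype.card (Fin 3 ↪ Sylow p G) = (q + 1) * q * (q - 1) := by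
    rw [Fintype.card_embedding_eq, h3c, Fintype.card_fin]
    simp only [Nat.descFactorial, Nat.sub_zero, mul_one, show q + 1 - 1 = q by omega,
      show q + 1 - 2 = q - 1 by omega]
    ring
  have hcard : Nat.card G * d = (q + 1) * q * (q - 1) := by
    rw [D.card, ← D.hb, show q - 1 = a * d by have := D.ha; omega]
    ring
  rcases D.hd with ⟨hp2, hd⟩ | ⟨hp2, hd⟩
  · -- sharply triply transitive
    rw [hd, mul_one] at hcard
    have hsharp : ∀ A B C A' B' C' : Sylow p G, A ≠ B → B ≠ C → A ≠ C → A' ≠ B' → B' ≠ C' →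
        A' ≠ C' → ∃! g : G, g • A = A' ∧ g • B = B' ∧ g • C = C' := by
      intro A B C A' B' C' hAB hBC hAC hAB' hBC' hAC'
      have hinj : ∀ {X Y Z : Sylow p G}, X ≠ Y → Y ≠ Z → X ≠ Z →
          Function.Injective ![X, Y, Z] := by
        intro X Y Z h1 h2 h3 i j h
        fin_cases i <;> fin_cases j <;> simp_all
      let e : Fin 3 ↪ Sylow p G := ⟨![A, B, C], hinj hAB hBC hAC⟩
      let e' : Fin 3 ↪ Sylow p G := ⟨![A', B', C'], hinj hAB' hBC' hAC'⟩
      have hpt : ∀ g g' : G, g • A = g' • A → g • B = g' • B → g • C = g' • C → g = g' := by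
        intro g g' h0 h1 h2
        exact (inv_mul_eq_one.1 (D.three_fixed hAB hBC hAC
          (by rw [mul_smul, h0, inv_smul_smul] : (g'⁻¹ * g) • A = A)
          (by rw [mul_smul, h1, inv_smul_smul]) (by rw [mul_smul, h2, inv_smul_smul]))).symm
      let f : G → (Fin 3 ↪ Sylow p G) := fun g => g • e
      have hf : Function.Injective f := by
        intro g g' h
        have hh : ∀ i, (g • e) i = (g' • e) i := fun i => DFunLike.congr_fun h i
        exact hpt g g' (hh 0) (hh 1) (hh 2)
      have hbij : Function.Bijective f := (Nat.bijective_iff_injective_and_card f).2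
        ⟨hf, by rw [hcard, Nat.card_eq_fintype_card, hcount]⟩
      obtain ⟨g, hg⟩ := hbij.2 e'
      have hh : ∀ i, (g • e) i = e' i := fun i => DFunLike.congr_fun hg i
      exact ⟨g, ⟨hh 0, hh 1, hh 2⟩, fun g' ⟨h0, h1, h2⟩ =>
        hpt g' g (h0.trans (hh 0).symm) (h1.trans (hh 1).symm) (h2.trans (hh 2).symm)⟩
    have hqeven : Even q := by
      rw [D.hq, hp2]; exact Nat.even_pow.2 ⟨even_two, D.hn⟩
    obtain ⟨K, iK, iKf, hKc, ⟨φ⟩⟩ := CfsgLib.AltGroups.sharply_three_transitive_odd_degree
      hsharp (h3c ▸ hqeven.add_one) (by omega)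
    have hKF : Fintype.card K = Fintype.card F := by omega
    have hchar : ringChar K = 2 := by
      rw [FiniteField.even_card_iff_char_two]
      rw [hKF, hF]; exact Nat.even_iff.1 hqeven
    let ψ := CfsgLib.Derangements.PSL2.pslToPGL (F := K)
    have hψ : Function.Bijective ψ := ⟨CfsgLib.Derangements.PSL2.pslToPGL_injective, fun y => by
      obtain ⟨M, rfl⟩ := Matrix.ProjGenLinGroup.mk_surjective y
      exact (CfsgLib.Derangements.PSL2.mk_mem_range_iff M).2
        (FiniteField.isSquare_of_char_two hchar _)⟩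
    exact ⟨(φ.trans (MulEquiv.ofBijective ψ hψ).symm).trans
      (CfsgLib.ClassicalLinear.pslCongr (FiniteField.ringEquivOfCardEq hKF))⟩
  · rw [hd] at hcard
    rcases Cfsg.Agent.S0731.result hZ P (P : Subgroup G)
      (fun g hg => Sylow.smul_eq_iff_mem_normalizer.2 (Subgroup.le_normalizer hg))
      (by
        rw [Sylow.stabilizer_eq_normalizer]
        exact Subgroup.normal_in_normalizer)
      (D.isCommutative P) (fun Y Z hY hZ' => D.existsUnique_smul P hY hZ') with
      ⟨h3, -⟩ | ⟨K, iK, iKf, hKc, ⟨φ⟩⟩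
    · exfalso
      haveI : MulAction.IsPretransitive G (Fin 3 ↪ Sylow p G) := h3
      obtain ⟨e⟩ : Nonempty (Fin 3 ↪ Sylow p G) :=
        Function.Embedding.nonempty_of_card_le (by rw [Fintype.card_fin]; omega)
      have hle : Nat.card (Fin 3 ↪ Sylow p G) ≤ Nat.card G :=
        Nat.card_le_card_of_surjective (fun g : G => g • e)
          (fun e' => MulAction.exists_smul_eq G e e')
      rw [Nat.card_eq_fintype_card, hcount, ← hcard] at hle
      have := Nat.card_pos (α := G)
      omega
    · have hKodd : Odd (Fintype.card K) := by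
        rw [Nat.odd_iff]
        exact (FiniteField.odd_card_of_char_ne_two hKc)
      have h1 := CfsgLib.ClassicalLinear.card_PSL_two_of_odd (F := K) rfl hKodd
      rw [← Nat.card_congr φ.toEquiv, mul_comm 2, hcard] at h1
      set k := Fintype.card K
      have h2 : (q + 1) * q * (q - 1) = q * (q ^ 2 - 1) := by
        zify [show 1 ≤ q by omega, show 1 ≤ q ^ 2 from Nat.one_le_pow _ _ (by omega)]
        ring
      rw [h2] at h1
      have hk : k = q := by
        rcases lt_trichotomy k q with h | h | h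
        · have : k * (k ^ 2 - 1) ≤ k * (q ^ 2 - 1) :=
            Nat.mul_le_mul_left k (Nat.sub_le_sub_right (Nat.pow_le_pow_left h.le 2) 1)
          have : k * (q ^ 2 - 1) < q * (q ^ 2 - 1) := Nat.mul_lt_mul_of_pos_right h
            (by have := Nat.pow_le_pow_left (show 2 ≤ q by omega) 2; omega)
          omega
        · exact h
        · have : q * (q ^ 2 - 1) < k * (q ^ 2 - 1) := Nat.mul_lt_mul_of_pos_right h
            (by have := Nat.pow_le_pow_left (show 2 ≤ q by omega) 2; omega)
          have : k * (q ^ 2 - 1) ≤ k * (k ^ 2 - 1) :=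
            Nat.mul_le_mul_left k (Nat.sub_le_sub_right (Nat.pow_le_pow_left h.le 2) 1)
          omega
      exact ⟨φ.trans (CfsgLib.ClassicalLinear.pslCongr
        (FiniteField.ringEquivOfCardEq (show Fintype.card K = Fintype.card F by omega)))⟩

end CfsgLib.Spectrum.PSLTwo
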