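import Cfsg.Agent.Lib.AltGroups.ZassenhausEven
import Mathlib

/-!
Finite groups with the order and the element orders of `PSL₂(q)`: the Sylow subgroups for the
defining prime intersect trivially and there are `q + 1` of them.
-/

set_option autoImplicit false

namespace CfsgLib.Spectrum.PSLTwo

variable {G : Type*} [Group G] [Finite G]

/-- The order and the spectrum of `PSL₂(q)`, `q = p ^ n`, with `d = (2, q - 1)`. -/
structure Data (G : Type*) [Group G] (p n q a b d : ℕ) : Prop where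
  hp : p.Prime
  hq : q = p ^ n
  q3 : 3 < q
  hd : (p = 2 ∧ d = 1) ∨ (p ≠ 2 ∧ d = 2)
  ha : a * d + 1 = q
  hb : b * d = q + 1
  card : Nat.card G = q * a * b * d
  spec : ∀ m, (∃ g : G, orderOf g = m) ↔ m ∣ p ∨ m ∣ a ∨ m ∣ b

namespace Data

variable {p n q a b d : ℕ} (D : Data G p n q a b d)
include D

theorem hn : n ≠ 0 := by
  rintro rfl
  have := D.q3
  have := D.hq
  simp at this
  omega

theorem d_pos : 0 < d := by rcases D.hd with ⟨-, h⟩ | ⟨-, h⟩ <;> omega

theorem d_cases : d = 1 ∨ d = 2 := by rcases D.hd with ⟨-, h⟩ | ⟨-, h⟩ <;> omega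

theorem p_dvd_q : p ∣ q := by rw [D.hq]; exact dvd_pow_self p D.hn

theorem not_dvd_a : ¬ p ∣ a := fun h => by
  have h1 : p ∣ a * d + 1 := D.ha.symm ▸ D.p_dvd_q
  have := (Nat.dvd_add_right (dvd_mul_of_dvd_left h d)).1 h1
  exact D.hp.one_lt.ne' (Nat.dvd_one.1 this)

theorem not_dvd_b : ¬ p ∣ b := fun h => by
  have h1 : p ∣ q + 1 := D.hb ▸ dvd_mul_of_dvd_left h d
  exact D.hp.one_lt.ne' (Nat.dvd_one.1 ((Nat.dvd_add_right D.p_dvd_q).1 h1))

theorem coprime_ab : Nat.Coprime a b := by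
  refine Nat.coprime_of_dvd fun k hk ha hb => ?_
  have h1 : k ∣ a * d := dvd_mul_of_dvd_left ha d
  have h2 : k ∣ b * d := dvd_mul_of_dvd_left hb d
  rw [show b * d = a * d + 2 by have := D.ha; have := D.hb; omega] at h2
  have h3 : k ∣ 2 := (Nat.dvd_add_right h1).1 h2
  have hk2 : k = 2 := (Nat.prime_dvd_prime_iff_eq hk Nat.prime_two).1 h3
  subst hk2
  rcases D.hd with ⟨hp2, hd⟩ | ⟨-, hd⟩
  · subst hp2; exact D.not_dvd_a ha
  · have := D.ha; have := D.hb; subst hd
    obtain ⟨x, rfl⟩ := ha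
    obtain ⟨y, rfl⟩ := hb
    omega

/-- The two torus orders, in either order. -/
theorem torus {r : ℕ} (hr : r.Prime) (hr2 : r ≠ 2) (hrp : r ≠ p) (h : r ∣ Nat.card G) :
    ∃ c c', r ∣ c ∧ Nat.card G = q * c' * d * c ∧ Nat.Coprime c c' ∧ ¬ p ∣ c ∧
      (∀ m, (∃ g : G, orderOf g = m) ↔ m ∣ p ∨ m ∣ c ∨ m ∣ c') ∧
      ((q * c' * d : ℕ) : ZMod r) = 2 := by
  have hrd : ¬ r ∣ d := by
    rintro hd
    rcases D.d_cases with rfl | rfl
    · exact hr.one_lt.ne' (Nat.dvd_one.1 hd)
    · exact hr2 ((Nat.prime_dvd_prime_iff_eq hr Nat.prime_two).1 hd)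
  have hrq : ¬ r ∣ q := fun hq => hrp ((Nat.prime_dvd_prime_iff_eq hr D.hp).1
    (hr.dvd_of_dvd_pow (D.hq ▸ hq)))
  rw [D.card] at h
  have hab : r ∣ a ∨ r ∣ b := by
    rcases hr.dvd_mul.1 h with h | h
    · rcases hr.dvd_mul.1 h with h | h
      · rcases hr.dvd_mul.1 h with h | h
        · exact absurd h hrq
        · exact Or.inl h
      · exact Or.inr h
    · exact absurd h hrd
  have hA : (a : ZMod r) * d + 1 = q := by exact_mod_cast congrArg (Nat.cast : ℕ → ZMod r) D.ha
  have hB : (b : ZMod r) * d = q + 1 := by exact_mod_cast congrArg (Nat.cast : ℕ → ZMod r) D.hb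
  rcases hab with ha | hb
  · refine ⟨a, b, ha, by rw [D.card]; ring, D.coprime_ab, D.not_dvd_a, D.spec, ?_⟩
    have h0 : (a : ZMod r) = 0 := (ZMod.natCast_eq_zero_iff a r).2 ha
    rw [h0, zero_mul, zero_add] at hA
    push_cast
    rw [mul_assoc, hB, ← hA]
    ring
  · refine ⟨b, a, hb, by rw [D.card]; ring, D.coprime_ab.symm, D.not_dvd_b,
      fun m => by rw [D.spec]; tauto, ?_⟩
    have h0 : (b : ZMod r) = 0 := (ZMod.natCast_eq_zero_iff b r).2 hb
    rw [h0, zero_mul] at hB
    have hq1 : (q : ZMod r) = -1 := eq_neg_of_add_eq_zero_left hB.symm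
    rw [hq1] at hA
    push_cast
    rw [hq1]
    linear_combination (-1 : ZMod r) * hA

/-- The centralizer of a non-identity element of `p`-power order is a `p`-group. -/
theorem isPGroup_centralizer {x : G} (hx : x ≠ 1) (hxp : ∃ k, x ^ p ^ k = 1) :
    IsPGroup p (Subgroup.centralizer ({x} : Set G)) := by
  obtain ⟨k, hk⟩ := hxp
  obtain ⟨i, -, hi⟩ := (Nat.dvd_prime_pow D.hp).1 (orderOf_dvd_of_pow_eq_one hk)
  have hxp1 : orderOf x = p := by
    rcases (D.spec _).1 ⟨x, rfl⟩ with h | h | h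
    · rcases (Nat.dvd_prime D.hp).1 h with h | h
      · exact absurd (orderOf_eq_one_iff.1 h) hx
      · exact h
    all_goals
      rcases Nat.eq_zero_or_pos i with rfl | hi0
      · exact absurd (orderOf_eq_one_iff.1 (by simpa using hi)) hx
      · exfalso
        have := (dvd_pow_self p (Nat.pos_iff_ne_zero.1 hi0)).trans (hi ▸ h)
        first
          | exact D.not_dvd_a this
          | exact D.not_dvd_b this
  have hne : Nat.card (Subgroup.centralizer ({x} : Set G)) ≠ 0 := Nat.card_pos.ne'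
  refine IsPGroup.of_card (n := (Nat.card (Subgroup.centralizer ({x} : Set G))).factorization p) ?_
  refine (Nat.eq_pow_of_factorization_eq_single hne ?_)
  ext s
  rw [Finsupp.single_apply]
  split_ifs with hs
  · rw [hs]
  · by_contra h0
    have hsm := Nat.mem_primeFactors.1 (Nat.support_factorization _ ▸ Finsupp.mem_support_iff.2 h0)
    haveI : Fact s.Prime := ⟨hsm.1⟩
    obtain ⟨z, hz⟩ := exists_prime_orderOf_dvd_card' s hsm.2.1
    have hzc : Commute x (z : G) := (Subgroup.mem_centralizer_singleton_iff.1 z.2).symm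
    have ho : orderOf (x * (z : G)) = p * s := by
      rw [hzc.orderOf_mul_eq_mul_orderOf_of_coprime, hxp1, Subgroup.orderOf_coe, hz]
      rw [hxp1, Subgroup.orderOf_coe, hz]
      exact (Nat.coprime_primes D.hp hsm.1).2 hs
    rcases (D.spec _).1 ⟨_, ho⟩ with h | h | h
    · have h1 := Nat.le_of_dvd D.hp.pos h
      have := hsm.1.two_le
      have := D.hp.two_le
      nlinarith
    · exact D.not_dvd_a ((Dvd.intro s rfl).trans h)
    · exact D.not_dvd_b ((Dvd.intro s rfl).trans h)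

end Data

/-- Elements of odd order of a group with a subgroup of index at most two lie in that subgroup. -/
theorem mem_of_odd_order {H K : Subgroup G} (hHK : H ≤ K) (hcard : Nat.card K ≤ 2 * Nat.card H)
    {x : G} (hx : x ∈ K) (hodd : Odd (orderOf x)) : x ∈ H := by
  have hmul := (H.subgroupOf K).card_mul_index
  rw [Nat.card_congr (Subgroup.subgroupOfEquivOfLe hHK).toEquiv] at hmul
  have hi0 : (H.subgroupOf K).index ≠ 0 := Subgroup.index_ne_zero_of_finite
  have hH0 : 0 < Nat.card H := Nat.card_pos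
  have hsq : (⟨x, hx⟩ : K) ^ 2 ∈ H.subgroupOf K := by
    rcases (show (H.subgroupOf K).index = 1 ∨ (H.subgroupOf K).index = 2 by
      have : (H.subgroupOf K).index ≤ 2 := by
        by_contra hlt
        push Not at hlt
        have := Nat.mul_le_mul_left (Nat.card H) (Nat.succ_le_of_lt hlt)
        rw [hmul] at this
        omega
      omega) with h | h
    · rw [Subgroup.index_eq_one.1 h]; trivial
    · rw [pow_two, Subgroup.mul_mem_iff_of_index_two h]
  obtain ⟨j, hj⟩ := hodd
  have hx2 : x ^ 2 ∈ H := hsq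
  have : x = (x ^ 2) ^ (j + 1) := by
    rw [← pow_mul, show 2 * (j + 1) = orderOf x + 1 by omega, pow_succ, pow_orderOf_eq_one, one_mul]
  rw [this]
  exact pow_mem hx2 _

namespace Data

variable {p n q a b d : ℕ} (D : Data G p n q a b d)
include D

/-- For an odd prime `r ≠ p`, an element of odd order normalising an `r`-group centralises it. -/
theorem centralizes_of_normalizes {r : ℕ} [hr : Fact r.Prime] (hr2 : r ≠ 2) (hrp : r ≠ p)
    (hrG : r ∣ Nat.card G) {R₁ : Subgroup G} (hR₁ : IsPGroup r R₁) {x : G}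
    (hx : x ∈ Subgroup.normalizer (R₁ : Set G)) (hodd : Odd (orderOf x)) :
    x ∈ Subgroup.centralizer (R₁ : Set G) := by
  classical
  obtain ⟨c, c', hrc, hcard, hcc, hpc, hspec, hmod⟩ := D.torus hr.out hr2 hrp hrG
  have hrq : ¬ r ∣ q := fun h => hrp ((Nat.prime_dvd_prime_iff_eq hr.out D.hp).1
    (hr.out.dvd_of_dvd_pow (D.hq ▸ h)))
  have hrc' : ¬ r ∣ c' := fun h => hr.out.one_lt.ne' (Nat.dvd_one.1 (hcc ▸ Nat.dvd_gcd hrc h))
  have hrd : ¬ r ∣ d := by
    intro h
    rcases D.d_cases with rfl | rfl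
    · exact hr.out.one_lt.ne' (Nat.dvd_one.1 h)
    · exact hr2 ((Nat.prime_dvd_prime_iff_eq hr.out Nat.prime_two).1 h)
  have hM : ¬ r ∣ q * c' * d := fun h => by
    rcases hr.out.dvd_mul.1 h with h | h
    · rcases hr.out.dvd_mul.1 h with h | h
      · exact hrq h
      · exact hrc' h
    · exact hrd h
  have hM0 : q * c' * d ≠ 0 := fun h => hM (h ▸ dvd_zero r)
  obtain ⟨y, hy⟩ := (hspec c).2 (Or.inr (Or.inl dvd_rfl))
  have hc0 : c ≠ 0 := fun h => (orderOf_pos y).ne' (hy.trans h)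
  set k := c.factorization r with hk
  have hkdvd : r ^ k ∣ c := Nat.ordProj_dvd c r
  have hk0 : k ≠ 0 := (hr.out.factorization_pos_of_dvd hc0 hrc).ne'
  set yr := y ^ (c / r ^ k) with hyr
  have hyro : orderOf yr = r ^ k := by
    rw [hyr, orderOf_pow, hy, Nat.gcd_eq_right (Nat.div_dvd_of_dvd hkdvd),
      Nat.div_div_self hkdvd hc0]
  have hfac : (Nat.card G).factorization r = k := by
    rw [hcard, Nat.factorization_mul hM0 hc0, Finsupp.add_apply,
      Nat.factorization_eq_zero_of_not_dvd hM, zero_add]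
  let R : Sylow r G := Sylow.ofCard (Subgroup.zpowers yr) (by
    rw [Nat.card_zpowers, hyro, hfac])
  have hRy : Subgroup.zpowers yr ≤ Subgroup.zpowers y :=
    Subgroup.zpowers_le.2 (pow_mem (Subgroup.mem_zpowers y) _)
  set w := y ^ (c / r) with hw
  have hwo : orderOf w = r := by
    rw [hw, orderOf_pow, hy, Nat.gcd_eq_right (Nat.div_dvd_of_dvd hrc), Nat.div_div_self hrc hc0]
  -- the elements of order dividing `r` in the torus
  have huniq : ∀ z ∈ Subgroup.zpowers y, z ^ r = 1 → z ∈ Subgroup.zpowers w := by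
    intro z hz hzr
    obtain ⟨i, hi, rfl⟩ := (isOfFinOrder_of_finite y).mem_zpowers_iff_mem_range_orderOf.1 hz |>
      Finset.mem_image.1
    rw [← pow_mul, ← orderOf_dvd_iff_pow_eq_one, hy] at hzr
    obtain ⟨m, hm⟩ := hrc
    rw [hm, Nat.mul_comm i r] at hzr
    obtain ⟨t, ht⟩ := Nat.dvd_of_mul_dvd_mul_left hr.out.pos hzr
    refine Subgroup.mem_zpowers_iff.2 ⟨(t : ℤ), ?_⟩
    rw [zpow_natCast, hw, ← pow_mul, hm, Nat.mul_div_cancel_left _ hr.out.pos, ← ht]
  set C := Subgroup.centralizer ({w} : Set G) with hC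
  have hyC : Subgroup.zpowers y ≤ C := Subgroup.zpowers_le.2
    (Subgroup.mem_centralizer_singleton_iff.2 ((Commute.self_pow y (c / r)).eq))
  have hprimes : ∀ s, s.Prime → s ∣ Nat.card C → s ∣ c := by
    intro s hs hsC
    by_cases hsr : s = r
    · rw [hsr]; exact hrc
    haveI : Fact s.Prime := ⟨hs⟩
    obtain ⟨z, hz⟩ := exists_prime_orderOf_dvd_card' s hsC
    have hzc : Commute w (z : G) := (Subgroup.mem_centralizer_singleton_iff.1 z.2).symm
    have ho : orderOf (w * (z : G)) = r * s := by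
      rw [hzc.orderOf_mul_eq_mul_orderOf_of_coprime, hwo, Subgroup.orderOf_coe, hz]
      rw [hwo, Subgroup.orderOf_coe, hz]
      exact (Nat.coprime_primes hr.out hs).2 (Ne.symm hsr)
    rcases (hspec _).1 ⟨_, ho⟩ with h | h | h
    · exact absurd ((Nat.prime_dvd_prime_iff_eq hr.out D.hp).1 ((Dvd.intro s rfl).trans h)) hrp
    · exact (Dvd.intro_left r rfl).trans h
    · exact absurd ((Dvd.intro s rfl).trans h) hrc'
  have hCdvd : Nat.card C ∣ d * c := by
    have h : Nat.card C ∣ q * c' * (d * c) := by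
      rw [← mul_assoc, ← hcard]; exact Subgroup.card_subgroup_dvd_card C
    refine Nat.Coprime.dvd_of_dvd_mul_left (Nat.coprime_of_dvd fun s hs h1 h2 => ?_) h
    have hsc := hprimes s hs h1
    rcases hs.dvd_mul.1 h2 with h2 | h2
    · exact hpc ((Nat.prime_dvd_prime_iff_eq hs D.hp).1 (hs.dvd_of_dvd_pow (D.hq ▸ h2)) ▸ hsc)
    · exact hs.one_lt.ne' (Nat.dvd_one.1 (hcc ▸ Nat.dvd_gcd hsc h2))
  have hcC : c ∣ Nat.card C := by
    have := Subgroup.card_dvd_of_le hyC
    rwa [Nat.card_zpowers, hy] at this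
  obtain ⟨j, hj⟩ := hcC
  have hjd : j ∣ d := by
    rw [hj, mul_comm d c] at hCdvd
    exact Nat.dvd_of_mul_dvd_mul_left (Nat.pos_of_ne_zero hc0) hCdvd
  have hjle : j ≤ d := Nat.le_of_dvd D.d_pos hjd
  have hd2 : d ≤ 2 := by rcases D.d_cases with h | h <;> omega
  have hC2 : Nat.card C ≤ 2 * Nat.card (Subgroup.zpowers y) := by
    rw [hj, Nat.card_zpowers, hy]
    nlinarith
  have hodd_r : ∀ g : G, (∃ i, g ^ r ^ i = 1) → Odd (orderOf g) := by
    rintro g ⟨i, hi⟩
    obtain ⟨i', -, hi'⟩ := (Nat.dvd_prime_pow hr.out).1 (orderOf_dvd_of_pow_eq_one hi)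
    rw [hi']
    exact (hr.out.odd_of_ne_two hr2).pow
  -- normalising the subgroup of order `r` is normalising the Sylow subgroup
  have hRmem : ∀ g, g ∈ Subgroup.zpowers y → (∃ i, g ^ r ^ i = 1) → g ∈ Subgroup.zpowers yr := by
    rintro g hg ⟨i, hi⟩
    obtain ⟨m, -, rfl⟩ := (isOfFinOrder_of_finite y).mem_zpowers_iff_mem_range_orderOf.1 hg |>
      Finset.mem_image.1
    obtain ⟨i', -, hi'⟩ := (Nat.dvd_prime_pow hr.out).1 (orderOf_dvd_of_pow_eq_one hi)
    have hdk : r ^ i' ∣ r ^ k := by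
      refine Nat.pow_dvd_pow r ((hr.out.pow_dvd_iff_le_factorization hc0).1 ?_)
      rw [← hi', ← hy]
      exact orderOf_pow_dvd m
    have h1 : (y ^ m) ^ r ^ k = 1 := orderOf_dvd_iff_pow_eq_one.1 (hi' ▸ hdk)
    rw [← pow_mul, ← orderOf_dvd_iff_pow_eq_one, hy] at h1
    obtain ⟨t, ht⟩ := Nat.dvd_of_mul_dvd_mul_left (pow_pos hr.out.pos k)
      (show r ^ k * (c / r ^ k) ∣ r ^ k * m by rw [Nat.mul_div_cancel' hkdvd, mul_comm]; exact h1)
    rw [ht, pow_mul, ← hyr]
    exact pow_mem (Subgroup.mem_zpowers yr) t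
  have hwR : w ∈ Subgroup.zpowers yr := hRmem w (pow_mem (Subgroup.mem_zpowers y) _)
    ⟨1, by rw [pow_one, ← hwo, pow_orderOf_eq_one]⟩
  set N := Subgroup.normalizer ((Subgroup.zpowers yr : Subgroup G) : Set G) with hN
  have hNw : ∀ g : G, g * w * g⁻¹ ∈ Subgroup.zpowers w → g ∈ N := by
    intro g hg
    obtain ⟨l, hl⟩ := Subgroup.mem_zpowers_iff.1 hg
    have hgi : g⁻¹ * w * g ∈ Subgroup.zpowers w := by
      have hle : (Subgroup.zpowers w).map (MulAut.conj g).toMonoidHom = Subgroup.zpowers w := by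
        refine Subgroup.eq_of_le_of_card_ge ?_ (le_of_eq ?_)
        · rw [MonoidHom.map_zpowers]
          exact Subgroup.zpowers_le.2 hg
        · exact (Subgroup.card_map_of_injective (MulAut.conj g).injective).symm
      obtain ⟨u, hu, hu'⟩ := (hle.symm ▸ Subgroup.mem_zpowers w :
        w ∈ (Subgroup.zpowers w).map (MulAut.conj g).toMonoidHom)
      have : u = g⁻¹ * w * g := by
        rw [← hu']; simp [MulAut.conj_apply]; group
      exact this ▸ hu
    rw [hN, Subgroup.mem_normalizer_iff]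
    have key : ∀ g : G, g * w * g⁻¹ ∈ Subgroup.zpowers w → g⁻¹ * w * g ∈ Subgroup.zpowers w →
        ∀ h ∈ Subgroup.zpowers yr, g * h * g⁻¹ ∈ Subgroup.zpowers yr := by
      intro g _ hg' h hh
      have hp' : ∃ i, (g * h * g⁻¹) ^ r ^ i = 1 := by
        refine ⟨k, ?_⟩
        rw [conj_pow, orderOf_dvd_iff_pow_eq_one.1 (by
          exact hyro ▸ orderOf_dvd_of_mem_zpowers hh), mul_one, mul_inv_cancel]
      refine hRmem _ (mem_of_odd_order hyC hC2 ?_ (hodd_r _ hp')) hp'
      refine Subgroup.mem_centralizer_singleton_iff.2 ?_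
      obtain ⟨t, ht⟩ := Subgroup.mem_zpowers_iff.1 hg'
      have hcm : Commute h (g⁻¹ * w * g) := by
        rw [← ht]
        exact Commute.zpow_right (Subgroup.mem_centralizer_singleton_iff.1 (hyC (hRy hh))) t
      calc g * h * g⁻¹ * w = g * (h * (g⁻¹ * w * g)) * g⁻¹ := by group
        _ = g * ((g⁻¹ * w * g) * h) * g⁻¹ := by rw [hcm.eq]
        _ = w * (g * h * g⁻¹) := by group
    intro h
    refine ⟨key g hg hgi h, fun hh => ?_⟩
    have := key g⁻¹ (by rwa [inv_inv]) (by rwa [inv_inv]) _ hh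
    simpa [mul_assoc] using this
  have hwN : ∀ g ∈ N, g * w * g⁻¹ ∈ Subgroup.zpowers w := by
    intro g hg
    refine huniq _ (hRy ((Subgroup.mem_normalizer_iff.1 hg w).1 hwR)) ?_
    rw [conj_pow, ← hwo, pow_orderOf_eq_one, mul_one, mul_inv_cancel]
  have hCN : C ≤ N := fun g hg => hNw g (by
    rw [Subgroup.mem_centralizer_singleton_iff.1 hg, mul_inv_cancel_right]
    exact Subgroup.mem_zpowers w)
  -- the automiser has order at most `r - 1`
  set e := (C.subgroupOf N).index with he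
  have hNcard : Nat.card N = c * j * e := by
    rw [← hj, ← Nat.card_congr (Subgroup.subgroupOfEquivOfLe hCN).toEquiv, he,
      Subgroup.card_mul_index]
  have he0 : e ≠ 0 := Subgroup.index_ne_zero_of_finite
  have hele : e ≤ r - 1 := by
    let f : N ⧸ C.subgroupOf N → {z : Subgroup.zpowers w // z ≠ 1} :=
      Quotient.lift (fun g : N => ⟨⟨(g : G) * w * (g : G)⁻¹, hwN g g.2⟩, fun h => by
        have h1 : (g : G) * w * (g : G)⁻¹ = 1 := congrArg Subtype.val h
        rw [conj_eq_one_iff] at h1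
        exact hr.out.one_lt.ne' (by rw [← hwo, h1, orderOf_one])⟩)
        (fun g g' hgg => by
          have h1 : (g : G)⁻¹ * g' ∈ C := by
            have h0 := QuotientGroup.leftRel_apply.1 hgg
            exact h0
          have h2 := Subgroup.mem_centralizer_singleton_iff.1 h1
          refine Subtype.ext (Subtype.ext ?_)
          show (g : G) * w * (g : G)⁻¹ = (g' : G) * w * (g' : G)⁻¹
          calc (g : G) * w * (g : G)⁻¹
              = (g : G) * (w * ((g : G)⁻¹ * g')) * (g' : G)⁻¹ := by group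
            _ = (g : G) * ((g : G)⁻¹ * g' * w) * (g' : G)⁻¹ := by rw [h2]
            _ = (g' : G) * w * (g' : G)⁻¹ := by group)
    have hf : Function.Injective f := by
      rintro ⟨g⟩ ⟨g'⟩ h
      have h1 : (g : G) * w * (g : G)⁻¹ = (g' : G) * w * (g' : G)⁻¹ :=
        congrArg (fun z => ((z.1 : Subgroup.zpowers w) : G)) h
      refine Quotient.sound (QuotientGroup.leftRel_apply.2 ?_)
      refine Subgroup.mem_centralizer_singleton_iff.2 ?_
      show ((g : G)⁻¹ * g') * w = w * ((g : G)⁻¹ * g')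
      calc (g : G)⁻¹ * g' * w = (g : G)⁻¹ * ((g' : G) * w * (g' : G)⁻¹) * g' := by group
        _ = (g : G)⁻¹ * ((g : G) * w * (g : G)⁻¹) * g' := by rw [h1]
        _ = w * ((g : G)⁻¹ * g') := by group
    calc e = Nat.card (N ⧸ C.subgroupOf N) := rfl
      _ ≤ Nat.card {z : Subgroup.zpowers w // z ≠ 1} := Nat.card_le_card_of_injective f hf
      _ = r - 1 := by
          haveI := Fintype.ofFinite (Subgroup.zpowers w)
          rw [Nat.card_eq_fintype_card, Fintype.card_subtype_compl, Fintype.card_subtype_eq,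
            ← Nat.card_eq_fintype_card, Nat.card_zpowers, hwo]
  -- Sylow's congruence
  have hje : j * e = 2 := by
    have hsy : (N.index : ZMod r) = 1 := by
      have h := card_sylow_modEq_one r G
      rw [Sylow.card_eq_index_normalizer R] at h
      have h' := (ZMod.natCast_eq_natCast_iff _ _ _).2 h
      rw [Nat.cast_one] at h'
      exact h'
    have hidx : j * e * N.index = q * c' * d := by
      have h := N.card_mul_index
      rw [hNcard, hcard] at h
      exact Nat.eq_of_mul_eq_mul_left (Nat.pos_of_ne_zero hc0)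
        (by rw [mul_comm c (q * c' * d), ← h]; ring)
    rw [← hidx, Nat.cast_mul, hsy, mul_one] at hmod
    have hj0 : j ≠ 0 := fun h => (Nat.card_pos (α := C)).ne' (by rw [hj, h, mul_zero])
    have hr3 : 3 ≤ r := by have := hr.out.two_le; omega
    have hle : j * e ≤ 2 * (r - 1) := Nat.mul_le_mul (hjle.trans hd2) hele
    have hpos : 0 < j * e := Nat.mul_pos (Nat.pos_of_ne_zero hj0) (Nat.pos_of_ne_zero he0)
    have h2 : (r : ℤ) ∣ ((j * e : ℕ) : ℤ) - 2 := by
      rw [← ZMod.intCast_zmod_eq_zero_iff_dvd]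
      push_cast at hmod ⊢
      rw [hmod, sub_self]
    obtain ⟨t, ht⟩ := h2
    have ht0 : 0 ≤ t := by
      by_contra h; push Not at h; nlinarith
    have ht1 : t ≤ 1 := by
      by_contra h; push Not at h
      have : (2 * r : ℤ) ≤ r * t := by nlinarith
      omega
    rcases (show t = 0 ∨ t = 1 by omega) with rfl | rfl
    · omega
    · have hje' : j * e = r + 2 := by omega
      rcases (show j = 1 ∨ j = 2 by omega) with rfl | rfl
      · omega
      · obtain ⟨m, hm⟩ := hr.out.odd_of_ne_two hr2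
        omega
  have hN2 : Nat.card N ≤ 2 * Nat.card (Subgroup.zpowers y) := by
    rw [hNcard, mul_assoc, hje, Nat.card_zpowers, hy, mul_comm]
  -- conjugate into the torus
  obtain ⟨R', hR'⟩ := hR₁.exists_le_sylow
  obtain ⟨g, hg⟩ := MulAction.exists_smul_eq G R' R
  have hgR : ∀ u ∈ R₁, g * u * g⁻¹ ∈ Subgroup.zpowers yr := by
    intro u hu
    have h1 : g * u * g⁻¹ ∈ ((g • R' : Sylow r G) : Subgroup G) := by
      rw [Sylow.coe_subgroup_smul, Subgroup.mem_pointwise_smul_iff_inv_smul_mem]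
      show (MulAut.conj g)⁻¹ • (g * u * g⁻¹) ∈ (R' : Subgroup G)
      rw [← map_inv, MulAut.smul_def, MulAut.conj_apply]
      simpa [mul_assoc] using hR' hu
    rw [hg] at h1
    exact h1
  by_cases hR₁b : R₁ = ⊥
  · subst hR₁b
    intro u hu
    rw [SetLike.mem_coe, Subgroup.mem_bot] at hu
    simp [hu]
  obtain ⟨u₀, hu₀, hu₀o⟩ : ∃ u ∈ R₁, orderOf u = r := by
    haveI : Nontrivial R₁ := (Subgroup.nontrivial_iff_ne_bot R₁).2 hR₁b
    obtain ⟨m, hm⟩ := IsPGroup.iff_card.1 hR₁
    have hm0 : m ≠ 0 := by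
      rintro rfl
      rw [pow_zero] at hm
      exact (Finite.one_lt_card (α := R₁)).ne' hm
    obtain ⟨u, hu⟩ := exists_prime_orderOf_dvd_card' (G := R₁) r (hm ▸ dvd_pow_self r hm0)
    exact ⟨u, u.2, by rwa [Subgroup.orderOf_coe]⟩
  have hcoe : ∀ u : G, orderOf (g * u * g⁻¹) = orderOf u := fun u =>
    orderOf_injective (MulAut.conj g).toMonoidHom (MulAut.conj g).injective u
  have hu₀w : g * u₀ * g⁻¹ ∈ Subgroup.zpowers w := huniq _ (hRy (hgR _ hu₀)) (by
    rw [← hu₀o, ← hcoe u₀, pow_orderOf_eq_one])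
  have hzw : Subgroup.zpowers (g * u₀ * g⁻¹) = Subgroup.zpowers w :=
    Subgroup.eq_of_le_of_card_ge (Subgroup.zpowers_le.2 hu₀w)
      (by rw [Nat.card_zpowers, Nat.card_zpowers, hwo, hcoe, hu₀o])
  set X := g * x * g⁻¹ with hX
  have hXN : X ∈ N := by
    refine hNw X ?_
    obtain ⟨l, hl⟩ := Subgroup.mem_zpowers_iff.1 (hzw ▸ Subgroup.mem_zpowers w :
      w ∈ Subgroup.zpowers (g * u₀ * g⁻¹))
    rw [conj_zpow] at hl
    have hw1 : x * u₀ ^ l * x⁻¹ ∈ R₁ :=
      (Subgroup.mem_normalizer_iff.1 hx _).1 (Subgroup.zpow_mem _ hu₀ l)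
    have hXw : X * w * X⁻¹ = g * (x * u₀ ^ l * x⁻¹) * g⁻¹ := by rw [hX, ← hl]; group
    refine huniq _ (hRy (hXw ▸ hgR _ hw1)) ?_
    rw [conj_pow, ← hwo, pow_orderOf_eq_one, mul_one, mul_inv_cancel]
  have hXy : X ∈ Subgroup.zpowers y :=
    mem_of_odd_order (hyC.trans hCN) hN2 hXN (by rw [hX, hcoe]; exact hodd)
  intro u hu
  have hcm : Commute X (g * u * g⁻¹) := by
    obtain ⟨i, hi⟩ := Subgroup.mem_zpowers_iff.1 hXy
    obtain ⟨i', hi'⟩ := Subgroup.mem_zpowers_iff.1 (hRy (hgR u hu))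
    rw [← hi, ← hi']
    exact (Commute.refl y).zpow_zpow i i'
  exact ((MulAut.conj g).injective (by
    simp only [MulAut.conj_apply]
    have h3 := hcm.eq
    rw [hX] at h3
    calc g * (u * x) * g⁻¹ = (g * u * g⁻¹) * (g * x * g⁻¹) := by group
      _ = (g * x * g⁻¹) * (g * u * g⁻¹) := h3.symm
      _ = g * (x * u) * g⁻¹ := by group))

/-- The elements of `p`-power order in the normaliser of a non-trivial `p`-subgroup form a
subgroup, `p` odd. -/
theorem exists_pSubgroup (hp2 : p ≠ 2) {E : Subgroup G} (hE : IsPGroup p E) (hE1 : E ≠ ⊥) :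
    ∃ S : Subgroup G, IsPGroup p S ∧
      ∀ x ∈ Subgroup.normalizer (E : Set G), (∃ k, x ^ p ^ k = 1) → x ∈ S := by
  classical
  haveI : Fact p.Prime := ⟨D.hp⟩
  set M := Subgroup.normalizer (E : Set G) with hM
  obtain ⟨z, hz, hz1⟩ : ∃ z ∈ E, z ≠ 1 := by
    by_contra h
    push Not at h
    exact hE1 ((Subgroup.eq_bot_iff_forall E).2 h)
  have hCp : IsPGroup p (Subgroup.centralizer (E : Set G)) := by
    obtain ⟨i, hi⟩ := hE ⟨z, hz⟩
    refine (D.isPGroup_centralizer hz1 ⟨i, congrArg Subtype.val hi⟩).to_le ?_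
    exact Subgroup.centralizer_le (Set.singleton_subset_iff.2 hz)
  by_cases h2 : 2 ∣ Nat.card M
  · haveI : Fact (Nat.Prime 2) := ⟨Nat.prime_two⟩
    obtain ⟨⟨u, hu⟩, huo⟩ := exists_prime_orderOf_dvd_card' 2 h2
    rw [Subgroup.orderOf_mk] at huo
    have huu : u * u = 1 := by rw [← pow_two, ← huo, pow_orderOf_eq_one]
    have huinv : u⁻¹ = u := inv_eq_of_mul_eq_one_right huu
    have hinvert : ∀ Q : Subgroup G, IsPGroup p Q → (∀ v ∈ Q, u * v * u⁻¹ ∈ Q) →
        ∀ v ∈ Q, u * v * u⁻¹ = v⁻¹ := by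
      intro Q hQ hQu v hv
      let f : Q → Q := fun v => ⟨u * v * u⁻¹, hQu v v.2⟩
      let φ : Q →* Q := MonoidHom.mk' f fun v w => Subtype.ext (by
        show u * ((v : G) * w) * u⁻¹ = u * v * u⁻¹ * (u * w * u⁻¹)
        group)
      have hfree : MonoidHom.FixedPointFree (φ : Q → Q) := by
        intro v hv
        by_contra hv1
        have hc : Commute u (v : G) := by
          have h1 : u * (v : G) * u⁻¹ = v := congrArg Subtype.val hv
          exact mul_inv_eq_iff_eq_mul.1 h1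
        obtain ⟨i, hi⟩ := hQ v
        have hvp := D.isPGroup_centralizer (x := (v : G))
          (fun h => hv1 (Subtype.ext h)) ⟨i, congrArg Subtype.val hi⟩
        obtain ⟨i, hi⟩ := hvp ⟨u, Subgroup.mem_centralizer_singleton_iff.2 hc.eq⟩
        have h1 : orderOf u ∣ p ^ i := orderOf_dvd_of_pow_eq_one (congrArg Subtype.val hi)
        rw [huo] at h1
        exact hp2 ((Nat.prime_dvd_prime_iff_eq Nat.prime_two D.hp).1
          (Nat.prime_two.dvd_of_dvd_pow h1)).symm
      have hinvol : Function.Involutive φ := fun v => Subtype.ext (by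
        show u * (u * v * u⁻¹) * u⁻¹ = v
        rw [show u * (u * (v : G) * u⁻¹) * u⁻¹ = (u * u) * v * (u * u)⁻¹ by group, huu]
        simp)
      exact congrArg Subtype.val
        (congrFun (hfree.coe_eq_inv_of_involutive hinvol) ⟨v, hv⟩)
    have hCE : M ≤ Subgroup.normalizer ((Subgroup.centralizer (E : Set G) : Subgroup G) : Set G) := by
      have key : ∀ g ∈ M, ∀ v ∈ Subgroup.centralizer (E : Set G),
          g * v * g⁻¹ ∈ Subgroup.centralizer (E : Set G) := by
        intro g hg v hv δ hδ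
        have h := hv (g⁻¹ * δ * g) ((Subgroup.mem_normalizer_iff''.1 hg δ).1 hδ)
        calc δ * (g * v * g⁻¹) = g * ((g⁻¹ * δ * g) * v) * g⁻¹ := by group
          _ = g * (v * (g⁻¹ * δ * g)) * g⁻¹ := by rw [h]
          _ = (g * v * g⁻¹) * δ := by group
      intro g hg
      rw [Subgroup.mem_normalizer_iff]
      intro v
      refine ⟨key g hg v, fun hv => ?_⟩
      have := key g⁻¹ (inv_mem hg) _ hv
      rw [show g⁻¹ * (g * v * g⁻¹) * g⁻¹⁻¹ = v by group] at this
      exact this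
    have hinvE := hinvert E hE (fun v hv => (Subgroup.mem_normalizer_iff.1 hu v).1 hv)
    refine ⟨Subgroup.centralizer (E : Set G), hCp, fun x hx hxk => ?_⟩
    set Q := Subgroup.centralizer (E : Set G) ⊔ Subgroup.zpowers x with hQ
    have hQp : IsPGroup p Q := by
      refine IsPGroup.to_sup_of_normal_left' hCp ?_ (Subgroup.zpowers_le.2 (hCE hx))
      obtain ⟨k, hk⟩ := hxk
      rintro ⟨v, hv⟩
      obtain ⟨l, rfl⟩ := Subgroup.mem_zpowers_iff.1 hv
      refine ⟨k, Subtype.ext ?_⟩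
      show (x ^ l) ^ p ^ k = 1
      rw [← zpow_natCast (x ^ l), ← zpow_mul, mul_comm, zpow_mul, zpow_natCast, hk, one_zpow]
    have hQu : ∀ v ∈ Q, u * v * u⁻¹ ∈ Q := by
      have hcomm : u * x * u⁻¹ * x⁻¹ ∈ Subgroup.centralizer (E : Set G) := by
        intro δ hδ
        have h1 : x⁻¹ * δ * x ∈ E :=
          (Subgroup.mem_normalizer_iff''.1 hx δ).1 hδ
        have h2 := hinvE _ h1
        have h3 := hinvE δ hδ
        rw [huinv] at h2 h3 ⊢
        have h5 : u * δ * u = δ⁻¹ := h3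
        calc δ * (u * x * u * x⁻¹) = (u * u) * δ * (u * x * u * x⁻¹) := by rw [huu, one_mul]
          _ = u * (u * δ * u) * (x * u * x⁻¹) := by group
          _ = u * x * (u * u) * (x⁻¹ * δ * x)⁻¹ * u * x⁻¹ := by rw [h5, huu]; group
          _ = u * x * u * (u * (x⁻¹ * δ * x)⁻¹ * u) * x⁻¹ := by group
          _ = u * x * u * (x⁻¹ * δ * x) * x⁻¹ := by
              rw [show u * (x⁻¹ * δ * x)⁻¹ * u = x⁻¹ * δ * x by
                rw [← h2, show u * (u * (x⁻¹ * δ * x) * u) * u
                  = (u * u) * (x⁻¹ * δ * x) * (u * u) by group, huu, one_mul, mul_one]]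
          _ = (u * x * u * x⁻¹) * δ := by group
      intro v hv
      have hle : Q ≤ Q.comap (MulAut.conj u).toMonoidHom := by
        refine sup_le ?_ (Subgroup.zpowers_le.2 ?_)
        · intro v hv
          exact Subgroup.mem_sup_left ((Subgroup.mem_normalizer_iff.1 (hCE hu) v).1 hv)
        · show u * x * u⁻¹ ∈ Q
          rw [show u * x * u⁻¹ = (u * x * u⁻¹ * x⁻¹) * x by group]
          exact mul_mem (Subgroup.mem_sup_left hcomm)
            (Subgroup.mem_sup_right (Subgroup.mem_zpowers x))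
      exact hle hv
    have hinvQ := hinvert Q hQp hQu
    intro δ hδ
    have hδQ : δ ∈ Q := Subgroup.mem_sup_left (fun v hv => by
      have hab : u * (δ * v) * u⁻¹ = (δ * v)⁻¹ := hinvE _ (mul_mem hδ hv)
      rw [show u * (δ * v) * u⁻¹ = (u * δ * u⁻¹) * (u * v * u⁻¹) by group, hinvE δ hδ,
        hinvE v hv, ← mul_inv_rev, inv_inj] at hab
      exact hab)
    have hxQ : x ∈ Q := Subgroup.mem_sup_right (Subgroup.mem_zpowers x)
    have hab := hinvQ _ (mul_mem hδQ hxQ)
    rw [show u * (δ * x) * u⁻¹ = (u * δ * u⁻¹) * (u * x * u⁻¹) by group, hinvQ δ hδQ,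
      hinvQ x hxQ, ← mul_inv_rev, inv_inj] at hab
    exact hab.symm
  · -- odd order: normal complements for the primes other than `p`
    set K : Subgroup M := ⨅ r : {r : ℕ // r.Prime ∧ r ≠ p ∧ r ∣ Nat.card M},
      (⨅ (L : Subgroup M) (_ : ¬ (r : ℕ) ∣ Nat.card L ∧
        ∀ z : M, (∃ i, z ^ p ^ i = 1) → z ∈ L), L) with hK
    have hex : ∀ r : ℕ, r.Prime → r ≠ p → r ∣ Nat.card M → ∃ L : Subgroup M,
        ¬ r ∣ Nat.card L ∧ ∀ z : M, (∃ i, z ^ p ^ i = 1) → z ∈ L := by
      intro r hr hrp hrM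
      haveI : Fact r.Prime := ⟨hr⟩
      have hr2 : r ≠ 2 := fun h => h2 (h ▸ hrM)
      have hrG : r ∣ Nat.card G := hrM.trans (Subgroup.card_subgroup_dvd_card M)
      obtain ⟨P⟩ : Nonempty (Sylow r M) := inferInstance
      have hP : Subgroup.normalizer ((P : Subgroup M) : Set M) ≤
          Subgroup.centralizer ((P : Subgroup M) : Set M) := by
        intro x hx v hv
        have hxG : (x : G) ∈ Subgroup.normalizer
            (((P : Subgroup M).map M.subtype : Subgroup G) : Set G) := by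
          rw [Subgroup.mem_normalizer_iff]
          intro h
          constructor
          · rintro ⟨t, ht, rfl⟩
            exact ⟨x * t * x⁻¹, (Subgroup.mem_normalizer_iff.1 hx t).1 ht, rfl⟩
          · rintro ⟨t, ht, ht'⟩
            refine ⟨x⁻¹ * t * x, (Subgroup.mem_normalizer_iff''.1 hx t).1 ht, ?_⟩
            have ht'' : (t : G) = (x : G) * h * (x : G)⁻¹ := ht'
            show (x : G)⁻¹ * (t : G) * x = h
            rw [ht'']; group
        have hodd : Odd (orderOf (x : G)) := by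
          rw [← Nat.not_even_iff_odd, even_iff_two_dvd, Subgroup.orderOf_coe]
          exact fun h => h2 (h.trans (orderOf_dvd_natCard x))
        have := D.centralizes_of_normalizes hr2 hrp hrG (P.2.map M.subtype) hxG hodd (v : G)
          ⟨v, hv, rfl⟩
        exact Subtype.ext this
      refine ⟨(MonoidHom.transferSylow P hP).ker,
        MonoidHom.not_dvd_card_ker_transferSylow P hP, fun z ⟨i, hi⟩ => ?_⟩
      rw [MonoidHom.mem_ker, ← orderOf_eq_one_iff]
      obtain ⟨j, hj⟩ := P.2 (MonoidHom.transferSylow P hP z)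
      obtain ⟨a, -, ha⟩ := (Nat.dvd_prime_pow hr).1 (orderOf_dvd_of_pow_eq_one hj)
      have h1 : orderOf (MonoidHom.transferSylow P hP z) ∣ p ^ i :=
        orderOf_dvd_of_pow_eq_one (by rw [← map_pow, hi, map_one])
      rw [ha] at h1 ⊢
      rcases Nat.eq_zero_or_pos a with rfl | ha0
      · rw [pow_zero]
      · exact absurd ((Nat.prime_dvd_prime_iff_eq hr D.hp).1
          (hr.dvd_of_dvd_pow ((dvd_pow_self r ha0.ne').trans h1))) hrp
    refine ⟨K.map M.subtype, ?_, fun x hx ⟨i, hi⟩ => ⟨⟨x, hx⟩, ?_, rfl⟩⟩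
    · refine IsPGroup.map ?_ M.subtype
      rintro ⟨v, hv⟩
      refine ⟨(orderOf v).factorization p, Subtype.ext ?_⟩
      show v ^ p ^ (orderOf v).factorization p = 1
      have hov : orderOf v = p ^ (orderOf v).factorization p := by
        refine Nat.eq_pow_of_factorization_eq_single (orderOf_pos v).ne' ?_
        ext s
        rw [Finsupp.single_apply]
        split_ifs with hs
        · rw [hs]
        · by_contra h0
          have hsm := Nat.mem_primeFactors.1
            (Nat.support_factorization _ ▸ Finsupp.mem_support_iff.2 h0)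
          have hsM : s ∣ Nat.card M := hsm.2.1.trans (orderOf_dvd_natCard v)
          obtain ⟨L, hL1, hL2⟩ := hex s hsm.1 (Ne.symm hs) hsM
          have hvL : v ∈ L := by
            have h1 := (Subgroup.mem_iInf.1 hv) ⟨s, hsm.1, Ne.symm hs, hsM⟩
            exact Subgroup.mem_iInf.1 (Subgroup.mem_iInf.1 h1 L) ⟨hL1, hL2⟩
          exact hL1 (hsm.2.1.trans (by
            rw [← Subgroup.orderOf_mk v hvL]; exact orderOf_dvd_natCard _))
      rw [← hov, pow_orderOf_eq_one]
    · refine Subgroup.mem_iInf.2 fun r => Subgroup.mem_iInf.2 fun L => Subgroup.mem_iInf.2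
        fun hL => hL.2 _ ⟨i, Subtype.ext ?_⟩
      exact hi

end Data

end CfsgLib.Spectrum.PSLTwo
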