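import Cfsg.Agent.Lib.Suzuki.Partition

/-!
Sylow 2-subgroups of a group isomorphic to a Suzuki group.
-/

set_option autoImplicit false

open scoped Pointwise

namespace CfsgLib.Spectrum.SuzukiSylow

open CfsgLib.Suzuki

theorem sylow_data {T : Type*} [Group T] [Finite T] {F : Type*} [Field F] {j : ℕ} (h : Hyp F j)
    (e : T ≃* Cfsg.Sz F j) (P : Sylow 2 T) :
    Nat.card (P : Subgroup T) = 2 ^ (2 * (2 * j + 1)) ∧
    Nat.card {v : (P : Subgroup T) // v * v = 1} = 2 ^ (2 * j + 1) ∧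
    (∀ v w : (P : Subgroup T), v * v = 1 → v * w = w * v) ∧
    Nat.card (Subgroup.normalizer ((P : Subgroup T) : Set T)) =
      2 ^ (2 * (2 * j + 1)) * (2 ^ (2 * j + 1) - 1) := by
  classical
  have := h.finite_group
  haveI : Fact (Nat.Prime 2) := ⟨Nat.prime_two⟩
  let P' : Sylow 2 (Cfsg.Sz F j) := P.mapSurjective (f := e.toMonoidHom) e.surjective
  obtain ⟨k, hk⟩ := h.exists_sylow_eq P'
  let e' : T ≃* Cfsg.Sz F j := e.trans (MulAut.conj k⁻¹)
  have hmap : (P : Subgroup T).map e'.toMonoidHom = h.U := by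
    have h1 : (P : Subgroup T).map e.toMonoidHom = MulAut.conj k • h.U := by
      rw [← hk]; rfl
    ext x
    constructor
    · rintro ⟨v, hv, rfl⟩
      have h2 : e v ∈ MulAut.conj k • h.U := h1 ▸ ⟨v, hv, rfl⟩
      rw [h.coe_conj_U_eq] at h2
      show k⁻¹ * e v * k⁻¹⁻¹ ∈ h.U
      rwa [inv_inv]
    · intro hx
      have h2 : k * x * k⁻¹ ∈ MulAut.conj k • h.U := by
        rw [h.coe_conj_U_eq, show k⁻¹ * (k * x * k⁻¹) * k = x by group]; exact hx
      rw [← h1] at h2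
      obtain ⟨v, hv, hv'⟩ := h2
      refine ⟨v, hv, ?_⟩
      show k⁻¹ * e v * k⁻¹⁻¹ = x
      rw [show e v = k * x * k⁻¹ from hv']
      group
  have hmem : ∀ v : T, v ∈ (P : Subgroup T) ↔ e' v ∈ h.U := fun v => by
    rw [← hmap]
    exact ⟨fun hv => ⟨v, hv, rfl⟩, fun ⟨w, hw, hwv⟩ => e'.injective hwv ▸ hw⟩
  refine ⟨?_, ?_, ?_, ?_⟩
  · rw [← Subgroup.card_map_of_injective (f := e'.toMonoidHom) e'.injective, hmap, h.card_U,
      ← pow_mul, mul_comm]
  · have hsq : ∀ x ∈ h.U, (x * x = 1 ↔ x ∈ h.Z) := by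
      rintro _ ⟨a, b, rfl⟩
      rw [h.u_sq, ← h.u_zero]
      constructor
      · intro hx
        have ha := (h.u_injective hx).2
        rcases mul_eq_zero.1 ha with h1 | h1
        · rw [th_eq_zero_iff.1 h1]; exact ⟨b, rfl⟩
        · rw [h1]; exact ⟨b, rfl⟩
      · rintro ⟨c, hc⟩
        obtain ⟨rfl, -⟩ := h.u_injective hc
        rw [th_zero, zero_mul]
    rw [← h.card_Z]
    refine Nat.card_congr (Equiv.ofBijective (fun v => (⟨e' (v.1 : T),
      (hsq _ ((hmem _).1 v.1.2)).1 (by rw [← map_mul, ← Subgroup.coe_mul, v.2, Subgroup.coe_one, map_one])⟩ : h.Z))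
      ⟨fun v w hvw => ?_, fun x => ?_⟩)
    · exact Subtype.ext (Subtype.ext (e'.injective (congrArg (fun z : h.Z => (z : Cfsg.Sz F j)) hvw)))
    · have hxU : (x : Cfsg.Sz F j) ∈ h.U := h.Z_le_U x.2
      refine ⟨⟨⟨e'.symm x, (hmem _).2 (by rw [e'.apply_symm_apply]; exact hxU)⟩, Subtype.ext (e'.injective ?_)⟩,
        Subtype.ext (e'.apply_symm_apply _)⟩
      show e' (e'.symm (x : Cfsg.Sz F j) * e'.symm (x : Cfsg.Sz F j)) = e' 1
      rw [map_mul, e'.apply_symm_apply, map_one]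
      exact (hsq _ hxU).2 x.2
  · intro v w hv
    obtain ⟨a, b, hab⟩ := (hmem _).1 v.2
    obtain ⟨c, d, hcd⟩ := (hmem _).1 w.2
    have ha : a = 0 := by
      have h1 : h.u a b * h.u a b = 1 := by
        rw [← hab, ← map_mul, ← Subgroup.coe_mul, hv, Subgroup.coe_one, map_one]
      rw [h.u_sq, ← h.u_zero] at h1
      rcases mul_eq_zero.1 (h.u_injective h1).2 with h2 | h2
      · exact th_eq_zero_iff.1 h2
      · exact h2
    refine Subtype.ext (e'.injective ?_)
    rw [Subgroup.coe_mul, Subgroup.coe_mul, map_mul, map_mul, hab, hcd, h.u_comm_iff, ha]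
    simp
  · have h1 : (Subgroup.normalizer ((P : Subgroup T) : Set T)).map e'.toMonoidHom =
        Subgroup.normalizer (h.U : Set (Cfsg.Sz F j)) := by
      rw [Subgroup.map_equiv_normalizer_eq, hmap]
    rw [← Subgroup.card_map_of_injective (f := e'.toMonoidHom) e'.injective, h1, h.normalizer_U,
      h.card_stabilizer_inf, ← pow_mul, mul_comm (2 * j + 1) 2]

end CfsgLib.Spectrum.SuzukiSylow
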