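import Cfsg.Agent.Lib.Spectrum.PSLTwoEvenGraphMain
import Cfsg.Agent.Lib.Spectrum.CITSocleTop
import Cfsg.Agent.Lib.Spectrum.SuzukiSylowData
import Cfsg.Agent.Lib.SuzukiIdent.Classification
import Cfsg.Agent.Lib.SuzukiIdent.FieldCongr
import Cfsg.Agent.Lib.Suzuki.NormTor

/-!
A group with the prime graph of a Suzuki group is that Suzuki group modulo its 2-core.
-/

set_option autoImplicit false

open Cfsg

namespace CfsgLib.Spectrum.SuzukiGraph

open CfsgLib.CIT CfsgLib.Zsigmondy CfsgLib.Spectrum.CITStructure CfsgLib.Suzuki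

/-- Orders of elements of `Sz`. -/
theorem orderOf_cases {F : Type*} [Field F] {m : ℕ} (h : Hyp F m) (g : Cfsg.Sz F m) :
    orderOf g ∣ 4 ∨ orderOf g ∣ 2 ^ (2 * m + 1) - 1 ∨ orderOf g ∣ qq m := by
  have := h.finite_group
  by_cases hg : g = 1
  · exact Or.inl (by simp [hg])
  rcases h.order_cases g with h4 | hodd
  · exact Or.inl h4
  have hdvd : orderOf g ∣ Nat.card (Subgroup.centralizer ({g} : Set (Cfsg.Sz F m))) :=
    Subgroup.orderOf_dvd_natCard _ (Subgroup.mem_centralizer_singleton_iff.2 rfl)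
  obtain ⟨-, -, -, hprod⟩ := h.coprime_three
  have hc := h.centralizer_card_mem hg hodd
  simp only [Set.mem_insert_iff, Set.mem_singleton_iff] at hc
  rcases hc with hc | hc | hc <;> rw [hc] at hdvd
  · exact Or.inr (Or.inl hdvd)
  · exact Or.inr (Or.inr (hdvd.trans ⟨_, hprod.symm⟩))
  · exact Or.inr (Or.inr (hdvd.trans (hprod ▸ dvd_mul_left _ _)))

/-- Three does not divide `(q - 1) (q² + 1)` for `q` an odd power of `2`. -/
theorem not_three_dvd (m : ℕ) : ¬ 3 ∣ (2 ^ (2 * m + 1) - 1) * ((2 ^ (2 * m + 1)) ^ 2 + 1) := by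
  have h : 2 ^ (2 * m + 1) % 3 = 2 := by
    rw [pow_succ, pow_mul, Nat.mul_mod, Nat.pow_mod]
    norm_num
  intro hd
  rcases Nat.prime_three.dvd_mul.1 hd with h1 | h1
  · have := Nat.one_le_two_pow (n := 2 * m + 1)
    omega
  · rw [Nat.dvd_iff_mod_eq_zero, pow_two, Nat.add_mod, Nat.mul_mod, h] at h1
    norm_num at h1

theorem three_dvd_card_psl_two (F : Type*) [Field F] [Fintype F] :
    3 ∣ Nat.card (Matrix.ProjectiveSpecialLinearGroup (Fin 2) F) := by
  have h := CfsgLib.ClassicalLinear.card_PSL_two (F := F) (q := Fintype.card F) rfl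
  set q := Fintype.card F
  have hq : 1 ≤ q := Fintype.card_pos
  have h3 : 3 ∣ q * (q ^ 2 - 1) := by
    rcases (by omega : q % 3 = 0 ∨ q % 3 = 1 ∨ q % 3 = 2) with hc | hc
    · exact dvd_mul_of_dvd_left (Nat.dvd_of_mod_eq_zero hc) _
    · refine dvd_mul_of_dvd_right ?_ _
      rw [show q ^ 2 - 1 = (q + 1) * (q - 1) by rw [← Nat.sq_sub_sq, one_pow]]
      rcases hc with hc | hc
      · exact dvd_mul_of_dvd_right (by omega) _
      · exact dvd_mul_of_dvd_left (by omega) _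
  rw [← h] at h3
  refine ((Nat.prime_three.dvd_mul).1 h3).resolve_left fun hg => ?_
  have := Nat.le_of_dvd (by norm_num) (hg.trans (Nat.gcd_dvd_left 2 (q - 1)))
  omega

universe u

theorem main {F : Type*} [Field F] {m : ℕ} (h : Hyp F m) {G : Type u} [Group G] [Finite G]
    (hπ : ∀ r : ℕ, r.Prime → (r ∣ Nat.card (Cfsg.Sz F m) ↔ r ∣ Nat.card G))
    (hE : ∀ r s : ℕ, r.Prime → s.Prime → r ≠ s →
      ((∃ x : Cfsg.Sz F m, orderOf x = r * s) ↔ ∃ y : G, orderOf y = r * s)) :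
    Nonempty (G ⧸ pCore 2 G ≃* Cfsg.Sz F m) := by
  classical
  haveI : Fact (Nat.Prime 2) := ⟨Nat.prime_two⟩
  obtain ⟨n, hn⟩ : ∃ n, 2 * m + 1 = n := ⟨_, rfl⟩
  have hm := h.one_le
  have hcard : Nat.card (Cfsg.Sz F m) = (2 ^ n) ^ 2 * ((2 ^ n - 1) * ((2 ^ n) ^ 2 + 1)) := by
    rw [h.card_group, hn]; ring
  have h8 : 8 ≤ 2 ^ n := le_trans (by norm_num) (Nat.pow_le_pow_right (by norm_num) (show 3 ≤ n by omega))
  obtain ⟨i, hi⟩ : 2 ∣ 2 ^ n := dvd_pow_self 2 (by omega)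
  have hqq : qq m = (2 ^ n) ^ 2 + 1 := by rw [qq, hn]
  have hprimes : ∀ r : ℕ, r.Prime → (r ∣ Nat.card G ↔ r = 2 ∨ r ∣ (2 ^ n - 1) * ((2 ^ n) ^ 2 + 1)) := by
    intro r hr
    rw [← hπ r hr, hcard]
    constructor
    · intro hd
      rcases hr.dvd_mul.1 hd with hd | hd
      · exact Or.inl ((Nat.prime_dvd_prime_iff_eq hr Nat.prime_two).1
          (hr.dvd_of_dvd_pow (hr.dvd_of_dvd_pow hd)))
      · exact Or.inr hd
    · rintro (rfl | hd)
      · exact dvd_mul_of_dvd_left (dvd_pow (dvd_pow_self 2 (by omega)) two_ne_zero) _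
      · exact dvd_mul_of_dvd_right hd _
  have key : ∀ t : ℕ, t.Prime → t ∣ 2 ^ n - 1 → t ∣ (2 ^ n) ^ 2 + 1 → False := by
    intro t ht ha hb
    have h1 : t ∣ (2 ^ n) ^ 2 - 1 :=
      ha.trans ⟨2 ^ n + 1, by rw [mul_comm, ← Nat.sq_sub_sq, one_pow]⟩
    have h2 := Nat.dvd_sub hb h1
    rw [show (2 ^ n) ^ 2 + 1 - ((2 ^ n) ^ 2 - 1) = 2 by have := Nat.one_le_pow 2 (2 ^ n) (by omega); omega] at h2
    obtain rfl := (Nat.prime_dvd_prime_iff_eq ht Nat.prime_two).1 h2
    omega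
  have hqodd : ¬ 2 ∣ (2 ^ n) ^ 2 + 1 := by
    have : 2 ∣ (2 ^ n) ^ 2 := dvd_pow ⟨i, hi⟩ two_ne_zero
    omega
  have hno2 : ∀ r : ℕ, r.Prime → r ≠ 2 → ¬ ∃ y : G, orderOf y = 2 * r := by
    intro r hr hr2 hy
    obtain ⟨x, hx⟩ := (hE 2 r Nat.prime_two hr hr2.symm).2 hy
    rcases orderOf_cases h x with h1 | h1 | h1 <;> rw [hx] at h1
    · have hr4 : r ∣ 2 ^ 2 := (dvd_mul_left r 2).trans h1
      exact hr2 ((Nat.prime_dvd_prime_iff_eq hr Nat.prime_two).1 (hr.dvd_of_dvd_pow hr4))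
    · rw [hn] at h1
      have := (dvd_mul_right 2 r).trans h1
      omega
    · exact hqodd (hqq ▸ (dvd_mul_right 2 r).trans h1)
  have hno : ∀ r s : ℕ, r.Prime → s.Prime → r ∣ 2 ^ n - 1 → s ∣ (2 ^ n) ^ 2 + 1 →
      r ≠ s ∧ ¬ ∃ y : G, orderOf y = r * s := by
    intro r s hr hs hra hsb
    have hrs : r ≠ s := fun e => key r hr hra (e ▸ hsb)
    refine ⟨hrs, fun hy => ?_⟩
    obtain ⟨x, hx⟩ := (hE r s hr hs hrs).2 hy
    rcases orderOf_cases h x with h1 | h1 | h1 <;> rw [hx] at h1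
    · have hr4 : r ∣ 2 ^ 2 := (dvd_mul_right r s).trans h1
      have := (Nat.prime_dvd_prime_iff_eq hr Nat.prime_two).1 (hr.dvd_of_dvd_pow hr4)
      subst this
      omega
    · rw [hn] at h1; exact key s hs ((dvd_mul_left s r).trans h1) hsb
    · rw [hqq] at h1; exact key r hr hra ((dvd_mul_right r s).trans h1)
  have hcit : IsCIT G := by
    intro t ht
    rw [IsPGroup.iff_orderOf]
    intro c
    by_contra hc
    obtain ⟨r, hr, hrd, hr2⟩ : ∃ r : ℕ, r.Prime ∧ r ∣ orderOf c ∧ r ≠ 2 := by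
      by_contra! hall
      exact hc ⟨_, Nat.eq_prime_pow_of_unique_prime_dvd (orderOf_pos c).ne' fun hd hdd => hall _ hd hdd⟩
    have hcomm : Commute t (((c : G)) ^ (orderOf c / r)) :=
      ((show Commute (c : G) t from Subgroup.mem_centralizer_singleton_iff.1 c.2).symm).pow_right _
    refine hno2 r hr hr2 ⟨t * (c : G) ^ (orderOf c / r), ?_⟩
    have hco : orderOf ((c : G) ^ (orderOf c / r)) = r := by
      rw [← Subgroup.orderOf_coe c]
      exact orderOf_pow_orderOf_div (orderOf_pos _).ne' (by rwa [Subgroup.orderOf_coe])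
    rw [hcomm.orderOf_mul_eq_mul_orderOf_of_coprime
      (by rw [ht, hco]; exact (Nat.coprime_primes Nat.prime_two hr).2 hr2.symm), ht, hco]
  have h2G : 2 ∣ Nat.card G := (hprimes 2 Nat.prime_two).2 (Or.inl rfl)
  -- the primitive prime of `2^(4n) - 1`
  obtain ⟨l, hl⟩ := exists_isPpd (a := 2) (n := 4 * n) (by norm_num) (by omega) (by omega) (by omega)
  have hl2 : l ≠ 2 := by have := hl.lt (by norm_num) (by omega); omega
  have hlb : l ∣ (2 ^ n) ^ 2 + 1 := by
    have hu : 2 ^ (4 * n) - 1 = ((2 ^ n) ^ 2 + 1) * ((2 ^ n) ^ 2 - 1) := by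
      rw [← Nat.sq_sub_sq, ← pow_mul, ← pow_mul, one_pow, show n * (2 * 2) = 4 * n by ring]
    refine (hl.1.dvd_mul.1 (hu ▸ hl.2.1)).resolve_right fun hd => ?_
    rw [← pow_mul] at hd
    have := Nat.le_of_dvd (by omega) ((hl.dvd_pow_sub_one_iff' (by norm_num) (by omega) _).1 hd)
    omega
  have hlG : l ∣ Nat.card G := (hprimes l hl.1).2 (Or.inr (dvd_mul_of_dvd_right hlb _))
  have hns : ¬ Group.IsSolvable G := by
    intro hs
    obtain ⟨t, ht, htd⟩ := Nat.exists_prime_and_dvd (show 2 ^ n - 1 ≠ 1 by omega)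
    have ht2 : t ≠ 2 := by rintro rfl; omega
    obtain ⟨hne, hnot⟩ := hno t l ht hl.1 htd hlb
    haveI := hs
    exact CfsgLib.OrderDegrees.false_of_solvable_coclique (⊤ : Subgroup G) inferInstance
      Nat.prime_two hl.1 ht hl2.symm ht2.symm hne.symm (hno2 l hl.1 hl2) (hno2 t ht ht2)
      (by rw [mul_comm]; exact hnot) (by rwa [Subgroup.card_top])
      (by rw [Subgroup.card_top]; exact hlG)
      ((hprimes t ht).2 (Or.inr (dvd_mul_of_dvd_left htd _)))
  set E := pCore 2 G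
  have hEp : IsPGroup 2 E := Cores.isPGroup_pCore 2 G
  obtain ⟨k, hk⟩ := IsPGroup.iff_card.1 hEp
  have hdvd : ∀ r : ℕ, r.Prime → (r ∣ Nat.card (G ⧸ E) ↔ r ∣ Nat.card G) := by
    intro r hr
    refine ⟨fun hd => hd.trans (Subgroup.card_quotient_dvd_card E), fun hd => ?_⟩
    rcases eq_or_ne r 2 with rfl | hr2
    · exact two_dvd_card_quotient hcit hns hd
    · rw [Subgroup.card_eq_card_quotient_mul_card_subgroup E, hk] at hd
      exact (hr.dvd_mul.1 hd).resolve_right fun h' =>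
        hr2 ((Nat.prime_dvd_prime_iff_eq hr Nat.prime_two).1 (hr.dvd_of_dvd_pow h'))
  have hX : IsCIT (G ⧸ E) := hcit.quotient hEp
  have hnsX : ¬ Group.IsSolvable (G ⧸ E) := by
    intro hs
    haveI := hEp.isNilpotent
    exact hns (Group.isSolvable_of_ker_le_range E.subtype (QuotientGroup.mk' E)
      (by rw [QuotientGroup.ker_mk', Subgroup.range_subtype]))
  obtain ⟨T, hTn, hTs, hTab, -, -⟩ := exists_simple_normal hX hnsX ((hdvd 2 Nat.prime_two).2 h2G)
    (Cores.pCore_quotient_pCore 2 G)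
  haveI := hTn
  haveI := hTs
  have hT3 : ¬ 3 ∣ Nat.card T := fun h3 => by
    rcases (hprimes 3 Nat.prime_three).1 ((hdvd 3 Nat.prime_three).1
      (h3.trans (Subgroup.card_subgroup_dvd_card T))) with e | e
    · omega
    · exact not_three_dvd m (hn ▸ e)
  rcases CfsgLib.SuzukiIdent.simple_cit hTab (hX.subgroup T) with
    ⟨F', _, _, -, ⟨e⟩⟩ | ⟨F', _, _, hF', ⟨e⟩⟩ | hS
  · exact (hT3 (by rw [Nat.card_congr e.toEquiv]; exact three_dvd_card_psl_two F')).elim
  · exact (hT3 (by rw [Nat.card_congr e.toEquiv, CfsgLib.Golay.natCard_PSL3_four hF']; norm_num)).elim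
  obtain ⟨F', _, j, h', ⟨e⟩⟩ := CfsgLib.Suzuki.isoSuzuki_spec hS
  have := h'.finite_group
  obtain ⟨n', hn'⟩ : ∃ n', 2 * j + 1 = n' := ⟨_, rfl⟩
  have hTcard : Nat.card T = (2 ^ n') ^ 2 * ((2 ^ n') ^ 2 + 1) * (2 ^ n' - 1) := by
    rw [Nat.card_congr e.toEquiv, h'.card_group, hn']
  have hu' : 2 ^ (4 * n') - 1 = ((2 ^ n') ^ 2 + 1) * ((2 ^ n') ^ 2 - 1) := by
    rw [← Nat.sq_sub_sq, ← pow_mul, ← pow_mul, one_pow, show n' * (2 * 2) = 4 * n' by ring]
  obtain ⟨P⟩ : Nonempty (Sylow 2 T) := inferInstance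
  obtain ⟨hP, hinv, hcen, hnor⟩ := SuzukiSylow.sylow_data h' e P
  rw [hn'] at hP hinv hnor
  have hnn : n' = n := by
    have h1 : n ∣ n' := by
      by_cases hlT : l ∣ Nat.card T
      · have hd : l ∣ 2 ^ (4 * n') - 1 := by
          rw [hTcard] at hlT
          rcases hl.1.dvd_mul.1 hlT with hd | hd
          · rcases hl.1.dvd_mul.1 hd with hd | hd
            · exact absurd ((Nat.prime_dvd_prime_iff_eq hl.1 Nat.prime_two).1
                (hl.1.dvd_of_dvd_pow (hl.1.dvd_of_dvd_pow hd))) hl2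
            · exact hu' ▸ dvd_mul_of_dvd_left hd _
          · refine hu' ▸ dvd_mul_of_dvd_right (hd.trans ?_) _
            exact ⟨2 ^ n' + 1, by rw [mul_comm, ← Nat.sq_sub_sq, one_pow]⟩
        exact Nat.dvd_of_mul_dvd_mul_left (by norm_num) ((hl.dvd_pow_sub_one_iff' (by norm_num) (by omega) _).1 hd)
      · exfalso
        haveI : Fact l.Prime := ⟨hl.1⟩
        obtain ⟨x, hx⟩ := exists_prime_orderOf_dvd_card' (G := G ⧸ E) l ((hdvd l hl.1).2 hlG)
        obtain ⟨Q, hQ⟩ := PSLEvenGraph.exists_normalized_sylow (s := 2) T hlT hx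
        have hQc : Nat.card (Q : Subgroup T) = 2 ^ (2 * n') := by
          rw [← hP]; exact Nat.card_congr (Sylow.equiv Q P).toEquiv
        have hd := PSLEvenGraph.dvd_card_sub_one hx _ hQ fun v hv hc => hX.fpf (Q.2.map _) hv
          (by rw [hx]; exact hl.1.odd_of_ne_two hl2)
          (fun h1 => by rw [h1, orderOf_one] at hx; exact hl.1.one_lt.ne hx) hc.symm
        rw [Subgroup.card_map_of_injective T.subtype_injective, hQc] at hd
        obtain ⟨c, hc⟩ := (hl.dvd_pow_sub_one_iff' (by norm_num) (by omega) _).1 hd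
        have : n' = 2 * (n * c) := by
          rw [show 4 * n * c = 2 * (2 * (n * c)) by ring] at hc
          omega
        omega
    have h2 : n' ∣ n := by
      obtain ⟨l', hl'⟩ := exists_isPpd (a := 2) (n := 4 * n') (by norm_num) (by omega) (by omega) (by omega)
      have hl'2 : l' ≠ 2 := by have := hl'.lt (by norm_num) (by omega); omega
      have hl'b : l' ∣ (2 ^ n') ^ 2 + 1 := by
        refine (hl'.1.dvd_mul.1 (hu' ▸ hl'.2.1)).resolve_right fun hd => ?_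
        rw [← pow_mul] at hd
        have := Nat.le_of_dvd (by omega) ((hl'.dvd_pow_sub_one_iff' (by norm_num) (by omega) _).1 hd)
        omega
      have hl'T : l' ∣ Nat.card T := hTcard ▸ dvd_mul_of_dvd_left (dvd_mul_of_dvd_right hl'b _) _
      have hd := ((hprimes l' hl'.1).1 ((hdvd l' hl'.1).1
        (hl'T.trans (Subgroup.card_subgroup_dvd_card T)))).resolve_left hl'2
      have hu : 2 ^ (4 * n) - 1 = ((2 ^ n) ^ 2 + 1) * ((2 ^ n) ^ 2 - 1) := by
        rw [← Nat.sq_sub_sq, ← pow_mul, ← pow_mul, one_pow, show n * (2 * 2) = 4 * n by ring]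
      have hd' : l' ∣ 2 ^ (4 * n) - 1 := by
        rcases hl'.1.dvd_mul.1 hd with hd | hd
        · refine hu ▸ dvd_mul_of_dvd_right (hd.trans ?_) _
          exact ⟨2 ^ n + 1, by rw [mul_comm, ← Nat.sq_sub_sq, one_pow]⟩
        · exact hu ▸ dvd_mul_of_dvd_left hd _
      exact Nat.dvd_of_mul_dvd_mul_left (by norm_num) ((hl'.dvd_pow_sub_one_iff' (by norm_num) (by omega) _).1 hd')
    exact Nat.dvd_antisymm h2 h1
  subst hnn
  have hjm : j = m := by omega
  subst hjm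
  have hT := CITSocleTop.eq_top hX P (q := 2 ^ n') (f := 2 * n') (e := n') rfl h8 hP hinv hcen hnor
  subst hT
  obtain ⟨e2⟩ := CfsgLib.SuzukiIdent.nonempty_sz_congr h h'
  exact ⟨(Subgroup.topEquiv.symm.trans e).trans e2⟩

end CfsgLib.Spectrum.SuzukiGraph
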