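/-
The stabilizer of a vector in `Sp₄(3)` in Heisenberg-times-`SL₂` coordinates.
-/
import Cfsg.Agent.Lib.ClassicalLinear.SympBasic
import Mathlib

set_option autoImplicit false

namespace CfsgLib.Spectrum.ThreeCentral

open Matrix

/-- Coordinates for the Heisenberg group of order 27. -/
abbrev P3 := ZMod 3 × ZMod 3 × ZMod 3

abbrev MM := Matrix (Fin 2 ⊕ Fin 2) (Fin 2 ⊕ Fin 2) (ZMod 3)

abbrev SP := Matrix.symplecticGroup (Fin 2) (ZMod 3)

abbrev K2 := Matrix (Fin 2) (Fin 2) (ZMod 3)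

/-- The Heisenberg product. -/
def hmul (p q : P3) : P3 :=
  (p.1 + q.1, p.2.1 + q.2.1, p.2.2 + q.2.2 + (p.1 * q.2.1 - p.2.1 * q.1))

/-- The action of a two by two matrix. -/
def act (k : K2) (p : P3) : P3 :=
  (k 0 0 * p.1 + k 0 1 * p.2.1, k 1 0 * p.1 + k 1 1 * p.2.1, p.2.2)

/-- The unipotent radical. -/
def nMat (p : P3) : MM :=
  fromBlocks !![1, -p.2.1; 0, 1] !![p.2.2, p.1; p.1, 0] 0 !![1, 0; p.2.1, 1]

/-- The Levi factor. -/
def dMat (k : K2) : MM :=
  fromBlocks !![1, 0; 0, k 0 0] !![0, 0; 0, k 0 1] !![0, 0; 0, k 1 0] !![1, 0; 0, k 1 1]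

theorem nMat_hmul (p q : P3) : nMat p * nMat q = nMat (hmul p q) := by
  unfold nMat hmul
  rw [fromBlocks_multiply]
  ext (i | i) (j | j) <;> fin_cases i <;> fin_cases j <;>
    simp [Matrix.mul_apply, Fin.sum_univ_two, Matrix.vecMul, dotProduct] <;> ring

theorem nMat_zero : nMat 0 = 1 := by decide +kernel

theorem dMat_mul (k l : K2) : dMat k * dMat l = dMat (k * l) := by
  unfold dMat
  rw [fromBlocks_multiply]
  ext (i | i) (j | j) <;> fin_cases i <;> fin_cases j <;>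
    simp [Matrix.mul_apply, Fin.sum_univ_two]

theorem dMat_one : dMat 1 = 1 := by decide +kernel

theorem dMat_nMat (k : K2) (hk : k 0 0 * k 1 1 - k 0 1 * k 1 0 = 1) (p : P3) :
    dMat k * nMat p = nMat (act k p) * dMat k := by
  unfold dMat nMat act
  rw [fromBlocks_multiply, fromBlocks_multiply]
  ext (i | i) (j | j) <;> fin_cases i <;> fin_cases j <;>
    simp [Matrix.mul_apply, Fin.sum_univ_two] <;>
    first
      | ring1
      | linear_combination p.1 * hk
      | linear_combination -p.1 * hk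
      | linear_combination p.2.1 * hk
      | linear_combination -p.2.1 * hk

theorem nMat_mem_aux (p : P3) :
    nMat p * Matrix.J (Fin 2) (ZMod 3) * (nMat p)ᵀ = Matrix.J (Fin 2) (ZMod 3) := by
  unfold nMat Matrix.J
  rw [fromBlocks_transpose, fromBlocks_multiply, fromBlocks_multiply]
  ext (i | i) (j | j) <;> fin_cases i <;> fin_cases j <;>
    simp [Matrix.mul_apply, Fin.sum_univ_two, Matrix.vecMul, dotProduct] <;> ring

theorem dMat_mem_aux (k : K2) (hk : k 0 0 * k 1 1 - k 0 1 * k 1 0 = 1) :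
    dMat k * Matrix.J (Fin 2) (ZMod 3) * (dMat k)ᵀ = Matrix.J (Fin 2) (ZMod 3) := by
  unfold dMat Matrix.J
  rw [fromBlocks_transpose, fromBlocks_multiply, fromBlocks_multiply]
  ext (i | i) (j | j) <;> fin_cases i <;> fin_cases j <;>
    simp [Matrix.mul_apply, Fin.sum_univ_two, Matrix.vecMul, dotProduct] <;>
    first
      | ring1
      | linear_combination hk
      | linear_combination -hk

theorem nMat_mem (p : P3) : nMat p ∈ SP := SymplecticGroup.mem_iff.2 (nMat_mem_aux p)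

theorem dMat_mem {k : K2} (hk : k 0 0 * k 1 1 - k 0 1 * k 1 0 = 1) : dMat k ∈ SP :=
  SymplecticGroup.mem_iff.2 (dMat_mem_aux k hk)

theorem det_eq (k : SpecialLinearGroup (Fin 2) (ZMod 3)) :
    (k : K2) 0 0 * (k : K2) 1 1 - (k : K2) 0 1 * (k : K2) 1 0 = 1 := by
  rw [← Matrix.det_fin_two]; exact k.2

/-- The element of `Sp₄(3)` with given coordinates. -/
def elt (p : P3) (k : SpecialLinearGroup (Fin 2) (ZMod 3)) : SP :=
  ⟨nMat p * dMat (k : K2), Submonoid.mul_mem _ (nMat_mem p) (dMat_mem (det_eq k))⟩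

theorem elt_mul (p q : P3) (k l : SpecialLinearGroup (Fin 2) (ZMod 3)) :
    elt p k * elt q l = elt (hmul p (act (k : K2) q)) (k * l) := by
  apply Subtype.ext
  show nMat p * dMat (k : K2) * (nMat q * dMat (l : K2)) = _ * dMat ((k * l : SpecialLinearGroup (Fin 2) (ZMod 3)) : K2)
  have hkl : ((k * l : SpecialLinearGroup (Fin 2) (ZMod 3)) : K2) = (k : K2) * (l : K2) := rfl
  rw [hkl, ← dMat_mul, ← nMat_hmul, mul_assoc (nMat p),
    ← mul_assoc (dMat (k : K2)), dMat_nMat _ (det_eq k) q]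
  simp only [mul_assoc]

/-- The central transvection. -/
def zElt : SP := ⟨nMat (0, 0, 1), nMat_mem _⟩

theorem zElt_not_center : zElt ∉ Subgroup.center SP := by
  rw [ClassicalLinear.mem_center_sp_iff (by norm_num)]
  show ¬ (nMat (0, 0, 1) = 1 ∨ nMat (0, 0, 1) = -1)
  decide +kernel

theorem elt_center {p : P3} {k : SpecialLinearGroup (Fin 2) (ZMod 3)}
    (h : elt p k ∈ Subgroup.center SP) : p = 0 ∧ k = 1 := by
  have key : ∀ (p : P3) (k : K2), (nMat p * dMat k = 1 ∨ nMat p * dMat k = -1) → p = 0 ∧ k = 1 := by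
    intro p k h
    rcases h with h | h
    · have e : ∀ i j, (nMat p * dMat k) i j = (1 : MM) i j := fun i j => by rw [h]
      have a1 := e (Sum.inl 1) (Sum.inr 0)
      have a2 := e (Sum.inr 1) (Sum.inr 0)
      have a3 := e (Sum.inl 0) (Sum.inr 0)
      have b1 := e (Sum.inl 1) (Sum.inl 1)
      have b2 := e (Sum.inl 1) (Sum.inr 1)
      have b3 := e (Sum.inr 1) (Sum.inl 1)
      have b4 := e (Sum.inr 1) (Sum.inr 1)
      simp [Matrix.mul_apply, Fintype.sum_sum_type, Fin.sum_univ_two, nMat, dMat] at a1 a2 a3 b1 b2 b3 b4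
      refine ⟨Prod.ext a1 (Prod.ext a2 a3), ?_⟩
      ext i j
      fin_cases i <;> fin_cases j <;> simp [b1, b2, b3, b4]
    · exfalso
      have a := congrFun (congrFun h (Sum.inr 0)) (Sum.inr 0)
      simp [Matrix.mul_apply, Fintype.sum_sum_type, Fin.sum_univ_two, nMat, dMat] at a
      exact absurd a (by decide)
  obtain ⟨h1, h2⟩ := key p (k : K2) ((ClassicalLinear.mem_center_sp_iff (by norm_num)).1 h)
  exact ⟨h1, Subtype.ext h2⟩

/-- Elements commuting with the transvection fix the vector up to sign. -/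
theorem entries_of_commute {y : MM} (h : y * nMat (0, 0, 1) = nMat (0, 0, 1) * y) :
    y (Sum.inl 1) (Sum.inl 0) = 0 ∧ y (Sum.inr 0) (Sum.inl 0) = 0 ∧
      y (Sum.inr 1) (Sum.inl 0) = 0 ∧ y (Sum.inr 0) (Sum.inl 1) = 0 ∧
      y (Sum.inr 0) (Sum.inr 1) = 0 ∧ y (Sum.inr 0) (Sum.inr 0) = y (Sum.inl 0) (Sum.inl 0) := by
  have e : ∀ i j, (y * nMat (0, 0, 1)) i j = (nMat (0, 0, 1) * y) i j := fun i j => by rw [h]
  have a1 := e (Sum.inl 1) (Sum.inr 0)
  have a2 := e (Sum.inr 0) (Sum.inr 0)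
  have a3 := e (Sum.inr 1) (Sum.inr 0)
  have a4 := e (Sum.inl 0) (Sum.inl 1)
  have a5 := e (Sum.inl 0) (Sum.inr 1)
  have a6 := e (Sum.inl 0) (Sum.inr 0)
  simp [Matrix.mul_apply, Fintype.sum_sum_type, Fin.sum_univ_two, nMat] at a1 a2 a3 a4 a5 a6
  refine ⟨?_, ?_, ?_, ?_, ?_, ?_⟩
  · linear_combination a1
  · linear_combination a2
  · linear_combination a3
  · linear_combination a4
  · linear_combination a5
  · linear_combination -a6

/-- Symplectic elements fixing both vectors of a hyperbolic pair lie in the Levi factor. -/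
theorem exists_dMat {y : MM} (hy : y * Matrix.J (Fin 2) (ZMod 3) * yᵀ = Matrix.J (Fin 2) (ZMod 3))
    (h00 : y (Sum.inl 0) (Sum.inl 0) = 1)
    (h10 : y (Sum.inl 1) (Sum.inl 0) = 0) (h20 : y (Sum.inr 0) (Sum.inl 0) = 0)
    (h30 : y (Sum.inr 1) (Sum.inl 0) = 0) (h21 : y (Sum.inr 0) (Sum.inl 1) = 0)
    (h23 : y (Sum.inr 0) (Sum.inr 1) = 0) (h02 : y (Sum.inl 0) (Sum.inr 0) = 0)
    (h12 : y (Sum.inl 1) (Sum.inr 0) = 0) (h22 : y (Sum.inr 0) (Sum.inr 0) = 1)
    (h32 : y (Sum.inr 1) (Sum.inr 0) = 0) :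
    ∃ k : SpecialLinearGroup (Fin 2) (ZMod 3), y = dMat (k : K2) := by
  have e : ∀ i j, (y * Matrix.J (Fin 2) (ZMod 3) * yᵀ) i j = Matrix.J (Fin 2) (ZMod 3) i j :=
    fun i j => by rw [hy]
  have a1 := e (Sum.inl 1) (Sum.inr 1)
  have a2 := e (Sum.inl 0) (Sum.inl 1)
  have a3 := e (Sum.inl 0) (Sum.inr 1)
  simp [Matrix.mul_apply, Fintype.sum_sum_type, Fin.sum_univ_two, Matrix.J, Matrix.transpose_apply,
    Matrix.one_apply, h00, h10, h20, h30, h02, h12, h32] at a1 a2 a3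
  set k : K2 := !![y (Sum.inl 1) (Sum.inl 1), y (Sum.inl 1) (Sum.inr 1);
    y (Sum.inr 1) (Sum.inl 1), y (Sum.inr 1) (Sum.inr 1)] with hk
  have hdet : k.det = 1 := by
    rw [Matrix.det_fin_two, hk]
    simp
    linear_combination -a1
  have z1 : y (Sum.inl 0) (Sum.inl 1) = 0 := by
    linear_combination -y (Sum.inl 1) (Sum.inl 1) * a3 + y (Sum.inr 1) (Sum.inl 1) * a2 +
      y (Sum.inl 0) (Sum.inl 1) * a1
  have z3 : y (Sum.inl 0) (Sum.inr 1) = 0 := by
    linear_combination -y (Sum.inl 1) (Sum.inr 1) * a3 + y (Sum.inr 1) (Sum.inr 1) * a2 +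
      y (Sum.inl 0) (Sum.inr 1) * a1
  refine ⟨⟨k, hdet⟩, ?_⟩
  ext i j
  rcases i with i | i <;> rcases j with j | j <;> fin_cases i <;> fin_cases j <;>
    simp [dMat, hk, h00, h10, h20, h30, h21, h23, h02, h12, h22, h32, z1, z3]

/-- The centralizer of the image of the transvection consists of the coordinate elements. -/
theorem exists_elt_of_commute_mk {y : SP}
    (h : Commute (QuotientGroup.mk y : Cfsg.PSp 2 (ZMod 3)) (QuotientGroup.mk zElt)) :
    ∃ p k, (QuotientGroup.mk (elt p k) : Cfsg.PSp 2 (ZMod 3)) = QuotientGroup.mk y := by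
  have hcomm : y * zElt = zElt * y := by
    have hmem : (zElt * y)⁻¹ * (y * zElt) ∈ Subgroup.center SP := by
      rw [← QuotientGroup.eq, QuotientGroup.mk_mul, QuotientGroup.mk_mul]
      exact h.eq.symm
    set ζ := (zElt * y)⁻¹ * (y * zElt) with hζ
    have hconj : y * zElt * y⁻¹ = zElt * ζ := by
      have : y * zElt * y⁻¹ = zElt * (y * ζ * y⁻¹) := by rw [hζ]; group
      rw [this, Subgroup.mem_center_iff.1 hmem y, mul_inv_cancel_right]
    have hz3 : zElt ^ 3 = 1 := by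
      apply Subtype.ext
      show (nMat (0, 0, 1)) ^ 3 = 1
      decide +kernel
    have hζ3 : ζ ^ 3 = 1 := by
      have := congrArg (· ^ 3) hconj
      simp only [conj_pow, hz3, mul_one, mul_inv_cancel] at this
      rw [Commute.mul_pow (Subgroup.mem_center_iff.1 hmem zElt), hz3, one_mul] at this
      exact this.symm
    have hζ2 : ζ ^ 2 = 1 := by
      rcases (ClassicalLinear.mem_center_sp_iff (by norm_num)).1 hmem with e | e
      · apply Subtype.ext; show (ζ : MM) ^ 2 = 1; rw [e, one_pow]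
      · apply Subtype.ext; show (ζ : MM) ^ 2 = 1; rw [e, neg_one_sq]
    have hζ1 : ζ = 1 := by
      rw [pow_succ, hζ2, one_mul] at hζ3; exact hζ3
    rwa [hζ1, mul_one, mul_inv_eq_iff_eq_mul] at hconj
  have hm : (y : MM) * nMat (0, 0, 1) = nMat (0, 0, 1) * (y : MM) := congrArg Subtype.val hcomm
  obtain ⟨e1, e2, e3, e4, e5, e6⟩ := entries_of_commute hm
  have hsq : (y : MM) (Sum.inl 0) (Sum.inl 0) ^ 2 = 1 := by
    have h2 : ((y : MM)ᵀ * Matrix.J (Fin 2) (ZMod 3) * (y : MM)) (Sum.inr 0) (Sum.inl 0) =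
        Matrix.J (Fin 2) (ZMod 3) (Sum.inr 0) (Sum.inl 0) := by
      rw [SymplecticGroup.mem_iff'.1 y.2]
    simp [Matrix.mul_apply, Fintype.sum_sum_type, Fin.sum_univ_two, Matrix.J, Matrix.transpose_apply,
      Matrix.one_apply, e1, e2, e3] at h2
    rw [e6] at h2
    linear_combination h2
  obtain ⟨u, hu, huc⟩ : ∃ u : SP, (QuotientGroup.mk u : Cfsg.PSp 2 (ZMod 3)) = QuotientGroup.mk y ∧
      (u : MM) (Sum.inl 0) (Sum.inl 0) = 1 ∧
      (u : MM) * nMat (0, 0, 1) = nMat (0, 0, 1) * (u : MM) := by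
    rcases (sq_eq_one_iff.1 hsq) with h1 | h1
    · exact ⟨y, rfl, h1, hm⟩
    · refine ⟨⟨-(y : MM), SymplecticGroup.neg_mem y.2⟩, ?_, ?_, ?_⟩
      · refine QuotientGroup.eq.2 ?_
        rw [ClassicalLinear.mem_center_sp_iff (by norm_num)]
        right
        have he : (⟨-(y : MM), SymplecticGroup.neg_mem y.2⟩ : SP) =
            y * ⟨-1, SymplecticGroup.neg_mem (one_mem _)⟩ := Subtype.ext (by simp)
        have hn : (⟨-1, SymplecticGroup.neg_mem (one_mem _)⟩ : SP) *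
            ⟨-1, SymplecticGroup.neg_mem (one_mem _)⟩ = 1 := Subtype.ext (by simp)
        rw [he, _root_.mul_inv_rev, inv_eq_of_mul_eq_one_right hn, inv_mul_cancel_right]
      · show -((y : MM) (Sum.inl 0) (Sum.inl 0)) = 1
        rw [h1, neg_neg]
      · show -(y : MM) * _ = _ * -(y : MM)
        rw [neg_mul, mul_neg, hm]
  obtain ⟨hu00, hum⟩ := huc
  obtain ⟨f1, f2, f3, f4, f5, f6⟩ := entries_of_commute hum
  rw [hu00] at f6
  set p : P3 := (-(u : MM) (Sum.inl 1) (Sum.inr 0), -(u : MM) (Sum.inr 1) (Sum.inr 0),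
    -(u : MM) (Sum.inl 0) (Sum.inr 0)) with hp
  set w := nMat p * (u : MM) with hw
  obtain ⟨k, hk⟩ := exists_dMat (y := w)
    (SymplecticGroup.mem_iff.1 (Submonoid.mul_mem _ (nMat_mem p) u.2))
    (by simp [hw, nMat, Matrix.mul_apply, Fintype.sum_sum_type, Fin.sum_univ_two, hu00, f1, f2, f3])
    (by simp [hw, nMat, Matrix.mul_apply, Fintype.sum_sum_type, Fin.sum_univ_two, hu00, f1, f2, f3])
    (by simp [hw, nMat, Matrix.mul_apply, Fintype.sum_sum_type, Fin.sum_univ_two, hu00, f1, f2, f3])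
    (by simp [hw, nMat, Matrix.mul_apply, Fintype.sum_sum_type, Fin.sum_univ_two, hu00, f1, f2, f3])
    (by simp [hw, nMat, Matrix.mul_apply, Fintype.sum_sum_type, Fin.sum_univ_two, f4])
    (by simp [hw, nMat, Matrix.mul_apply, Fintype.sum_sum_type, Fin.sum_univ_two, f5])
    (by simp [hw, hp, nMat, Matrix.mul_apply, Fintype.sum_sum_type, Fin.sum_univ_two, f6]; ring)
    (by simp [hw, hp, nMat, Matrix.mul_apply, Fintype.sum_sum_type, Fin.sum_univ_two, f6])
    (by simp [hw, nMat, Matrix.mul_apply, Fintype.sum_sum_type, Fin.sum_univ_two, f6])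
    (by simp [hw, hp, nMat, Matrix.mul_apply, Fintype.sum_sum_type, Fin.sum_univ_two, f6])
  refine ⟨(-p.1, -p.2.1, -p.2.2), k, ?_⟩
  rw [← hu]
  refine congrArg _ (Subtype.ext ?_)
  show nMat (-p.1, -p.2.1, -p.2.2) * dMat (k : K2) = (u : MM)
  rw [← hk, hw, ← mul_assoc, nMat_hmul]
  have : hmul (-p.1, -p.2.1, -p.2.2) p = 0 := by
    generalize p = q
    revert q
    decide +kernel
  rw [this, nMat_zero, one_mul]

end CfsgLib.Spectrum.ThreeCentral
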