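/-
Coordinates in a group with a normal Heisenberg subgroup of order 27 and an inverting involution.
-/
import Cfsg.Agent.Lib.Spectrum.ThreeCentralModel
import Mathlib

set_option autoImplicit false

namespace CfsgLib.Spectrum.ThreeCentral

variable {X : Type*} [Group X]

/-- Powers with exponent in `ZMod 3`. -/
def zp (w : X) (x : ZMod 3) : X := w ^ x.val

theorem pow_eq_pow_of_cast_eq {w : X} (hw : w ^ 3 = 1) {m n : ℕ} (h : (m : ZMod 3) = (n : ZMod 3)) :
    w ^ m = w ^ n := by
  rw [pow_eq_pow_mod m hw, pow_eq_pow_mod n hw, (ZMod.natCast_eq_natCast_iff' m n 3).1 h]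

theorem zp_add {w : X} (hw : w ^ 3 = 1) (x y : ZMod 3) : zp w (x + y) = zp w x * zp w y := by
  rw [zp, zp, zp, ← pow_add]
  exact pow_eq_pow_of_cast_eq hw (by simp)

theorem zp_zero (w : X) : zp w 0 = 1 := by simp [zp]

theorem zp_one (w : X) : zp w 1 = w := pow_one w

/-- `a^i b^j z^(m - ij)`. -/
def coord (a b z : X) (p : P3) : X := zp a p.1 * zp b p.2.1 * zp z (p.2.2 - p.1 * p.2.1)

variable {a b z : X} (ha : a ^ 3 = 1) (hb : b ^ 3 = 1) (hz : z ^ 3 = 1) (hza : Commute z a)
  (hzb : Commute z b) (hba : b * a = a * b * z)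

include hza hzb hba in
theorem pow_swap (i j : ℕ) : b ^ j * a ^ i = a ^ i * b ^ j * z ^ (i * j) := by
  have h1 : ∀ i : ℕ, b * a ^ i = a ^ i * b * z ^ i := by
    intro i
    induction i with
    | zero => simp
    | succ i ih =>
      rw [pow_succ a, ← mul_assoc, ih, mul_assoc _ (z ^ i), (hza.pow_left i).eq, ← mul_assoc,
        mul_assoc (a ^ i) b a, hba, pow_succ' z]
      simp only [mul_assoc]
  induction j with
  | zero => simp
  | succ j ih =>
    calc b ^ (j + 1) * a ^ i = b ^ j * (b * a ^ i) := by rw [pow_succ, mul_assoc]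
      _ = (b ^ j * a ^ i) * b * z ^ i := by rw [h1]; simp only [mul_assoc]
      _ = a ^ i * b ^ j * (z ^ (i * j) * b) * z ^ i := by rw [ih]; simp only [mul_assoc]
      _ = a ^ i * b ^ j * b * (z ^ (i * j) * z ^ i) := by
          rw [(hzb.pow_left _).eq]; simp only [mul_assoc]
      _ = a ^ i * b ^ (j + 1) * z ^ (i * (j + 1)) := by
          rw [← pow_add, mul_assoc (a ^ i), ← pow_succ, mul_add, mul_one]

include ha hb hz hza hzb hba in
theorem coord_mul (p q : P3) : coord a b z p * coord a b z q = coord a b z (hmul p q) := by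
  have e : zp b p.2.1 * zp a q.1 = zp a q.1 * zp b p.2.1 * zp z (q.1 * p.2.1) := by
    rw [zp, zp, zp, pow_swap hza hzb hba]
    congr 1
    exact pow_eq_pow_of_cast_eq hz (by simp)
  simp only [coord, hmul]
  rw [zp_add ha, zp_add hb]
  set A1 := zp a p.1
  set A2 := zp a q.1
  set B1 := zp b p.2.1
  set B2 := zp b q.2.1
  set u := p.2.2 - p.1 * p.2.1
  set v := q.2.2 - q.1 * q.2.1
  have cz : ∀ x, Commute (zp z x) B2 := fun x => hzb.pow_pow _ _
  have ca : ∀ x, Commute (zp z x) A2 := fun x => hza.pow_pow _ _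
  calc A1 * B1 * zp z u * (A2 * B2 * zp z v)
      = A1 * B1 * (zp z u * A2) * B2 * zp z v := by simp only [mul_assoc]
    _ = A1 * (B1 * A2) * (zp z u * B2) * zp z v := by rw [(ca _).eq]; simp only [mul_assoc]
    _ = A1 * A2 * B1 * (zp z (q.1 * p.2.1) * B2) * (zp z u * zp z v) := by
        rw [e, (cz u).eq]; simp only [mul_assoc]
    _ = A1 * A2 * (B1 * B2) * (zp z (q.1 * p.2.1) * (zp z u * zp z v)) := by
        rw [(cz _).eq]; simp only [mul_assoc]
    _ = _ := by
        rw [← zp_add hz, ← zp_add hz]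
        congr 2
        simp only [u, v]
        have h3 : (3 : ZMod 3) = 0 := rfl
        linear_combination q.1 * p.2.1 * h3

theorem coord_zero : coord a b z (0 : P3) = 1 := by simp [coord, zp]

theorem coord_100 : coord a b z (1, 0, 0) = a := by simp [coord, zp_zero, zp_one]

theorem coord_010 : coord a b z (0, 1, 0) = b := by simp [coord, zp_zero, zp_one]

theorem coord_001 : coord a b z (0, 0, 1) = z := by simp [coord, zp_zero, zp_one]

theorem hmul_inv : ∀ p : P3, hmul (-p.1, -p.2.1, -p.2.2) p = 0 := by decide +kernel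

include ha hb hz hza hzb hba in
theorem coord_injective (hz1 : z ≠ 1)
    (hind : ∀ i j m : ZMod 3, zp a i * zp b j = zp z m → i = 0 ∧ j = 0) :
    Function.Injective (coord a b z) := by
  intro p q h
  have h1 : coord a b z (hmul (-p.1, -p.2.1, -p.2.2) q) = 1 := by
    rw [← coord_mul ha hb hz hza hzb hba, ← h, coord_mul ha hb hz hza hzb hba, hmul_inv, coord_zero]
  have h0 : hmul (-p.1, -p.2.1, -p.2.2) q = 0 := by
    generalize hmul (-p.1, -p.2.1, -p.2.2) q = r at h1
    simp only [coord] at h1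
    have h2 : zp a r.1 * zp b r.2.1 = zp z (-(r.2.2 - r.1 * r.2.1)) := by
      rw [eq_inv_of_mul_eq_one_left h1]
      refine inv_eq_of_mul_eq_one_right ?_
      rw [← zp_add hz, add_neg_cancel, zp_zero]
    obtain ⟨hi, hj⟩ := hind _ _ _ h2
    rw [hi, hj, zp_zero, zp_zero, one_mul, one_mul, zero_mul, sub_zero] at h1
    have hm : r.2.2 = 0 := by
      by_contra hm
      have hord : orderOf z = 3 := by
        have : Fact (Nat.Prime 3) := ⟨Nat.prime_three⟩
        exact orderOf_eq_prime hz hz1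
      have hd := orderOf_dvd_of_pow_eq_one h1
      rw [hord] at hd
      have hlt := ZMod.val_lt r.2.2
      have hne : r.2.2.val ≠ 0 := fun h0 => hm ((ZMod.val_eq_zero _).1 h0)
      omega
    exact Prod.ext hi (Prod.ext hj hm)
  have key : ∀ p q : P3, hmul (-p.1, -p.2.1, -p.2.2) q = 0 → p = q := by decide +kernel
  exact key p q h0

include ha hb hz hza hzb hba in
/-- An automorphism sending `a` and `b` to inverted elements and fixing `z` acts by a matrix. -/
theorem conj_coord {k : X} {k00 k10 k01 k11 : ZMod 3} (hka : k * a * k⁻¹ = coord a b z (k00, k10, 0))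
    (hkb : k * b * k⁻¹ = coord a b z (k01, k11, 0)) (hkz : k * z * k⁻¹ = z)
    (hdet : k00 * k11 - k01 * k10 = 1) (p : P3) :
    k * coord a b z p * k⁻¹ = coord a b z (act !![k00, k01; k10, k11] p) := by
  have hpw : ∀ (i : ℕ) (x y : ZMod 3),
      coord a b z (x, y, 0) ^ i = coord a b z ((i : ZMod 3) * x, (i : ZMod 3) * y, 0) := by
    intro i x y
    induction i with
    | zero =>
      rw [pow_zero, Nat.cast_zero, zero_mul, zero_mul]
      exact coord_zero.symm
    | succ i ih =>
      rw [pow_succ, ih, coord_mul ha hb hz hza hzb hba]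
      congr 1
      simp only [hmul]
      push_cast
      refine Prod.ext ?_ (Prod.ext ?_ ?_) <;> ring
  have hc : ∀ (w : X) (i : ZMod 3), k * zp w i * k⁻¹ = zp (k * w * k⁻¹) i := fun w i =>
    (conj_pow).symm
  have hsplit : k * coord a b z p * k⁻¹ =
      (k * zp a p.1 * k⁻¹) * (k * zp b p.2.1 * k⁻¹) * (k * zp z (p.2.2 - p.1 * p.2.1) * k⁻¹) := by
    simp only [coord]; group
  rw [hsplit, hc, hc, hc, hka, hkb, hkz]
  show coord a b z (k00, k10, 0) ^ p.1.val * coord a b z (k01, k11, 0) ^ p.2.1.val *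
    zp z (p.2.2 - p.1 * p.2.1) = _
  rw [hpw, hpw, ZMod.natCast_zmod_val, ZMod.natCast_zmod_val, coord_mul ha hb hz hza hzb hba]
  have hzc : zp z (p.2.2 - p.1 * p.2.1) = coord a b z (0, 0, p.2.2 - p.1 * p.2.1) := by
    simp [coord, zp_zero]
  rw [hzc, coord_mul ha hb hz hza hzb hba]
  congr 1
  simp only [hmul, act]
  refine Prod.ext ?_ (Prod.ext ?_ ?_)
  · simp; ring
  · simp; ring
  · simp
    linear_combination p.1 * p.2.1 * hdet

include ha hb hz hza hzb hba in
/-- An element fixing `z` and sending `a`, `b` to inverted elements has determinant one. -/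
theorem det_one (hinj : Function.Injective (coord a b z)) {k : X} {k00 k10 k01 k11 : ZMod 3}
    (hka : k * a * k⁻¹ = coord a b z (k00, k10, 0))
    (hkb : k * b * k⁻¹ = coord a b z (k01, k11, 0)) (hkz : k * z * k⁻¹ = z) :
    k00 * k11 - k01 * k10 = 1 := by
  have h : (k * b * k⁻¹) * (k * a * k⁻¹) = (k * a * k⁻¹) * (k * b * k⁻¹) * (k * z * k⁻¹) := by
    rw [show (k * b * k⁻¹) * (k * a * k⁻¹) = k * (b * a) * k⁻¹ by group, hba]; group
  rw [hka, hkb, hkz] at h
  have hz' : coord a b z (k00, k10, 0) * coord a b z (k01, k11, 0) * z =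
      coord a b z (k00, k10, 0) * coord a b z (k01, k11, 0) * coord a b z (0, 0, 1) := by
    rw [coord_001]
  replace h := h.trans hz'
  rw [coord_mul ha hb hz hza hzb hba, coord_mul ha hb hz hza hzb hba,
    coord_mul ha hb hz hza hzb hba] at h
  have h' := (hinj h)
  simp only [hmul, Prod.mk.injEq] at h'
  have h3 : (3 : ZMod 3) = 0 := rfl
  linear_combination h'.2.2 + (k00 * k11 - k01 * k10) * h3

end CfsgLib.Spectrum.ThreeCentral
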