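/-
Groups with `O₃` extraspecial of order 27 and exponent 3 and quotient `SL₂(3)`.
-/
import Cfsg.Prelude.Def_Transfer
import Cfsg.Prelude.Def_Solvable
import Cfsg.Prelude.Def_CaseTheorems
import Mathlib

set_option autoImplicit false

open scoped commutatorElement

namespace CfsgLib.Spectrum.ThreeCentral

abbrev S2 := Matrix.SpecialLinearGroup (Fin 2) (ZMod 3)

theorem sl_invol : ∀ g : S2, g * g = 1 → g = 1 ∨ g = -1 := by decide +kernel

theorem sl_neg_ne : (-1 : S2) ≠ 1 := by decide +kernel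

theorem sl_neg_sq : (-1 : S2) * -1 = 1 := by decide +kernel

theorem sl_neg_comm : ∀ g : S2, g * -1 = -1 * g := by decide +kernel

theorem sl_squares : ∀ g : S2, ∃ a b : S2, g = a * a * (b * b) := by decide +kernel

theorem sl_conj : ∀ g h : S2, g ^ 4 = 1 → h ^ 4 = 1 → h * g * h⁻¹ = g ∨ h * g * h⁻¹ = g⁻¹ := by
  decide +kernel

theorem sl_decomp : ∀ η x : S2, η ^ 3 = 1 → η ≠ 1 →
    (x * η ^ 0) ^ 4 = 1 ∨ (x * η ^ 1) ^ 4 = 1 ∨ (x * η ^ 2) ^ 4 = 1 := by
  decide +kernel

theorem sl_pow : ∀ g : S2, g ^ 12 = 1 := by decide +kernel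

theorem card_S2 : Nat.card S2 = 24 := by
  rw [Nat.card_eq_fintype_card]; decide +kernel

variable {X : Type*} [Group X] [Finite X]

/-- The structure of such a group: a normal Heisenberg group with adapted generators and an
inverting involution centralized by a complement. -/
theorem exists_structure (hR : Cfsg.IsExtraspecial 3 (Cfsg.pCore 3 X))
    (hRcard : Nat.card (Cfsg.pCore 3 X) = 27) (hRexp : ∀ r ∈ Cfsg.pCore 3 X, r ^ 3 = 1)
    (e : X ⧸ Cfsg.pCore 3 X ≃* S2) (hO2 : Cfsg.pCore 2 X = ⊥)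
    (hE : ∃ E : Subgroup X, IsMulCommutative E ∧ (∀ a ∈ E, a ^ 3 = 1) ∧ Nat.card E = 27) :
    ∃ (a b z t : X) (K : Subgroup X),
      a ∈ Cfsg.pCore 3 X ∧ b ∈ Cfsg.pCore 3 X ∧ z ∈ Cfsg.pCore 3 X ∧ z ≠ 1 ∧
      (∀ x : X, Commute z x) ∧ b * a = a * b * z ∧
      (∀ i j m : ℕ, a ^ i * b ^ j = z ^ m → 3 ∣ i ∧ 3 ∣ j) ∧
      t * a * t⁻¹ = a⁻¹ ∧ t * b * t⁻¹ = b⁻¹ ∧ (∀ k ∈ K, Commute t k) ∧
      Nat.card K = 24 ∧ (∀ k ∈ K, k ∈ Cfsg.pCore 3 X → k = 1) ∧
      (∀ k ∈ K, Commute k a → Commute k b → k = 1) ∧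
      (∀ x : X, ∃ k ∈ K, x * k⁻¹ ∈ Cfsg.pCore 3 X) := by
  classical
  have : Fact (Nat.Prime 3) := ⟨Nat.prime_three⟩
  have : Fact (Nat.Prime 2) := ⟨Nat.prime_two⟩
  set R := Cfsg.pCore 3 X with hRdef
  let π : X →* S2 := e.toMonoidHom.comp (QuotientGroup.mk' R)
  have hπsurj : Function.Surjective π := e.surjective.comp (QuotientGroup.mk'_surjective R)
  have hker : ∀ x, π x = 1 ↔ x ∈ R := fun x => by
    rw [← QuotientGroup.eq_one_iff (N := R) x]
    exact map_eq_one_iff e e.injective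
  have hRn : R.Normal := ⟨fun r hr g => (hker _).1 (by rw [map_mul, map_mul, (hker r).2 hr, mul_one, ← map_mul, mul_inv_cancel, map_one])⟩
  obtain ⟨⟨-, -, hcommC⟩, hZcard⟩ := hR
  -- the centre of `R`
  set Z := (Subgroup.center R).map R.subtype with hZ
  have hZR : Z ≤ R := Subgroup.map_subtype_le _
  have hmemZ : ∀ x, x ∈ Z ↔ x ∈ R ∧ ∀ r ∈ R, Commute x r := by
    intro x
    constructor
    · rintro ⟨x, hx, rfl⟩
      exact ⟨x.2, fun r hr => (congrArg Subtype.val (Subgroup.mem_center_iff.1 hx ⟨r, hr⟩)).symm⟩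
    · rintro ⟨hx, h⟩
      exact ⟨⟨x, hx⟩, Subgroup.mem_center_iff.2 fun r => Subtype.ext (h r r.2).symm.eq, rfl⟩
  have hcardZ : Nat.card Z = 3 := by
    rw [hZ, Subgroup.card_map_of_injective R.subtype_injective, hZcard]
  have hZn : Z.Normal := ⟨fun x hx g => by
    rw [hmemZ] at hx ⊢
    refine ⟨hRn.conj_mem x hx.1 g, fun r hr => ?_⟩
    have h' := hx.2 (g⁻¹ * r * g) (by simpa using hRn.conj_mem r hr g⁻¹)
    have := h'.map (MulAut.conj g).toMonoidHom
    simpa [mul_assoc] using this⟩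
  have hcommZ : ∀ r ∈ R, ∀ s ∈ R, r * s * r⁻¹ * s⁻¹ ∈ Z := by
    intro r hr s hs
    have hm : ⁅(⟨r, hr⟩ : R), (⟨s, hs⟩ : R)⁆ ∈ Subgroup.center R := by
      rw [← hcommC, commutator_def]
      exact Subgroup.commutator_mem_commutator (Subgroup.mem_top _) (Subgroup.mem_top _)
    exact ⟨_, hm, rfl⟩
  obtain ⟨z, hzZ, hz1⟩ : ∃ z ∈ Z, z ≠ 1 := by
    have hne : Z ≠ ⊥ := fun h => by rw [h, Subgroup.card_bot] at hcardZ; omega
    obtain ⟨z, hz⟩ := Subgroup.ne_bot_iff_exists_ne_one.1 hne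
    exact ⟨z, z.2, fun h => hz (Subtype.ext h)⟩
  have hzo : orderOf z = 3 := orderOf_eq_prime (hRexp z (hZR hzZ)) hz1
  have hZz : Subgroup.zpowers z = Z :=
    Subgroup.eq_of_le_of_card_ge (Subgroup.zpowers_le.2 hzZ) (by rw [Nat.card_zpowers, hzo, hcardZ])
  -- the centre is central in the whole group
  have hsq : ∀ g : X, Commute (g * g) z := by
    intro g
    obtain ⟨n, hn⟩ : ∃ n : ℤ, z ^ n = g * z * g⁻¹ :=
      Subgroup.mem_zpowers_iff.1 (hZz.symm ▸ hZn.conj_mem z hzZ g)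
    have h0 : z ^ (3 : ℤ) = 1 := by exact_mod_cast hRexp z (hZR hzZ)
    have hn' : z ^ n = z ^ (n % 3) := by
      conv_lhs => rw [← Int.emod_add_mul_ediv n 3, zpow_add, zpow_mul, h0, one_zpow, mul_one]
    rw [hn'] at hn
    have h2 : ∀ w : X, g * z * g⁻¹ = w → g * g * z * (g * g)⁻¹ = g * w * g⁻¹ :=
      fun w hw => by rw [← hw]; group
    have hfin : g * g * z * (g * g)⁻¹ = z := by
      rcases (by omega : n % 3 = 0 ∨ n % 3 = 1 ∨ n % 3 = 2) with h | h | h <;> rw [h] at hn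
      · rw [zpow_zero] at hn
        exact absurd (by simpa using hn.symm) hz1
      · rw [zpow_one] at hn
        rw [h2 _ hn.symm, ← hn]
      · have hz2 : z ^ (2 : ℤ) = z⁻¹ := by
          rw [eq_inv_iff_mul_eq_one, ← zpow_add_one]; exact h0
        rw [hz2] at hn
        rw [h2 _ hn.symm, show g * z⁻¹ * g⁻¹ = (g * z * g⁻¹)⁻¹ by group, ← hn, inv_inv]
    show g * g * z = z * (g * g)
    exact mul_inv_eq_iff_eq_mul.1 hfin
  have hgen : ∀ x : X, ∃ a b : X, ∃ r ∈ R, x = a * a * (b * b) * r := by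
    intro x
    obtain ⟨a, b, hab⟩ := sl_squares (π x)
    obtain ⟨a, rfl⟩ := hπsurj a
    obtain ⟨b, rfl⟩ := hπsurj b
    exact ⟨a, b, (a * a * (b * b))⁻¹ * x,
      (hker _).1 (by rw [map_mul, map_inv, map_mul, map_mul, map_mul, ← hab, inv_mul_cancel]),
      by group⟩
  have hzc : ∀ x : X, Commute z x := by
    intro x
    obtain ⟨a, b, r, hr, rfl⟩ := hgen x
    exact ((hsq a).symm.mul_right (hsq b).symm).mul_right (((hmemZ z).1 hzZ).2 r hr)
  have hZc : ∀ w ∈ Z, ∀ x : X, Commute w x := by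
    intro w hw x
    obtain ⟨n, rfl⟩ := Subgroup.mem_zpowers_iff.1 (hZz.symm ▸ hw)
    exact (hzc x).zpow_left n
  -- the centralizer of `R`
  set C := Subgroup.centralizer (R : Set X) with hC
  have hCR : C ≤ R := by
    by_contra hCR
    have hnp : ¬ IsPGroup 3 C := fun hp => hCR (le_sSup ⟨inferInstance, hp⟩)
    obtain ⟨s, hsC, hs2⟩ : ∃ s ∈ C, orderOf s = 2 := by
      have h2 : 2 ∣ Nat.card C := by
        by_contra h2
        apply hnp
        have hdvd : Nat.card C ∣ 2 ^ 3 * 3 ^ 4 := by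
          refine (Subgroup.card_subgroup_dvd_card C).trans (dvd_of_eq ?_)
          rw [Subgroup.card_eq_card_quotient_mul_card_subgroup R, Nat.card_congr e.toEquiv, card_S2,
            hRcard]
          norm_num
        have h := Nat.Coprime.dvd_of_dvd_mul_left
          ((Nat.prime_two.coprime_iff_not_dvd.2 h2).symm.pow_right 3) hdvd
        obtain ⟨j, -, hj⟩ := (Nat.dvd_prime_pow Nat.prime_three).1 h
        exact IsPGroup.of_card hj
      obtain ⟨s, hs⟩ := exists_prime_orderOf_dvd_card' 2 h2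
      exact ⟨s, s.2, by rw [Subgroup.orderOf_coe, hs]⟩
    have hsR : s ∉ R := fun h => by
      have := orderOf_dvd_of_pow_eq_one (hRexp s h)
      rw [hs2] at this
      norm_num at this
    have hss : s * s = 1 := by rw [← pow_two, ← hs2, pow_orderOf_eq_one]
    have hπs : π s = -1 :=
      (sl_invol _ (by rw [← map_mul, hss, map_one])).resolve_left fun h => hsR ((hker s).1 h)
    have hscen : ∀ x : X, Commute x s := by
      intro x
      set w := s⁻¹ * (x * s * x⁻¹) with hw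
      have hwC : w ∈ C := C.mul_mem (C.inv_mem hsC) ((inferInstance : C.Normal).conj_mem s hsC x)
      have hwR : w ∈ R := (hker w).1 (by
        rw [hw, map_mul, map_mul, map_mul, hπs, map_inv, map_inv, hπs, sl_neg_comm,
          mul_inv_cancel_right, inv_mul_cancel])
      have hwZ : w ∈ Z := (hmemZ w).2 ⟨hwR, fun r hr => (hwC r hr).symm⟩
      have hconj : x * s * x⁻¹ = s * w := by rw [hw]; group
      have h2 : (s * w) * (s * w) = 1 := by rw [← hconj]; simp [mul_assoc, ← mul_assoc s s, hss]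
      have hw2 : w * w = 1 := by
        rw [mul_assoc, ← mul_assoc w, (hZc w hwZ s).eq, mul_assoc s w, ← mul_assoc s s, hss,
          one_mul] at h2
        exact h2
      have hw1 : w = 1 := by
        have h3 := hRexp w hwR
        rwa [pow_succ, pow_two, hw2, one_mul] at h3
      rw [hw1, mul_one] at hconj
      exact mul_inv_eq_iff_eq_mul.1 hconj
    have hle : Subgroup.zpowers s ≤ Cfsg.pCore 2 X := by
      refine le_sSup ⟨⟨fun w hw g => ?_⟩, IsPGroup.of_card (n := 1) (by rw [Nat.card_zpowers, hs2, pow_one])⟩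
      obtain ⟨n, rfl⟩ := Subgroup.mem_zpowers_iff.1 hw
      rw [((hscen g).zpow_right n).eq, mul_inv_cancel_right]
      exact hw
    rw [hO2, Subgroup.zpowers_le, Subgroup.mem_bot] at hle
    exact hsR (hle ▸ R.one_mem)
  -- the inverting involution
  obtain ⟨t, hπt, htt⟩ : ∃ t : X, π t = -1 ∧ t * t = 1 := by
    obtain ⟨x, hx⟩ := hπsurj (-1)
    refine ⟨x ^ 3, by rw [map_pow, hx, pow_succ, pow_two, sl_neg_sq, one_mul], ?_⟩
    rw [← pow_add, show 3 + 3 = 2 * 3 from rfl, pow_mul]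
    exact hRexp _ ((hker _).1 (by rw [map_pow, hx, pow_two, sl_neg_sq]))
  have htinv : t⁻¹ = t := inv_eq_of_mul_eq_one_right htt
  have htR : t ∉ R := fun h => sl_neg_ne (hπt ▸ (hker t).2 h)
  have htconj : ∀ r, t * (t * r * t) * t = r := fun r => by
    simp [mul_assoc, htt, ← mul_assoc t t]
  have hconjt : ∀ r ∈ R, t * r * t ∈ R := fun r hr => by
    have := hRn.conj_mem r hr t; rwa [htinv] at this
  have hinvol : ∀ r ∈ R, (r * t) * (r * t) = 1 → ∃ q ∈ R, q * t * q⁻¹ = r * t := by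
    intro r hr h
    have htr : t * r * t = r⁻¹ := by
      rw [eq_inv_iff_mul_eq_one]
      calc t * r * t * r = r⁻¹ * ((r * t) * (r * t)) * r := by group
        _ = 1 := by rw [h, mul_one, inv_mul_cancel]
    refine ⟨r * r, R.mul_mem hr hr, ?_⟩
    have h3 := hRexp r hr
    have hr2 : (r * r)⁻¹ = r := by
      rw [inv_eq_iff_mul_eq_one]; rw [← h3, pow_succ, pow_two]
    rw [hr2]
    calc r * r * t * r = r * r * (t * r * t) * t := by simp [mul_assoc, htt]
      _ = r * t := by rw [htr, mul_inv_cancel_right]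
  have hlift : ∀ x : X, ∃ q ∈ R, Commute t (q⁻¹ * x) := by
    intro x
    have hr : x * t * x⁻¹ * t ∈ R := (hker _).1 (by
      rw [map_mul, map_mul, map_mul, hπt, map_inv, sl_neg_comm (π x), mul_inv_cancel_right, sl_neg_sq])
    have hrt : (x * t * x⁻¹ * t) * t = x * t * x⁻¹ := by simp [mul_assoc, htt]
    obtain ⟨q, hq, hqe⟩ := hinvol _ hr (by
      rw [hrt]; simp [mul_assoc, ← mul_assoc t t, htt])
    rw [hrt] at hqe
    refine ⟨q, hq, ?_⟩
    show t * (q⁻¹ * x) = q⁻¹ * x * t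
    calc t * (q⁻¹ * x) = q⁻¹ * (q * t * q⁻¹) * x := by group
      _ = q⁻¹ * x * t := by rw [hqe]; group
  -- `t` fixes only the centre
  have hfix : ∀ r ∈ R, Commute t r → r ∈ Z := by
    intro u hu htu
    by_contra huZ
    set U := R ⊓ Subgroup.centralizer ({t} : Set X) with hU
    have hmemU : ∀ x, x ∈ U ↔ x ∈ R ∧ Commute t x := fun x => by
      rw [hU, Subgroup.mem_inf, Subgroup.mem_centralizer_singleton_iff]
      exact ⟨fun h => ⟨h.1, h.2.symm⟩, fun h => ⟨h.1, h.2.symm⟩⟩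
    have hUR : U ≤ R := inf_le_left
    have hZU : Z ≤ U := fun w hw => (hmemU w).2 ⟨hZR hw, (hZc w hw t).symm⟩
    have hlt : Z < U := lt_of_le_of_ne hZU fun h => huZ (h ▸ (hmemU u).2 ⟨hu, htu⟩)
    have hUne : U ≠ R := fun h => htR (hCR fun r hr => ((hmemU r).1 (h ▸ hr)).2.symm.eq)
    have hcardU : Nat.card U = 9 := by
      have h1 : Nat.card U ∣ 27 := hRcard ▸ Subgroup.card_dvd_of_le hUR
      have h2 : Nat.card U ≠ 27 := fun h => hUne (Subgroup.eq_of_le_of_card_ge hUR (by rw [hRcard, h]))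
      have h3 : 3 < Nat.card U := by
        by_contra h
        exact hlt.ne (Subgroup.eq_of_le_of_card_ge hZU (by omega))
      have h4 := Nat.le_of_dvd (by norm_num) h1
      generalize Nat.card U = d at h1 h2 h3 h4
      interval_cases d <;> omega
    have hUn : U.Normal := by
      refine ⟨fun w hw g => ?_⟩
      obtain ⟨q, hq, hc⟩ := hlift g
      obtain ⟨hwR, hwt⟩ := (hmemU w).1 hw
      have hg : g = q * (q⁻¹ * g) := by group
      set h := q⁻¹ * g
      have hw' : h * w * h⁻¹ ∈ U := (hmemU _).2 ⟨hRn.conj_mem w hwR h,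
        (hc.mul_right hwt).mul_right hc.inv_right⟩
      have he : g * w * g⁻¹ = (q * (h * w * h⁻¹) * q⁻¹ * (h * w * h⁻¹)⁻¹) * (h * w * h⁻¹) := by
        rw [hg]; group
      rw [he]
      exact U.mul_mem (hZU (hcommZ q hq _ (hUR hw'))) hw'
    obtain ⟨r, hr, hrU⟩ : ∃ r ∈ R, r ∉ U := by
      by_contra h
      push_neg at h
      exact hUne (le_antisymm hUR h)
    -- the stabilizer of the coset `r U`
    have hsq' : ∀ g : X, r⁻¹ * (g * g * r * (g * g)⁻¹) ∈ U := by
      intro g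
      have hidx : (U.subgroupOf R).index = 3 := by
        have h := (U.subgroupOf R).card_mul_index
        rw [Nat.card_congr (Subgroup.subgroupOfEquivOfLe hUR).toEquiv, hcardU, hRcard] at h
        omega
      have hn : (U.subgroupOf R).Normal := hUn.subgroupOf R
      let q := QuotientGroup.mk' (U.subgroupOf R)
      have hcq : Nat.card (R ⧸ U.subgroupOf R) = 3 := by rw [← Subgroup.index_eq_card, hidx]
      have hgr : g * r * g⁻¹ ∈ R := hRn.conj_mem r hr g
      have hqr : q ⟨r, hr⟩ ≠ 1 := fun h => hrU ((QuotientGroup.eq_one_iff (N := U.subgroupOf R) (⟨r, hr⟩ : R)).1 h)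
      have hcyc : Subgroup.zpowers (q ⟨r, hr⟩) = ⊤ :=
        zpowers_eq_top_of_prime_card hcq hqr
      obtain ⟨n, hn'⟩ := Subgroup.mem_zpowers_iff.1 (hcyc.symm ▸ Subgroup.mem_top (q ⟨g * r * g⁻¹, hgr⟩))
      rw [← map_zpow, QuotientGroup.mk'_eq_mk'] at hn'
      obtain ⟨w, hwU, hwe⟩ := hn'
      have hwe' : r ^ n * (w : X) = g * r * g⁻¹ := by
        have := congrArg Subtype.val hwe
        simpa using this
      have hwU' : (w : X) ∈ U := hwU
      have h3 : r ^ (3 : ℤ) = 1 := by exact_mod_cast hRexp r hr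
      have hn3 : r ^ (n % 3) = r ^ n := by
        conv_rhs => rw [← Int.emod_add_mul_ediv n 3, zpow_add, zpow_mul, h3, one_zpow, mul_one]
      rw [← hn3] at hwe'
      have hstep : g * g * r * (g * g)⁻¹ = g * (g * r * g⁻¹) * g⁻¹ := by group
      have hgw : g * (w : X) * g⁻¹ ∈ U := hUn.conj_mem _ hwU' g
      rcases (by omega : n % 3 = 0 ∨ n % 3 = 1 ∨ n % 3 = 2) with h | h | h <;> rw [h] at hwe'
      · rw [zpow_zero, one_mul] at hwe'
        exfalso
        apply hrU
        have := hUn.conj_mem _ hwU' g⁻¹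
        rw [hwe'] at this
        simpa [mul_assoc] using this
      · rw [zpow_one] at hwe'
        rw [hstep, ← hwe', show r⁻¹ * (g * (r * (w : X)) * g⁻¹) =
          r⁻¹ * (g * r * g⁻¹) * (g * w * g⁻¹) by group, ← hwe', inv_mul_cancel_left]
        exact U.mul_mem hwU' hgw
      · have hr2 : r ^ (2 : ℤ) = r⁻¹ := by
          rw [eq_inv_iff_mul_eq_one, ← zpow_add_one]; exact h3
        rw [hr2] at hwe'
        rw [hstep, ← hwe', show r⁻¹ * (g * (r⁻¹ * (w : X)) * g⁻¹) =
          r⁻¹ * (g * r * g⁻¹)⁻¹ * (g * w * g⁻¹) by group, ← hwe', _root_.mul_inv_rev, inv_inv]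
        refine U.mul_mem ?_ hgw
        have := hUn.conj_mem _ (U.inv_mem hwU') r⁻¹
        simpa [mul_assoc] using this
    obtain ⟨a, b, r₀, hr₀, ht⟩ := hgen t
    have hrt : r⁻¹ * (t * r * t⁻¹) ∈ U := by
      have h1 : r⁻¹ * (r₀ * r * r₀⁻¹) ∈ U := by
        have h := hUn.conj_mem _ (hZU (hcommZ r₀ hr₀ r hr)) r⁻¹
        simpa [mul_assoc] using h
      rw [ht, show r⁻¹ * (a * a * (b * b) * r₀ * r * (a * a * (b * b) * r₀)⁻¹) =
        (r⁻¹ * (a * a * r * (a * a)⁻¹)) * ((a * a) * (r⁻¹ * (b * b * r * (b * b)⁻¹)) * (a * a)⁻¹) *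
          ((a * a * (b * b)) * (r⁻¹ * (r₀ * r * r₀⁻¹)) * (a * a * (b * b))⁻¹) by group]
      exact U.mul_mem (U.mul_mem (hsq' a) (hUn.conj_mem _ (hsq' b) _)) (hUn.conj_mem _ h1 _)
    rw [htinv] at hrt
    set v := r⁻¹ * (t * r * t)
    have hv : t * r * t = r * v := by simp [v]
    have hvt : t * v * t = v := by
      obtain ⟨-, hc⟩ := (hmemU v).1 hrt
      rw [hc.eq, mul_assoc, htt, mul_one]
    have hvv : v * v = 1 := by
      have h := htconj r
      rw [hv] at h
      have h' : (t * r * t) * (t * v * t) = r := by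
        refine Eq.trans ?_ h
        simp [mul_assoc, ← mul_assoc t t, htt]
      rw [hv, hvt, mul_assoc, mul_eq_left] at h'
      exact h'
    have hv1 : v = 1 := by
      have := hRexp v (hUR hrt)
      rwa [pow_succ, pow_two, hvv, one_mul] at this
    rw [hv1, mul_one] at hv
    refine hrU ((hmemU r).2 ⟨hr, ?_⟩)
    show t * r = r * t
    calc t * r = t * r * t * t := by rw [mul_assoc _ t t, htt, mul_one]
      _ = r * t := by rw [hv]
  -- inverted elements
  have hinvert : ∀ r ∈ R, ∃ w ∈ Z, t * (r * w) * t = (r * w)⁻¹ := by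
    intro r hr
    set c := r * (t * r * t) with hc
    have hcR : c ∈ R := R.mul_mem hr (hconjt r hr)
    have hcZ : c ∈ Z := by
      -- `t c t = c^[t r t, r]`, so the square class of `c` is fixed
      have h1 : t * c * t = (t * r * t) * r := by
        rw [hc]; simp [mul_assoc, ← mul_assoc t t, htt]
      have hκ := hcommZ (t * r * t) (hconjt r hr) r hr
      set κ := t * r * t * r * (t * r * t)⁻¹ * r⁻¹ with hκdef
      have h2 : t * c * t = κ * c := by rw [h1, hκdef, hc]; group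
      have h4 : t * κ * t = κ⁻¹ := by
        have h5 := htconj c
        rw [h2] at h5
        have h6 : (t * κ * t) * (t * c * t) = c := by
          refine Eq.trans ?_ h5
          simp [mul_assoc, ← mul_assoc t t, htt]
        rw [h2, ← mul_assoc, mul_eq_right] at h6
        exact eq_inv_of_mul_eq_one_left h6
      have hκ1 : κ = 1 := by
        rw [← (hZc κ hκ t).eq, mul_assoc, htt, mul_one, eq_inv_iff_mul_eq_one] at h4
        have h3 := hRexp κ (hZR hκ)
        rwa [pow_succ, pow_two, h4, one_mul] at h3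
      rw [hκ1, one_mul] at h2
      refine hfix c hcR ?_
      show t * c = c * t
      calc t * c = t * c * t * t := by rw [mul_assoc _ t t, htt, mul_one]
        _ = c * t := by rw [h2]
    refine ⟨c, hcZ, ?_⟩
    rw [eq_inv_iff_mul_eq_one]
    have e1 : t * (r * c) * t = (t * r * t) * c := by
      rw [← mul_assoc t r c, mul_assoc _ c t, (hZc c hcZ t).eq, ← mul_assoc]
    rw [e1, show (t * r * t) * c * (r * c) = (t * r * t) * (c * r) * c by group, (hZc c hcZ r).eq,
      show t * r * t * (r * c) * c = (r⁻¹ * c * r) * (c * c) by rw [hc]; group]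
    rw [mul_assoc r⁻¹ c r, (hZc c hcZ r).eq, inv_mul_cancel_left, ← mul_assoc, ← pow_two, ← pow_succ]
    exact hRexp c hcR
  have huniq : ∀ r ∈ R, ∀ w ∈ Z, t * r * t = r⁻¹ → t * (r * w) * t = (r * w)⁻¹ → w = 1 := by
    intro r hr w hw h1 h2
    have e : t * (r * w) * t = r⁻¹ * w := by
      rw [← mul_assoc t r w, mul_assoc _ w t, (hZc w hw t).eq, ← mul_assoc, h1]
    rw [e, _root_.mul_inv_rev, (hZc w⁻¹ (Z.inv_mem hw) r⁻¹).eq, mul_right_inj,
      eq_inv_iff_mul_eq_one] at h2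
    have h3 := hRexp w (hZR hw)
    rwa [pow_succ, pow_two, h2, one_mul] at h3
  -- the elementary abelian subgroup
  obtain ⟨E, hEc, hEexp, hEcard⟩ := hE
  have hEcomm : ∀ x ∈ E, ∀ y ∈ E, Commute x y := fun x hx y hy =>
    congrArg Subtype.val (hEc.is_comm.comm ⟨x, hx⟩ ⟨y, hy⟩)
  have hnotab : ¬ ∀ r ∈ R, ∀ s ∈ R, Commute r s := fun hab => by
    have : Z = R := le_antisymm hZR fun r hr => (hmemZ r).2 ⟨hr, hab r hr⟩
    rw [this, hRcard] at hcardZ; omega
  obtain ⟨e₀, he₀E, he₀R⟩ : ∃ e₀ ∈ E, e₀ ∉ R := by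
    by_contra h
    push_neg at h
    have hER : E = R := Subgroup.eq_of_le_of_card_ge h (by rw [hRcard, hEcard])
    exact hnotab fun r hr s hs => hEcomm r (hER ▸ hr) s (hER ▸ hs)
  obtain ⟨a₀, ha₀, ha₀E, ha₀Z⟩ : ∃ a₀ ∈ R, a₀ ∈ E ∧ a₀ ∉ Z := by
    by_contra h
    push_neg at h
    have hsmall : Nat.card ↥(E ⊓ R) ≤ 3 := hcardZ ▸ Nat.le_of_dvd Nat.card_pos
      (Subgroup.card_dvd_of_le (fun x hx => h x hx.2 hx.1))
    have h1 := ((E ⊓ R).subgroupOf E).card_mul_index
    rw [Nat.card_congr (Subgroup.subgroupOfEquivOfLe inf_le_left).toEquiv, hEcard,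
      ← Subgroup.relIndex, Subgroup.inf_relIndex_left] at h1
    have h2 : R.relIndex E ∣ R.index := Subgroup.relIndex_dvd_index_of_normal R E
    rw [Subgroup.index_eq_card, Nat.card_congr e.toEquiv, card_S2] at h2
    have h3 := Nat.le_of_dvd (by norm_num) h2
    have h4 : 9 ≤ R.relIndex E := by nlinarith
    have h5 : R.relIndex E ∣ 27 := h1 ▸ dvd_mul_left _ _
    generalize R.relIndex E = d at h2 h3 h4 h5
    interval_cases d <;> omega
  obtain ⟨w₀, hw₀, hinv₀⟩ := hinvert a₀ ha₀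
  set a := a₀ * w₀ with hadef
  have haR : a ∈ R := R.mul_mem ha₀ (hZR hw₀)
  have haZ : a ∉ Z := fun h => ha₀Z (by simpa [hadef] using Z.mul_mem h (Z.inv_mem hw₀))
  have hta : t * a * t = a⁻¹ := hinv₀
  have hea : Commute e₀ a := (hEcomm e₀ he₀E a₀ ha₀E).mul_right (hZc w₀ hw₀ e₀).symm
  obtain ⟨q, hq, hh⟩ := hlift e₀
  set h := q⁻¹ * e₀ with hhdef
  have hha : Commute h a := by
    have hw : a⁻¹ * (h * a * h⁻¹) ∈ Z := by
      have he : a⁻¹ * (h * a * h⁻¹) = a⁻¹ * (q⁻¹ * a * q⁻¹⁻¹) := by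
        rw [hhdef, show q⁻¹ * e₀ * a * (q⁻¹ * e₀)⁻¹ = q⁻¹ * (e₀ * a * e₀⁻¹) * q⁻¹⁻¹ by group,
          hea.eq, mul_inv_cancel_right]
      rw [he]
      have := hcommZ a⁻¹ (R.inv_mem haR) q⁻¹ (R.inv_mem hq)
      simpa [mul_assoc] using this
    have := huniq a haR _ hw hta (by
      rw [mul_inv_cancel_left,
        show (h * a * h⁻¹)⁻¹ = h * a⁻¹ * h⁻¹ by group, ← hta]
      calc t * (h * a * h⁻¹) * t = (t * h) * a * (h⁻¹ * t) := by group
        _ = (h * t) * a * (t * h⁻¹) := by rw [hh.eq, hh.inv_right.symm.eq]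
        _ = h * (t * a * t) * h⁻¹ := by group)
    rw [inv_mul_eq_one] at this
    exact mul_inv_eq_iff_eq_mul.1 this.symm
  have hqa : Commute q a := by
    have : q = e₀ * h⁻¹ := by rw [hhdef]; group
    rw [this]; exact hea.mul_left hha.inv_left
  have hh3 : h ^ 3 = 1 := by
    -- the centralizer of `a` in `R` is abelian and contains `q`
    have hqe : Commute q e₀ := by
      set A := R ⊓ Subgroup.centralizer ({a} : Set X) with hA
      have hAE : A ≤ E ⊔ Z := by
        have hle : (E ⊓ R) ⊔ Z ≤ A := by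
          refine sup_le (fun x hx => ⟨hx.2, Subgroup.mem_centralizer_singleton_iff.2 ?_⟩)
            (fun x hx => ⟨hZR hx, Subgroup.mem_centralizer_singleton_iff.2 (hZc x hx a).eq⟩)
          exact ((hEcomm x hx.1 a₀ ha₀E).mul_right (hZc w₀ hw₀ x).symm).eq
        have hAne : A ≠ R := fun h => haZ ((hmemZ a).2 ⟨haR, fun r hr =>
          (Subgroup.mem_centralizer_singleton_iff.1 (h ▸ hr : r ∈ A).2).symm⟩)
        have hA9 : Nat.card A ≤ 9 := by
          have h1 : Nat.card A ∣ 27 := hRcard ▸ Subgroup.card_dvd_of_le inf_le_left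
          have h2 : Nat.card A ≠ 27 := fun h =>
            hAne (Subgroup.eq_of_le_of_card_ge inf_le_left (by rw [hRcard, h]))
          have h4 := Nat.le_of_dvd (by norm_num) h1
          generalize Nat.card A = d at h1 h2 h4
          interval_cases d <;> omega
        have hbig : Z < (E ⊓ R) ⊔ Z := lt_of_le_of_ne le_sup_right fun h =>
          ha₀Z (h ▸ Subgroup.mem_sup_left ⟨ha₀E, ha₀⟩)
        have h9 : 9 ≤ Nat.card ↥((E ⊓ R) ⊔ Z) := by
          have h1 : Nat.card ↥((E ⊓ R) ⊔ Z) ∣ 27 :=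
            hRcard ▸ Subgroup.card_dvd_of_le (sup_le inf_le_right hZR)
          have h3 : 3 < Nat.card ↥((E ⊓ R) ⊔ Z) := by
            by_contra h
            exact hbig.ne (Subgroup.eq_of_le_of_card_ge le_sup_right (by omega))
          have h4 := Nat.le_of_dvd (by norm_num) h1
          generalize Nat.card ↥((E ⊓ R) ⊔ Z) = d at h1 h3 h4
          interval_cases d <;> omega
        have := Subgroup.eq_of_le_of_card_ge hle (le_trans hA9 h9)
        rw [← this]
        exact sup_le_sup_right inf_le_left Z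
      have hqE : q ∈ E ⊔ Z := hAE ⟨hq, Subgroup.mem_centralizer_singleton_iff.2 hqa.eq⟩
      have hle : E ⊔ Z ≤ Subgroup.centralizer ({e₀} : Set X) :=
        sup_le (fun x hx => Subgroup.mem_centralizer_singleton_iff.2 (hEcomm x hx e₀ he₀E).eq)
          (fun x hx => Subgroup.mem_centralizer_singleton_iff.2 (hZc x hx e₀).eq)
      exact Subgroup.mem_centralizer_singleton_iff.1 (hle hqE)
    rw [hhdef, hqe.inv_left.mul_pow, inv_pow, hRexp q hq, hEexp e₀ he₀E, inv_one, one_mul]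
  have hπh : π h ≠ 1 := fun he => he₀R (by
    have := R.mul_mem hq ((hker h).1 he)
    simpa [hhdef] using this)
  -- the quaternion group
  let Q : Set X := {u | Commute t u ∧ u ^ 4 = 1}
  have hQmul : ∀ u ∈ Q, ∀ v ∈ Q, u * v ∈ Q := by
    rintro u ⟨hu, hu4⟩ v ⟨hv, hv4⟩
    refine ⟨hu.mul_right hv, ?_⟩
    have key : ∀ w : X, Commute t w → w ^ 4 = 1 → Commute u w →
        π (v * u * v⁻¹) = π w → v * u * v⁻¹ = w := by
      intro w hw hw4 huw he
      have hr : w⁻¹ * (v * u * v⁻¹) ∈ R := (hker _).1 (by rw [map_mul, map_inv, he, inv_mul_cancel])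
      have hrZ := hfix _ hr (hw.inv_right.mul_right ((hv.mul_right hu).mul_right hv.inv_right))
      set ζ := w⁻¹ * (v * u * v⁻¹)
      have he' : v * u * v⁻¹ = w * ζ := by simp [ζ]
      have h4 : (v * u * v⁻¹) ^ 4 = 1 := by rw [conj_pow, hu4, mul_one, mul_inv_cancel]
      rw [he', (hZc ζ hrZ w).symm.mul_pow, hw4, one_mul, pow_succ, hRexp ζ hr, one_mul] at h4
      rw [he', h4, mul_one]
    have h := sl_conj (π u) (π v) (by rw [← map_pow, hu4, map_one]) (by rw [← map_pow, hv4, map_one])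
    rw [← map_mul, ← map_inv, ← map_mul] at h
    rcases h with h | h
    · have hc := key u hu hu4 (Commute.refl u) h
      have hvu : Commute u v := (mul_inv_eq_iff_eq_mul.1 hc).symm
      rw [hvu.mul_pow, hu4, hv4, one_mul]
    · rw [← map_inv] at h
      have hc := key u⁻¹ hu.inv_right (by rw [inv_pow, hu4, inv_one]) (Commute.refl u).inv_right h
      have huv2 : (u * v) ^ 2 = v ^ 2 := by
        rw [pow_two, pow_two, show u * v * (u * v) = u * (v * u * v⁻¹) * (v * v) by group, hc,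
          mul_inv_cancel, one_mul]
      rw [show 4 = 2 * 2 from rfl, pow_mul, huv2, ← pow_mul, hv4]
  let Qs : Subgroup X :=
    { carrier := Q
      one_mem' := ⟨Commute.one_right t, one_pow 4⟩
      mul_mem' := fun hu hv => hQmul _ hu _ hv
      inv_mem' := fun hu => ⟨hu.1.inv_right, by rw [inv_pow, hu.2, inv_one]⟩ }
  have hnorm : Subgroup.zpowers h ≤ Subgroup.normalizer (Qs : Set X) := by
    rw [Subgroup.zpowers_le, Subgroup.mem_normalizer_iff]
    intro u
    constructor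
    · rintro ⟨hu, hu4⟩
      exact ⟨(hh.mul_right hu).mul_right hh.inv_right, by rw [conj_pow, hu4, mul_one, mul_inv_cancel]⟩
    · rintro ⟨hu, hu4⟩
      refine ⟨?_, ?_⟩
      · have := (hh.inv_right.mul_right hu).mul_right hh
        simpa [mul_assoc] using this
      · rw [conj_pow, mul_inv_eq_one] at hu4
        exact mul_eq_left.1 hu4
  set K := Qs ⊔ Subgroup.zpowers h with hK
  have hKmem : ∀ k ∈ K, ∃ u : X, Commute t u ∧ u ^ 4 = 1 ∧ ∃ n : ℤ, k = u * h ^ n := by
    intro k hk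
    rw [← SetLike.mem_coe, hK, Subgroup.coe_mul_of_right_le_normalizer_left _ _ hnorm] at hk
    obtain ⟨u, hu, w, hw, rfl⟩ := hk
    obtain ⟨n, rfl⟩ := Subgroup.mem_zpowers_iff.1 hw
    exact ⟨u, hu.1, hu.2, n, rfl⟩
  have hKt : ∀ k ∈ K, Commute t k := by
    intro k hk
    obtain ⟨u, hu, -, n, rfl⟩ := hKmem k hk
    exact hu.mul_right (hh.zpow_right n)
  have hKR : ∀ k ∈ K, k ∈ R → k = 1 := by
    intro k hk hkR
    obtain ⟨u, hu, hu4, n, rfl⟩ := hKmem k hk
    have h1 : π u * π h ^ n = 1 := by rw [← map_zpow, ← map_mul]; exact (hker _).2 hkR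
    have h3 : π u ^ 3 = 1 := by
      rw [eq_inv_of_mul_eq_one_left h1, inv_pow, ← zpow_natCast, ← zpow_mul, mul_comm, zpow_mul,
        zpow_natCast, ← map_pow, hh3, map_one, one_zpow, inv_one]
    have h4 : π u = 1 := by
      have h4' : π u ^ 4 = 1 := by rw [← map_pow, hu4, map_one]
      rwa [pow_succ, h3, one_mul] at h4'
    have huR := (hker u).1 h4
    have hu1 : u = 1 := by rwa [pow_succ, hRexp u huR, one_mul] at hu4
    rw [hu1, one_mul] at hkR ⊢
    rw [h4, one_mul, ← map_zpow] at h1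
    have h3' : h ^ (3 : ℤ) = 1 := by exact_mod_cast hh3
    have hn : h ^ n = h ^ (n % 3) := by
      conv_lhs => rw [← Int.emod_add_mul_ediv n 3, zpow_add, zpow_mul, h3', one_zpow, mul_one]
    rw [hn] at h1 ⊢
    rcases (by omega : n % 3 = 0 ∨ n % 3 = 1 ∨ n % 3 = 2) with he | he | he <;> rw [he] at h1 ⊢
    · exact zpow_zero h
    · rw [zpow_one] at h1; exact absurd h1 hπh
    · exfalso
      apply hπh
      have : π (h ^ (3 : ℤ)) = 1 := by rw [h3', map_one]
      rwa [show (3 : ℤ) = 2 + 1 from rfl, zpow_add_one, map_mul, h1, one_mul] at this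
  have hcover : ∀ x : X, ∃ k ∈ K, π k = π x := by
    intro x
    obtain ⟨i, hi⟩ : ∃ i : ℕ, (π x * π h ^ i) ^ 4 = 1 := by
      rcases sl_decomp (π h) (π x) (by rw [← map_pow, hh3, map_one]) hπh with hi | hi | hi
      exacts [⟨0, hi⟩, ⟨1, hi⟩, ⟨2, hi⟩]
    obtain ⟨q', hq', hc⟩ := hlift (x * h ^ i)
    set u := q'⁻¹ * (x * h ^ i)
    have hu : π u = π x * π h ^ i := by simp [u, (hker q').2 hq']
    refine ⟨u ^ 9 * (h ^ i)⁻¹, K.mul_mem (Subgroup.mem_sup_left ⟨hc.pow_right 9, ?_⟩)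
      (Subgroup.mem_sup_right (Subgroup.inv_mem _ (Subgroup.pow_mem _ (Subgroup.mem_zpowers h) i))), ?_⟩
    · have hr : u ^ 4 ∈ R := (hker _).1 (by rw [map_pow, hu, hi])
      rw [← pow_mul, show 9 * 4 = 4 * (3 * 3) from rfl, pow_mul, pow_mul, hRexp _ hr, one_pow]
    · rw [map_mul, map_pow, map_inv, map_pow, hu, show 9 = 4 * 2 + 1 from rfl, pow_succ, pow_mul, hi,
        one_pow, one_mul, mul_inv_cancel_right]
  have hKcard : Nat.card K = 24 := by
    rw [← card_S2]
    refine Nat.card_congr (Equiv.ofBijective (fun k : K => π k) ⟨?_, ?_⟩)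
    · intro k l hkl
      have : (k : X) * (l : X)⁻¹ = 1 := hKR _ (K.mul_mem k.2 (K.inv_mem l.2))
        ((hker _).1 (by rw [map_mul, map_inv]; exact mul_inv_eq_one.2 hkl))
      exact Subtype.ext (mul_inv_eq_one.1 this)
    · intro g
      obtain ⟨x, rfl⟩ := hπsurj g
      obtain ⟨k, hk, he⟩ := hcover x
      exact ⟨⟨k, hk⟩, he⟩
  -- the second generator
  obtain ⟨r₁, hr₁, hr₁a⟩ : ∃ r ∈ R, ¬ Commute r a := by
    by_contra h
    push_neg at h
    exact haZ ((hmemZ a).2 ⟨haR, fun r hr => (h r hr).symm⟩)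
  obtain ⟨w₁, hw₁, htb⟩ := hinvert r₁ hr₁
  set b := r₁ * w₁ with hbdef
  have hbR : b ∈ R := R.mul_mem hr₁ (hZR hw₁)
  have hba1 : ¬ Commute b a := fun h => hr₁a (by
    have := h.mul_left (hZc w₁⁻¹ (Z.inv_mem hw₁) a)
    simpa [hbdef] using this)
  set c := b⁻¹ * a⁻¹ * b * a with hc
  have hcZ : c ∈ Z := by
    have := hcommZ b⁻¹ (R.inv_mem hbR) a⁻¹ (R.inv_mem haR)
    simpa [hc] using this
  have hbac : b * a = a * b * c := by rw [hc]; group
  have hc1 : c ≠ 1 := fun h => hba1 (by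
    show b * a = a * b
    rw [hbac, h, mul_one])
  have hCR' : ∀ w : X, (∀ r ∈ R, Commute w r) → w ∈ R := fun w hw => hCR fun r hr => (hw r hr).symm.eq
  have hcC : ∀ x : X, Commute c x := hZc c hcZ
  have hind : ∀ i j m : ℕ, a ^ i * b ^ j = c ^ m → 3 ∣ i ∧ 3 ∣ j := by
    intro i j m hij
    have h1 : Commute (b ^ j) a := by
      have : b ^ j = (a ^ i)⁻¹ * c ^ m := by rw [← hij, inv_mul_cancel_left]
      rw [this]
      exact ((Commute.refl a).pow_left i).inv_left.mul_left ((hcC a).pow_left m)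
    have hj : 3 ∣ j := by
      by_contra hj
      apply hba1
      obtain ⟨n, hn⟩ := exists_pow_eq_self_of_coprime (x := b) (n := j)
        (by rw [orderOf_eq_prime (hRexp b hbR) (fun e => hba1 (e ▸ Commute.one_left a))]
            exact ((Nat.prime_three.coprime_iff_not_dvd).2 hj).symm)
      rw [← hn]
      exact h1.pow_left n
    refine ⟨?_, hj⟩
    obtain ⟨j', rfl⟩ := hj
    rw [pow_mul, hRexp b hbR, one_pow, mul_one] at hij
    by_contra hi
    apply hba1
    obtain ⟨n, hn⟩ := exists_pow_eq_self_of_coprime (x := a) (n := i)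
      (by rw [orderOf_eq_prime (hRexp a haR) (fun e => hba1 (e ▸ Commute.one_right b))]
          exact ((Nat.prime_three.coprime_iff_not_dvd).2 hi).symm)
    rw [← hn, hij, ← pow_mul]
    exact ((hcC b).symm.pow_right _)
  refine ⟨a, b, c, t, K, haR, hbR, hZR hcZ, hc1, hcC, hbac, hind, by rw [htinv]; exact hta,
    by rw [htinv]; exact htb, hKt, hKcard, hKR, ?_, ?_⟩
  · intro k hk hka hkb
    refine hKR k hk (hCR' k ?_)
    -- `a`, `b` generate `R`
    have hgenR : R ≤ Subgroup.closure ({a, b} : Set X) := by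
      set G' := Subgroup.closure ({a, b} : Set X) with hG'
      have hle : G' ≤ R := (Subgroup.closure_le R).2 (by rintro x (rfl | rfl) <;> assumption)
      refine (Subgroup.eq_of_le_of_card_ge hle ?_).ge
      have haG : a ∈ G' := Subgroup.subset_closure (Or.inl rfl)
      have hbG : b ∈ G' := Subgroup.subset_closure (Or.inr rfl)
      have hcG : c ∈ G' := by
        rw [hc]
        exact G'.mul_mem (G'.mul_mem (G'.mul_mem (G'.inv_mem hbG) (G'.inv_mem haG)) hbG) haG
      rw [hRcard, show 27 = Nat.card (Fin 3 × Fin 3 × Fin 3) by simp]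
      refine Nat.card_le_card_of_injective (fun p : Fin 3 × Fin 3 × Fin 3 =>
        (⟨a ^ (p.1 : ℕ) * b ^ (p.2.1 : ℕ) * c ^ (p.2.2 : ℕ), G'.mul_mem (G'.mul_mem
          (G'.pow_mem haG _) (G'.pow_mem hbG _)) (G'.pow_mem hcG _)⟩ : G')) ?_
      rintro ⟨i, j, m⟩ ⟨i', j', m'⟩ hh'
      have he : a ^ (i : ℕ) * b ^ (j : ℕ) * c ^ (m : ℕ) = a ^ (i' : ℕ) * b ^ (j' : ℕ) * c ^ (m' : ℕ) :=
        congrArg Subtype.val hh'
      have hc3 : c ^ 3 = 1 := hRexp c (hZR hcZ)
      have hgen : ∀ (i j m i' j' m' : Fin 3),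
          a ^ (i : ℕ) * b ^ (j : ℕ) * c ^ (m : ℕ) = a ^ (i' : ℕ) * b ^ (j' : ℕ) * c ^ (m' : ℕ) →
          j = j' → i = i' ∧ m = m' := by
        intro i j m i' j' m' he hj
        subst hj
        have hce : ∀ n : ℕ, c ^ n * b ^ (j : ℕ) = b ^ (j : ℕ) * c ^ n :=
          fun n => ((hcC b).pow_pow n j).eq
        rw [mul_assoc, ← hce, ← mul_assoc, mul_assoc (a ^ (i' : ℕ)), ← hce, ← mul_assoc,
          mul_left_inj] at he
        have h1 : a ^ ((i : ℕ) + (3 - (i' : ℕ))) * b ^ 0 = c ^ ((m' : ℕ) + (3 - (m : ℕ))) := by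
          have a3 : a ^ 3 = 1 := hRexp a haR
          rw [pow_zero, mul_one, pow_add, pow_add]
          have e2 : a ^ (i : ℕ) = a ^ (i' : ℕ) * c ^ (m' : ℕ) * (c ^ (m : ℕ))⁻¹ :=
            eq_mul_inv_of_mul_eq he
          have e3 : a ^ (3 - (i' : ℕ)) = (a ^ (i' : ℕ))⁻¹ :=
            eq_inv_of_mul_eq_one_left (by rw [← pow_add, Nat.sub_add_cancel i'.2.le, a3])
          have e4 : c ^ (3 - (m : ℕ)) = (c ^ (m : ℕ))⁻¹ :=
            eq_inv_of_mul_eq_one_left (by rw [← pow_add, Nat.sub_add_cancel m.2.le, hc3])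
          rw [e2, e3, e4, mul_assoc _ (c ^ (m' : ℕ)), mul_assoc,
            (((hcC a).pow_pow (m' : ℕ) (i' : ℕ)).inv_right.mul_left
              (((hcC a).pow_pow (m : ℕ) (i' : ℕ)).inv_right.inv_left)).eq, mul_inv_cancel_left]
        obtain ⟨hi, -⟩ := hind _ _ _ h1
        have hii : i = i' := by apply Fin.ext; have := i.2; have := i'.2; omega
        subst hii
        rw [mul_right_inj] at he
        have hm : (m : ℕ) = m' := pow_injOn_Iio_orderOf
          (by rw [orderOf_eq_prime hc3 hc1]; exact m.2)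
          (by rw [orderOf_eq_prime hc3 hc1]; exact m'.2) he
        exact ⟨rfl, Fin.ext hm⟩
      have hj : j = j' := by
        by_contra hne
        -- commuting with `a` isolates the exponent of `b`
        have hpow : Commute (b ^ ((j : ℕ) + (3 - (j' : ℕ)))) a := by
          have e1 : b ^ (j : ℕ) = (a ^ (i : ℕ))⁻¹ * a ^ (i' : ℕ) * b ^ (j' : ℕ) *
              (c ^ (m' : ℕ) * (c ^ (m : ℕ))⁻¹) := by
            rw [← mul_assoc, eq_mul_inv_iff_mul_eq,
              show (a ^ (i : ℕ))⁻¹ * a ^ (i' : ℕ) * b ^ (j' : ℕ) * c ^ (m' : ℕ) =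
                (a ^ (i : ℕ))⁻¹ * (a ^ (i' : ℕ) * b ^ (j' : ℕ) * c ^ (m' : ℕ)) by group, ← he]
            group
          have b3 : b ^ (3 - (j' : ℕ)) = (b ^ (j' : ℕ))⁻¹ :=
            eq_inv_of_mul_eq_one_left (by rw [← pow_add, Nat.sub_add_cancel j'.2.le, hRexp b hbR])
          set W := c ^ (m' : ℕ) * (c ^ (m : ℕ))⁻¹
          have hW : ∀ x, Commute W x := fun x =>
            ((hcC x).pow_left _).mul_left ((hcC x).pow_left _).inv_left
          rw [pow_add, b3, e1, mul_assoc _ W, (hW _).eq, ← mul_assoc, mul_inv_cancel_right]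
          exact (((Commute.refl a).pow_left _).inv_left.mul_left ((Commute.refl a).pow_left _)).mul_left (hW a)
        obtain ⟨n, hn⟩ := exists_pow_eq_self_of_coprime (x := b) (n := (j : ℕ) + (3 - (j' : ℕ)))
          (by
            rw [orderOf_eq_prime (hRexp b hbR) (fun e => hba1 (e ▸ Commute.one_left a))]
            refine ((Nat.prime_three.coprime_iff_not_dvd).2 ?_).symm
            have := j.2; have := j'.2
            have : (j : ℕ) ≠ j' := fun h => hne (Fin.ext h)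
            omega)
        exact hba1 (hn ▸ hpow.pow_left n)
      obtain ⟨hi, hm⟩ := hgen i j m i' j' m' he hj
      rw [hi, hj, hm]
    intro r hr
    have hle : Subgroup.closure ({a, b} : Set X) ≤ Subgroup.centralizer ({k} : Set X) :=
      (Subgroup.closure_le _).2 (by
        rintro x (rfl | rfl)
        · exact Subgroup.mem_centralizer_singleton_iff.2 hka.symm.eq
        · exact Subgroup.mem_centralizer_singleton_iff.2 hkb.symm.eq)
    exact (Subgroup.mem_centralizer_singleton_iff.1 (hle (hgenR hr))).symm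
  · intro x
    obtain ⟨k, hk, he⟩ := hcover x
    exact ⟨k, hk, (hker _).1 (by rw [map_mul, map_inv, he, mul_inv_cancel])⟩

end CfsgLib.Spectrum.ThreeCentral
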