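/-
Recognition of the centralizer of a 3-central element of `PSp₄(3)`.
-/
import Cfsg.Agent.Lib.Spectrum.ThreeCentralCoords
import Cfsg.Agent.Lib.Spectrum.ThreeCentralStructure

set_option autoImplicit false

namespace CfsgLib.Spectrum.ThreeCentral

variable {X : Type*} [Group X] [Finite X]

/-- An embedding onto the centralizer of the transvection. -/
theorem exists_embedding (hR : Cfsg.IsExtraspecial 3 (Cfsg.pCore 3 X))
    (hRcard : Nat.card (Cfsg.pCore 3 X) = 27) (hRexp : ∀ r ∈ Cfsg.pCore 3 X, r ^ 3 = 1)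
    (e : X ⧸ Cfsg.pCore 3 X ≃* S2) (hO2 : Cfsg.pCore 2 X = ⊥)
    (hE : ∃ E : Subgroup X, IsMulCommutative E ∧ (∀ a ∈ E, a ^ 3 = 1) ∧ Nat.card E = 27) :
    ∃ (Ψ : X →* Cfsg.PSp 2 (ZMod 3)) (z : X), Function.Injective Ψ ∧ orderOf z = 3 ∧
      z ∈ Cfsg.pCore 3 X ∧ (∀ x, Commute z x) ∧ Ψ z = QuotientGroup.mk zElt ∧
      (∀ y : Cfsg.PSp 2 (ZMod 3), Commute y (QuotientGroup.mk zElt) → ∃ x, Ψ x = y) ∧
      ∀ x : X, (∀ r ∈ Cfsg.pCore 3 X, Commute x r) → x ∈ Subgroup.zpowers z := by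
  classical
  have : Fact (Nat.Prime 3) := ⟨Nat.prime_three⟩
  obtain ⟨a, b, z, t, K, haR, hbR, hzR, hz1, hzc, hba, hind, hta, htb, hKt, hKcard, hKR, hKfaith,
    hKcover⟩ := exists_structure hR hRcard hRexp e hO2 hE
  have ha := hRexp a haR
  have hb := hRexp b hbR
  have hz := hRexp z hzR
  set R := Cfsg.pCore 3 X with hRdef
  set g := coord a b z with hg
  have hgm : ∀ p q, g p * g q = g (hmul p q) := coord_mul ha hb hz (hzc a) (hzc b) hba
  have hinj : Function.Injective g := by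
    refine coord_injective ha hb hz (hzc a) (hzc b) hba hz1 fun i j m h => ?_
    obtain ⟨h1, h2⟩ := hind i.val j.val m.val h
    have := ZMod.val_lt i
    have := ZMod.val_lt j
    exact ⟨(ZMod.val_eq_zero i).1 (by omega), (ZMod.val_eq_zero j).1 (by omega)⟩
  have hgR : ∀ p, g p ∈ R := fun p =>
    R.mul_mem (R.mul_mem (R.pow_mem haR _) (R.pow_mem hbR _)) (R.pow_mem hzR _)
  have hgsurj : ∀ r ∈ R, ∃ p, g p = r := by
    intro r hr
    have hbij : Function.Bijective (fun p : P3 => (⟨g p, hgR p⟩ : R)) := by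
      rw [Nat.bijective_iff_injective_and_card]
      exact ⟨fun p q h => hinj (congrArg Subtype.val h), by rw [hRcard]; simp [P3]⟩
    obtain ⟨p, hp⟩ := hbij.2 ⟨r, hr⟩
    exact ⟨p, congrArg Subtype.val hp⟩
  have hg0 : g 0 = 1 := coord_zero
  have hinv : ∀ p : P3, (g p)⁻¹ = g (-p.1, -p.2.1, -p.2.2) := fun p =>
    inv_eq_of_mul_eq_one_left (by rw [hgm, hmul_inv, hg0])
  have htg : ∀ p : P3, t * g p * t⁻¹ = g (-p.1, -p.2.1, p.2.2) := by
    intro p
    have h := conj_coord ha hb hz (hzc a) (hzc b) hba (k := t) (k00 := -1) (k10 := 0) (k01 := 0)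
      (k11 := -1)
      (by
        rw [hta, show a⁻¹ = (g (1, 0, 0))⁻¹ by rw [hg, coord_100], hinv]
        simp [hg])
      (by
        rw [htb, show b⁻¹ = (g (0, 1, 0))⁻¹ by rw [hg, coord_010], hinv]
        simp [hg])
      (by rw [← (hzc t).eq, mul_inv_cancel_right]) (by ring) p
    rw [hg, h]
    congr 1
    simp [act]
  have hinverted : ∀ r ∈ R, t * r * t⁻¹ = r⁻¹ → ∃ i j, r = g (i, j, 0) := by
    intro r hr h
    obtain ⟨p, rfl⟩ := hgsurj r hr
    rw [htg, hinv] at h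
    have h' := congrArg (fun q : P3 => q.2.2) (hinj h)
    simp only at h'
    refine ⟨p.1, p.2.1, congrArg g (Prod.ext rfl (Prod.ext rfl ?_))⟩
    have h3 : (3 : ZMod 3) = 0 := rfl
    show p.2.2 = 0
    linear_combination p.2.2 * h3 - h'
  -- the action of the complement
  have hmat : ∀ k : K, ∃ M : S2, ∀ p, (k : X) * g p * (k : X)⁻¹ = g (act (M : K2) p) := by
    intro k
    have himg : ∀ r ∈ R, t * r * t⁻¹ = r⁻¹ → ∃ i j, (k : X) * r * (k : X)⁻¹ = g (i, j, 0) := by
      intro r hr h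
      refine hinverted _ ((inferInstance : R.Normal).conj_mem r hr k) ?_
      calc t * ((k : X) * r * (k : X)⁻¹) * t⁻¹
          = (t * k) * r * (t * k)⁻¹ := by group
        _ = (k : X) * (t * r * t⁻¹) * (k : X)⁻¹ := by rw [(hKt k k.2).eq]; group
        _ = _ := by rw [h]; group
    obtain ⟨i, j, h1⟩ := himg a haR hta
    obtain ⟨i', j', h2⟩ := himg b hbR htb
    have hkz : (k : X) * z * (k : X)⁻¹ = z := by rw [← (hzc k).eq, mul_inv_cancel_right]
    have hdet := det_one ha hb hz (hzc a) (hzc b) hba hinj h1 h2 hkz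
    refine ⟨⟨!![i, i'; j, j'], by rw [Matrix.det_fin_two]; simpa using hdet⟩, fun p => ?_⟩
    exact conj_coord ha hb hz (hzc a) (hzc b) hba h1 h2 hkz hdet p
  choose ρ hρ using hmat
  have hact : ∀ M N : K2, (∀ p, act M p = act N p) → M = N := by
    intro M N h
    have h1 := h (1, 0, 0)
    have h2 := h (0, 1, 0)
    simp [act] at h1 h2
    ext i j
    fin_cases i <;> fin_cases j
    exacts [h1.1, h2.1, h1.2, h2.2]
  have hρmul : ∀ k l : K, ρ (k * l) = ρ k * ρ l := by
    intro k l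
    apply Subtype.ext
    show (ρ (k * l) : K2) = (ρ k : K2) * (ρ l : K2)
    refine hact _ _ fun p => hinj ?_
    rw [← hρ (k * l) p]
    calc ((k * l : K) : X) * g p * ((k * l : K) : X)⁻¹
        = (k : X) * ((l : X) * g p * (l : X)⁻¹) * (k : X)⁻¹ := by
          rw [Subgroup.coe_mul]; group
      _ = g (act (ρ k : K2) (act (ρ l : K2) p)) := by rw [hρ, hρ]
      _ = _ := by
          congr 1
          simp only [act, Matrix.mul_apply, Fin.sum_univ_two]
          refine Prod.ext ?_ (Prod.ext ?_ ?_) <;> ring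
  let ρh : K →* S2 := MonoidHom.mk' ρ hρmul
  have hρinj : Function.Injective ρh := by
    rw [injective_iff_map_eq_one]
    intro k hk
    have hk' : ρ k = 1 := hk
    have hc : ∀ p, Commute (k : X) (g p) := fun p => by
      have h := hρ k p
      rw [hk'] at h
      refine mul_inv_eq_iff_eq_mul.1 (h.trans (congrArg g ?_))
      simp [act]
    refine Subtype.ext (hKfaith k k.2 ?_ ?_)
    · have := hc (1, 0, 0); rwa [hg, coord_100] at this
    · have := hc (0, 1, 0); rwa [hg, coord_010] at this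
  have hρbij : Function.Bijective ρh := by
    rw [Nat.bijective_iff_injective_and_card]
    exact ⟨hρinj, by rw [hKcard, card_S2]⟩
  -- the decomposition
  have hdec : ∀ x : X, ∃ (p : P3) (k : K), x = g p * k := by
    intro x
    obtain ⟨k, hk, hxk⟩ := hKcover x
    obtain ⟨p, hp⟩ := hgsurj _ hxk
    exact ⟨p, ⟨k, hk⟩, by rw [hp, inv_mul_cancel_right]⟩
  have huniq : ∀ (p q : P3) (k l : K), g p * (k : X) = g q * (l : X) → p = q ∧ k = l := by
    intro p q k l h
    have h1 : (k : X) * (l : X)⁻¹ = (g p)⁻¹ * g q := by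
      rw [mul_inv_eq_iff_eq_mul, mul_assoc, ← h, inv_mul_cancel_left]
    have h2 : (k : X) * (l : X)⁻¹ = 1 := hKR _ (K.mul_mem k.2 (K.inv_mem l.2))
      (h1 ▸ R.mul_mem (R.inv_mem (hgR p)) (hgR q))
    obtain rfl : k = l := Subtype.ext (mul_inv_eq_one.1 h2)
    exact ⟨hinj (mul_right_cancel h), rfl⟩
  choose P Kc hPK using hdec
  have hprod : ∀ x y : X, P (x * y) = ThreeCentral.hmul (P x) (act (ρ (Kc x) : K2) (P y)) ∧
      Kc (x * y) = Kc x * Kc y := by
    intro x y
    refine huniq _ _ _ _ ?_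
    rw [← hPK, ← hgm, ← hρ, Subgroup.coe_mul]
    conv_lhs => rw [hPK x, hPK y]
    group
  let Φ : X →* SP := MonoidHom.mk' (fun x => elt (P x) (ρ (Kc x))) fun x y => by
    rw [elt_mul, (hprod x y).1, (hprod x y).2, hρmul]
  let Ψ : X →* Cfsg.PSp 2 (ZMod 3) :=
    (QuotientGroup.mk' (Subgroup.center SP)).comp Φ
  have hΦ : ∀ (p : P3) (k : K), Φ (g p * k) = elt p (ρ k) := by
    intro p k
    obtain ⟨h1, h2⟩ := huniq _ _ _ _ (hPK (g p * k))
    show elt (P (g p * k)) (ρ (Kc (g p * k))) = elt p (ρ k)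
    rw [← h1, ← h2]
  have hΨinj : Function.Injective Ψ := by
    rw [injective_iff_map_eq_one]
    intro x hx
    have hx' : elt (P x) (ρ (Kc x)) ∈ Subgroup.center SP :=
      (QuotientGroup.eq_one_iff (N := Subgroup.center SP) _).1 hx
    obtain ⟨h1, h2⟩ := elt_center hx'
    rw [hPK x, h1, hg0, show Kc x = 1 from hρinj (h2.trans (map_one ρh).symm), Subgroup.coe_one,
      one_mul]
  have hρ1 : ρ 1 = 1 := map_one ρh
  have hzval : Ψ z = QuotientGroup.mk zElt := by
    have h0 : g (0, 0, 1) * ((1 : K) : X) = z := by rw [Subgroup.coe_one, mul_one, hg, coord_001]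
    show (QuotientGroup.mk (Φ z) : Cfsg.PSp 2 (ZMod 3)) = _
    rw [← h0, hΦ]
    refine congrArg _ (Subtype.ext ?_)
    show nMat (0, 0, 1) * dMat ((ρ 1 : S2) : K2) = nMat (0, 0, 1)
    rw [hρ1, Matrix.SpecialLinearGroup.coe_one, dMat_one, mul_one]
  refine ⟨Ψ, z, hΨinj, orderOf_eq_prime hz hz1, hzR, hzc, hzval, ?_, ?_⟩
  · intro y hy
    obtain ⟨u, rfl⟩ := QuotientGroup.mk_surjective y
    obtain ⟨p, M, hpM⟩ := exists_elt_of_commute_mk hy
    obtain ⟨k, rfl⟩ := hρbij.2 M
    refine ⟨g p * k, ?_⟩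
    show (QuotientGroup.mk (Φ (g p * k)) : Cfsg.PSp 2 (ZMod 3)) = _
    rw [hΦ]
    exact hpM
  · intro x hx
    have hconj : ∀ q : P3, g (hmul (P x) (act (ρ (Kc x) : K2) q)) = g (hmul q (P x)) := by
      intro q
      have h := (hx (g q) (hgR q)).eq
      rw [hPK x, mul_assoc] at h
      have h2 : (Kc x : X) * g q = g (act (ρ (Kc x) : K2) q) * (Kc x : X) :=
        mul_inv_eq_iff_eq_mul.1 (hρ (Kc x) q)
      rw [h2, ← mul_assoc, ← mul_assoc, hgm, hgm] at h
      exact mul_right_cancel h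
    have h1 := hinj (hconj (1, 0, 0))
    have h2 := hinj (hconj (0, 1, 0))
    simp [ThreeCentral.hmul, act] at h1 h2
    obtain ⟨a1, a2, a3⟩ := h1
    obtain ⟨b1, b2, b3⟩ := h2
    have hM : (ρ (Kc x) : K2) = 1 := by
      ext i j
      fin_cases i <;> fin_cases j <;> simp
      · linear_combination a1
      · linear_combination b1
      · linear_combination a2
      · linear_combination b2
    have hk1 : Kc x = 1 := hρinj ((Subtype.ext hM : ρ (Kc x) = 1).trans (map_one ρh).symm)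
    rw [hM] at a3 b3
    simp at a3 b3
    have h3 : (3 : ZMod 3) = 0 := rfl
    have hi : (P x).1 = 0 := by linear_combination (P x).1 * h3 - b3
    have hj : (P x).2.1 = 0 := by linear_combination (P x).2.1 * h3 + a3
    rw [hPK x, hk1, Subgroup.coe_one, mul_one]
    simp only [hg, coord, hi, hj, zp_zero, one_mul]
    exact Subgroup.pow_mem _ (Subgroup.mem_zpowers z) _

end CfsgLib.Spectrum.ThreeCentral
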